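import Cfsg.Agent.Char.GalFix
import Cfsg.Agent.Char.PiSection
import Cfsg.Agent.Char.Triple

/-! Twisting an induced character by linear characters; strongly real characters over
characters of defect zero. -/

set_option autoImplicit false
open Cfsg
open scoped ComplexConjugate

namespace CL.Char

variable {G : Type*} [Group G]

theorem avg_card_ker_le [Finite G] (I : Subgroup G) [Fintype (G →* ℂˣ)]
    [DecidablePred fun ν : G →* ℂˣ => I ≤ ν.ker] :
    (Finset.univ.filter fun ν : G →* ℂˣ => I ≤ ν.ker).card ≤ I.index := by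
  have := Fintype.ofFinite G
  have := Fintype.ofFinite I
  have h1 := sum_charDegree_le_of_constituents (isCharacter_indFun_one I)
    (Finset.univ.filter fun ν : G →* ℂˣ => I ≤ ν.ker) (fun ν g => (ν g : ℂ))
    (fun ν _ => isIrrCharacter_linear ν) monoidHom_coe_injective.injOn fun ν hν => by
      rw [frobenius_reciprocity _ (isIrrCharacter_linear ν).isClassFunction]
      have h2 : (fun h : I => (ν h : ℂ)) = fun _ => 1 := funext fun h => by
        rw [MonoidHom.mem_ker.1 ((Finset.mem_filter.1 hν).2 h.2), Units.val_one]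
      rw [h2, isIrrCharacter_one.classInner_self]
      exact one_ne_zero
  rw [Finset.sum_congr rfl (g := fun _ => 1) fun ν _ => charDegree_eq_of_eq (by simp),
    charDegree_eq_of_eq (n := I.index) (by rw [indFun_one, mul_one])] at h1
  simpa using h1

/-- Counting linear characters through their products with a character induced from an extension
to the inertia group. -/
theorem avg_card_le [Fintype G] {N : Subgroup G} [N.Normal] (hN : N ≤ commutator G) {φ : N → ℂ}
    (hφ : IsIrrCharacter N φ) {I : Subgroup G} (hI : inertia N φ ≤ I) (hNI : N ≤ I) {ψ : I → ℂ}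
    (hψ : IsIrrCharacter I ψ) (he : ∀ n : N, ψ ⟨n, hNI n.2⟩ = φ n) (P Q : (G → ℂ) → Prop)
    (hPQ : ∀ lam : G →* ℂˣ, P (fun g => lam g) → Q (fun g => lam g * indFun I ψ g)) :
    Nat.card {χ : IrrCharacter G // charDegree (χ : G → ℂ) = 1 ∧ P χ} ≤
      I.index * Nat.card {χ : IrrCharacter G //
        charDegree (χ : G → ℂ) = charDegree φ * I.index ∧ Q χ} := by
  classical
  have := Fintype.ofFinite N
  have := Fintype.ofFinite I
  have := Fintype.ofFinite (G →* ℂˣ)
  have hl : ∀ (lam : G →* ℂˣ) (n : G), n ∈ N → lam n = 1 := fun lam n hn =>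
    mem_commutator_iff_forall_monoidHom.1 (hN hn) lam
  have h1 : ∀ lam : G →* ℂˣ, classInner (fun n : N => (lam n : ℂ) * ψ ⟨n, hNI n.2⟩) φ ≠ 0 :=
    fun lam => by
      simp only [fun n : N => hl lam n n.2, Units.val_one, one_mul, he, hφ.classInner_self]
      exact one_ne_zero
  have h2 : ∀ lam : G →* ℂˣ, indFun I (fun x : I => (lam x : ℂ) * ψ x) =
      fun g => lam g * indFun I ψ g := fun lam =>
    indFun_res_mul (χ := fun g => (lam g : ℂ)) ψ (isIrrCharacter_linear lam).isClassFunction
  have h0 : ∀ lam : G →* ℂˣ, IsIrrCharacter I fun x : I => (lam x : ℂ) * ψ x := fun lam =>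
    IsIrrCharacter.monoidHom_mul hψ (lam.comp I.subtype)
  have h3 : ∀ lam : G →* ℂˣ, IsIrrCharacter G fun g => lam g * indFun I ψ g := fun lam => by
    rw [← h2 lam]
    exact (clifford_corr hφ hI hNI (h0 lam) (h1 lam)).1
  let F : (G →* ℂˣ) → IrrCharacter G := fun lam => ⟨_, h3 lam⟩
  set s := Finset.univ.filter fun lam : G →* ℂˣ => P fun g => lam g with hs
  have h4 : Nat.card {χ : IrrCharacter G // charDegree (χ : G → ℂ) = 1 ∧ P χ} ≤ s.card := by
    rw [← Fintype.card_coe, ← Nat.card_eq_fintype_card]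
    refine Nat.card_le_card_of_surjective (fun lam : s => ⟨⟨_, isIrrCharacter_linear lam.1⟩,
      charDegree_eq_of_eq (by simp), (Finset.mem_filter.1 lam.2).2⟩) ?_
    rintro ⟨χ, h5, h6⟩
    obtain ⟨lam, hlam⟩ := χ.2.isCharacter.exists_monoidHom_of_one
      (χ.2.isCharacter.charDegree_eq_one_iff.1 h5)
    exact ⟨⟨lam, Finset.mem_filter.2 ⟨Finset.mem_univ _, hlam ▸ h6⟩⟩,
      Subtype.ext (Subtype.ext hlam.symm)⟩
  refine h4.trans ?_
  rw [Nat.card_eq_fintype_card, Fintype.card_subtype]
  refine Finset.card_le_mul_card_image_of_maps_to (f := F) (fun lam hlam => ?_) _ fun χ _ => ?_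
  · refine Finset.mem_filter.2 ⟨Finset.mem_univ _, charDegree_eq_of_eq ?_,
      hPQ lam (Finset.mem_filter.1 hlam).2⟩
    change (lam 1 : ℂ) * indFun I ψ 1 = _
    rw [map_one, Units.val_one, one_mul, indFun_one, Nat.cast_mul, hφ.cast_charDegree, ← he 1,
      mul_comm]
    rfl
  · rcases (s.filter fun lam => F lam = χ).eq_empty_or_nonempty with h5 | ⟨mu, hmu⟩
    · rw [h5]; exact Nat.zero_le _
    refine (Finset.card_le_card_of_injOn (fun lam => lam * mu⁻¹) (fun lam hlam => ?_)
      fun a _ b _ hab => mul_right_cancel hab).trans (avg_card_ker_le I)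
    have h5 : F lam = F mu :=
      (Finset.mem_filter.1 hlam).2.trans (Finset.mem_filter.1 hmu).2.symm
    have h6 := clifford_corr_inj hφ hI hNI (h0 lam) (h0 mu) (h1 lam) (h1 mu)
      ((h2 lam).trans ((congrArg Subtype.val h5).trans (h2 mu).symm))
    have h8 : ∀ ν : G →* ℂˣ, N.subgroupOf I ≤ charKer fun x : I => (ν x : ℂ) := fun ν x hx y => by
      change (ν ((x * y : I) : G) : ℂ) = ν (y : G)
      rw [Subgroup.coe_mul, map_mul, hl ν x hx, one_mul]
    have h7 := gallagher_inj (N := N.subgroupOf I) hψ.isCharacter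
      (by
        have := isIrrCharacter_subgroupOf hNI hφ
        simp only [← he] at this
        exact this) (h8 lam) (h8 mu) h6
    refine Finset.mem_coe.2 (Finset.mem_filter.2 ⟨Finset.mem_univ _, fun x hx => ?_⟩)
    rw [MonoidHom.mem_ker, MonoidHom.mul_apply, MonoidHom.inv_apply, mul_inv_eq_one]
    exact Units.ext (congrFun h7 ⟨x, hx⟩)

/-- A strongly real character with multiplicity one over a character of `2`-defect zero. -/
theorem avg_exists_strongly_real [Fintype G] {N : Subgroup G} [hN : N.Normal] [Fintype N]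
    (h2 : IsPGroup 2 (G ⧸ N)) {φ : N → ℂ} (hφ : IsIrrCharacter N φ)
    (hdef : 2 ^ (Nat.card N).factorization 2 ∣ charDegree φ) {c : G}
    (hc : conjChar N c φ = fun n => conj (φ n)) :
    ∃ χ, IsIrrCharacter G χ ∧ fsInd χ = 1 ∧ classInner (fun n : N => χ n) φ = 1 := by
  classical
  obtain ⟨P⟩ : Nonempty (Sylow 2 G) := inferInstance
  have := Fintype.ofFinite (P : Subgroup G)
  obtain ⟨k, hk⟩ := hφ.charDegree_dvd_card
  obtain ⟨f, hf⟩ := hdef
  obtain ⟨a, ha⟩ := IsPGroup.iff_card.1 h2
  have ha' : N.index = 2 ^ a := ha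
  have hN0 : Nat.card N ≠ 0 := Nat.card_pos.ne'
  have hfk : ¬ 2 ∣ f * k := fun h => Nat.pow_succ_factorization_not_dvd hN0 Nat.prime_two (by
    conv_rhs => rw [hk, hf, mul_assoc]
    exact Nat.mul_dvd_mul_left _ h)
  have hP : Nat.card (P : Subgroup G) = N.index * 2 ^ (Nat.card N).factorization 2 := by
    rw [P.card_eq_multiplicity, ← N.index_mul_card, ha', Nat.factorization_mul (by positivity) hN0,
      Finsupp.add_apply, Nat.prime_two.factorization_pow, Finsupp.single_eq_same, pow_add]
  have hα := isCharacter_indFun hφ.isCharacter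
  have h3 : classInner (fun x : (P : Subgroup G) => indFun N φ x) (fun _ => 1) = f := by
    rw [classInner_one_right, Finset.sum_eq_single (1 : (P : Subgroup G)), OneMemClass.coe_one,
      indFun_one, ← hφ.cast_charDegree, hf, ← Nat.cast_mul, ← mul_assoc N.index, ← hP,
      Nat.cast_mul, inv_mul_cancel_left₀ natCard_ne_zero]
    · intro x _ hx
      refine indFun_eq_zero_of_conj _ fun y hy => irr_eq_zero_of_defect_zero Nat.prime_two hφ
        hφ.cast_charDegree.symm hk (fun h => hfk (h.mul_left _)) ?_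
      obtain ⟨j, hj⟩ := P.isPGroup'.exists_orderOf_eq_pow x
      have h4 : orderOf (y⁻¹ * x * y) = orderOf (x : G) := by
        simpa using MulEquiv.orderOf_eq (MulAut.conj y⁻¹) (x : G)
      rw [← Subgroup.orderOf_coe, h4, Subgroup.orderOf_coe, hj]
      refine dvd_pow_self 2 ?_
      rintro rfl
      exact hx (orderOf_eq_one_iff.1 hj)
    · simp
  obtain ⟨e, he, hsum⟩ := hα.exists_eq_sum_nat
  have hm := fun χ : IrrCharacter G => (χ.2.isCharacter.restrict (P : Subgroup G)).exists_nat_classInner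
    isCharacter_one
  choose m hm using hm
  have h4 : ∑ χ : IrrCharacter G, e χ * m χ = f := by
    have h5 : (fun x : (P : Subgroup G) => indFun N φ x) =
        ∑ χ : IrrCharacter G, (e χ : ℂ) • fun x : (P : Subgroup G) => (χ : G → ℂ) x := by
      funext x
      rw [congrFun hsum x]
      simp
    rw [h5, classInner_sum_left] at h3
    simp only [classInner_smul_left, hm] at h3
    exact_mod_cast h3
  have h5 : Odd (Finset.univ.filter fun χ : IrrCharacter G => Odd (e χ * m χ)).card := by
    rw [← Finset.odd_sum_iff_odd_card_odd, h4, ← Nat.not_even_iff_odd, even_iff_two_dvd]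
    exact fun h => hfk (h.mul_right _)
  have h6 : (starRingAut : RingAut ℂ) • indFun N φ = indFun N φ := by
    rw [gal_smul_indFun, ← indFun_conjChar φ c, hc]; rfl
  obtain ⟨χ, hχ, hfix⟩ := (galPow_conj G).exists_fixed
    ((Finset.univ.filter fun χ : IrrCharacter G => Odd (e χ * m χ)).map
      (Function.Embedding.subtype _))
    (fun χ hχ => by
      obtain ⟨χ, -, rfl⟩ := Finset.mem_map.1 hχ
      exact χ.2.isGeneralizedCharacter)
    (fun χ hχ => by
      obtain ⟨χ, hχ0, rfl⟩ := Finset.mem_map.1 hχ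
      refine Finset.mem_map.2 ⟨⟨_, isIrr_smul χ.2 starRingAut⟩,
        Finset.mem_filter.2 ⟨Finset.mem_univ _, ?_⟩, rfl⟩
      have h7 := classInner_smul_smul hα.isGeneralizedCharacter χ.2.isGeneralizedCharacter
        starRingAut
      have h8 := classInner_smul_smul (χ.2.isGeneralizedCharacter.restrict (P : Subgroup G))
        isCharacter_one.isGeneralizedCharacter starRingAut
      rw [h6, he] at h7
      rw [hm, conj_smul_eq_iff.2 fun _ => Complex.one_im] at h8
      have h9 := (he ⟨_, isIrr_smul χ.2 starRingAut⟩).symm.trans h7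
      have h10 := (hm ⟨_, isIrr_smul χ.2 starRingAut⟩).symm.trans h8
      rw [Nat.cast_inj] at h9 h10
      rw [h9, h10]
      exact (Finset.mem_filter.1 hχ0).2)
    (by rw [Finset.card_map, ← even_iff_two_dvd, Nat.not_even_iff_odd]; exact h5)
  obtain ⟨χ, hχ', rfl⟩ := Finset.mem_map.1 hχ
  obtain ⟨h7, h8⟩ := Nat.odd_mul.1 (Finset.mem_filter.1 hχ').2
  have h9 := (classInner_indFun_eq_res hφ.isCharacter χ.2.isCharacter).symm.trans (he χ)
  refine ⟨χ, χ.2, ?_, ?_⟩
  · rw [← fsInd_const_one (G := (P : Subgroup G))]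
    exact fsInd_eq_of_odd (P : Subgroup G).subtype χ.2 (conj_smul_eq_iff.1 hfix)
      isIrrCharacter_one (fun _ => Complex.one_im) (hm χ) h8
  · have h10 := (mult_dvd_relIndex_inertia hφ χ.2 h9 h7.pos.ne').trans
      (Subgroup.relIndex_dvd_index_of_le (le_inertia hφ.isClassFunction))
    rw [ha'] at h10
    rw [h9, Nat.Coprime.eq_one_of_dvd (Nat.Coprime.pow_right a (Nat.coprime_two_right.2 h7)) h10,
      Nat.cast_one]

theorem avg_le_commutator {N : Subgroup G} [N.Normal]
    (hmin : ∀ M : Subgroup G, M.Normal → M ≤ N → M = ⊥ ∨ M = N) (hna : ¬ IsMulCommutative N) :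
    N ≤ commutator G := by
  rcases hmin ⁅N, N⁆ inferInstance (Subgroup.commutator_le_left N N) with h | h
  · exact absurd (Subgroup.le_centralizer_iff_isMulCommutative.1
      (Subgroup.commutator_eq_bot_iff_le_centralizer.1 h)) hna
  · rw [← h]
    exact Subgroup.commutator_mono le_top le_top

theorem avg_inertia_le {N : Subgroup G} [hN : N.Normal] {φ : N → ℂ} {I : Subgroup G}
    (hI : ∀ g : G, g ∈ I ↔ ∀ n n' : N, (n' : G) = g * (n : G) * g⁻¹ → φ n' = φ n) :
    inertia N φ ≤ I := fun g hg => (hI g).2 fun n n' h => by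
  rw [← mem_inertia.1 hg n]
  exact congrArg φ (Subtype.ext h)

/-- The strongly real version of `avg_card_le`. -/
theorem avg_card_le_real [Fintype G] {N : Subgroup G} [N.Normal] (hN : N ≤ commutator G)
    {φ : N → ℂ} (hφ : IsIrrCharacter N φ) {I : Subgroup G} [Fintype I] (hI : inertia N φ ≤ I)
    (hNI : N ≤ I) {ψ : I → ℂ} (hψ : IsIrrCharacter I ψ) (he : ∀ n : N, ψ ⟨n, hNI n.2⟩ = φ n)
    (h1 : fsInd ψ = 1) :
    Nat.card {χ : IrrCharacter G // charDegree (χ : G → ℂ) = 1 ∧ fsInd (χ : G → ℂ) = 1} ≤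
      I.index * Nat.card {χ : IrrCharacter G //
        charDegree (χ : G → ℂ) = charDegree φ * I.index ∧ fsInd (χ : G → ℂ) = 1} := by
  have := Fintype.ofFinite N
  refine avg_card_le hN hφ hI hNI hψ he (fun χ => fsInd χ = 1) (fun χ => fsInd χ = 1)
    fun lam hlam => ?_
  rw [fsInd_mul_linear _ (lam := fun g => (lam g : ℂ)) (fun g => by
    rw [(fsInd_monoidHom_eq_one_iff lam).1 hlam g, Units.val_one]), fsInd_indFun_of_real hψ
    (fsInd_real hψ (h1 ▸ one_ne_zero)) (clifford_corr hφ hI hNI hψ (by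
      simp only [he, hφ.classInner_self]; exact one_ne_zero)).1, h1]

end CL.Char
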