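import Cfsg.Agent.Grp.MinNormal
import Cfsg.Agent.Loc.ElemAb

/-! The average dimension of the fixed spaces of the elements of a solvable group on a nontrivial
irreducible module is at most half the dimension (Isaacs-Keller-Meierfrankenfeld-Moretó). -/

set_option autoImplicit false
open Cfsg Subgroup Module

namespace CL.Char.FixAvg

universe u

variable {k : Type*} [Field k] {G : Type*} [Group G] {V : Type u} [AddCommGroup V] [Module k V]

/-- dimension of the fixed space -/
noncomputable def fd (ρ : Representation k G V) (g : G) : ℕ := finrank k (LinearMap.ker (ρ g - 1))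

theorem mem_ker (ρ : Representation k G V) {g : G} {v : V} :
    v ∈ LinearMap.ker (ρ g - 1) ↔ ρ g v = v := by
  change ρ g v - v = 0 ↔ _
  rw [sub_eq_zero]

/-- fixed vectors of a subgroup -/
def fix (ρ : Representation k G V) (B : Subgroup G) : Submodule k V where
  carrier := {v | ∀ b ∈ B, ρ b v = v}
  zero_mem' := fun _ _ => map_zero _
  add_mem' := fun h1 h2 b hb => by rw [map_add, h1 b hb, h2 b hb]
  smul_mem' := fun r _ h1 b hb => by rw [map_smul, h1 b hb]

/-- the stabilizer of a vector -/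
def vstab (ρ : Representation k G V) (v : V) : Subgroup G where
  carrier := {g | ρ g v = v}
  one_mem' := by simp
  mul_mem' := fun {a b} (ha : ρ a v = v) (hb : ρ b v = v) => by
    change ρ (a * b) v = v
    rw [map_mul, Module.End.mul_apply, hb, ha]
  inv_mem' := fun {a} (ha : ρ a v = v) => by
    change ρ a⁻¹ v = v
    conv_lhs => rw [← ha]
    simp

/-- the stabilizer of a subspace -/
def sstab [Finite G] (ρ : Representation k G V) (U : Submodule k V) : Subgroup G where
  carrier := {g | ∀ u ∈ U, ρ g u ∈ U}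
  one_mem' := fun u hu => by simpa using hu
  mul_mem' := fun {a b} ha hb u hu => by rw [map_mul, Module.End.mul_apply]; exact ha _ (hb u hu)
  inv_mem' := fun {a} ha u hu => by
    have h6 : ∀ n : ℕ, ρ (a ^ n) u ∈ U := fun n => by
      induction n with
      | zero => simpa using hu
      | succ n ih => rw [pow_succ', map_mul, Module.End.mul_apply]; exact ha _ ih
    have e : a⁻¹ = a ^ (orderOf a - 1) := by
      rw [inv_eq_iff_mul_eq_one, ← pow_succ', Nat.sub_add_cancel (orderOf_pos a),
        pow_orderOf_eq_one]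
    rw [e]; exact h6 _

theorem fix_sup (ρ : Representation k G V) {A B : Subgroup G} {v : V} (ha : v ∈ fix ρ A)
    (hb : v ∈ fix ρ B) : v ∈ fix ρ (A ⊔ B) :=
  fun _ hg => (sup_le (show A ≤ vstab ρ v from ha) (show B ≤ vstab ρ v from hb)) hg

variable [FiniteDimensional k V]

theorem fd_le_add (ρ : Representation k G V) (U : Submodule k V) (hU : ∀ g, U ≤ U.comap (ρ g))
    (g : G) : fd ρ g ≤ fd (ρ.subrepresentation U hU) g + fd (ρ.quotient U hU) g := by
  let φ : LinearMap.ker (ρ g - 1) →ₗ[k] LinearMap.ker (ρ.quotient U hU g - 1) :=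
    (U.mkQ.comp (LinearMap.ker (ρ g - 1)).subtype).codRestrict _ fun v => by
      rw [mem_ker]
      change U.mkQ (ρ g v) = U.mkQ v
      rw [(mem_ker ρ).1 v.2]
  let ψ : LinearMap.ker φ →ₗ[k] LinearMap.ker (ρ.subrepresentation U hU g - 1) :=
    { toFun := fun v => ⟨⟨v.1.1, (Submodule.Quotient.mk_eq_zero U).1 (congrArg Subtype.val v.2)⟩,
        (mem_ker _).2 (Subtype.ext ((mem_ker ρ).1 v.1.2))⟩
      map_add' := fun _ _ => rfl
      map_smul' := fun _ _ => rfl }
  have h1 := LinearMap.finrank_range_add_finrank_ker φ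
  have h2 := LinearMap.finrank_le_finrank_of_injective (f := ψ) fun a b h =>
    Subtype.ext (Subtype.ext (congrArg (fun x => x.1.1) h))
  have h3 := Submodule.finrank_le (LinearMap.range φ)
  unfold fd
  omega

theorem add_le_of_inf {A B : Submodule k V} (h : A ⊓ B = ⊥) :
    finrank k A + finrank k B ≤ finrank k V := by
  rw [← Submodule.finrank_sup_add_finrank_inf_eq, h, finrank_bot, add_zero]
  exact Submodule.finrank_le _

theorem coset_irr [Finite G] (ρ : Representation k G V) (N : Subgroup G) [hN : N.Normal] [Fintype N]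
    (hab : ∀ a ∈ N, ∀ b ∈ N, a * b = b * a) {x : G} (hx : N ⊔ zpowers x = ⊤) (h0 : fix ρ N = ⊥)
    (hirr : ∀ U : Submodule k V, (∀ g, U ≤ U.comap (ρ g)) → U = ⊥ ∨ U = ⊤) :
    ∑ n : N, 2 * fd ρ (x * n) ≤ Nat.card N * finrank k V := by
  rcases subsingleton_or_nontrivial V with hV | hV
  · simp [fd, finrank_zero_of_subsingleton]
  obtain ⟨H, ⟨hHN, hH⟩, hmax⟩ := (Set.toFinite {H : Subgroup G | H ≤ N ∧ fix ρ H ≠ ⊥}).exists_maximal
    ⟨⊥, bot_le, by
      rw [show fix ρ ⊥ = ⊤ from eq_top_iff.2 fun v _ b hb => by rw [mem_bot.1 hb]; simp]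
      exact top_ne_bot⟩
  have hbig : ∀ H' ≤ N, ¬ H' ≤ H → fix ρ (H ⊔ H') = ⊥ := fun H' h1 h2 => by
    by_contra h3
    exact h2 (le_sup_right.trans (hmax ⟨sup_le hHN h1, h3⟩ le_sup_left))
  have hinv : ∀ U : Submodule k V, (∀ n ∈ N, ∀ u ∈ U, ρ n u ∈ U) → (∀ u ∈ U, ρ x u ∈ U) →
      U = ⊥ ∨ U = ⊤ := fun U h1 h2 => hirr U fun g =>
    (show (⊤ : Subgroup G) ≤ sstab ρ U from hx ▸ sup_le h1 (zpowers_le.2 h2)) (mem_top g)
  have hUN : ∀ n ∈ N, ∀ u ∈ fix ρ H, ρ n u ∈ fix ρ H := fun n hn u hu h hh => by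
    rw [← Module.End.mul_apply, ← map_mul, hab h (hHN hh) n hn, map_mul, Module.End.mul_apply,
      hu h hh]
  by_cases hxH : H.map (MulAut.conj x).toMonoidHom ≤ H
  · have hxH' : H.map (MulAut.conj x).toMonoidHom = H :=
      eq_of_le_of_card_ge hxH (card_map_of_injective (MulAut.conj x).injective).ge
    have hU : fix ρ H = ⊤ := (hinv _ hUN fun u hu h hh => by
      obtain ⟨h', hh', rfl⟩ : h ∈ H.map (MulAut.conj x).toMonoidHom := hxH'.symm ▸ hh
      change ρ (x * h' * x⁻¹) (ρ x u) = ρ x u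
      rw [← Module.End.mul_apply, ← map_mul, inv_mul_cancel_right, map_mul, Module.End.mul_apply,
        hu h' hh']).resolve_left hH
    obtain ⟨m, hm, hmH⟩ : ∃ m ∈ N, m ∉ H := by
      by_contra h
      push Not at h
      exact hH (by rw [le_antisymm hHN h, h0])
    have h1 : ∀ n : N, fd ρ (x * n) + fd ρ (x * (n * ⟨m, hm⟩ : N)) ≤ finrank k V := fun n => by
      refine add_le_of_inf (eq_bot_iff.2 fun v hv => ?_)
      rw [← hbig (zpowers m) (zpowers_le.2 hm) (by rwa [zpowers_le])]
      refine fix_sup ρ (hU ▸ Submodule.mem_top) (zpowers_le (H := vstab ρ v).2 ?_)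
      have := (vstab ρ v).mul_mem ((vstab ρ v).inv_mem ((mem_ker ρ).1 hv.1)) ((mem_ker ρ).1 hv.2)
      simpa [mul_assoc] using this
    have h2 := Finset.sum_le_sum fun n (_ : n ∈ Finset.univ) => h1 n
    rw [Finset.sum_add_distrib, Fintype.sum_equiv (Equiv.mulRight (⟨m, hm⟩ : N))
      (fun n : N => fd ρ (x * (n * ⟨m, hm⟩ : N))) (fun n : N => fd ρ (x * n)) fun _ => rfl,
      Finset.sum_const, Finset.card_univ, smul_eq_mul, ← Nat.card_eq_fintype_card] at h2
    rw [← Finset.mul_sum]
    omega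
  · have hb := hbig _ (by
      rintro _ ⟨h, hh, rfl⟩
      exact hN.conj_mem _ (hHN hh) x) hxH
    have h1 : ∀ n : N, 2 * fd ρ (x * n) ≤ finrank k V := fun n => by
      set g := x * n with hg
      have h2 : fix ρ H ⊓ LinearMap.ker (ρ g - 1) = ⊥ := eq_bot_iff.2 fun v hv => by
        rw [← hb]
        refine fix_sup ρ hv.1 ?_
        rintro _ ⟨h, hh, rfl⟩
        change ρ (x * h * x⁻¹) v = v
        have h3 : ρ x (ρ n v) = v := by
          rw [← Module.End.mul_apply, ← map_mul]; exact (mem_ker ρ).1 hv.2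
        conv_lhs => rw [← h3]
        rw [← Module.End.mul_apply, ← map_mul, inv_mul_cancel_right, map_mul, Module.End.mul_apply,
          hUN n n.2 v hv.1 h hh, h3]
      let W : Submodule k V := ⨆ i : ℕ, (fix ρ H).map (ρ (g ^ i))
      have hWN : ∀ m ∈ N, ∀ w ∈ W, ρ m w ∈ W := fun m hm => by
        change W ≤ W.comap (ρ m)
        refine iSup_le fun i => ?_
        rintro _ ⟨u, hu, rfl⟩
        refine Submodule.mem_iSup_of_mem i ⟨_, hUN _ (hN.conj_mem' m hm (g ^ i)) u hu, ?_⟩
        rw [← Module.End.mul_apply, ← map_mul, ← Module.End.mul_apply, ← map_mul]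
        congr 2; group
      have hWg : ∀ w ∈ W, ρ g w ∈ W := by
        change W ≤ W.comap (ρ g)
        refine iSup_le fun i => ?_
        rintro _ ⟨u, hu, rfl⟩
        refine Submodule.mem_iSup_of_mem (i + 1) ⟨u, hu, ?_⟩
        rw [pow_succ', map_mul, Module.End.mul_apply]
      have hW : W = ⊤ := (hinv W hWN fun w hw => by
        have := hWg _ (hWN _ (N.inv_mem n.2) w hw)
        rwa [← Module.End.mul_apply, ← map_mul, hg, mul_inv_cancel_right] at this).resolve_left
          fun h => hH (eq_bot_iff.2 fun u hu => h ▸ Submodule.mem_iSup_of_mem 0 ⟨u, hu, by simp⟩)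
      have h4 : fix ρ H ⊔ LinearMap.range (ρ g - 1) = ⊤ := by
        rw [eq_top_iff, ← hW]
        refine iSup_le fun i => ?_
        rintro _ ⟨u, hu, rfl⟩
        induction i with
        | zero => simpa using Submodule.mem_sup_left hu
        | succ i ih =>
          have : ρ (g ^ (i + 1)) u = ρ (g ^ i) u + (ρ g - 1) (ρ (g ^ i) u) := by
            rw [pow_succ', map_mul]; simp
          rw [this]
          exact Submodule.add_mem _ ih (Submodule.mem_sup_right ⟨_, rfl⟩)
      have h5 := add_le_of_inf h2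
      have h6 := Submodule.finrank_add_le_finrank_add_finrank (fix ρ H) (LinearMap.range (ρ g - 1))
      rw [h4, finrank_top] at h6
      have h7 := LinearMap.finrank_range_add_finrank_ker (ρ g - 1)
      unfold fd
      omega
    have h2 := Finset.sum_le_sum fun n (_ : n ∈ Finset.univ) => h1 n
    rwa [Finset.sum_const, Finset.card_univ, smul_eq_mul, ← Nat.card_eq_fintype_card] at h2

theorem coset_aux [Finite G] (N : Subgroup G) [hN : N.Normal] [Fintype N]
    (hab : ∀ a ∈ N, ∀ b ∈ N, a * b = b * a) (hc : (Nat.card N : k) ≠ 0) {x : G}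
    (hx : N ⊔ zpowers x = ⊤) (d : ℕ) : ∀ (V : Type u) [AddCommGroup V] [Module k V]
      [FiniteDimensional k V] (ρ : Representation k G V), finrank k V = d → fix ρ N = ⊥ →
        ∑ n : N, 2 * fd ρ (x * n) ≤ Nat.card N * finrank k V := by
  induction d using Nat.strong_induction_on with
  | _ d ih =>
  intro V _ _ _ ρ hd h0
  by_cases hirr : ∀ U : Submodule k V, (∀ g, U ≤ U.comap (ρ g)) → U = ⊥ ∨ U = ⊤
  · exact coset_irr ρ N hab hx h0 hirr
  push Not at hirr
  obtain ⟨U, hU, h1, h2⟩ := hirr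
  have h3 := Submodule.finrank_quotient_add_finrank U
  have h4 := Submodule.finrank_lt h2
  have h5 : finrank k U ≠ 0 := fun h => h1 (Submodule.finrank_eq_zero.1 h)
  have h6 := ih _ (hd ▸ h4) U (ρ.subrepresentation U hU) rfl (eq_bot_iff.2 fun v hv => by
    have : (v : V) ∈ fix ρ N := fun b hb => congrArg Subtype.val (hv b hb)
    rw [h0] at this
    exact Subtype.ext this)
  have h7 := ih _ (by omega) (V ⧸ U) (ρ.quotient U hU) rfl (eq_bot_iff.2 fun q hq => by
    obtain ⟨v, rfl⟩ := U.mkQ_surjective q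
    have h8 : ∑ n : N, ρ n v ∈ fix ρ N := fun b hb => by
      rw [map_sum]
      exact Fintype.sum_equiv (Equiv.mulLeft (⟨b, hb⟩ : N)) _ _ fun n => by simp
    rw [h0] at h8
    have h9 := congrArg U.mkQ ((Submodule.mem_bot k).1 h8)
    rw [map_sum, Finset.sum_congr rfl fun (n : N) _ => show U.mkQ (ρ n v) = U.mkQ v from
      hq n n.2, Finset.sum_const, Finset.card_univ, ← Nat.card_eq_fintype_card,
      ← Nat.cast_smul_eq_nsmul k, map_zero] at h9
    exact (smul_eq_zero.1 h9).resolve_left hc)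
  have h8 := Finset.sum_le_sum fun (n : N) (_ : n ∈ Finset.univ) =>
    Nat.mul_le_mul_left 2 (fd_le_add ρ U hU (x * n))
  simp only [mul_add, Finset.sum_add_distrib] at h8
  rw [← h3, mul_add]
  omega

theorem coset_le [Finite G] (ρ : Representation k G V) (N : Subgroup G) [hN : N.Normal] [Fintype N]
    (hab : ∀ a ∈ N, ∀ b ∈ N, a * b = b * a) (hc : (Nat.card N : k) ≠ 0) (h0 : fix ρ N = ⊥)
    (x : G) : ∑ n : N, 2 * fd ρ (x * n) ≤ Nat.card N * finrank k V := by
  let H := N ⊔ zpowers x
  have hNH : N ≤ H := le_sup_left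
  have hxH : x ∈ H := mem_sup_right (mem_zpowers x)
  haveI := Fintype.ofFinite (N.subgroupOf H)
  have e := subgroupOfEquivOfLe hNH
  have h := coset_aux (k := k) (N.subgroupOf H) (fun a ha b hb => Subtype.ext (hab _ ha _ hb))
    (by rwa [Nat.card_congr (subgroupOfEquivOfLe hNH).toEquiv]) (x := ⟨x, hxH⟩) (by
      apply map_injective H.subtype_injective
      rw [Subgroup.map_sup, subgroupOf_map_subtype, inf_eq_left.2 hNH, MonoidHom.map_zpowers,
        ← MonoidHom.range_eq_map, range_subtype]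
      rfl) _ V (ρ.comp H.subtype) rfl (eq_bot_iff.2 fun v hv => h0 ▸ fun b hb =>
        hv ⟨b, hNH hb⟩ hb)
  rw [Nat.card_congr (subgroupOfEquivOfLe hNH).toEquiv] at h
  exact (Fintype.sum_equiv (subgroupOfEquivOfLe hNH).toEquiv _ _ fun _ => rfl).symm.trans_le h

theorem sum_le_of_normal [Fintype G] (ρ : Representation k G V) (N : Subgroup G) [N.Normal]
    (hab : ∀ a ∈ N, ∀ b ∈ N, a * b = b * a) (hc : (Nat.card N : k) ≠ 0) (h0 : fix ρ N = ⊥) :
    ∑ g : G, 2 * fd ρ g ≤ Nat.card G * finrank k V := by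
  haveI := Fintype.ofFinite N
  have h1 := Finset.sum_le_sum fun x (_ : x ∈ Finset.univ) => coset_le ρ N hab hc h0 x
  rw [Finset.sum_comm, Finset.sum_congr rfl fun (n : N) _ => Fintype.sum_equiv
    (Equiv.mulRight (n : G)) (fun x => 2 * fd ρ (x * n)) (fun g => 2 * fd ρ g) fun _ => rfl,
    Finset.sum_const, Finset.sum_const, Finset.card_univ, Finset.card_univ, smul_eq_mul,
    smul_eq_mul, ← Nat.card_eq_fintype_card, ← Nat.card_eq_fintype_card, mul_left_comm] at h1
  exact Nat.le_of_mul_le_mul_left h1 Nat.card_pos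

theorem sum_comp_surj {H : Type*} [Group H] [Fintype G] [Fintype H] (π : G →* H)
    (hπ : Function.Surjective π) (F : H → ℕ) :
    ∑ g, F (π g) = Nat.card π.ker * ∑ h, F h := by
  classical
  rw [← Finset.sum_fiberwise Finset.univ π, Finset.mul_sum]
  refine Finset.sum_congr rfl fun h _ => ?_
  rw [Finset.sum_congr rfl fun g hg => by rw [(Finset.mem_filter.1 hg).2], Finset.sum_const,
    smul_eq_mul, MonoidHom.card_fiber_eq_of_mem_range π (hπ h) (hπ 1), Nat.card_eq_fintype_card,
    Fintype.card_subtype]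
  simp only [MonoidHom.mem_ker]

/-- the average dimension of the fixed spaces is at most half the dimension -/
theorem sum_fd_le {p : ℕ} [hp : Fact p.Prime] {V : Type u} [AddCommGroup V] [Module (ZMod p) V]
    [Finite V] [Fintype G] [Group.IsSolvable G] (ρ : Representation (ZMod p) G V)
    (hirr : ∀ U : Submodule (ZMod p) V, (∀ g, U ≤ U.comap (ρ g)) → U = ⊥ ∨ U = ⊤)
    (hne : ∃ g, ρ g ≠ 1) : ∑ g : G, 2 * fd ρ g ≤ Nat.card G * finrank (ZMod p) V := by
  classical
  let φ := ρ.asGroupHom
  let H := φ.range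
  haveI : Finite H := Finite.of_surjective _ φ.rangeRestrict_surjective
  haveI := Fintype.ofFinite H
  haveI : Group.IsSolvable H := solvable_of_surjective φ.rangeRestrict_surjective
  let σ : Representation (ZMod p) H V := (Units.coeHom _).comp H.subtype
  have hσ : ∀ g, σ (φ.rangeRestrict g) = ρ g := fun g => ρ.asGroupHom_apply g
  obtain ⟨g0, hg0⟩ := hne
  haveI : Nontrivial H := ⟨⟨φ.rangeRestrict g0, 1, fun h => hg0 (by rw [← hσ, h, map_one])⟩⟩
  obtain ⟨N, q, hq, hN, hNq⟩ := CL.Grp.exists_isMinNormal_isElementaryAbelian H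
  haveI := hN.normal
  have h0 : fix σ N = ⊥ := by
    refine (hirr (fix σ N) fun g v hv => ?_).resolve_right fun h =>
      hN.ne_bot (eq_bot_iff.2 fun n hn => mem_bot.2 ?_)
    · intro n hn
      change σ n (ρ g v) = ρ g v
      rw [← hσ, ← Module.End.mul_apply, ← map_mul,
        show n * φ.rangeRestrict g = φ.rangeRestrict g * ((φ.rangeRestrict g)⁻¹ * n *
          φ.rangeRestrict g) by group, map_mul, Module.End.mul_apply,
        hv _ (Normal.conj_mem' inferInstance n hn _)]
    · exact Subtype.ext (Units.ext (LinearMap.ext fun v =>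
        (show v ∈ fix σ N from h ▸ Submodule.mem_top) n hn))
  have hc : (Nat.card N : ZMod p) ≠ 0 := by
    rw [Ne, ZMod.natCast_eq_zero_iff]
    intro hd
    haveI := Fact.mk hq
    obtain ⟨m, hm⟩ := CL.Loc.ea_card_eq_pow hNq
    obtain rfl : p = q := (Nat.prime_dvd_prime_iff_eq hp.out hq).1 (hp.out.dvd_of_dvd_pow (hm ▸ hd))
    letI : MulAction N V :=
      { smul := fun g v => σ g v
        one_smul := fun v => by change σ ((1 : N) : H) v = v; simp
        mul_smul := fun g h v => by change σ ((g * h : N) : H) v = σ g (σ h v); simp }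
    have hV : p ∣ Nat.card V := by
      rw [Module.natCard_eq_pow_finrank (K := ZMod p), Nat.card_zmod]
      refine dvd_pow_self p fun h => hg0 (LinearMap.ext fun v => ?_)
      haveI := Module.finrank_zero_iff.1 h
      exact Subsingleton.elim _ _
    obtain ⟨v, hv, hv0⟩ := (CL.Loc.ea_isPGroup hNq).exists_fixed_point_of_prime_dvd_card_of_fixed_point
      V hV (a := 0) fun g => map_zero (σ g)
    have : v ∈ fix σ N := fun b hb => hv ⟨b, hb⟩
    rw [h0] at this
    exact hv0 this.symm
  have h1 := sum_le_of_normal σ N (fun a ha b hb => CL.Loc.ea_mul_comm hNq ha hb) hc h0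
  have h2 := sum_comp_surj φ.rangeRestrict φ.rangeRestrict_surjective fun h => 2 * fd σ h
  have h3 : Nat.card G = Nat.card φ.rangeRestrict.ker * Nat.card H := by
    rw [← φ.rangeRestrict.ker.card_mul_index, index_ker, MonoidHom.range_eq_top.2
      φ.rangeRestrict_surjective, card_top]
  rw [Finset.sum_congr rfl fun g _ => show 2 * fd ρ g = 2 * fd σ (φ.rangeRestrict g) by
    unfold fd; rw [hσ], h2, h3, mul_assoc]
  exact Nat.mul_le_mul_left _ h1

end CL.Char.FixAvg
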