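import Cfsg.Agent.Base
import Cfsg.Agent.Char.Extension
import Cfsg.Agent.Char.GoingDown
import Cfsg.Agent.Char.Gallagher
import Cfsg.Agent.Char.Clifford2
import Cfsg.Agent.Grp.HallConverse
import Cfsg.Agent.Grp.Hall2

/-!
# Fully ramified characters (Gagola)
-/

namespace CL.Char

open Cfsg ComplexConjugate Pointwise

/-- Restriction of a fully ramified character to a Sylow subgroup modulo `Z` is homogeneous. -/
theorem fr_sylow_aux {S : Type*} [Group S] [Finite S] {Z : Subgroup S} [Z.Normal] {θ : Z → ℂ}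
    (hθ : IsIrrCharacter Z θ) {α : S → ℂ} (hα : IsCharacter S α) {e : ℕ}
    (he : (fun n : Z => α n) = (e : ℂ) • θ) (hv : ∀ g, g ∉ Z → α g = 0) {p a m : ℕ} (hp : p.Prime)
    (hZ : Z.index = p ^ a) (hem : e ^ 2 = p ^ a * m) (hm : ¬ p ∣ m) :
    ∃ (γ : S → ℂ) (c : ℕ), IsIrrCharacter S γ ∧ α = (c : ℂ) • γ := by
  classical
  haveI := Fintype.ofFinite S
  haveI := Fintype.ofFinite Z
  have he0 : e ≠ 0 := by
    rintro rfl
    have : m = 0 := by
      have := hem.symm
      simpa [hp.ne_zero] using this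
    exact hm (this ▸ dvd_zero p)
  have he0' : (e : ℂ) ≠ 0 := by exact_mod_cast he0
  have hinv := invariant_of_res_eq_smul hα.isClassFunction he0' he
  have hi0 : (Z.index : ℂ) ≠ 0 := by exact_mod_cast Z.index_ne_zero_of_finite
  have h1 : α = ((e : ℂ) / Z.index) • indFun Z θ := by
    funext g
    by_cases hg : g ∈ Z
    · have h2 := congrFun (res_indFun_of_invariant hinv) ⟨g, hg⟩
      have h3 := congrFun he ⟨g, hg⟩
      simp only [Pi.smul_apply, smul_eq_mul] at h2 h3 ⊢
      rw [h2, h3]; field_simp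
    · rw [hv g hg, Pi.smul_apply, indFun_eq_zero_of_not_mem θ hg, smul_zero]
  obtain ⟨γ, hγ, h2⟩ := exists_irr_over Z hθ
  obtain ⟨f, hf0, hf1, hf2⟩ := clifford_of_invariant_nat hγ hθ hinv h2
  have h3 : classInner (indFun Z θ) γ = f := by
    rw [classInner_indFun_eq_res hθ.isCharacter hγ.isCharacter, hf1]
  obtain ⟨c, hc⟩ := hα.exists_nat_classInner hγ.isCharacter
  have h4 : c * p ^ a = e * f := by
    rw [h1, classInner_smul_left, h3, hZ] at hc
    have hp0 : (p : ℂ) ^ a ≠ 0 := pow_ne_zero _ (by exact_mod_cast hp.ne_zero)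
    push_cast at hc
    field_simp at hc
    exact_mod_cast (mul_comm (c : ℂ) _).trans hc.symm
  have h5 : p ^ a ∣ f ^ 2 := by
    have h6 : p ^ a * (c ^ 2 * p ^ a) = p ^ a * (m * f ^ 2) := by
      calc _ = (c * p ^ a) ^ 2 := by ring
        _ = e ^ 2 * f ^ 2 := by rw [h4, mul_pow]
        _ = _ := by rw [hem, mul_assoc]
    have h7 := Nat.eq_of_mul_eq_mul_left (pow_pos hp.pos a) h6
    exact (Nat.Coprime.pow_left a ((Nat.Prime.coprime_iff_not_dvd hp).mpr hm)).dvd_of_dvd_mul_left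
      ⟨c ^ 2, by rw [← h7, mul_comm]⟩
  obtain ⟨d, hd0, hd⟩ := hθ.exists_nat_one
  have h6 : f * (f * d) ≤ Z.index * d := by
    refine mul_degree_le_of_classInner (isCharacter_indFun hθ.isCharacter) hγ h3 ?_ ?_
    · rw [indFun_one, hd]; push_cast; rfl
    · have := congrFun hf2 1
      simp only [Pi.smul_apply, smul_eq_mul, OneMemClass.coe_one, hd] at this
      rw [this]; push_cast; rfl
  have h7 : f ^ 2 = Z.index := by
    refine le_antisymm ?_ (hZ ▸ Nat.le_of_dvd (pow_pos hf0 2) h5)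
    rw [← mul_assoc] at h6
    exact (pow_two f).le.trans (Nat.le_of_mul_le_mul_right h6 hd0)
  have h8 := indFun_eq_smul_of_fullyRamified hγ hθ hf2 h7
  refine ⟨γ, c, hγ, ?_⟩
  rw [h8, smul_smul] at h1
  rw [← hc, h1, classInner_smul_left, hγ.classInner_self, mul_one]

theorem fr_sylow {H : Type*} [Group H] [Finite H] {Z : Subgroup H} [Z.Normal] {θ : Z → ℂ}
    (hθ : IsIrrCharacter Z θ) {χ : H → ℂ} (hχ : IsIrrCharacter H χ) {e : ℕ}
    (he : (fun n : Z => χ n) = (e : ℂ) • θ) (h2 : e ^ 2 = Z.index) {p a : ℕ} (hp : p.Prime)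
    {S : Subgroup H} (hZS : Z ≤ S) (hS : Z.relIndex S = p ^ a) (hSp : ¬ p ∣ S.index) :
    ∃ (γ : S → ℂ) (c : ℕ), IsIrrCharacter S γ ∧ c ^ 2 = S.index ∧
      (fun s : S => χ s) = (c : ℂ) • γ := by
  classical
  haveI := Fintype.ofFinite H
  haveI := Fintype.ofFinite Z
  haveI := Fintype.ofFinite S
  have hv : ∀ g, g ∉ Z → χ g = 0 := fun g hg => vanish_of_fullyRamified hχ hθ he h2 hg
  obtain ⟨γ, c, hγ, hc⟩ := fr_sylow_aux (isIrrCharacter_subgroupOf hZS hθ)
    (hχ.isCharacter.restrict S) (e := e) (by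
      funext n
      exact congrFun he ⟨_, n.2⟩) (fun g hg => hv g hg) hp hS
    (by rw [h2, ← hS, Subgroup.relIndex_mul_index hZS]) hSp
  refine ⟨γ, c, hγ, ?_, hc⟩
  have h3 := (classInner_res_eq_index_iff hχ S).mpr fun g hg => hv g fun h => hg (hZS h)
  rw [hc, classInner_smul_left, classInner_smul_right, hγ.classInner_self, mul_one,
    Complex.conj_natCast, ← pow_two] at h3
  exact_mod_cast h3

theorem fr_index_eq_relIndex {G : Type*} [Group G] [Finite G] {T S : Subgroup G}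
    (h : ∀ g, ∃ t ∈ T, ∃ s ∈ S, g = t * s) : T.index = T.relIndex S := by
  have h1 := CL.Grp.card_coe_mul_mul_card_inf T S
  have h2 : ((T : Set G) * S : Set G) = Set.univ := Set.eq_univ_of_forall fun g => by
    obtain ⟨t, ht, s, hs, rfl⟩ := h g
    exact Set.mul_mem_mul ht hs
  rw [h2, Nat.card_univ, ← T.card_mul_index, mul_assoc] at h1
  have h3 := Nat.eq_of_mul_eq_mul_left Nat.card_pos h1
  have h4 : Nat.card (T ⊓ S : Subgroup G) * T.relIndex S = Nat.card S := by
    rw [← Subgroup.inf_relIndex_right, Subgroup.relIndex, ← Nat.card_congr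
      (Subgroup.subgroupOfEquivOfLe (inf_le_right : T ⊓ S ≤ S)).toEquiv, Subgroup.card_mul_index]
  rw [← h4, mul_comm] at h3
  exact Nat.eq_of_mul_eq_mul_left Nat.card_pos h3

theorem fr_trans {G : Type*} [Group G] [Finite G] {R S K : Subgroup G} [R.Normal] [K.Normal]
    [Fintype R] (hRS : R ≤ S) (hRK : R ≤ K) {χ : G → ℂ} (hχ : IsClassFunction G χ) {γ : S → ℂ}
    (hγ : IsIrrCharacter S γ) {c : ℂ} (hc : (fun s : S => χ s) = c • γ) {η : R → ℂ}
    (hη : IsIrrCharacter R η) (h : classInner (fun n : R => χ n) η ≠ 0) {p b : ℕ} (hp : p.Prime)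
    (hS : R.relIndex S = p ^ b) (hK : ¬ p ∣ R.relIndex K) :
    K ≤ inertia R η ∧ ∀ g, ∃ s ∈ S, g * s⁻¹ ∈ inertia R η := by
  classical
  haveI := Fintype.ofFinite G
  haveI := Fintype.ofFinite S
  haveI := Fintype.ofFinite (R.subgroupOf S)
  have h1 : ∀ ξ : R → ℂ, classInner (fun n : R => χ n) ξ ≠ 0 →
      classInner (fun n : R.subgroupOf S => γ n)
        (fun x => ξ ⟨(x : S), Subgroup.mem_subgroupOf.mp x.2⟩) ≠ 0 := by
    intro ξ hξ h0
    rw [← classInner_subgroupOf hRS] at hξ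
    apply hξ
    have : (fun x : R.subgroupOf S => χ (x : S)) = c • fun n : R.subgroupOf S => γ n := by
      funext x; exact congrFun hc x
    change classInner (fun x : R.subgroupOf S => χ (x : S)) _ = 0
    rw [this, classInner_smul_left, h0, mul_zero]
  have h2 : ∀ g, ∃ s ∈ S, g * s⁻¹ ∈ inertia R η := by
    intro g
    obtain ⟨s, hs⟩ := exists_conjChar_eq_of_classInner_ne_zero hγ (isIrrCharacter_subgroupOf hRS hη)
      (isIrrCharacter_subgroupOf hRS (isIrrCharacter_conjChar hη g)) (h1 _ h)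
      (h1 _ (by rwa [classInner_res_conjChar hχ]))
    refine ⟨s, s.2, conjChar_eq_conjChar_iff.mp ?_⟩
    funext n
    exact (congrFun hs ⟨⟨n, hRS n.2⟩, n.2⟩).symm
  refine ⟨?_, h2⟩
  set T := inertia R η
  have hRT : R ≤ T := le_inertia hη.isClassFunction
  have h3 : T.index = T.relIndex S := fr_index_eq_relIndex fun g => by
    obtain ⟨s, hs, h⟩ := h2 g
    exact ⟨_, h, s, hs, by group⟩
  have h4 : T.index ∣ p ^ b := by
    rw [h3, ← hS]
    exact Subgroup.relIndex_dvd_of_le_left S hRT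
  have h5 : T.relIndex K ∣ T.index := by
    have h6 : T.relIndex K = T.relIndex (T ⊔ K) := by
      have := fr_index_eq_relIndex (T := T.subgroupOf (T ⊔ K)) (S := K.subgroupOf (T ⊔ K)) (by
        rintro ⟨g, hg⟩
        obtain ⟨t, ht, k, hk, rfl⟩ := Subgroup.mem_sup_of_normal_right.mp hg
        exact ⟨⟨t, Subgroup.mem_sup_left ht⟩, ht, ⟨k, Subgroup.mem_sup_right hk⟩, hk, rfl⟩)
      rw [Subgroup.relIndex_subgroupOf le_sup_right] at this
      exact this.symm
    rw [h6]
    exact Subgroup.relIndex_dvd_index_of_le le_sup_left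
  have h6 : T.relIndex K ∣ R.relIndex K := Subgroup.relIndex_dvd_of_le_left K hRT
  rw [← Subgroup.relIndex_eq_one]
  exact Nat.eq_one_of_dvd_coprimes
    (Nat.Coprime.pow_left b ((Nat.Prime.coprime_iff_not_dvd hp).mpr hK)) (h5.trans h4) h6

theorem fr_inertia_of_mult_one {S : Type*} [Group S] [Finite S] {R : Subgroup S} [R.Normal]
    [Fintype R] {γ : S → ℂ} (hγ : IsIrrCharacter S γ) (hv : ∀ g, g ∉ R → γ g = 0) {η : R → ℂ}
    (hη : IsIrrCharacter R η) (h : classInner (fun n : R => γ n) η = 1) : inertia R η ≤ R := by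
  haveI := Fintype.ofFinite S
  have h1 := clifford_norm hγ hη (e := 1) (by simpa using h) one_ne_zero
  rw [(classInner_res_eq_index_iff hγ R).mpr hv] at h1
  rw [Nat.cast_one, one_pow, one_mul] at h1
  have h2 : R.index = (inertia R η).index := by exact_mod_cast h1
  have h3 := Subgroup.relIndex_mul_index (le_inertia hη.isClassFunction : R ≤ inertia R η)
  rw [h2] at h3
  exact Subgroup.relIndex_eq_one.mp (Nat.eq_of_mul_eq_mul_right
    (Nat.pos_of_ne_zero Subgroup.index_ne_zero_of_finite) (h3.trans (one_mul _).symm))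

theorem fr_mult_one_of_isCyclic {S : Type*} [Group S] [Finite S] {R : Subgroup S} [R.Normal]
    [Fintype R] (hcyc : IsCyclic (S ⧸ R)) {γ : S → ℂ} (hγ : IsIrrCharacter S γ) {η : R → ℂ}
    (hη : IsIrrCharacter R η) (h : classInner (fun n : R => γ n) η ≠ 0) :
    classInner (fun n : R => γ n) η = 1 := by
  classical
  haveI := Fintype.ofFinite S
  set T := inertia R η with hT
  have hRT : R ≤ T := le_inertia hη.isClassFunction
  haveI := Fintype.ofFinite T
  haveI := Fintype.ofFinite (R.subgroupOf T)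
  obtain ⟨ψ, hψ, -, h2⟩ := clifford_corr_inertia_surj hη hT hRT hγ h
  have hcT : IsCyclic (T ⧸ R.subgroupOf T) := by
    have hinj : Function.Injective (QuotientGroup.map (R.subgroupOf T) R T.subtype le_rfl) := by
      rw [injective_iff_map_eq_one]
      intro q hq
      obtain ⟨t, rfl⟩ := QuotientGroup.mk_surjective q
      exact (QuotientGroup.eq_one_iff _).mpr ((QuotientGroup.eq_one_iff (t : S)).mp hq)
    exact isCyclic_of_injective _ hinj
  obtain ⟨ξ, hξ, hξη⟩ := exists_extension_of_isCyclic hcT (isIrrCharacter_subgroupOf hRT hη)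
    (fun g n => mem_inertia.mp g.2 ⟨_, n.2⟩)
  have hξN : (fun n : R.subgroupOf T => ξ n) =
      fun x : R.subgroupOf T => η ⟨(x : T), Subgroup.mem_subgroupOf.mp x.2⟩ := funext hξη
  have h3 : classInner (fun n : R.subgroupOf T => ψ n) (fun n : R.subgroupOf T => ξ n) =
      classInner (fun n : R => γ n) η := by
    rw [hξN, ← h2, ← classInner_subgroupOf hRT]
  have hirr : IsIrrCharacter _ (fun n : R.subgroupOf T => ξ n) := by
    rw [hξN]; exact isIrrCharacter_subgroupOf hRT hη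
  obtain ⟨β, hβ, hβk, rfl⟩ := gallagher_surj hξ.isCharacter hirr hψ (by rwa [h3])
  rw [← h3, classInner_res_mul_of_le_charKer hβk hirr, hβ.one_eq_one_iff]
  refine le_trans ?_ hβk
  letI := hcT.commGroup
  exact (Subgroup.Normal.quotient_commutative_iff_commutator_le).mp ⟨⟨mul_comm⟩⟩

theorem fr_relIndex_sylow {H : Type*} [Group H] [Finite H] (Z : Subgroup H) [Z.Normal] {p : ℕ}
    [hp : Fact p.Prime] (P : Sylow p H) : ∃ a, Z.relIndex ((P : Subgroup H) ⊔ Z) = p ^ a := by
  rw [Subgroup.relIndex_sup_right]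
  exact (IsPGroup.index (P.isPGroup') (Z.subgroupOf P))

theorem fr_complement {H : Type*} [Group H] [Finite H] {Z K : Subgroup H} [Z.Normal] [K.Normal]
    (hZK : Z ≤ K) {p : ℕ} [hp : Fact p.Prime] (P : Sylow p H) {S : Subgroup H}
    (hS : S = (P : Subgroup H) ⊔ Z) {χ : H → ℂ}
    (hχ : IsClassFunction H χ) {γ : S → ℂ} (hγ : IsIrrCharacter _ γ) {c : ℂ}
    (hc : (fun s : S => χ s) = c • γ) [Fintype (K.subgroupOf S)] {η : K.subgroupOf S → ℂ}
    (hη : IsIrrCharacter _ η) (h : classInner (fun n : K.subgroupOf S => χ (n : S)) η ≠ 0)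
    (hT : inertia _ η ≤ K.subgroupOf S) :
    ∃ M : Subgroup (H ⧸ K), M.IsComplement' ((P : Subgroup H).map (QuotientGroup.mk' K)) := by
  classical
  have hPS : (P : Subgroup H) ≤ S := hS ▸ le_sup_left
  have hZS : Z ≤ S := hS ▸ le_sup_right
  have hdec : ∀ s ∈ S, ∃ x ∈ (P : Subgroup H), ∃ z ∈ Z, x * z = s := fun s hs =>
    Subgroup.mem_sup_of_normal_right.mp (hS ▸ hs)
  set R := K ⊓ S with hR
  set N := Subgroup.normalizer (R : Set H) with hN
  have hSN : S ≤ N := by
    refine Subgroup.le_normalizer_iff.mpr fun s hs r hr => ?_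
    exact ⟨‹K.Normal›.conj_mem r hr.1 s, S.mul_mem (S.mul_mem hs hr.2) (S.inv_mem hs)⟩
  have hRN : R ≤ N := Subgroup.le_normalizer
  have hsyl := CL.Grp.isSylowIn_inf_normal P K
  have hKN : ∀ h : H, ∃ k ∈ K, ∃ n ∈ N, h = k * n := by
    intro h
    obtain ⟨k, hk, hkh⟩ := hsyl.frattini (H := ⊤) (by rw [Subgroup.normalizer_eq_top])
      (Subgroup.mem_top h)
    refine ⟨k⁻¹, K.inv_mem hk, k * h, ?_, by group⟩
    refine (Subgroup.le_normalizer_iff.mpr fun g hg r hr => ?_ :
      Subgroup.normalizer (((P : Subgroup H) ⊓ K : Subgroup H) : Set H) ≤ N) hkh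
    refine ⟨‹K.Normal›.conj_mem r hr.1 g, ?_⟩
    obtain ⟨x, hx, z, hz, rfl⟩ := hdec _ hr.2
    have hxK : x ∈ K := by simpa using K.mul_mem hr.1 (K.inv_mem (hZK hz))
    have h1 := (Subgroup.mem_normalizer_iff.mp hg x).mp ⟨hx, hxK⟩
    have : g * (x * z) * g⁻¹ = g * x * g⁻¹ * (g * z * g⁻¹) := by group
    rw [this]
    exact S.mul_mem (hPS h1.1) (hZS (‹Z.Normal›.conj_mem z hz g))
  haveI : (R.subgroupOf N).Normal := Subgroup.normal_in_normalizer
  haveI := Fintype.ofFinite (R.subgroupOf N)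
  let e : R.subgroupOf N ≃* K.subgroupOf S :=
    { toFun := fun x => ⟨⟨(x : N), x.2.2⟩, x.2.1⟩
      invFun := fun x => ⟨⟨(x : S), hSN (x : S).2⟩, x.2, (x : S).2⟩
      left_inv := fun _ => rfl
      right_inv := fun _ => rfl
      map_mul' := fun _ _ => rfl }
  have hZR : Z ≤ R := le_inf hZK hZS
  obtain ⟨a, ha⟩ : ∃ a, Z.relIndex S = p ^ a := hS ▸ fr_relIndex_sylow Z P
  obtain ⟨b, -, hb⟩ := (Nat.dvd_prime_pow hp.out).mp
    (ha ▸ Subgroup.relIndex_dvd_of_le_left S hZR)
  obtain ⟨h1, h2⟩ := fr_trans (R := R.subgroupOf N) (S := S.subgroupOf N) (K := K.subgroupOf N)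
    (Subgroup.subgroupOf_mono N inf_le_right) (Subgroup.subgroupOf_mono N inf_le_left)
    (hχ.restrict N) (hγ.comp_mulEquiv (Subgroup.subgroupOfEquivOfLe hSN)) (c := c)
    (by funext s; exact congrFun hc ⟨_, s.2⟩) (hη.comp_mulEquiv e)
    (by rw [← classInner_comp_mulEquiv e] at h; exact h) hp.out (b := b)
    (by rw [Subgroup.relIndex_subgroupOf hSN, hb]) (by
      rw [← Subgroup.inf_subgroupOf_right K N, Subgroup.relIndex_subgroupOf inf_le_right]
      intro hd
      have h3 : (P : Subgroup H) ⊓ K ≤ R := le_inf inf_le_right (inf_le_left.trans hPS)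
      exact (hsyl.of_le (le_inf inf_le_right (h3.trans hRN)) inf_le_left).not_dvd
        (hd.trans (Subgroup.relIndex_dvd_of_le_left _ h3)))
  set T := inertia (R.subgroupOf N) (fun x => η (e x))
  refine ⟨(T.map N.subtype).map (QuotientGroup.mk' K),
    Subgroup.isComplement'_of_disjoint_and_mul_eq_univ ?_ ?_⟩
  · rw [Subgroup.disjoint_def]
    rintro _ ⟨_, ⟨t, ht, rfl⟩, rfl⟩ ⟨x, hx, e1⟩
    have hxS : x ∈ S := hPS hx
    have h3 : x⁻¹ * t ∈ K := QuotientGroup.eq.mp e1
    have h4 : (⟨x, hSN hxS⟩ : N) ∈ T := by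
      have := T.mul_mem ht (T.inv_mem (h1 (x := ⟨x⁻¹ * t, N.mul_mem (N.inv_mem (hSN hxS)) t.2⟩) h3))
      convert this using 1
      ext; simp
    have h5 : (⟨x, hxS⟩ : S) ∈ inertia _ η := by
      rw [mem_inertia] at h4 ⊢
      intro n
      exact h4 (e.symm n)
    rw [← e1]
    exact (QuotientGroup.eq_one_iff x).mpr (hT h5)
  · rw [Set.eq_univ_iff_forall]
    intro q
    obtain ⟨g, rfl⟩ := QuotientGroup.mk_surjective q
    obtain ⟨k, hk, n, hn, rfl⟩ := hKN g
    obtain ⟨s, hs, hs'⟩ := h2 ⟨n, hn⟩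
    obtain ⟨x, hx, z, hz, e1⟩ := hdec _ hs
    refine ⟨_, ⟨_, ⟨_, hs', rfl⟩, rfl⟩, _, ⟨x, hx, rfl⟩, ?_⟩
    have e2 : ((s : H) : H ⧸ K) = x := by
      change ((N.subtype s : H) : H ⧸ K) = x
      rw [← e1, QuotientGroup.mk_mul, (QuotientGroup.eq_one_iff z).mpr (hZK hz), mul_one]
    simp [(QuotientGroup.eq_one_iff k).mpr hk, e2]

theorem fr_complement_of_isCyclic {H : Type*} [Group H] [Finite H] {Z : Subgroup H} [Z.Normal]
    {θ : Z → ℂ} (hθ : IsIrrCharacter Z θ) {χ : H → ℂ} (hχ : IsIrrCharacter H χ) {e : ℕ}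
    (he : (fun n : Z => χ n) = (e : ℂ) • θ) (h2 : e ^ 2 = Z.index) (K : Subgroup H) [K.Normal]
    (hZK : Z ≤ K) (p : ℕ) [hp : Fact p.Prime] (P : Sylow p (H ⧸ K)) (hcyc : IsCyclic P) :
    ∃ M : Subgroup (H ⧸ K), M.IsComplement' (P : Subgroup (H ⧸ K)) := by
  classical
  haveI := Fintype.ofFinite H
  haveI := Fintype.ofFinite Z
  obtain ⟨Q, rfl⟩ := Sylow.mapSurjective_surjective (QuotientGroup.mk'_surjective K) p P
  obtain ⟨S, hS⟩ : ∃ S, S = (Q : Subgroup H) ⊔ Z := ⟨_, rfl⟩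
  obtain ⟨a, ha⟩ : ∃ a, Z.relIndex S = p ^ a := hS ▸ fr_relIndex_sylow Z Q
  have hSp : ¬ p ∣ S.index := fun h =>
    Q.not_dvd_index (h.trans (Subgroup.index_dvd_of_le (hS ▸ le_sup_left)))
  obtain ⟨γ, c, hγ, hc1, hc⟩ := fr_sylow hθ hχ he h2 hp.out (hS ▸ le_sup_right) ha hSp
  have hc0 : (c : ℂ) ≠ 0 := by
    have : c ≠ 0 := by
      rintro rfl
      exact S.index_ne_zero_of_finite (by simpa using hc1.symm)
    exact_mod_cast this
  haveI := Fintype.ofFinite S
  haveI := Fintype.ofFinite (K.subgroupOf S)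
  obtain ⟨η, hη, h3⟩ := exists_irr_constituent_restrict (K.subgroupOf S) hγ
  have hcy : IsCyclic (S ⧸ K.subgroupOf S) := by
    let f : S →* (Q.mapSurjective (QuotientGroup.mk'_surjective K) : Subgroup (H ⧸ K)) :=
      ((QuotientGroup.mk' K).comp S.subtype).codRestrict _ (by
        rintro ⟨s, hs⟩
        obtain ⟨x, hx, z, hz, rfl⟩ := Subgroup.mem_sup_of_normal_right.mp (hS ▸ hs)
        exact ⟨x, hx, by simp [(QuotientGroup.eq_one_iff z).mpr (hZK hz)]⟩)
    have hk : ∀ s ∈ K.subgroupOf S, f s = 1 := fun s hs =>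
      Subtype.ext ((QuotientGroup.eq_one_iff (s : H)).mpr hs)
    refine isCyclic_of_injective (QuotientGroup.lift _ f hk) ?_
    rw [injective_iff_map_eq_one]
    intro q hq
    obtain ⟨t, rfl⟩ := QuotientGroup.mk_surjective q
    exact (QuotientGroup.eq_one_iff _).mpr
      ((QuotientGroup.eq_one_iff (t : H)).mp (congrArg Subtype.val hq))
  have hv : ∀ g, g ∉ K.subgroupOf S → γ g = 0 := fun g hg => by
    have h4 := (congrFun hc g).symm.trans
      (vanish_of_fullyRamified hχ hθ he h2 fun h => hg (hZK h))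
    exact (mul_eq_zero.mp h4).resolve_left hc0
  refine fr_complement hZK Q hS hχ.isClassFunction hγ hc hη ?_
    (fr_inertia_of_mult_one hγ hv hη (fr_mult_one_of_isCyclic hcy hγ hη h3))
  have : (fun n : K.subgroupOf S => χ (n : S)) = (c : ℂ) • fun n : K.subgroupOf S => γ n := by
    funext x; exact congrFun hc x
  rw [this, classInner_smul_left]
  exact mul_ne_zero hc0 h3

theorem fr_solvable_of_induced {H : Type*} [Group H] [Fintype H] {Z : Subgroup H} [Z.Normal]
    {θ : Z → ℂ} (hθ : IsIrrCharacter Z θ) {χ : H → ℂ} (hχ : IsIrrCharacter H χ) {e : ℕ}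
    (he : (fun n : Z => χ n) = (e : ℂ) • θ) (h2 : e ^ 2 = Z.index) (K : Subgroup H) [K.Normal]
    (hZK : Z ≤ K) {φ : K → ℂ} (hφ : IsCharacter K φ) (hind : indFun K φ = χ) :
    Group.IsSolvable (H ⧸ K) := by
  classical
  haveI := Fintype.ofFinite Z
  haveI := Fintype.ofFinite K
  refine CL.Grp.isSolvable_of_forall_exists_hall_compl fun p hp' => ?_
  haveI hp : Fact p.Prime := ⟨hp'⟩
  obtain ⟨Q⟩ : Nonempty (Sylow p H) := inferInstance
  suffices h : ∃ M : Subgroup (H ⧸ K),
      M.IsComplement' ((Q : Subgroup H).map (QuotientGroup.mk' K)) by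
    obtain ⟨M, hM⟩ := h
    refine ⟨M, (CL.Grp.isPiHall_compl_singleton_iff_index hp').mpr ?_⟩
    rw [hM.symm.index_eq_card]
    exact (Q.mapSurjective (QuotientGroup.mk'_surjective K)).card_eq_multiplicity
  obtain ⟨S, hS⟩ : ∃ S, S = (Q : Subgroup H) ⊔ Z := ⟨_, rfl⟩
  obtain ⟨a, ha⟩ : ∃ a, Z.relIndex S = p ^ a := hS ▸ fr_relIndex_sylow Z Q
  have hSp : ¬ p ∣ S.index := fun h =>
    Q.not_dvd_index (h.trans (Subgroup.index_dvd_of_le (hS ▸ le_sup_left)))
  obtain ⟨γ, c, hγ, hc1, hc⟩ := fr_sylow hθ hχ he h2 hp.out (hS ▸ le_sup_right) ha hSp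
  have hc0' : c ≠ 0 := by
    rintro rfl
    exact S.index_ne_zero_of_finite (by simpa using hc1.symm)
  have hc0 : (c : ℂ) ≠ 0 := by exact_mod_cast hc0'
  haveI := Fintype.ofFinite S
  set R := K.subgroupOf S with hR
  haveI := Fintype.ofFinite R
  obtain ⟨η, hη, h3⟩ := exists_irr_constituent_restrict R hγ
  have hv : ∀ g, g ∉ R → γ g = 0 := fun g hg => by
    have h4 := (congrFun hc g).symm.trans
      (vanish_of_fullyRamified hχ hθ he h2 fun h => hg (hZK h))
    exact (mul_eq_zero.mp h4).resolve_left hc0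
  have hres : (fun n : R => χ (n : S)) = (c : ℂ) • fun n : R => γ n := by
    funext x; exact congrFun hc x
  refine fr_complement hZK Q hS hχ.isClassFunction hγ hc hη ?_ (fr_inertia_of_mult_one hγ hv hη ?_)
  · rw [hres, classInner_smul_left]
    exact mul_ne_zero hc0 h3
  obtain ⟨f, hf⟩ := (hγ.isCharacter.restrict R).exists_nat_classInner hη.isCharacter
  have hf0 : f ≠ 0 := by rintro rfl; exact h3 (by simpa using hf)
  have h4 := clifford_norm hγ hη hf hf0
  rw [(classInner_res_eq_index_iff hγ R).mpr hv] at h4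
  have h5 : R.index = f ^ 2 * (inertia R η).index := by exact_mod_cast h4
  have h6 := clifford_degree hγ hη h3
  rw [hf] at h6
  let ι : R →* K := (S.subtype.comp R.subtype).codRestrict K fun x => x.2
  have hφ0 : φ ≠ 0 := by
    rintro rfl
    rw [indFun_zero] at hind
    exact hχ.ne_zero hind.symm
  obtain ⟨β, hβ, hKβ⟩ : ∃ β, IsCharacter K β ∧ (fun k : K => χ k) = φ + β := by
    have h7 : IsIrrCharacter K φ := by
      obtain ⟨ξ, hξ, h8⟩ := exists_irr_constituent hφ hφ0
      obtain ⟨δ, hδ, rfl⟩ := exists_char_eq_add_of_classInner_ne_zero hφ hξ h8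
      rw [indFun_add] at hind
      have h9 := eq_smul_of_add_eq_smul (isCharacter_indFun hξ.isCharacter) (isCharacter_indFun hδ)
        hχ (c := 1) (by rw [hind, one_smul])
      obtain ⟨m, hm⟩ := (isCharacter_indFun hξ.isCharacter).exists_nat_classInner hχ.isCharacter
      obtain ⟨m', hm'⟩ := (isCharacter_indFun hδ).exists_nat_classInner hχ.isCharacter
      have h10 : m + m' = 1 := by
        have := congrArg (classInner · χ) hind
        simp only [classInner_add_left, hm, hm', hχ.classInner_self] at this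
        exact_mod_cast this
      have hi0 : (K.index : ℂ) ≠ 0 := by exact_mod_cast K.index_ne_zero_of_finite
      have h11 : m ≠ 0 := by
        rintro rfl
        have := congrFun h9 1
        rw [hm, indFun_one] at this
        simp [hi0, hξ.one_ne_zero] at this
      have h12 : m = 1 := by omega
      rw [hm, h12, Nat.cast_one, one_smul] at h9
      rw [h9, add_eq_left] at hind
      have := congrFun hind 1
      rw [indFun_one, Pi.zero_apply, mul_eq_zero] at this
      rw [char_eq_zero_of_one_eq_zero hδ (this.resolve_left hi0), add_zero]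
      exact hξ
    refine exists_char_eq_add_of_classInner_ne_zero (hχ.isCharacter.restrict K) h7 ?_
    rw [← frobenius_reciprocity' φ hχ.isClassFunction, hind, hχ.classInner_self]
    exact one_ne_zero
  obtain ⟨m, hm, hm'⟩ := (hφ.comp ι).exists_eq_sum_nat
  have h7 : φ 1 = (∑ ξ, m ξ : ℕ) * η 1 := by
    have := congrFun hm' 1
    rw [map_one, Finset.sum_apply] at this
    rw [this, Nat.cast_sum, Finset.sum_mul]
    refine Finset.sum_congr rfl fun ξ _ => ?_
    rw [Pi.smul_apply, smul_eq_mul]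
    by_cases h0 : m ξ = 0
    · simp [h0]
    · congr 1
      refine apply_one_of_mem_conjOrbit (mem_conjOrbit_of_classInner_ne_zero hγ hη ξ.2 h3 ?_)
      intro h8
      have h9 : (fun n : R => χ (n : S)) = (fun n => φ (ι n)) + fun n => β (ι n) := by
        funext n; exact congrFun hKβ (ι n)
      refine classInner_ne_zero_of_add_left (hφ.comp ι) (hβ.comp ι) ξ.2.isCharacter
        (by rw [hm]; exact_mod_cast h0) ?_
      rw [← h9, hres, classInner_smul_left, h8, mul_zero]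
  have h8 : c * f * (inertia R η).index = K.index * ∑ ξ, m ξ := by
    have h9 := congrFun hc 1
    have h10 := congrFun hind 1
    rw [indFun_one, h7] at h10
    simp only [OneMemClass.coe_one, Pi.smul_apply, smul_eq_mul] at h9
    rw [h6, ← h10] at h9
    have := mul_right_cancel₀ hη.one_ne_zero
      ((by rw [← mul_assoc] at h9; rw [Nat.cast_mul, h9]; push_cast; ring) :
        ((K.index * ∑ ξ, m ξ : ℕ) : ℂ) * η 1 = (c * f * (inertia R η).index : ℕ) * η 1)
    exact_mod_cast this.symm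
  have h9 : R.index ∣ K.index := Subgroup.relIndex_dvd_index_of_normal K S
  have h10 : f ∣ c := by
    have := h9.trans (Dvd.intro _ h8.symm)
    rw [h5, pow_two, mul_assoc, mul_assoc] at this
    exact Nat.dvd_of_mul_dvd_mul_right
      (Nat.pos_of_ne_zero (mul_ne_zero hf0 Subgroup.index_ne_zero_of_finite)) this
  have h11 : f ∣ p ^ a := by
    rw [← ha]
    exact ((dvd_pow_self f two_ne_zero).trans (Dvd.intro _ h5.symm)).trans
      (Subgroup.relIndex_dvd_of_le_left S hZK)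
  have h12 : f = 1 := Nat.eq_one_of_dvd_coprimes
    (Nat.Coprime.pow_left a ((Nat.Prime.coprime_iff_not_dvd hp.out).mpr hSp)) h11
    (hc1 ▸ h10.trans (dvd_pow_self c two_ne_zero))
  rw [hf, h12, Nat.cast_one]

theorem fr_centralizer_ne {H : Type*} [Group H] [Finite H] {Z : Subgroup H} [hZn : Z.Normal]
    {θ : Z → ℂ} (hθ : IsIrrCharacter Z θ) {χ : H → ℂ} (hχ : IsIrrCharacter H χ) {e : ℕ}
    (he : (fun n : Z => χ n) = (e : ℂ) • θ) (h2 : e ^ 2 = Z.index) (hZ : Z ≠ ⊤)
    (C : Subgroup (H ⧸ Z)) (hC : IsCyclic C) : Subgroup.centralizer (C : Set (H ⧸ Z)) ≠ C := by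
  classical
  intro hself
  haveI := Fintype.ofFinite H
  haveI := Fintype.ofFinite Z
  obtain ⟨q, hq⟩ := (Subgroup.isCyclic_iff_exists_zpowers_eq_top C).mp hC
  obtain ⟨c, rfl⟩ := QuotientGroup.mk_surjective q
  subst hq
  have hcZ : c ∉ Z := by
    intro h
    rw [(QuotientGroup.eq_one_iff c).mpr h, Subgroup.zpowers_one_eq_bot] at hself
    apply hZ
    rw [eq_top_iff]
    intro x _
    rw [← QuotientGroup.eq_one_iff, ← Subgroup.mem_bot, ← hself]
    intro y hy
    rw [Subgroup.mem_bot.mp hy, one_mul, mul_one]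
  set T := (Subgroup.zpowers (c : H ⧸ Z)).comap (QuotientGroup.mk' Z) with hT
  have hZT : Z ≤ T := fun z hz => by
    change (z : H ⧸ Z) ∈ Subgroup.zpowers _
    rw [(QuotientGroup.eq_one_iff z).mpr hz]; exact Subgroup.one_mem _
  have hcT : c ∈ T := Subgroup.mem_zpowers (c : H ⧸ Z)
  haveI := Fintype.ofFinite T
  haveI := Fintype.ofFinite (Z.subgroupOf T)
  have he0 : (e : ℂ) ≠ 0 := by
    have : e ≠ 0 := by
      rintro rfl
      exact Z.index_ne_zero_of_finite (by simpa using h2.symm)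
    exact_mod_cast this
  have hinv := invariant_of_res_eq_smul hχ.isClassFunction he0 he
  have hcy : IsCyclic (T ⧸ Z.subgroupOf T) := by
    let f : T →* Subgroup.zpowers (c : H ⧸ Z) :=
      ((QuotientGroup.mk' Z).comp T.subtype).codRestrict _ fun t => t.2
    have hk : ∀ s ∈ Z.subgroupOf T, f s = 1 := fun s hs =>
      Subtype.ext ((QuotientGroup.eq_one_iff (s : H)).mpr hs)
    refine isCyclic_of_injective (QuotientGroup.lift _ f hk) ?_
    rw [injective_iff_map_eq_one]
    intro q hq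
    obtain ⟨t, rfl⟩ := QuotientGroup.mk_surjective q
    exact (QuotientGroup.eq_one_iff _).mpr
      ((QuotientGroup.eq_one_iff (t : H)).mp (congrArg Subtype.val hq))
  obtain ⟨ψ, hψ, hψθ⟩ := exists_extension_of_isCyclic hcy (isIrrCharacter_subgroupOf hZT hθ)
    (fun g n => hinv g ⟨_, n.2⟩)
  have hψN : (fun n : Z.subgroupOf T => ψ n) =
      fun x : Z.subgroupOf T => θ ⟨(x : T), Subgroup.mem_subgroupOf.mp x.2⟩ := funext hψθ
  have hirr : IsIrrCharacter _ (fun n : Z.subgroupOf T => ψ n) := by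
    rw [hψN]; exact isIrrCharacter_subgroupOf hZT hθ
  have h1 : ∀ ξ : IrrCharacter H, ∑ n : Z.subgroupOf T, (ξ : H → ℂ) ((n : T) * c) *
      conj (ψ (n * ⟨c, hcT⟩)) = 0 := by
    intro ξ
    by_cases hξ : (ξ : H → ℂ) = χ
    · refine Finset.sum_eq_zero fun n _ => ?_
      rw [hξ, vanish_of_fullyRamified hχ hθ he h2, zero_mul]
      exact fun h => hcZ ((Z.mul_mem_cancel_left n.2).mp h)
    · have h3 := isCharacter_cosetAvg (N := Z.subgroupOf T)
        ((ξ.2.isCharacter.restrict T).mul hψ.isCharacter.conj)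
      have h4 := char_eq_zero_of_one_eq_zero h3 (by
        rw [cosetAvg_mul_conj_one, hψN]
        refine (classInner_subgroupOf hZT (fun n : Z => (ξ : H → ℂ) n) θ).trans ?_
        rw [← classInner_indFun_eq_res hθ.isCharacter ξ.2.isCharacter,
          indFun_eq_smul_of_fullyRamified hχ hθ he h2, classInner_smul_left,
          hχ.classInner_of_ne ξ.2 (Ne.symm hξ), mul_zero])
      have h5 := congrFun h4 ⟨c, hcT⟩
      rw [cosetAvg_apply, Pi.zero_apply, mul_eq_zero] at h5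
      exact h5.resolve_left (inv_ne_zero natCard_ne_zero)
  let f : T → ℂ := fun t => if (t : H) * c⁻¹ ∈ Z then ψ t else 0
  have h3 : ∀ n : Z.subgroupOf T, indFun T f ((n : T) * c) = ψ (n * ⟨c, hcT⟩) := by
    intro n
    have hn : ((n : T) : H) ∈ Z := n.2
    have h4 : ∀ x : H, extendByZero T f (x * ((n : T) * c) * x⁻¹) =
        if x ∈ T then ψ (n * ⟨c, hcT⟩) else 0 := by
      intro x
      have e1 : ((x * ((n : T) * c) * x⁻¹ * c⁻¹ : H) : H ⧸ Z) = x * c * (x : H ⧸ Z)⁻¹ * (c : H ⧸ Z)⁻¹ := by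
        simp [(QuotientGroup.eq_one_iff _).mpr hn]
      split_ifs with hx
      · have hm : x * ((n : T) * c) * x⁻¹ ∈ T :=
          T.mul_mem (T.mul_mem hx (T.mul_mem (n : T).2 hcT)) (T.inv_mem hx)
        rw [extendByZero_of_mem f hm]
        have h5 : x * ((n : T) * c) * x⁻¹ * c⁻¹ ∈ Z := by
          obtain ⟨k, hk⟩ := hx
          rw [← QuotientGroup.eq_one_iff, e1, show (x : H ⧸ Z) = (c : H ⧸ Z) ^ k from hk.symm]
          group
        simp only [f, h5, if_true]
        exact hψ.isClassFunction (n * ⟨c, hcT⟩) ⟨x, hx⟩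
      · rw [extendByZero_eq_dite]
        split_ifs with hm
        · refine if_neg fun h5 => hx ?_
          rw [← QuotientGroup.eq_one_iff, e1, mul_inv_eq_one, mul_inv_eq_iff_eq_mul] at h5
          change (x : H ⧸ Z) ∈ Subgroup.zpowers _
          rw [← hself]
          rintro _ ⟨k, rfl⟩
          exact (Commute.zpow_right h5 k).eq.symm
        · rfl
    rw [indFun_apply', Finset.sum_congr rfl fun x _ => h4 x, ← Finset.sum_filter, Finset.sum_const,
      ← Fintype.card_subtype, ← Nat.card_eq_fintype_card, nsmul_eq_mul, ← mul_assoc,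
      inv_mul_cancel₀ natCard_ne_zero, one_mul]
  have h4 := sum_coset_mul_conj hψ.isCharacter hirr ⟨c, hcT⟩
  have h5 : ∑ n : Z.subgroupOf T, indFun T f ((n : T) * c) * conj (ψ (n * ⟨c, hcT⟩)) = 0 := by
    simp only [(indFun_isClassFunction f).apply_eq_sum_irr, Finset.sum_mul, mul_assoc]
    rw [Finset.sum_comm]
    refine Finset.sum_eq_zero fun ξ _ => ?_
    rw [← Finset.mul_sum, h1, mul_zero]
  simp only [h3] at h5
  exact natCard_ne_zero (h4.symm.trans h5)

theorem fr_dvd_of_norm_one {C : Type*} [Group C] [Finite C] (hC : ∀ a b : C, a * b = b * a)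
    (h1 : 1 < Nat.card C) {β : C → ℂ} (hβ : IsCharacter C β) {e : ℕ} (he : β 1 = e)
    (h : ∀ c, c ≠ 1 → β c * conj (β c) = 1) :
    (Nat.card C : ℤ) ∣ (e : ℤ) - 1 ∨ (Nat.card C : ℤ) ∣ (e : ℤ) + 1 := by
  classical
  haveI := Fintype.ofFinite C
  set s := Nat.card C with hs
  have hη := hβ.isGeneralizedCharacter.sub
    ((isCharacter_regChar (G := C)).isGeneralizedCharacter.natCast_smul (e / s))
  set η := β - ((e / s : ℕ) : ℂ) • regChar C with hηd
  obtain ⟨m, hm, hm'⟩ := hη.exists_eq_sum_int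
  have h2 : η 1 = (e % s : ℕ) := by
    rw [hηd, Pi.sub_apply, Pi.smul_apply, regChar_one, he, smul_eq_mul, sub_eq_iff_eq_add, ← hs]
    exact_mod_cast (Nat.mod_add_div' e s).symm
  have h3 : (∑ ξ, m ξ : ℤ) = (e % s : ℕ) := by
    have := congrFun hm' 1
    rw [h2, Finset.sum_apply] at this
    simp only [Pi.smul_apply, (comm_iff_forall_irr_one_eq_one.mp hC _), smul_eq_mul,
      mul_one] at this
    apply Int.cast_injective (α := ℂ)
    rw [Int.cast_sum, Int.cast_natCast, this]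
  have h4 := classInner_self_eq_sum_sq hη.isClassFunction m hm
  rw [classInner_def, ← Finset.add_sum_erase _ _ (Finset.mem_univ 1), h2,
    Finset.sum_congr rfl (g := fun _ => 1) (fun c hc => by
      have hc1 := Finset.ne_of_mem_erase hc
      rw [hηd, Pi.sub_apply, Pi.smul_apply, regChar_of_ne_one hc1, smul_zero, sub_zero, h c hc1]),
    Finset.sum_const, Finset.card_erase_of_mem (Finset.mem_univ _), Finset.card_univ,
    ← Nat.card_eq_fintype_card, ← hs, inv_mul_eq_iff_eq_mul₀ natCard_ne_zero,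
    Complex.conj_natCast, nsmul_eq_mul, mul_one, Nat.cast_sub h1.le] at h4
  have h5 : ((e % s : ℕ) : ℤ) * (e % s : ℕ) + (s - 1) = s * ∑ ξ, m ξ ^ 2 := by
    apply Int.cast_injective (α := ℂ)
    rw [Int.cast_add, Int.cast_mul, Int.cast_natCast, Int.cast_sub, Int.cast_natCast, Int.cast_mul,
      Int.cast_natCast, ← h4, Int.cast_one, Nat.cast_one]
  have h6 : ∑ ξ, m ξ ≤ ∑ ξ, m ξ ^ 2 := Finset.sum_le_sum fun ξ _ => Int.le_self_sq _
  have h7 : e % s < s := Nat.mod_lt _ (by omega)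
  have h8 : (e : ℤ) = (e % s : ℕ) + s * (e / s : ℕ) := by exact_mod_cast (Nat.mod_add_div e s).symm
  rw [h3] at h6
  generalize e % s = r at h5 h6 h7 h8
  generalize ∑ ξ, m ξ ^ 2 = M at h5 h6
  have hs1 : (1 : ℤ) < s := by exact_mod_cast h1
  have h7' : (r : ℤ) < s := by exact_mod_cast h7
  rcases Nat.eq_zero_or_pos r with rfl | hr
  · exfalso
    have : (s : ℤ) ∣ 1 := ⟨1 - M, by simp at h5; linarith⟩
    have := Int.le_of_dvd one_pos this
    omega
  · by_cases hr1 : r = 1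
    · left; exact ⟨(e / s : ℕ), by rw [h8, hr1]; push_cast; ring⟩
    · right
      have hr2 : (2 : ℤ) ≤ r := by omega
      have : (r : ℤ) + 1 = s := by nlinarith
      exact ⟨(e / s : ℕ) + 1, by rw [h8]; linarith⟩

theorem fr_frobenius_dvd {Γ : Type*} [Group Γ] [Fintype Γ] (G N : Subgroup Γ) [hG : G.Normal]
    [hN : N.Normal] [Fintype G] (hNG : N ≤ G) (hGlt : G ≠ ⊤) (hcyc : IsCyclic (Γ ⧸ G))
    (hfrob : ∀ x : Γ, x ∉ G → ∀ g : Γ, g ∈ G → x * g * x⁻¹ * g⁻¹ ∈ N → g ∈ N) {θ : N → ℂ}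
    (hθ : IsIrrCharacter N θ)
    (hinv : ∀ (x : Γ) (n : N), θ ⟨x * n * x⁻¹, hN.conj_mem n n.2 x⟩ = θ n) {χ : G → ℂ}
    (hχ : IsIrrCharacter G χ) {e : ℕ}
    (hram : indFun (N.subgroupOf G) (fun n : N.subgroupOf G => θ ⟨(n : G), n.2⟩) =
      fun g => (e : ℂ) * χ g) :
    (G.index : ℤ) ∣ (e : ℤ) - 1 ∨ (G.index : ℤ) ∣ (e : ℤ) + 1 := by
  classical
  haveI := Fintype.ofFinite N
  haveI := Fintype.ofFinite (N.subgroupOf G)
  have hθ' := isIrrCharacter_subgroupOf hNG hθ
  have hinv' : ∀ (g : G) (n : N.subgroupOf G),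
      (fun n : N.subgroupOf G => θ ⟨(n : G), n.2⟩) ⟨g * n * g⁻¹,
        (inferInstance : (N.subgroupOf G).Normal).conj_mem n n.2 g⟩ = θ ⟨(n : G), n.2⟩ :=
    fun g n => hinv g ⟨_, n.2⟩
  have h1 : ((N.subgroupOf G).index : ℂ) = e * e := by
    have := classInner_indFun_normal_self hθ'
    rw [inertia_eq_top_iff.mpr hinv', Subgroup.relIndex_top_right] at this
    rw [← this]
    change classInner (indFun (N.subgroupOf G) (fun n : N.subgroupOf G => θ ⟨(n : G), n.2⟩))
      (indFun (N.subgroupOf G) (fun n : N.subgroupOf G => θ ⟨(n : G), n.2⟩)) = _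
    rw [hram]
    change classInner ((e : ℂ) • χ) ((e : ℂ) • χ) = _
    rw [classInner_smul_left, classInner_smul_right, hχ.classInner_self, mul_one,
      Complex.conj_natCast]
  have he0 : (e : ℂ) ≠ 0 := by
    intro h
    rw [h, mul_zero] at h1
    exact (N.subgroupOf G).index_ne_zero_of_finite (by exact_mod_cast h1)
  have h2 : ∀ (g : G) (hg : (g : Γ) ∈ N), χ g = e * θ ⟨g, hg⟩ := by
    intro g hg
    have h3 := congrFun (res_indFun_of_invariant (N := N.subgroupOf G)
      (θ := fun n : N.subgroupOf G => θ ⟨(n : G), n.2⟩) hinv') ⟨g, hg⟩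
    rw [hram, h1] at h3
    simp only [Pi.smul_apply, smul_eq_mul, mul_assoc] at h3
    exact mul_left_cancel₀ he0 h3
  have h3 : ∀ (g : G), (g : Γ) ∉ N → χ g = 0 := by
    intro g hg
    have h4 := congrFun hram g
    rw [indFun_eq_zero_of_not_mem (H := N.subgroupOf G) _ hg] at h4
    exact (mul_eq_zero.mp h4.symm).resolve_left he0
  obtain ⟨ψ, hψ, hψχ⟩ := exists_extension_of_isCyclic hcyc hχ (fun x g => by
    by_cases hg : (g : Γ) ∈ N
    · rw [h2 g hg, h2 _ (hN.conj_mem _ hg x)]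
      exact congrArg _ (hinv x ⟨g, hg⟩)
    · rw [h3 g hg, h3]
      intro h
      exact hg (by simpa [mul_assoc] using hN.conj_mem _ h x⁻¹))
  have hψG : IsIrrCharacter G fun g : G => ψ g := by rw [funext hψχ]; exact hχ
  have hA := isCharacter_cosetAvg (N := N) (hψ.isCharacter.mul hψ.isCharacter.conj)
  set A := cosetAvg N (ψ * fun g => conj (ψ g)) with hAd
  have h4 : ∀ y, y ∉ G → A y = 1 := by
    intro y hy
    have hm : ∀ a : G, (a : Γ) * y * (a : Γ)⁻¹ * y⁻¹ ∈ G := fun a => by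
      have := G.mul_mem a.2 (hG.conj_mem _ (G.inv_mem a.2) y)
      simpa [mul_assoc] using this
    let σ : G ⧸ N.subgroupOf G → G ⧸ N.subgroupOf G := fun q => (⟨_, hm q.out⟩ : G)
    have hσ : Function.Injective σ := by
      intro q r h
      have h5 : ((q.out : Γ) * y * (q.out : Γ)⁻¹ * y⁻¹)⁻¹ *
          ((r.out : Γ) * y * (r.out : Γ)⁻¹ * y⁻¹) ∈ N :=
        (QuotientGroup.eq (s := N.subgroupOf G)).mp h
      rw [← QuotientGroup.out_eq' q, ← QuotientGroup.out_eq' r, QuotientGroup.eq]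
      refine hfrob y⁻¹ (fun h => hy (by simpa using G.inv_mem h)) _ (q.out⁻¹ * r.out).2 ?_
      have := hN.conj_mem _ h5 ((q.out : Γ)⁻¹ * y⁻¹)
      change y⁻¹ * ((q.out : Γ)⁻¹ * r.out) * y⁻¹⁻¹ * ((q.out : Γ)⁻¹ * r.out)⁻¹ ∈ N
      convert this using 1
      group
    have h5 : ∀ g : G, A (g * y) = A y := by
      intro g
      obtain ⟨q, hq⟩ := Finite.injective_iff_surjective.mp hσ g
      have h6 : ((q.out : Γ) * y * (q.out : Γ)⁻¹ * y⁻¹)⁻¹ * g ∈ N :=
        (QuotientGroup.eq (s := N.subgroupOf G)).mp hq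
      have h7 := hN.conj_mem _ h6 ((q.out : Γ) * y * (q.out : Γ)⁻¹ * y⁻¹)
      have h8 : _ ∈ charKer A := le_charKer_cosetAvg (ψ * fun g => conj (ψ g)) h7
      rw [← hA.isClassFunction y q.out,
        ← apply_mul_of_mem_charKer h8 ((q.out : Γ) * y * (q.out : Γ)⁻¹)]
      congr 1
      group
    have h6 : ∑ g : G, A (g * y) = Nat.card G := by
      simp only [hAd, cosetAvg_apply, ← Finset.mul_sum]
      rw [Finset.sum_comm, Finset.sum_congr rfl (g := fun _ => (Nat.card G : ℂ)) (fun n _ => ?_),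
        Finset.sum_const, Finset.card_univ, ← Nat.card_eq_fintype_card, nsmul_eq_mul, ← mul_assoc,
        inv_mul_cancel₀ natCard_ne_zero, one_mul]
      rw [← sum_coset_mul_conj hψ.isCharacter hψG y]
      refine Fintype.sum_equiv (Equiv.mulLeft ⟨n, hNG n.2⟩) _ _ fun g => ?_
      simp [mul_assoc]
    rw [Finset.sum_congr rfl fun g _ => h5 g, Finset.sum_const, Finset.card_univ,
      ← Nat.card_eq_fintype_card, nsmul_eq_mul] at h6
    exact mul_left_cancel₀ natCard_ne_zero (h6.trans (mul_one _).symm)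
  obtain ⟨q, hq⟩ := hcyc.exists_generator
  obtain ⟨x, rfl⟩ := QuotientGroup.mk_surjective q
  have hx : x ∉ G := by
    intro h
    apply hGlt
    rw [eq_top_iff]
    intro g _
    obtain ⟨k, hk⟩ := hq g
    rw [← QuotientGroup.eq_one_iff, ← hk, (QuotientGroup.eq_one_iff x).mpr h]
    simp
  obtain ⟨S, hS⟩ : ∃ S, S = Subgroup.zpowers x ⊔ N := ⟨_, rfl⟩
  have hNS : N ≤ S := hS ▸ le_sup_right
  have hxS : x ∈ S := hS ▸ Subgroup.mem_sup_left (Subgroup.mem_zpowers x)
  have hSG : N.subgroupOf S = G.subgroupOf S := by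
    refine le_antisymm (Subgroup.subgroupOf_mono S hNG) ?_
    rintro ⟨s, hs⟩ h
    obtain ⟨_, ⟨k, rfl⟩, n, hn, rfl⟩ := Subgroup.mem_sup_of_normal_right.mp (hS ▸ hs)
    have h5 : x ^ k ∈ G := (G.mul_mem_cancel_right (hNG hn)).mp h
    refine N.mul_mem (hfrob x hx _ h5 ?_) hn
    have : x * x ^ k * x⁻¹ * (x ^ k)⁻¹ = 1 := by group
    rw [this]; exact N.one_mem
  have hidx : (N.subgroupOf S).index = G.index := by
    rw [hSG]
    refine (fr_index_eq_relIndex fun g => ?_).symm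
    obtain ⟨k, hk⟩ := hq g
    refine ⟨g * (x ^ k)⁻¹, ?_, x ^ k, S.zpow_mem hxS k, by group⟩
    rw [← QuotientGroup.eq_one_iff]
    simp [← hk]
  have hcy : IsCyclic (S ⧸ N.subgroupOf S) := by
    have hk : ∀ s ∈ N.subgroupOf S, (QuotientGroup.mk' G).comp S.subtype s = 1 := fun s hs =>
      (QuotientGroup.eq_one_iff (s : Γ)).mpr (hNG hs)
    refine isCyclic_of_injective (QuotientGroup.lift _ _ hk) ?_
    rw [injective_iff_map_eq_one]
    intro q hq
    obtain ⟨t, rfl⟩ := QuotientGroup.mk_surjective q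
    rw [QuotientGroup.eq_one_iff, hSG]
    exact (QuotientGroup.eq_one_iff (t : Γ)).mp hq
  haveI := Fintype.ofFinite S
  haveI := Fintype.ofFinite (N.subgroupOf S)
  obtain ⟨τ, hτ, hτθ⟩ := exists_extension_of_isCyclic hcy (isIrrCharacter_subgroupOf hNS hθ)
    (fun g n => hinv g ⟨_, n.2⟩)
  have hirr : IsIrrCharacter _ (fun n : N.subgroupOf S => τ n) := by
    rw [funext hτθ]; exact isIrrCharacter_subgroupOf hNS hθ
  have hres : (fun n : N.subgroupOf S => ψ (n : S)) = (e : ℂ) • fun n : N.subgroupOf S => τ n := by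
    funext n
    rw [Pi.smul_apply, hτθ, smul_eq_mul]
    exact (hψχ ⟨_, hNG n.2⟩).trans (h2 ⟨_, hNG n.2⟩ n.2)
  obtain ⟨β, hβ, hβk, hβe⟩ := gallagher_surj_char hτ.isCharacter hirr (hψ.isCharacter.restrict S) hres
  obtain ⟨β', hβ', rfl⟩ := hβ.exists_quotient _ hβk
  rw [← hidx, Subgroup.index]
  letI := hcy.commGroup
  refine fr_dvd_of_norm_one mul_comm ?_ hβ' ?_ ?_
  · rw [← Subgroup.index, hidx]
    exact Subgroup.one_lt_index_of_ne_top hGlt
  · have h5 := congrFun hβe 1
    have h6 := congrFun hres 1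
    simp only [OneMemClass.coe_one, Pi.mul_apply, Pi.smul_apply, smul_eq_mul,
      QuotientGroup.mk_one] at h5 h6
    exact mul_right_cancel₀ hτ.one_ne_zero (h5.symm.trans h6)
  · intro c hc
    obtain ⟨y, rfl⟩ := QuotientGroup.mk_surjective c
    have hy : (y : Γ) ∉ G := fun h => hc ((QuotientGroup.eq_one_iff y).mpr (hSG ▸ h))
    have h5 := h4 y hy
    have h6 := sum_coset_mul_conj hτ.isCharacter hirr y
    rw [hAd, cosetAvg_apply, inv_mul_eq_iff_eq_mul₀ natCard_ne_zero, mul_one,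
      ← Fintype.sum_equiv (Subgroup.subgroupOfEquivOfLe hNS).toEquiv
        (fun n => β' y * conj (β' y) * (τ (n * y) * conj (τ (n * y)))) _ (fun n => ?_),
      ← Finset.mul_sum, h6, Nat.card_congr (Subgroup.subgroupOfEquivOfLe hNS).toEquiv] at h5
    · exact mul_right_cancel₀ natCard_ne_zero (h5.trans (one_mul _).symm)
    · have h7 := congrFun hβe (n * y)
      simp only [Pi.mul_apply, QuotientGroup.mk_mul, (QuotientGroup.eq_one_iff _).mpr n.2,
        one_mul, Subgroup.coe_mul] at h7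
      change _ = ψ (((n : S) : Γ) * y) * conj (ψ (((n : S) : Γ) * y))
      rw [h7, map_mul]
      ring

end CL.Char
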