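import Cfsg.Agent.Char.Triple
import Cfsg.Agent.Grp.MinNormal

/-! Irreducible characters vanishing on all but two conjugacy classes (Gagola). -/

set_option autoImplicit false
open Cfsg
open scoped ComplexConjugate

namespace CL.Char

variable {G : Type*} [Group G]

/-- Averages of a character over a coset `z Q` with `z` central are algebraic integers. -/
theorem gag_isIntegral_avg [Finite G] {α : G → ℂ} (hα : IsCharacter G α) {z : G}
    (hz : z ∈ Subgroup.center G) (Q : Subgroup G) [Fintype Q] :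
    IsIntegral ℤ ((Nat.card Q : ℂ)⁻¹ * ∑ y : Q, α (z * y)) := by
  have := Fintype.ofFinite G
  obtain ⟨e, -, hsum⟩ := hα.exists_eq_sum_nat
  have h1 : (Nat.card Q : ℂ)⁻¹ * ∑ y : Q, α (z * y) = ∑ χ : IrrCharacter G,
      e χ * ((χ : G → ℂ) z / (χ : G → ℂ) 1 * classInner (fun y : Q => (χ : G → ℂ) y) fun _ => 1) := by
    simp only [classInner_one_right, hsum, Finset.sum_apply, Pi.smul_apply, smul_eq_mul,
      Finset.mul_sum]
    rw [Finset.sum_comm]
    refine Finset.sum_congr rfl fun χ _ => Finset.sum_congr rfl fun y _ => ?_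
    rw [apply_mul_of_mem_charCenter χ.2.one_ne_zero (χ.2.center_le_charCenter hz)]
    ring
  rw [h1]
  refine IsIntegral.sum _ fun χ _ => (isIntegral_natCast _).mul (IsIntegral.mul ?_ ?_)
  · have h2 := isIrr_isIntegral_central χ.2 z
    rwa [Subgroup.index_eq_one.2 (Subgroup.centralizer_eq_top_iff_subset.2
      (Set.singleton_subset_iff.2 hz)), Nat.cast_one, one_mul] at h2
  · obtain ⟨m, hm⟩ := (χ.2.isCharacter.restrict Q).exists_nat_classInner isCharacter_one
    rw [hm]
    exact isIntegral_natCast _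

/-- `χ` is an irreducible character whose support `N` consists of two conjugacy classes. -/
structure Gagola (χ : G → ℂ) (N : Subgroup G) : Prop where
  irr : IsIrrCharacter G χ
  normal : N.Normal
  ne_bot : N ≠ ⊥
  mem : ∀ g, g ∈ N ↔ χ g ≠ 0
  isConj : ∀ x ∈ N, ∀ y ∈ N, x ≠ 1 → y ≠ 1 → IsConj x y
  ker : ∀ ψ, IsIrrCharacter G ψ → ψ ≠ χ → N ≤ charKer ψ
  faithful : charKer χ = ⊥

theorem gag_classInner [Fintype G] {χ : G → ℂ} (hχ : IsClassFunction G χ) {x : G} (hx : x ≠ 1)
    (h : ∀ g, χ g ≠ 0 → g = 1 ∨ IsConj x g) {ψ : G → ℂ} (hψ : IsClassFunction G ψ) :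
    classInner χ ψ = χ 1 * conj (ψ 1) / Nat.card G +
      χ x * conj (ψ x) / Nat.card (Subgroup.centralizer ({x} : Set G)) := by
  have h1 : χ = χ 1 • classInd 1 + χ x • classInd x := funext fun g => by
    simp only [Pi.add_apply, Pi.smul_apply, smul_eq_mul]
    by_cases h2 : g = 1
    · subst h2
      rw [classInd_of_isConj (IsConj.refl _), classInd_of_not_isConj (by simpa using hx)]
      simp
    · rw [classInd_of_not_isConj (by simpa using Ne.symm h2)]
      by_cases h3 : IsConj x g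
      · rw [classInd_of_isConj h3, hχ.apply_eq_of_isConj h3]; simp
      · rw [classInd_of_not_isConj h3]
        by_contra h4
        exact (h g (by simpa using h4)).elim h2 h3
  conv_lhs => rw [h1]
  rw [classInner_add_left, classInner_smul_left, classInner_smul_left,
    classInner_classInd_left _ hψ, classInner_classInd_left _ hψ,
    Subgroup.centralizer_eq_top_iff_subset.2 (by simp), Subgroup.card_top]
  ring

theorem exists_gagola [Finite G] (hG : 2 < Nat.card G) {χ : G → ℂ} (hχ : IsIrrCharacter G χ)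
    (h : Nat.card {C : ConjClasses G // ∃ g ∈ C.carrier, χ g ≠ 0} = 2) : ∃ N, Gagola χ N := by
  classical
  have := Fintype.ofFinite G
  obtain ⟨⟨C, x, hxC, hx0⟩, hC, huniq⟩ := (Nat.card_eq_two_iff'
    ⟨ConjClasses.mk 1, 1, ConjClasses.mem_carrier_mk, hχ.one_ne_zero⟩).1 h
  obtain rfl := ConjClasses.mem_carrier_iff_mk_eq.1 hxC
  have hx : x ≠ 1 := fun h1 => hC (Subtype.ext (congrArg ConjClasses.mk h1))
  have hs : ∀ g, χ g ≠ 0 → g = 1 ∨ IsConj x g := fun g hg => by
    by_cases h1 : g = 1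
    · exact Or.inl h1
    · have := huniq ⟨ConjClasses.mk g, g, ConjClasses.mem_carrier_mk, hg⟩ fun h2 =>
        h1 (by simpa using ConjClasses.mk_eq_mk_iff_isConj.1 (congrArg Subtype.val h2))
      exact Or.inr (ConjClasses.mk_eq_mk_iff_isConj.1 (congrArg Subtype.val this)).symm
  have hn : (Nat.card G : ℂ) ≠ 0 := natCard_ne_zero
  have hc : (Nat.card (Subgroup.centralizer ({x} : Set G)) : ℂ) ≠ 0 := natCard_ne_zero
  have h1 : χ ≠ fun _ => 1 := by
    rintro rfl
    have h2 := gag_classInner hχ.isClassFunction hx hs hχ.isClassFunction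
    rw [hχ.classInner_self, map_one, one_mul] at h2
    field_simp at h2
    have h3 : 1 < Nat.card (Subgroup.centralizer ({x} : Set G)) :=
      (Subgroup.one_lt_card_iff_ne_bot _).2 fun h4 => hx (by
        have : x ∈ Subgroup.centralizer ({x} : Set G) := Subgroup.mem_centralizer_singleton_iff.2 rfl
        rwa [h4] at this)
    norm_cast at h2
    nlinarith
  have h2 := gag_classInner hχ.isClassFunction hx hs isIrrCharacter_one.isClassFunction
  rw [hχ.classInner_of_ne isIrrCharacter_one h1, map_one, mul_one, mul_one] at h2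
  have h3 : ∀ ψ, IsIrrCharacter G ψ → ψ ≠ χ → x ∈ charKer ψ := fun ψ hψ hne => by
    have h4 := gag_classInner hχ.isClassFunction hx hs hψ.isClassFunction
    rw [hχ.classInner_of_ne hψ hne.symm] at h4
    have h5 : χ 1 / Nat.card G * (conj (ψ 1) - conj (ψ x)) = 0 := by
      linear_combination conj (ψ x) * h2 - h4
    rw [hψ.mem_charKer]
    exact (starRingEnd ℂ).injective (sub_eq_zero.1 ((mul_eq_zero.1 h5).resolve_left
      (div_ne_zero hχ.one_ne_zero hn))).symm
  let N : Subgroup G := ⨅ ψ : {ψ : IrrCharacter G // ψ.1 ≠ χ}, charKer ψ.1.1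
  have hN : ∀ g, g ∈ N ↔ ∀ ψ, IsIrrCharacter G ψ → ψ ≠ χ → g ∈ charKer ψ := fun g =>
    Subgroup.mem_iInf.trans ⟨fun h ψ h1 h2 => h ⟨⟨ψ, h1⟩, h2⟩, fun h ψ => h _ ψ.1.2 ψ.2⟩
  have hNn : N.Normal := ⟨fun a ha g => (hN _).2 fun ψ h1 h2 =>
    h1.charKer_normal.conj_mem _ ((hN a).1 ha ψ h1 h2) g⟩
  have hmem : ∀ g, g ∈ N ↔ χ g ≠ 0 := fun g => ⟨fun hg h0 => by
    have h4 : g ≠ 1 := fun h5 => hχ.one_ne_zero (h5 ▸ h0)
    have h5 := sum_irr_mul_conj_of_not_isConj (g := g) (h := 1) (by simpa using h4)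
    rw [Finset.sum_congr rfl (g := fun ψ : IrrCharacter G =>
      ((if ψ.1 = χ then 0 else charDegree ψ.1 ^ 2 : ℕ) : ℂ)) fun ψ _ => by
        split_ifs with h6
        · rw [h6, h0]; simp
        · rw [ψ.2.mem_charKer.1 ((hN g).1 hg ψ.1 ψ.2 h6), ← ψ.2.cast_charDegree]; simp [sq],
      ← Nat.cast_sum, Nat.cast_eq_zero, Finset.sum_eq_zero_iff] at h5
    have h6 := h5 ⟨_, isIrrCharacter_one⟩ (Finset.mem_univ _)
    rw [if_neg h1.symm] at h6
    exact (pow_pos isIrrCharacter_one.charDegree_pos 2).ne' h6, fun hg => by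
      rcases hs g hg with rfl | h4
      · exact N.one_mem
      · obtain ⟨c, rfl⟩ := isConj_iff.1 h4
        exact hNn.conj_mem x ((hN x).2 h3) c⟩
  refine ⟨N, hχ, hNn, fun h4 => hx ?_, hmem, fun a ha b hb ha1 hb1 => ?_,
    fun ψ h1 h2 g hg => (hN g).1 hg ψ h1 h2, eq_bot_iff.2 fun g hg => ?_⟩
  · exact Subgroup.mem_bot.1 (h4 ▸ (hN x).2 h3)
  · exact ((hs a ((hmem a).1 ha)).resolve_left ha1).symm.trans
      ((hs b ((hmem b).1 hb)).resolve_left hb1)
  · refine eq_one_of_forall_irr fun ψ => ψ.2.mem_charKer.1 ?_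
    by_cases h4 : ψ.1 = χ
    · rwa [h4]
    · exact (hN g).1 ((hmem g).2 (hχ.mem_charKer.1 hg ▸ hχ.one_ne_zero)) _ ψ.2 h4

namespace Gagola

variable [Finite G] {χ : G → ℂ} {N : Subgroup G} (h : Gagola χ N)
include h

theorem le_of_normal (K : Subgroup G) [K.Normal] (hK : K ≠ ⊥) : N ≤ K := fun y hy => by
  by_contra h1
  obtain ⟨ψ, hψ, h2, h3⟩ := exists_irr_le_charKer_not_mem K h1
  by_cases h4 : ψ = χ
  · exact hK (le_bot_iff.1 (h.faithful ▸ h4 ▸ h2))
  · exact h3 (h.ker ψ hψ h4 hy)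

omit [Finite G] in
theorem eq_of_faithful {ψ : G → ℂ} (hψ : IsIrrCharacter G ψ) (h1 : charKer ψ = ⊥) : ψ = χ := by
  by_contra h2
  exact h.ne_bot (le_bot_iff.1 (h1 ▸ h.ker ψ hψ h2))

theorem isMinNormal : CL.Grp.IsMinNormal N :=
  ⟨h.normal, h.ne_bot, fun K _ hKN => (eq_or_ne K ⊥).imp_right fun h1 =>
    le_antisymm hKN (h.le_of_normal K h1)⟩

theorem exists_isElementaryAbelian : ∃ p : ℕ, p.Prime ∧ IsElementaryAbelian p N := by
  obtain ⟨p, hp, h1⟩ := Nat.exists_prime_and_dvd ((Subgroup.one_lt_card_iff_ne_bot N).2 h.ne_bot).ne'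
  have := Fact.mk hp
  obtain ⟨x, hx⟩ := exists_prime_orderOf_dvd_card' p h1
  refine ⟨p, hp, h.isMinNormal.isElementaryAbelian_of_isPGroup fun y => ⟨1, ?_⟩⟩
  by_cases h2 : y = 1
  · rw [h2, one_pow]
  · obtain ⟨c, hc⟩ := isConj_iff.1 (h.isConj x x.2 y y.2 (fun h3 => hp.one_lt.ne' (by
      rw [← hx, orderOf_eq_one_iff]; exact Subtype.ext h3)) fun h3 => h2 (Subtype.ext h3))
    refine Subtype.ext ?_
    rw [pow_one, Subgroup.coe_pow, ← hc, conj_pow, ← Subgroup.coe_pow, ← hx, pow_orderOf_eq_one]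
    simp

theorem index_add_one {x : G} (hx : x ∈ N) (h1 : x ≠ 1) :
    (Subgroup.centralizer ({x} : Set G)).index + 1 = Nat.card N := by
  classical
  rw [← card_isConj_eq_index_centralizer, ← Finite.card_option]
  refine Nat.card_congr (Equiv.ofBijective (fun o => o.elim 1 fun y => ⟨y.1, ?_⟩) ⟨?_, ?_⟩)
  · obtain ⟨c, hc⟩ := isConj_iff.1 y.2
    exact hc ▸ h.normal.conj_mem x hx c
  · have h2 : ∀ y : {y // IsConj x y}, y.1 ≠ 1 := fun y h3 => h1 (by simpa [h3] using y.2)
    rintro (_ | a) (_ | b) hab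
    · rfl
    · exact absurd (congrArg Subtype.val hab).symm (h2 b)
    · exact absurd (congrArg Subtype.val hab) (h2 a)
    · exact congrArg some (Subtype.ext (congrArg (Subtype.val : N → G) hab))
  · intro y
    by_cases h2 : y = 1
    · exact ⟨none, h2.symm⟩
    · exact ⟨some ⟨y, h.isConj x hx y y.2 h1 fun h3 => h2 (Subtype.ext h3)⟩, rfl⟩

theorem exists_value : ∃ e : ℕ, 0 < e ∧ χ 1 = e * (Nat.card N - 1) ∧
    ∀ x ∈ N, x ≠ 1 → χ x = -e ∧ Nat.card (Subgroup.centralizer ({x} : Set G)) = e ^ 2 * Nat.card N := by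
  have := Fintype.ofFinite G
  obtain ⟨⟨x, hx⟩, hx1⟩ := Subgroup.ne_bot_iff_exists_ne_one.1 h.ne_bot
  replace hx1 : x ≠ 1 := fun h1 => hx1 (Subtype.ext h1)
  have hs : ∀ g, χ g ≠ 0 → g = 1 ∨ IsConj x g := fun g hg =>
    (eq_or_ne g 1).imp_right (h.isConj x hx g ((h.mem g).2 hg) hx1)
  have h1 : χ ≠ fun _ => 1 := fun h2 => h.ne_bot (le_bot_iff.1
    (h.faithful ▸ h.irr.charKer_eq_top_iff.2 h2 ▸ le_top))
  have h2 := gag_classInner h.irr.isClassFunction hx1 hs isIrrCharacter_one.isClassFunction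
  have h3 := gag_classInner h.irr.isClassFunction hx1 hs h.irr.isClassFunction
  rw [h.irr.classInner_of_ne isIrrCharacter_one h1, map_one, mul_one, mul_one] at h2
  rw [h.irr.classInner_self] at h3
  have h4 := h.index_add_one hx hx1
  set i := (Subgroup.centralizer ({x} : Set G)).index with hi
  have hi0 : i ≠ 0 := Subgroup.index_ne_zero_of_finite
  have hi0' : (i : ℂ) ≠ 0 := Nat.cast_ne_zero.2 hi0
  have hc : (Nat.card (Subgroup.centralizer ({x} : Set G)) : ℂ) ≠ 0 := natCard_ne_zero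
  rw [← (Subgroup.centralizer ({x} : Set G)).index_mul_card, ← hi, Nat.cast_mul] at h2 h3
  have h5 : (charDegree χ : ℂ) / i = -χ x := by
    rw [h.irr.cast_charDegree]
    field_simp at h2 ⊢
    linear_combination -h2
  obtain ⟨e, he⟩ := dvd_of_isIntegral_div hi0 (h5 ▸ (isChar_isIntegral h.irr.isCharacter x).neg)
  have h6 : χ 1 = i * e := by rw [← h.irr.cast_charDegree, he, Nat.cast_mul]
  have h7 : χ x = -e := by
    rw [he, Nat.cast_mul, mul_div_cancel_left₀ _ hi0'] at h5
    rw [h5, neg_neg]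
  have h8 : Nat.card (Subgroup.centralizer ({x} : Set G)) = e ^ 2 * Nat.card N := by
    rw [h6, h7] at h3
    simp only [map_mul, map_natCast, map_neg] at h3
    field_simp at h3
    rw [← h4]
    exact_mod_cast (by linear_combination h3 :
      (Nat.card (Subgroup.centralizer ({x} : Set G)) : ℂ) = e ^ 2 * (i + 1))
  refine ⟨e, Nat.pos_of_ne_zero ?_, by rw [h6, ← h4]; push_cast; ring, fun y hy hy1 => ?_⟩
  · rintro rfl
    exact h.irr.charDegree_pos.ne' he
  · have h9 := h.isConj x hx y hy hx1 hy1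
    rw [← h.irr.isClassFunction.apply_eq_of_isConj h9, ← card_centralizer_eq_of_isConj h9]
    exact ⟨h7, h8⟩

theorem isPGroup_centralizer {p : ℕ} [hp : Fact p.Prime] (hN : IsPGroup p N) {x : G} (hx : x ∈ N)
    (h1 : x ≠ 1) : IsPGroup p (Subgroup.centralizer ({x} : Set G)) := by
  classical
  obtain ⟨e, he, -, h2⟩ := h.exists_value
  obtain ⟨h2, h3⟩ := h2 x hx h1
  set C := Subgroup.centralizer ({x} : Set G) with hC
  have hx' : x ∈ C := Subgroup.mem_centralizer_singleton_iff.2 rfl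
  refine IsPGroup.iff_card.2 ⟨_, Nat.eq_prime_pow_of_unique_prime_dvd Nat.card_pos.ne' ?_⟩
  intro q hq hqC
  by_contra hqp
  have := Fact.mk hq
  obtain ⟨Q⟩ : Nonempty (Sylow q C) := inferInstance
  have := Fintype.ofFinite (Q : Subgroup C)
  have h4 := gag_isIntegral_avg (h.irr.isCharacter.restrict C) (z := ⟨x, hx'⟩)
    (Subgroup.mem_center_iff.2 fun g => Subtype.ext (Subgroup.mem_centralizer_singleton_iff.1 g.2))
    (Q : Subgroup C)
  rw [Finset.sum_eq_single (1 : (Q : Subgroup C)) (fun y _ hy => by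
    by_contra h5
    have h6 : ((y : C) : G) ∈ N := (N.mul_mem_cancel_left hx).1 ((h.mem _).2 h5)
    obtain ⟨a, ha⟩ := hN.exists_orderOf_eq_pow ⟨_, h6⟩
    obtain ⟨b, hb⟩ := Q.isPGroup'.exists_orderOf_eq_pow y
    rw [← Subgroup.orderOf_coe] at ha
    rw [← Subgroup.orderOf_coe, ← Subgroup.orderOf_coe] at hb
    refine hy (orderOf_eq_one_iff.1 ?_)
    rw [← Subgroup.orderOf_coe, ← Subgroup.orderOf_coe]
    exact Nat.eq_one_of_dvd_coprimes (Nat.coprime_pow_primes b a hq hp.out hqp) hb.dvd ha.dvd)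
    (by simp)] at h4
  have h5 : Nat.card (Q : Subgroup C) ∣ e := dvd_of_isIntegral_div Nat.card_pos.ne' (by
    convert h4.neg using 1
    simp only [OneMemClass.coe_one, mul_one, h2]
    ring)
  obtain ⟨k, hk⟩ := IsPGroup.iff_card.1 hN
  rw [Q.card_eq_multiplicity, hq.pow_dvd_iff_le_factorization he.ne'] at h5
  have h6 := hq.factorization_pos_of_dvd Nat.card_pos.ne' hqC
  rw [h3, Nat.factorization_mul (by positivity) Nat.card_pos.ne', hk, Nat.factorization_pow,
    hp.out.factorization_pow, Finsupp.add_apply, Finsupp.single_eq_of_ne hqp,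
    Finsupp.smul_apply, smul_eq_mul] at h5 h6
  omega

theorem not_dvd {p : ℕ} [hp : Fact p.Prime] (hN : IsPGroup p N) {i : ℕ} (hi : i + 1 = Nat.card N) :
    ¬ p ∣ i := fun h1 => by
  have := (Subgroup.nontrivial_iff_ne_bot N).2 h.ne_bot
  obtain ⟨k, hk0, hk⟩ := hN.nontrivial_iff_card.1 this
  exact hp.out.one_lt.ne' (Nat.dvd_one.1 ((Nat.dvd_add_right h1).1
    (hi ▸ hk ▸ dvd_pow_self p hk0.ne')))

theorem exists_sylow_centralizer {p : ℕ} [Fact p.Prime] (hN : IsPGroup p N) {x : G} (hx : x ∈ N)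
    (h1 : x ≠ 1) : ∃ P : Sylow p G, Subgroup.centralizer ({x} : Set G) = P :=
  ⟨(h.isPGroup_centralizer hN hx h1).toSylow (h.not_dvd hN (h.index_add_one hx h1)), rfl⟩

theorem index_inertia [N.Normal] {μ : N → ℂ} (hμ : IsIrrCharacter N μ) (h1 : μ ≠ fun _ => 1) :
    (inertia N μ).index + 1 = Nat.card N := by
  classical
  have := Fintype.ofFinite G
  have := Fintype.ofFinite N
  obtain ⟨e, he, h2, h3⟩ := h.exists_value
  obtain ⟨p, -, h4, -⟩ := h.exists_isElementaryAbelian
  have h5 : μ 1 = 1 := comm_iff_forall_irr_one_eq_one.1 h4.is_comm.comm ⟨μ, hμ⟩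
  have hn : (Nat.card N : ℂ) ≠ 0 := natCard_ne_zero
  have h6 : classInner (fun n : N => χ n) μ = e := by
    have h7 : (fun n : N => χ n) = (e * Nat.card N : ℂ) • classInd (1 : N) - (e : ℂ) • fun _ => 1 :=
      funext fun n => by
        simp only [Pi.sub_apply, Pi.smul_apply, smul_eq_mul]
        by_cases h8 : n = 1
        · rw [h8, classInd_of_isConj (IsConj.refl _), OneMemClass.coe_one, h2]; ring
        · rw [classInd_of_not_isConj (by simpa using Ne.symm h8),
            (h3 n n.2 fun h9 => h8 (Subtype.ext h9)).1]; ring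
    rw [h7, classInner_sub_left, classInner_smul_left, classInner_smul_left,
      classInner_classInd_left _ hμ.isClassFunction, isIrrCharacter_one.classInner_of_ne hμ h1.symm,
      Subgroup.centralizer_eq_top_iff_subset.2 (by simp), Subgroup.card_top, h5, map_one]
    field_simp
    ring
  have he' : (e : ℂ) ≠ 0 := Nat.cast_ne_zero.2 he.ne'
  have h7 := clifford_degree h.irr hμ (h6 ▸ he')
  rw [h6, h5, mul_one, h2, mul_right_inj' he', sub_eq_iff_eq_add] at h7
  exact_mod_cast h7.symm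

theorem exists_sylow_inertia [N.Normal] {p : ℕ} [Fact p.Prime] (hN : IsPGroup p N) {μ : N → ℂ}
    (hμ : IsIrrCharacter N μ) (h1 : μ ≠ fun _ => 1) : ∃ P : Sylow p G, inertia N μ = P := by
  obtain ⟨⟨x, hx⟩, hx1⟩ := Subgroup.ne_bot_iff_exists_ne_one.1 h.ne_bot
  replace hx1 : x ≠ 1 := fun h1 => hx1 (Subtype.ext h1)
  obtain ⟨k, hk⟩ := IsPGroup.iff_card.1 (h.isPGroup_centralizer hN hx hx1)
  have h2 := h.index_inertia hμ h1
  have h3 := (Subgroup.centralizer ({x} : Set G)).index_mul_card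
  rw [Nat.add_right_cancel ((h.index_add_one hx hx1).trans h2.symm),
    ← (inertia N μ).index_mul_card, mul_right_inj' Subgroup.index_ne_zero_of_finite, hk] at h3
  exact ⟨(IsPGroup.of_card h3.symm).toSylow (h.not_dvd hN h2), rfl⟩

theorem card_centralizer [N.Normal] {x : G} (hx : x ∉ N) :
    Nat.card (Subgroup.centralizer ({x} : Set G)) =
      Nat.card (Subgroup.centralizer ({(x : G ⧸ N)} : Set (G ⧸ N))) := by
  classical
  have h1 := sum_irr_comp (QuotientGroup.mk' N) (QuotientGroup.mk'_surjective N)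
    fun ψ => ψ x * conj (ψ x)
  rw [Finset.sum_filter_of_ne fun ψ _ h2 => by
    rw [QuotientGroup.ker_mk']
    refine h.ker _ ψ.2 fun h3 => hx ((h.mem x).2 ?_)
    rw [← h3]
    exact left_ne_zero_of_mul h2, sum_irr_mul_conj_self, sum_irr_mul_conj_self] at h1
  exact_mod_cast h1.symm

theorem card_dvd_index {x : G} (hx : x ∉ N) :
    Nat.card N ∣ (Subgroup.centralizer ({x} : Set G)).index := by
  have := h.normal
  have h1 := (Subgroup.centralizer ({x} : Set G)).index_mul_card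
  rw [← N.card_mul_index, N.index_eq_card,
    ← (Subgroup.centralizer ({(x : G ⧸ N)} : Set (G ⧸ N))).index_mul_card, ← h.card_centralizer hx,
    ← mul_assoc, mul_left_inj' Nat.card_pos.ne'] at h1
  exact Dvd.intro _ h1.symm

/-- An element of a Sylow subgroup `P` commuting with `P` modulo a subgroup smaller than `N` lies
in `N`. -/
theorem mem_of_commutator_mem {p : ℕ} [Fact p.Prime] (hN : IsPGroup p N) (P : Sylow p G)
    {Z : Subgroup (P : Subgroup G)} (hZ : Nat.card Z < Nat.card N) {z : (P : Subgroup G)}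
    (hz : ∀ y, z * y * z⁻¹ * y⁻¹ ∈ Z) : (z : G) ∈ N := by
  by_contra h1
  obtain ⟨k, hk⟩ := IsPGroup.iff_card.1 hN
  have h2 : Subgroup.centralizer ({z} : Set (P : Subgroup G)) =
      (Subgroup.centralizer ({(z : G)} : Set G)).subgroupOf P := by
    ext y
    simp [Subgroup.mem_subgroupOf, Subgroup.mem_centralizer_singleton_iff, Subtype.ext_iff]
  have h3 : Nat.card N ∣ (Subgroup.centralizer ({z} : Set (P : Subgroup G))).index := by
    have h4 := (h.card_dvd_index h1).trans (Subgroup.index_dvd_of_le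
      (inf_le_left (b := (P : Subgroup G))))
    rw [← Subgroup.relIndex_mul_index inf_le_right, Subgroup.inf_relIndex_right, hk] at h4
    rw [h2, hk]
    exact (Nat.Coprime.pow_left k ((Nat.Prime.coprime_iff_not_dvd Fact.out).2
      P.not_dvd_index)).dvd_of_dvd_mul_right h4
  refine hZ.not_ge ((Nat.le_of_dvd (Nat.pos_of_ne_zero Subgroup.index_ne_zero_of_finite) h3).trans ?_)
  rw [← card_isConj_eq_index_centralizer]
  refine Nat.card_le_card_of_injective (fun y => ⟨z * y.1⁻¹, ?_⟩) fun a b hab => ?_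
  · obtain ⟨c, hc⟩ := isConj_iff.1 y.2
    rw [← hc, show z * (c * z * c⁻¹)⁻¹ = z * c * z⁻¹ * c⁻¹ by group]
    exact hz c
  · exact Subtype.ext (inv_injective (mul_left_cancel (congrArg (Subtype.val : Z → _) hab)))

theorem exists_upperCentralSeries {p : ℕ} [Fact p.Prime] (hN : IsPGroup p N) (P : Sylow p G) :
    ∃ i, Subgroup.upperCentralSeries (P : Subgroup G) i = N.subgroupOf P := by
  have := h.normal
  have hNP : N ≤ P := hN.le_sylow_of_normal P
  by_contra! h1
  have h2 : ∀ i, Subgroup.upperCentralSeries (P : Subgroup G) i ≤ N.subgroupOf P := fun i => by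
    induction i with
    | zero => exact bot_le
    | succ i ih =>
      intro z hz
      refine h.mem_of_commutator_mem hN P ?_ (Subgroup.mem_upperCentralSeries_succ_iff.1 hz)
      rw [← Nat.card_congr (Subgroup.subgroupOfEquivOfLe hNP).toEquiv]
      exact CL.Grp.card_lt_card_of_lt ((ih).lt_of_ne (h1 i))
  obtain ⟨i, hi⟩ := P.isPGroup'.isNilpotent.nilpotent
  exact h1 i (le_antisymm (h2 i) (hi ▸ le_top))

end Gagola

end CL.Char
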