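import Cfsg.Agent.Char.Gagola
import Cfsg.Agent.Grp.Frob2
import Cfsg.Agent.Inv.BaerSuzuki

/-! Gagola characters whose support is the whole `p`-core. -/

set_option autoImplicit false
open Cfsg Subgroup

namespace CL.Char.Gagola

variable {G : Type*} [Group G] [Finite G] {χ : G → ℂ} {N : Subgroup G}

/-- An element without fixed points on `N` is conjugate under `N` to all of its coset. -/
theorem exists_conj_of_fpf [hN : N.Normal] {x : G} (hx : ∀ n ∈ N, n * x = x * n → n = 1) {y : G}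
    (hy : y * x⁻¹ ∈ N) : ∃ n ∈ N, n * x * n⁻¹ = y := by
  have h1 : Function.Injective fun n : N => (⟨n * (x * (n : G)⁻¹ * x⁻¹),
      N.mul_mem n.2 (hN.conj_mem _ (N.inv_mem n.2) x)⟩ : N) := fun a b h => by
    have h2 : (a : G) * (x * (a : G)⁻¹ * x⁻¹) = b * (x * (b : G)⁻¹ * x⁻¹) := congrArg Subtype.val h
    refine Subtype.ext (inv_mul_eq_one.1 (hx _ (N.mul_mem (N.inv_mem b.2) a.2) ?_)).symm
    calc (b : G)⁻¹ * a * x = (b : G)⁻¹ * (a * (x * (a : G)⁻¹ * x⁻¹)) * x * a := by group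
      _ = _ := by rw [h2]; group
  obtain ⟨n, hn⟩ := Finite.surjective_of_injective h1 ⟨_, hy⟩
  refine ⟨n, n.2, mul_right_cancel (b := x⁻¹) ?_⟩
  rw [← show (n : G) * (x * (n : G)⁻¹ * x⁻¹) = y * x⁻¹ from congrArg Subtype.val hn]
  group

variable (h : Gagola χ N)
include h

theorem isConj_mul {g n : G} (hg : g ∉ N) (hn : n ∈ N) : IsConj g (n * g) := by
  have := Fintype.ofFinite G
  by_contra h1
  have h2 := sum_irr_mul_conj_of_not_isConj h1
  rw [Finset.sum_congr rfl fun (ψ : IrrCharacter G) _ => congrArg (fun t => (ψ : G → ℂ) g * (starRingEnd ℂ) t)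
    (show (ψ : G → ℂ) (n * g) = (ψ : G → ℂ) g from ?_), sum_irr_mul_conj_self] at h2
  · exact natCard_ne_zero h2
  by_cases h3 : ψ.1 = χ
  · rw [h3, not_not.1 (mt (h.mem g).2 hg),
      not_not.1 (mt (h.mem _).2 fun h4 => hg ((N.mul_mem_cancel_left hn).1 h4))]
  · exact apply_mul_of_mem_charKer (h.ker ψ ψ.2 h3 hn) g

variable {p : ℕ} [hp : Fact p.Prime] (hN : IsPGroup p N)
include hN

theorem fpf {x : G} (hx : ¬ ∃ k, x ^ p ^ k = 1) (n : G) (hn : n ∈ N) (h1 : n * x = x * n) :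
    n = 1 := by
  by_contra h2
  obtain ⟨k, hk⟩ := h.isPGroup_centralizer hN hn h2 ⟨x, mem_centralizer_singleton_iff.2 h1.symm⟩
  exact hx ⟨k, congrArg Subtype.val hk⟩

theorem not_fpf {y : G} (hy : y ^ p = 1) : ∃ n ∈ N, n ≠ 1 ∧ n * y = y * n := by
  obtain ⟨⟨x, hx⟩, hx1⟩ := ne_bot_iff_exists_ne_one.1 h.ne_bot
  replace hx1 : x ≠ 1 := fun h1 => hx1 (Subtype.ext h1)
  obtain ⟨P, hP⟩ := h.exists_sylow_centralizer hN hx hx1
  obtain ⟨Q, hQ⟩ := (show IsPGroup p (zpowers y) by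
    rintro ⟨_, k, rfl⟩
    exact ⟨1, Subtype.ext (show (y ^ k) ^ p ^ 1 = 1 by
      rw [pow_one, ← zpow_natCast, ← zpow_mul, mul_comm, zpow_mul, zpow_natCast, hy, one_zpow])⟩
    ).exists_le_sylow
  obtain ⟨g, rfl⟩ := MulAction.exists_smul_eq G P Q
  have h1 : g⁻¹ * y * g ∈ centralizer {x} := by
    rw [hP]
    simpa [Sylow.coe_subgroup_smul, mem_pointwise_smul_iff_inv_smul_mem] using hQ (mem_zpowers y)
  refine ⟨g * x * g⁻¹, h.normal.conj_mem x hx g, by simpa using hx1, ?_⟩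
  calc g * x * g⁻¹ * y = g * (x * (g⁻¹ * y * g)) * g⁻¹ := by group
    _ = _ := by rw [← mem_centralizer_singleton_iff.1 h1]; group

theorem mem_of_centralizes (hO : N = pCore p G) {g : G} (hg : ∀ n ∈ N, n * g = g * n) : g ∈ N := by
  have := h.normal
  obtain ⟨⟨x, hx⟩, hx1⟩ := ne_bot_iff_exists_ne_one.1 h.ne_bot
  have h1 : centralizer (N : Set G) ≤ pCore p G := CL.Grp.le_pCore
    ((h.isPGroup_centralizer hN hx fun h1 => hx1 (Subtype.ext h1)).to_le
      (centralizer_le (Set.singleton_subset_iff.2 hx)))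
  exact hO ▸ h1 hg

theorem not_dvd_index (hO : N = pCore p G) : ¬ p ∣ N.index := fun hd => by
  have := h.normal
  obtain ⟨hc, he⟩ := h.isMinNormal.isElementaryAbelian_of_isPGroup hN
  replace hc : ∀ a ∈ N, ∀ b ∈ N, a * b = b * a := fun a ha b hb =>
    congrArg Subtype.val (hc.is_comm.comm ⟨a, ha⟩ ⟨b, hb⟩)
  obtain ⟨t, ht⟩ := exists_prime_orderOf_dvd_card' (G := G ⧸ N) p hd
  obtain ⟨y, rfl⟩ := QuotientGroup.mk_surjective t
  have hy : y ∉ N := fun h1 => hp.out.one_lt.ne' (by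
    rw [← ht, (QuotientGroup.eq_one_iff y).2 h1, orderOf_one])
  have hyp : ∀ n ∈ N, (n⁻¹ * y) ^ p ∈ N := fun n hn => by
    rw [← QuotientGroup.eq_one_iff, QuotientGroup.mk_pow, QuotientGroup.mk_mul,
      (QuotientGroup.eq_one_iff _).2 (N.inv_mem hn), one_mul, ← ht, pow_orderOf_eq_one]
  rcases hp.out.eq_two_or_odd' with rfl | hodd
  · obtain ⟨x, hx1, hx2, hx3, -⟩ := CL.Inv.invol_inverts_odd_of_not_mem (t := (y : G ⧸ N))
      (by rw [← sq, ← ht, pow_orderOf_eq_one]) fun h1 => hy (by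
        have h2 := CL.Grp.le_pCore h1 (subset_normalClosure rfl)
        subst hO
        rwa [CL.Grp.pCore_quotient_pCore, mem_bot, QuotientGroup.eq_one_iff] at h2)
    obtain ⟨x, rfl⟩ := QuotientGroup.mk_surjective x
    have h1 := h.fpf hN (x := x⁻¹) fun ⟨k, hk⟩ => hx1 (orderOf_eq_one_iff.1
      (Nat.eq_one_of_dvd_coprimes (hx2.coprime_two_right.pow_right k) dvd_rfl
        (orderOf_dvd_of_pow_eq_one (by
          rw [← QuotientGroup.mk_pow, ← inv_inj, ← QuotientGroup.mk_inv, ← inv_pow, hk]; simp))))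
    obtain ⟨n, hn, h2⟩ := exists_conj_of_fpf h1 (y := y * x * y⁻¹) (by
      rw [← QuotientGroup.eq_one_iff]; simp [hx3])
    have h3 : n⁻¹ * y * x * (n⁻¹ * y)⁻¹ = x⁻¹ := by
      rw [show n⁻¹ * y * x * (n⁻¹ * y)⁻¹ = n⁻¹ * (y * x * y⁻¹) * n by group, ← h2]; group
    have hg := hyp n hn
    have hg' : n⁻¹ * y ∉ N := fun h4 => hy ((N.mul_mem_cancel_left (N.inv_mem hn)).1 h4)
    generalize n⁻¹ * y = g at h3 hg hg'
    have h4 : g ^ 2 = 1 := h1 _ hg (by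
      calc g ^ 2 * x⁻¹ = g * (g * x * g⁻¹)⁻¹ * g := by rw [sq]; group
        _ = (g * x * g⁻¹) * g ^ 2 := by rw [h3, inv_inv, ← h3, sq]; group
        _ = _ := by rw [h3])
    refine hg' (h.mem_of_centralizes hN hO fun m hm => ?_)
    obtain ⟨c, hc'⟩ := isConj_iff.1 (h.isConj_mul hg' hm)
    have h5 : (m * g) ^ 2 = 1 := by rw [← hc', conj_pow, h4]; simp
    have h6 := he m hm
    rw [sq, mul_eq_one_iff_eq_inv] at h4 h5 h6
    rw [h5, mul_inv_rev, ← h4, ← h6]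
  · obtain ⟨⟨a, ha⟩, ha1⟩ := ne_bot_iff_exists_ne_one.1 h.ne_bot
    obtain ⟨k, hk⟩ := IsPGroup.iff_card.1 hN
    obtain ⟨z, hz⟩ := exists_prime_orderOf_dvd_card' (G := G) 2 (by
      refine Dvd.dvd.trans ?_ (centralizer {a}).index_dvd_card
      have h1 := h.index_add_one ha fun h1 => ha1 (Subtype.ext h1)
      have h2 := (hodd.pow (n := k)).not_two_dvd_nat
      omega)
    have h1 := h.fpf hN (x := z) fun ⟨k, hk⟩ =>
      (hodd.pow (n := k)).not_two_dvd_nat (hz ▸ orderOf_dvd_of_pow_eq_one hk)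
    have hz2 : z⁻¹ = z := by rw [inv_eq_iff_mul_eq_one, ← sq, ← hz, pow_orderOf_eq_one]
    have h2 : ∀ n ∈ N, z * n * z⁻¹ = n⁻¹ := fun n hn => by
      have h2 := this.conj_mem n hn z
      refine eq_inv_of_mul_eq_one_right (h1 _ (N.mul_mem hn h2) ?_)
      conv_rhs => rw [hc n hn _ h2]
      rw [show z * (z * n * z⁻¹ * n) = z⁻¹⁻¹ * z * n * z⁻¹ * n by group, hz2, hz2]
      nth_rewrite 3 [← hz2]
      nth_rewrite 5 [← hz2]
      group
    have h3 : ∀ c : G, ∃ n ∈ N, n⁻¹ * c * z = z * (n⁻¹ * c) := fun c => by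
      obtain ⟨n, hn, h3⟩ := exists_conj_of_fpf h1 (y := c * z * c⁻¹)
        (h.mem_of_centralizes hN hO fun m hm => by
          have h3 := h2 _ (this.conj_mem _ (N.inv_mem hm) c⁻¹)
          have h4 := h2 _ (N.inv_mem hm)
          calc m * (c * z * c⁻¹ * z⁻¹) = c * (c⁻¹ * m⁻¹ * c⁻¹⁻¹)⁻¹ * z * c⁻¹ * z⁻¹ := by group
            _ = c * z * c⁻¹ * z⁻¹ * (z * m⁻¹ * z⁻¹) := by rw [← h3]; group
            _ = _ := by rw [h4, inv_inv])
      refine ⟨n, hn, ?_⟩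
      calc n⁻¹ * c * z = n⁻¹ * (c * z * c⁻¹) * c := by group
        _ = _ := by rw [← h3]; group
    obtain ⟨n, hn, h4⟩ := h3 y
    have hg := hyp n hn
    have hg' : n⁻¹ * y ∉ N := fun h4 => hy ((N.mul_mem_cancel_left (N.inv_mem hn)).1 h4)
    generalize n⁻¹ * y = g at h4 hg hg'
    obtain ⟨b, hb, hb1, h5⟩ := h.not_fpf hN (h1 _ hg (Commute.pow_left h4 p))
    have h6 : Function.Surjective fun n : N => (⟨n * (g * (n : G)⁻¹ * g⁻¹),
        N.mul_mem n.2 (this.conj_mem _ (N.inv_mem n.2) g)⟩ : N) := fun m => by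
      obtain ⟨c, hc'⟩ := isConj_iff.1 (h.isConj_mul hg' m.2)
      obtain ⟨n, hn, h6⟩ := h3 c
      have h7 : n⁻¹ * c * g * (n⁻¹ * c)⁻¹ * g⁻¹ = 1 := h1 _ (by
        rw [show n⁻¹ * c * g * (n⁻¹ * c)⁻¹ * g⁻¹ = n⁻¹ * (c * g * c⁻¹) * n * g⁻¹ by group, hc',
          show n⁻¹ * (m * g) * n * g⁻¹ = n⁻¹ * m * (g * n * g⁻¹) by group]
        exact N.mul_mem (N.mul_mem (N.inv_mem hn) m.2) (this.conj_mem n hn g))
        ((((Commute.mul_left h6 h4).mul_left (Commute.inv_left h6))).mul_left (Commute.inv_left h4))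
      refine ⟨⟨n, hn⟩, Subtype.ext ?_⟩
      calc n * (g * n⁻¹ * g⁻¹) = n * (n⁻¹ * c * g * (n⁻¹ * c)⁻¹ * g⁻¹ * g * n⁻¹ * g⁻¹) := by
            rw [h7, one_mul]
        _ = c * g * c⁻¹ * g⁻¹ := by group
        _ = _ := by rw [hc']; group
    refine hb1 (congrArg Subtype.val (Finite.injective_iff_surjective.2 h6 (a₁ := ⟨b, hb⟩) (a₂ := 1)
      (Subtype.ext ?_)))
    calc b * (g * b⁻¹ * g⁻¹) = b * g * (b⁻¹ * g⁻¹) := by group
      _ = _ := by rw [h5]; simp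

theorem exists_frob (hG : 2 < Nat.card G) (hO : N = pCore p G) : ∃ H : Subgroup G,
    IsFrobeniusComplement H ∧ frobeniusKernel H = N ∧ Nat.card H + 1 = Nat.card N := by
  have := h.normal
  have h1 := h.not_dvd_index hN hO
  obtain ⟨k, hk⟩ := IsPGroup.iff_card.1 hN
  have h2 : ∀ n ∈ N, n ≠ 1 → centralizer {n} = N := fun n hn hn1 =>
    (hN.toSylow h1).is_maximal' (h.isPGroup_centralizer hN hn hn1) fun m hm =>
      mem_centralizer_singleton_iff.2 (congrArg Subtype.val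
        ((h.isMinNormal.isElementaryAbelian_of_isPGroup hN).1.is_comm.comm ⟨m, hm⟩ ⟨n, hn⟩))
  obtain ⟨H, hH⟩ := exists_right_complement'_of_coprime (N := N)
    (hk ▸ ((Nat.Prime.coprime_iff_not_dvd hp.out).2 h1).pow_left k)
  obtain ⟨⟨a, ha⟩, ha1⟩ := ne_bot_iff_exists_ne_one.1 h.ne_bot
  replace ha1 : a ≠ 1 := fun h1 => ha1 (Subtype.ext h1)
  have h3 := h.index_add_one ha ha1
  rw [h2 a ha ha1, hH.symm.index_eq_card] at h3
  have hF : IsFrobeniusComplement H := by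
    refine CL.Grp.frob_of_fpf hH h.ne_bot ?_ fun x hx hx1 => eq_bot_iff.2 fun n hn => ?_
    · rintro rfl
      have h4 := hH.card_mul_card
      rw [card_bot] at h3 h4
      omega
    · by_contra h4
      exact hx1 (hH.disjoint.le_bot ⟨h2 n hn.1 h4 ▸ mem_centralizer_singleton_iff.2
        (mem_centralizer_singleton_iff.1 hn.2).symm, hx⟩)
  exact ⟨H, hF, (CL.Grp.isMalnormal_of_frob hF).kernel_eq_of_isComplement' hH, h3⟩

end CL.Char.Gagola
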