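import Cfsg.Agent.Base
import Cfsg.Agent.Char.ExtraspecialChar
import Cfsg.Agent.Char.Ito
import Cfsg.Agent.Blk.Height
import Cfsg.Agent.Grp.PGroupBasic
import Cfsg.Agent.Grp.Comm1

/-!
# `p`-groups whose nonlinear characters of equal degree are Galois conjugate
-/

namespace CL.Char

open Cfsg
open scoped commutatorElement

variable {P : Type*} [Group P] [Finite P]

/-- Nonlinear irreducible characters of equal degree have the same kernel. -/
def SameKer (P : Type*) [Group P] : Prop :=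
  ∀ χ ψ : P → ℂ, IsIrrCharacter P χ → IsIrrCharacter P ψ → χ 1 ≠ 1 → χ 1 = ψ 1 →
    charKer χ = charKer ψ

theorem SameKer.ker_le (h : SameKer P) {χ : P → ℂ} (hχ : IsIrrCharacter P χ) (h1 : χ 1 ≠ 1) :
    charKer χ ≤ commutator P := by
  intro x hx
  rw [mem_commutator_iff_forall_monoidHom]
  intro lam
  have h2 := h χ _ hχ (hχ.monoidHom_mul lam) h1 (by simp)
  have h3 := apply_eq_one_of_mem_charKer (h2 ▸ hx)
  rw [apply_eq_one_of_mem_charKer hx] at h3
  simpa [hχ.one_ne_zero] using h3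

theorem SameKer.quotient (h : SameKer P) (N : Subgroup P) [N.Normal] : SameKer (P ⧸ N) := by
  intro χ ψ hχ hψ h1 h2
  have := h _ _ hχ.inflate hψ.inflate h1 h2
  exact Subgroup.comap_injective (QuotientGroup.mk'_surjective N)
    ((charKer_comp_of_surjective χ _ (QuotientGroup.mk'_surjective N)).symm.trans
      (this.trans (charKer_comp_of_surjective ψ _ (QuotientGroup.mk'_surjective N))))

theorem gcp_exists_zpow {p : ℕ} [hp : Fact p.Prime] {a b : ℂˣ} (ha : a ^ p = 1) (ha1 : a ≠ 1)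
    (hb : b ^ p = 1) : ∃ i : ℕ, b = a ^ i := by
  have h1 : IsPrimitiveRoot a p := by
    rw [← orderOf_eq_prime ha ha1]; exact IsPrimitiveRoot.orderOf a
  obtain ⟨i, -, hi⟩ := h1.eq_pow_of_mem_rootsOfUnity (ξ := b) ((mem_rootsOfUnity p b).mpr hb)
  exact ⟨i, hi.symm⟩

variable {p : ℕ} [hp : Fact p.Prime]

theorem SameKer.exists_ker_eq (h : SameKer P) (hP : IsPGroup p P)
    (hc : Nat.card (commutator P) = p ^ 2) {N : Subgroup P} [N.Normal] (hN : N ≤ commutator P)
    (hNc : Nat.card N = p) : ∃ χ : P → ℂ, IsIrrCharacter P χ ∧ χ 1 ≠ 1 ∧ charKer χ = N ∧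
      commutator P ≤ charCenter χ ∧ ∀ c ∈ commutator P, c ^ p ∈ N := by
  have hlt : N < commutator P := lt_of_le_of_ne hN fun h0 => by
    rw [← h0, hNc] at hc
    have := hp.out.one_lt
    nlinarith
  obtain ⟨K, -, -, hK1, hK2, hK3, hK4⟩ := CL.Grp.exists_normal_card_eq_mul hP hlt
  obtain rfl : K = commutator P :=
    Subgroup.eq_of_le_of_card_ge hK1 (by rw [hK2, hc, hNc, pow_two])
  obtain ⟨g, hg, hgN⟩ := SetLike.exists_of_lt hlt
  obtain ⟨χ, hχ, h1, h2⟩ := exists_irr_le_charKer_not_mem N hgN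
  have h3 : χ 1 ≠ 1 := fun h0 => h2 (hχ.one_eq_one_iff.mp h0 hg)
  have h4 : charKer χ = N :=
    (CL.Grp.eq_or_eq_of_relIndex_prime h1 (h.ker_le hχ h3) (hK3 ▸ hp.out)).resolve_right
      fun h0 => h2 (h0 ▸ hg)
  refine ⟨χ, hχ, h3, h4, fun c hc => hχ.mem_charCenter_iff_commutator.mpr fun y => h1 (hK4
    (Subgroup.commutator_mem_commutator hc (Subgroup.mem_top y))), fun c hc => ?_⟩
  rw [← hK3]
  exact Subgroup.pow_relIndex_mem N hc

theorem gcp_exists_gen {χ : P → ℂ} (hχ : IsIrrCharacter P χ) :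
    ∃ z ∈ charCenter χ, ∀ w ∈ charCenter χ, ∃ k : ℤ, w * (z ^ k)⁻¹ ∈ charKer χ := by
  let lam := centerHom hχ.one_ne_zero
  haveI : Finite lam.range := Finite.of_surjective _ lam.rangeRestrict_surjective
  obtain ⟨⟨_, z, rfl⟩, hz⟩ := IsCyclic.exists_generator (α := lam.range)
  refine ⟨z, z.2, fun w hw => ?_⟩
  obtain ⟨k, hk⟩ := hz ⟨_, ⟨w, hw⟩, rfl⟩
  have h1 : ⟨w, hw⟩ * (z ^ k)⁻¹ ∈ lam.ker := by
    rw [MonoidHom.mem_ker, map_mul, map_inv, map_zpow, mul_inv_eq_one]
    exact (congrArg Subtype.val hk).symm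
  rw [ker_centerHom] at h1
  exact ⟨k, h1⟩

theorem gcp_degree_pow (hP : IsPGroup p P) {χ : P → ℂ} (hχ : IsIrrCharacter P χ) :
    ∃ k, charDegree χ = p ^ k := by
  obtain ⟨n, hn⟩ := hP.exists_card_eq
  obtain ⟨k, -, hk⟩ := (Nat.dvd_prime_pow hp.out).mp (hn ▸ CL.Blk.charDegree_dvd_card hχ)
  exact ⟨k, hk⟩

theorem SameKer.false_of_class_two (h : SameKer P) (hP : IsPGroup p P)
    (hc : Nat.card (commutator P) = p ^ 2) (hZ : commutator P ≤ Subgroup.center P) : False := by
  have hcZ : ∀ x y : P, ⁅x, y⁆ ∈ Subgroup.center P := fun x y => hZ (CL.Grp.comm_mem_commutator x y)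
  have hnorm : ∀ N : Subgroup P, N ≤ commutator P → N.Normal := fun N hN =>
    ⟨fun n hn g => by rw [Subgroup.mem_center_iff.mp (hZ (hN hn)) g, mul_inv_cancel_right]; exact hn⟩
  by_cases hexp : ∀ x y : P, ⁅x, y⁆ ^ p = 1
  · have hpZ : ∀ x : P, x ^ p ∈ Subgroup.center P := fun x => Subgroup.mem_center_iff.mpr fun y =>
      (commutatorElement_eq_one_iff_mul_comm.mp
        ((CL.Grp.comm_pow_left_of_central (hcZ x y) p).trans (hexp x y))).symm
    have hexp' : ∀ c ∈ commutator P, c ^ p = 1 := by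
      intro c hc
      rw [commutator_eq_closure] at hc
      induction hc using Subgroup.closure_induction with
      | mem x hx => obtain ⟨a, b, rfl⟩ := hx; exact hexp a b
      | one => exact one_pow _
      | mul x y hx _ ihx ihy =>
        rw [← commutator_eq_closure] at hx
        rw [(CL.Grp.commute_of_mem_center (hZ hx) y).symm.mul_pow, ihx, ihy, one_mul]
      | inv x _ ih => rw [inv_pow, ih, inv_one]
    have key : ∀ c ∈ commutator P, c ≠ 1 → ∃ χ : P → ℂ, IsIrrCharacter P χ ∧ χ 1 ≠ 1 ∧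
        charKer χ = Subgroup.zpowers c ∧ ∃ k e, e ≤ 1 ∧ charDegree χ = p ^ k ∧
          (Subgroup.center P).index = p ^ (2 * k + e) := by
      intro c hc hc1
      have hle : Subgroup.zpowers c ≤ commutator P := Subgroup.zpowers_le.mpr hc
      haveI := hnorm _ hle
      obtain ⟨χ, hχ, h1, h2, h3, -⟩ := h.exists_ker_eq hP ‹_› hle
        (by rw [Nat.card_zpowers, orderOf_eq_prime (hexp' c hc) hc1])
      obtain ⟨k, hk⟩ := gcp_degree_pow hP hχ
      obtain ⟨z, hz, hz'⟩ := gcp_exists_gen hχ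
      have h4 : charCenter χ = Subgroup.center P ⊔ Subgroup.zpowers z := by
        refine le_antisymm (fun w hw => ?_)
          (sup_le hχ.center_le_charCenter (Subgroup.zpowers_le.mpr hz))
        obtain ⟨j, hj⟩ := hz' w hw
        rw [← inv_mul_cancel_right w (z ^ j)]
        exact Subgroup.mul_mem_sup (hZ (hle (h2 ▸ hj))) (Subgroup.zpow_mem_zpowers z j)
      have h5 : (Subgroup.center P).relIndex (charCenter χ) ∣ p ^ 1 := by
        rw [h4, CL.Grp.relIndex_sup_zpowers, pow_one, orderOf_dvd_iff_pow_eq_one,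
          ← QuotientGroup.mk_pow, QuotientGroup.eq_one_iff]
        exact hpZ z
      obtain ⟨e, he, he'⟩ := (Nat.dvd_prime_pow hp.out).mp h5
      refine ⟨χ, hχ, h1, h2, k, e, he, hk, ?_⟩
      rw [← Subgroup.relIndex_mul_index hχ.center_le_charCenter, he',
        ← irr_charDegree_sq_eq_index_charCenter hχ h3, hk]
      ring
    have hp1 := hp.out.one_lt
    obtain ⟨⟨c, hcm⟩, hc1⟩ := (Subgroup.ne_bot_iff_exists_ne_one (H := commutator P)).mp (by
      intro h0
      rw [h0, Subgroup.card_bot] at hc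
      nlinarith)
    have hc1' : c ≠ 1 := fun h0 => hc1 (Subtype.ext h0)
    obtain ⟨d, hdm, hd⟩ : ∃ d ∈ commutator P, d ∉ Subgroup.zpowers c := by
      by_contra hcon
      push Not at hcon
      have := Subgroup.card_le_of_le hcon
      rw [hc, Nat.card_zpowers, orderOf_eq_prime (hexp' c hcm) hc1'] at this
      nlinarith
    obtain ⟨χ, hχ, h1, h2, k, e, he, hk, hi⟩ := key c hcm hc1'
    obtain ⟨ψ, hψ, -, h2', k', e', he', hk', hi'⟩ := key d hdm fun h0 => hd (h0 ▸ Subgroup.one_mem _)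
    have h3 := Nat.pow_right_injective hp.out.two_le (hi.symm.trans hi')
    have h4 := h χ ψ hχ hψ h1 (by
      rw [← CL.Blk.charDegree_cast hχ.isCharacter, ← CL.Blk.charDegree_cast hψ.isCharacter, hk, hk',
        show k = k' by omega])
    rw [h2, h2'] at h4
    exact hd (h4 ▸ Subgroup.mem_zpowers d)
  · push Not at hexp
    obtain ⟨x, y, hxy⟩ := hexp
    obtain ⟨N, hNn, hN, hNc⟩ := CL.Grp.exists_normal_card_eq_pow_le hP (commutator P) (b := 1)
      (hc ▸ Nat.pow_le_pow_right hp.out.pos one_le_two)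
    rw [pow_one] at hNc
    obtain ⟨χ, hχ, -, h2, -, h4⟩ := h.exists_ker_eq hP hc hN hNc
    obtain ⟨z, hz, hz'⟩ := gcp_exists_gen hχ
    have h5 : ∀ u : P, ∃ a : ℤ, ∀ v : P, ⁅u, v⁆ ^ p = ⁅z, v⁆ ^ a := by
      intro u
      obtain ⟨a, ha⟩ := hz' (u ^ p) (hχ.mem_charCenter_iff_commutator.mpr fun v => by
        rw [CL.Grp.comm_pow_left_of_central (hcZ u v), h2]
        exact h4 _ (CL.Grp.comm_mem_commutator u v))
      refine ⟨a, fun v => ?_⟩
      rw [← CL.Grp.comm_pow_left_of_central (hcZ u v), ← inv_mul_cancel_right (u ^ p) (z ^ a),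
        CL.Grp.comm_mul_left_of_central (hcZ _ v),
        CL.Grp.comm_zpow_left (CL.Grp.commute_of_mem_center (hcZ z v) z),
        commutatorElement_eq_one_iff_mul_comm.mpr
          (Subgroup.mem_center_iff.mp (hZ (hN (h2 ▸ ha))) v).symm, one_mul]
    have h6 : ∀ v : P, ⁅z, v⁆ ^ p = 1 := fun v => by
      have : ⁅z, v⁆ ∈ N := h2 ▸ hχ.mem_charCenter_iff_commutator.mp hz v
      rw [← hNc]
      exact congrArg Subtype.val (pow_card_eq_one' (G := N) (x := ⟨_, this⟩))
    obtain ⟨a, ha⟩ := h5 x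
    obtain ⟨b, hb⟩ := h5 y
    have h7 : ⁅z, y⁆ ≠ 1 := fun h0 => hxy (by rw [ha, h0, one_zpow])
    have h8 : (p : ℤ) ∣ b := by
      rw [← orderOf_eq_prime (h6 y) h7, orderOf_dvd_iff_zpow_eq_one, ← hb]
      simp
    obtain ⟨j, rfl⟩ := h8
    apply hxy
    rw [← commutatorElement_inv, inv_pow, hb, zpow_mul, zpow_natCast, h6, one_zpow, inv_one]

theorem SameKer.false_of_class_three (h : SameKer P) (hP : IsPGroup p P)
    (hc : Nat.card (commutator P) = p ^ 2) (hZ : ¬ commutator P ≤ Subgroup.center P) : False := by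
  haveI := hP.isNilpotent
  have hp1 := hp.out.one_lt
  obtain ⟨N, hNn, hN, hNc⟩ := CL.Grp.exists_normal_card_eq_pow_le hP (commutator P) (b := 1)
    (hc ▸ Nat.pow_le_pow_right hp.out.pos one_le_two)
  rw [pow_one] at hNc
  have hNZ := CL.Grp.le_center_of_normal_card_prime hP N hNc
  obtain ⟨χ, hχ, h1, h2, h3, h4⟩ := h.exists_ker_eq hP hc hN hNc
  have hrel : (N.relIndex (commutator P)).Prime := by
    have := CL.Grp.card_eq_relIndex_mul_card hN
    rw [hc, hNc, pow_two] at this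
    rw [← Nat.eq_of_mul_eq_mul_right hp.out.pos this]; exact hp.out
  have hNeq : commutator P ⊓ Subgroup.center P = N :=
    (CL.Grp.eq_or_eq_of_relIndex_prime (le_inf hN hNZ) inf_le_left hrel).resolve_right
      fun h0 => hZ (h0.ge.trans inf_le_right)
  obtain ⟨c, hcm, hcZ⟩ := SetLike.not_le_iff_exists.mp hZ
  let lam := centerHom hχ.one_ne_zero
  have hlam : ∀ w : charCenter χ, lam w = 1 ↔ (w : P) ∈ N := fun w => by
    rw [← MonoidHom.mem_ker, ker_centerHom, h2]; rfl
  have hc1 : lam ⟨c, h3 hcm⟩ ≠ 1 := fun h0 => hcZ (hNZ ((hlam _).mp h0))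
  have hcp : lam ⟨c, h3 hcm⟩ ^ p = 1 := by rw [← map_pow, hlam]; exact h4 c hcm
  have hZN : Subgroup.center P ≤ N := by
    intro u hu
    by_contra hun
    obtain ⟨k, hk⟩ := hP u
    obtain ⟨j, hj1, hj2⟩ := CL.Grp.exists_pow_notMem_pow_prime_mem (N := N) (hk ▸ N.one_mem) hun
    have hm : u ^ p ^ j ∈ Subgroup.center P := Subgroup.pow_mem _ hu _
    obtain ⟨i, hi⟩ := gcp_exists_zpow (a := lam ⟨_, hχ.center_le_charCenter hm⟩)
      (by rw [← map_pow, hlam]; exact hj2) (fun h0 => hj1 ((hlam _).mp h0)) hcp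
    rw [← map_pow, ← mul_inv_eq_one, ← map_inv, ← map_mul, hlam] at hi
    exact hcZ (by simpa using Subgroup.mul_mem _ (hNZ hi) (Subgroup.pow_mem _ hm i))
  have hNp : ∀ n ∈ N, n ^ p = 1 := fun n hn => by
    rw [← hNc]
    exact congrArg Subtype.val (pow_card_eq_one' (G := N) (x := ⟨_, hn⟩))
  have hW : charCenter χ = commutator P := by
    refine le_antisymm (fun w hw => ?_) h3
    have h5 : w ^ p ∈ N := hZN (Subgroup.mem_center_iff.mpr fun y => by
      have h6 : ⁅w, y⁆ ∈ N := h2 ▸ hχ.mem_charCenter_iff_commutator.mp hw y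
      exact (commutatorElement_eq_one_iff_mul_comm.mp
        ((CL.Grp.comm_pow_left_of_central (hNZ h6) p).trans (hNp _ h6))).symm)
    obtain ⟨i, hi⟩ := gcp_exists_zpow hcp hc1 (b := lam ⟨w, hw⟩) (by rw [← map_pow, hlam]; exact h5)
    rw [← map_pow, ← mul_inv_eq_one, ← map_inv, ← map_mul, hlam] at hi
    simpa using Subgroup.mul_mem _ (hN hi) (Subgroup.pow_mem _ hcm i)
  have hcN : ∀ y, ⁅c, y⁆ ∈ N := fun y => h2 ▸ hχ.mem_charCenter_iff_commutator.mp (h3 hcm) y
  let f : P →* N :=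
    { toFun := fun y => ⟨⁅c, y⁆, hcN y⟩
      map_one' := by simp
      map_mul' := fun a b => Subtype.ext (CL.Grp.comm_mul_right_of_central (hNZ (hcN b))) }
  have hCi : f.ker.index ≤ p := by
    rw [Subgroup.index_ker, ← hNc]
    exact Nat.le_of_dvd Nat.card_pos (Subgroup.card_subgroup_dvd_card _)
  have hPC : ⁅commutator P, f.ker⁆ ≤ ⊥ := by
    have h5 : commutator P = N ⊔ Subgroup.zpowers c :=
      ((CL.Grp.eq_or_eq_of_relIndex_prime le_sup_left (sup_le hN (Subgroup.zpowers_le.mpr hcm))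
        hrel).resolve_left fun h0 => hcZ (hNZ (h0 ▸ Subgroup.mem_sup_right
          (Subgroup.mem_zpowers c)))).symm
    rw [le_bot_iff, Subgroup.commutator_eq_bot_iff_le_centralizer, h5, sup_le_iff,
      Subgroup.zpowers_le]
    exact ⟨hNZ.trans (Subgroup.center_le_centralizer _), fun y hy =>
      (commutatorElement_eq_one_iff_mul_comm.mp (congrArg Subtype.val hy)).symm⟩
  have hCC : ⁅f.ker, f.ker⁆ ≤ N := by
    have := CL.Grp.three_subgroups (H₁ := f.ker) (H₂ := f.ker) (H₃ := ⊤) (N := ⊥)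
      ((Subgroup.commutator_mono (Subgroup.commutator_mono le_top le_rfl) le_rfl).trans hPC)
      ((Subgroup.commutator_mono (Subgroup.commutator_mono le_rfl le_top) le_rfl).trans hPC)
    rw [le_bot_iff, Subgroup.commutator_eq_bot_iff_le_centralizer, Subgroup.coe_top,
      Subgroup.centralizer_univ] at this
    exact this.trans hZN
  have hdeg : charDegree χ ≤ p := by
    obtain ⟨χ', hχ', e⟩ := hχ.exists_quotient N h2.ge
    have := isIrr_degree_le_index_of_abelian hχ' (n := charDegree χ)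
      (by rw [CL.Blk.charDegree_cast hχ.isCharacter, e]; rfl)
      (f.ker.map (QuotientGroup.mk' N)) (by
        rintro _ ⟨a, ha, rfl⟩ _ ⟨b, hb, rfl⟩
        rw [← commutatorElement_eq_one_iff_mul_comm, ← map_commutatorElement]
        exact (QuotientGroup.eq_one_iff _).mpr (hCC (Subgroup.commutator_mem_commutator ha hb)))
    exact this.trans ((Nat.le_of_dvd (Nat.pos_of_ne_zero Subgroup.index_ne_zero_of_finite)
      (Subgroup.index_map_dvd _ (QuotientGroup.mk'_surjective N))).trans hCi)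
  have hidx : (Subgroup.center P).index ≤ p ^ 3 := by
    have h5 := irr_charDegree_sq_eq_index_charCenter hχ h3
    have h6 := (commutator P).card_mul_index
    have h7 := (Subgroup.center P).card_mul_index
    rw [le_antisymm hZN hNZ, hNc, ← h6, ← hW, ← h5, hW, hc] at h7
    rw [le_antisymm hZN hNZ]
    refine Nat.le_of_mul_le_mul_left ?_ hp.out.pos
    rw [h7]
    calc _ ≤ p ^ 2 * p ^ 2 := by gcongr
      _ = _ := by ring
  have hall : ∀ ξ : P → ℂ, IsIrrCharacter P ξ → ξ 1 ≠ 1 → ξ 1 = p := by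
    intro ξ hξ hξ1
    obtain ⟨k, hk⟩ := gcp_degree_pow hP hξ
    have h5 := hξ.charDegree_sq_le_index_center.trans hidx
    rw [hk, ← pow_mul, Nat.pow_le_pow_iff_right hp1] at h5
    rw [← CL.Blk.charDegree_cast hξ.isCharacter, hk] at hξ1 ⊢
    have : k ≠ 0 := by rintro rfl; simp at hξ1
    rw [show k = 1 by omega, pow_one]
  obtain ⟨⟨g, hg⟩, hg1⟩ := (Subgroup.ne_bot_iff_exists_ne_one (H := N)).mp (by
    intro h0
    rw [h0, Subgroup.card_bot] at hNc
    omega)
  obtain ⟨ψ, hψ, h5⟩ := exists_irr_not_mem_charKer (g := g) fun h0 => hg1 (Subtype.ext h0)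
  have h6 : ψ 1 ≠ 1 := fun h0 => h5 (hψ.one_eq_one_iff.mp h0 (hN hg))
  exact h5 (h χ ψ hχ hψ h1 ((hall χ hχ h1).trans (hall ψ hψ h6).symm) ▸ h2.ge hg)

theorem SameKer.card_commutator (h : SameKer P) (hP : IsPGroup p P) (hna : commutator P ≠ ⊥) :
    Nat.card (commutator P) = p := by
  obtain ⟨k, hk⟩ := (hP.to_subgroup (commutator P)).exists_card_eq
  have hk0 : k ≠ 0 := by
    rintro rfl
    exact hna (Subgroup.card_eq_one.mp hk)
  by_cases hk1 : k = 1
  · rw [hk, hk1, pow_one]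
  exfalso
  obtain ⟨M, hMn, hM, hMc⟩ := CL.Grp.exists_normal_card_eq_pow_le hP (commutator P) (b := k - 2)
    (hk ▸ Nat.pow_le_pow_right hp.out.pos (Nat.sub_le k 2))
  have hc : Nat.card (commutator (P ⧸ M)) = p ^ 2 := by
    have h0 : (commutator P).map (QuotientGroup.mk' M) = commutator (P ⧸ M) := by
      rw [commutator, Subgroup.map_commutator,
        Subgroup.map_top_of_surjective _ (QuotientGroup.mk'_surjective M), commutator]
    rw [← h0, ← Subgroup.relIndex_ker, QuotientGroup.ker_mk']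
    have := CL.Grp.card_eq_relIndex_mul_card hM
    rw [hk, hMc, show k = 2 + (k - 2) by omega, pow_add, Nat.add_sub_cancel_left] at this
    exact (Nat.eq_of_mul_eq_mul_right (pow_pos hp.out.pos _) this).symm
  by_cases hZ : commutator (P ⧸ M) ≤ Subgroup.center (P ⧸ M)
  · exact (h.quotient M).false_of_class_two (hP.to_quotient M) hc hZ
  · exact (h.quotient M).false_of_class_three (hP.to_quotient M) hc hZ

theorem gcp_inf_eq_bot (hc : Nat.card (commutator P) = p) {χ : P → ℂ} (hχ : IsIrrCharacter P χ)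
    (h1 : χ 1 ≠ 1) : commutator P ⊓ charKer χ = ⊥ :=
  (CL.Grp.eq_or_eq_of_relIndex_prime bot_le inf_le_left
    (by rw [Subgroup.relIndex_bot_left, hc]; exact hp.out)).resolve_right
      fun h0 => h1 (hχ.one_eq_one_iff.mpr (h0.ge.trans inf_le_right))

theorem galois_conj_iff (hP : IsPGroup p P) (hna : ¬ IsMulCommutative P) :
    (∀ χ ψ : IrrCharacter P, charDegree (χ : P → ℂ) ≠ 1 →
      charDegree (χ : P → ℂ) = charDegree (ψ : P → ℂ) →
        ∃ k : ℕ, Nat.Coprime k (Nat.card P) ∧ ∀ g : P, (ψ : P → ℂ) g = (χ : P → ℂ) (g ^ k)) ↔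
      (IsCyclic (Subgroup.center P) ∧ Nat.card (commutator P) = p) := by
  constructor
  · intro h
    have hS : SameKer P := by
      intro χ ψ hχ hψ h1 h2
      obtain ⟨k, hk, hk'⟩ := h ⟨χ, hχ⟩ ⟨ψ, hψ⟩ (fun h0 => h1 (by
        rw [← CL.Blk.charDegree_cast hχ.isCharacter]; exact_mod_cast h0)) (by
        unfold charDegree; simp only [h2])
      ext g
      rw [hψ.mem_charKer, ← h2, show ψ g = χ (g ^ k) from hk' g, ← hχ.mem_charKer]
      refine ⟨fun hg => Subgroup.pow_mem _ hg k, fun hg => ?_⟩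
      obtain ⟨m, hm⟩ := exists_pow_eq_self_of_coprime (hk.coprime_dvd_right (orderOf_dvd_natCard g))
      rw [← hm]; exact Subgroup.pow_mem _ hg m
    have hc := hS.card_commutator hP fun h0 => hna
      ⟨⟨fun a b => commutatorElement_eq_one_iff_mul_comm.mp
        (Subgroup.mem_bot.mp (h0 ▸ CL.Grp.comm_mem_commutator a b))⟩⟩
    refine ⟨?_, hc⟩
    obtain ⟨χ, h1⟩ : ∃ χ : IrrCharacter P, (χ : P → ℂ) 1 ≠ 1 := by
      by_contra hcon
      push Not at hcon
      exact hna ⟨⟨comm_iff_forall_irr_one_eq_one.mpr hcon⟩⟩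
    refine χ.2.isCyclic_center ?_
    rw [← gcp_inf_eq_bot hc χ.2 h1, inf_eq_right.mpr (hS.ker_le χ.2 h1)]
  · rintro ⟨hcyc, hc⟩
    haveI := hP.isNilpotent
    have hZ := CL.Grp.le_center_of_normal_card_prime hP _ hc
    obtain ⟨z, hz⟩ := hcyc.exists_generator
    have key : ∀ χ : P → ℂ, IsIrrCharacter P χ → χ 1 ≠ 1 → ∃ lam : Subgroup.center P →* ℂˣ,
        IsPrimitiveRoot (lam z) (orderOf z) ∧ (∀ u : Subgroup.center P, χ u = χ 1 * lam u) ∧
          ∀ g, g ∉ Subgroup.center P → χ g = 0 := by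
      intro χ hχ h1
      have h2 := gcp_inf_eq_bot hc hχ h1
      obtain ⟨lam, hlam, -⟩ := hχ.exists_monoidHom_of_le_charCenter hχ.center_le_charCenter
      refine ⟨lam, ?_, hlam, fun g hg => irr_eq_zero_of_commutator_le_charCenter hχ
        (hZ.trans hχ.center_le_charCenter) (irr_charCenter_eq_center_of_commutator hχ h2 ▸ hg)⟩
      have hinj : Function.Injective lam := by
        classical
        rw [injective_iff_map_eq_one]
        intro u hu
        by_contra hu1
        obtain ⟨k, hk⟩ := hP u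
        obtain ⟨j, hj1, hj2⟩ := CL.Grp.exists_pow_notMem_pow_prime_mem (N := ⊥) (x := u)
          (Subtype.ext hk) hu1
        haveI := Fintype.ofFinite (Subgroup.center P)
        have h3 := IsCyclic.card_pow_eq_one_le (α := Subgroup.center P) hp.out.pos
        have h4 : (Finset.univ.filter fun a => a ∈ (commutator P).subgroupOf (Subgroup.center P)) =
            Finset.univ.filter fun a : Subgroup.center P => a ^ p = 1 := by
          refine Finset.eq_of_subset_of_card_le (fun a ha => ?_) (h3.trans ?_)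
          · rw [Finset.mem_filter] at ha ⊢
            refine ⟨ha.1, Subtype.ext ?_⟩
            rw [← hc]
            have := congrArg Subtype.val (pow_card_eq_one' (G := commutator P) (x := ⟨_, ha.2⟩))
            exact this
          · rw [← Fintype.card_subtype, ← Nat.card_eq_fintype_card,
              Nat.card_congr (Subgroup.subgroupOfEquivOfLe hZ).toEquiv, hc]
        have h5 : u ^ p ^ j ∈ Finset.univ.filter fun a : Subgroup.center P => a ^ p = 1 :=
          Finset.mem_filter.mpr ⟨Finset.mem_univ _, hj2⟩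
        rw [← h4, Finset.mem_filter] at h5
        have h6 : ((u ^ p ^ j : Subgroup.center P) : P) ∈ commutator P ⊓ charKer χ :=
          ⟨h5.2, hχ.mem_charKer.mpr (by rw [hlam, map_pow, hu]; simp)⟩
        rw [h2] at h6
        exact hj1 (Subtype.ext h6)
      rw [← orderOf_injective lam hinj z]
      exact IsPrimitiveRoot.orderOf _
    intro χ ψ h1 h2
    have h1' : (χ : P → ℂ) 1 ≠ 1 := fun h0 => h1 (CL.Blk.charDegree_eq_of_eq (by simpa using h0))
    have h2' : (χ : P → ℂ) 1 = (ψ : P → ℂ) 1 := by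
      rw [← CL.Blk.charDegree_cast_irr, ← CL.Blk.charDegree_cast_irr, h2]
    obtain ⟨lam, hl1, hl2, hl3⟩ := key _ χ.2 h1'
    obtain ⟨mu, hm1, hm2, hm3⟩ := key _ ψ.2 (h2' ▸ h1')
    haveI : NeZero (orderOf z) := ⟨(orderOf_pos z).ne'⟩
    obtain ⟨k, -, hk, e⟩ := (hl1.isPrimitiveRoot_iff' (ξ := mu z)).mp hm1
    have hpz : p ∣ orderOf z := by
      rw [orderOf_eq_card_of_forall_mem_zpowers hz, ← hc]
      exact Subgroup.card_dvd_of_le hZ
    obtain ⟨n, hn⟩ := hP.exists_card_eq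
    have hk' : k.Coprime (Nat.card P) := hn ▸ (hk.coprime_dvd_right hpz).pow_right n
    refine ⟨k, hk', fun g => ?_⟩
    by_cases hg : g ∈ Subgroup.center P
    · obtain ⟨i, hi⟩ := hz ⟨g, hg⟩
      have h3 := hm2 ⟨g, hg⟩
      have h4 := hl2 (⟨g, hg⟩ ^ k)
      refine h3.trans (Eq.trans ?_ h4.symm)
      rw [h2', ← hi, map_pow, map_zpow, map_zpow, ← e, ← zpow_natCast, ← zpow_natCast, ← zpow_mul,
        ← zpow_mul, mul_comm i]
    · rw [hm3 g hg, hl3]
      intro h0
      obtain ⟨m, hm⟩ := exists_pow_eq_self_of_coprime (hk'.coprime_dvd_right (orderOf_dvd_natCard g))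
      exact hg (hm ▸ Subgroup.pow_mem _ h0 m)

end CL.Char
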