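/-
Green's lifting theorem: the sum of a faithful multiplicative character over the eigenvalues of a modular
representation is a generalized character (helper23).
-/
import Cfsg.Agent.Char.Brauer
import Cfsg.Agent.Known.GLSim2

set_option autoImplicit false

namespace CL.Green

open Cfsg Polynomial Module MulAction CL.Char CL.GLn

universe u v

/-- An equivariant family of functions supported on stabilizers sums to a generalized character. -/
theorem genChar_sum {G X : Type*} [Group G] [Finite G] [MulAction G X] [Fintype X] (φ : X → G → ℂ)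
    (h1 : ∀ x y g, φ (x • y) (x * g * x⁻¹) = φ y g) (h2 : ∀ y g, g • y ≠ y → φ y g = 0)
    (h3 : ∀ y, IsGeneralizedCharacter (stabilizer G y) fun s => φ y s) :
    IsGeneralizedCharacter G fun g => ∑ y, φ y g := by
  classical
  have := Fintype.ofFinite G
  have e : (fun g => ∑ y, φ y g) = ∑ w : orbitRel.Quotient G X, indFun (stabilizer G w.out) fun s => φ w.out s := by
    funext g
    rw [Finset.sum_apply, ← Finset.sum_fiberwise _ (Quotient.mk (orbitRel G X))]
    refine Finset.sum_congr rfl fun w _ => ?_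
    rw [indFun_eq_sum_quotient (h3 _).isClassFunction]
    refine (Finset.sum_bij (fun q _ => ofQuotientStabilizer G w.out q) (fun q _ => ?_)
      (fun a _ b _ h => injective_ofQuotientStabilizer G _ h) (fun y hy => ?_) fun q _ => ?_).symm
    · exact Finset.mem_filter.2 ⟨Finset.mem_univ _, (Quotient.sound (ofQuotientStabilizer_mem_orbit G _ q)).trans
        w.out_eq⟩
    · obtain ⟨x, hx⟩ : y ∈ orbit G w.out := Quotient.exact ((Finset.mem_filter.1 hy).2.trans w.out_eq.symm)
      exact ⟨x, Finset.mem_univ _, hx⟩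
    · have : φ (ofQuotientStabilizer G w.out q) g = φ w.out (q.out⁻¹ * g * q.out) := by
        rw [← h1 q.out w.out, ← ofQuotientStabilizer_mk, QuotientGroup.out_eq']; congr 1; group
      rw [this, extendByZero_eq_dite]
      split_ifs with h
      exacts [rfl, (h2 _ _ h).symm]
  exact e ▸ isGeneralizedCharacter_sum _ _ fun w _ => isGeneralizedCharacter_indFun (h3 _)

section Lin
variable {F V : Type*} [Field F] [AddCommGroup V] [Module F V]

open Module.Basis in
theorem charpoly_eq_mul [FiniteDimensional F V] (W : Submodule F V) (e : End F V) (he : ∀ x ∈ W, e x ∈ W) :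
    e.charpoly = (e.restrict he).charpoly * (W.mapQ W e he).charpoly := by
  let bW := finBasis F W
  let bQ := finBasis F (V ⧸ W)
  let b := sumQuot bW bQ
  suffices LinearMap.toMatrix b b e = Matrix.fromBlocks (LinearMap.toMatrix bW bW (e.restrict he))
      (Matrix.of fun i l => b.repr (e (b (Sum.inr l))) (Sum.inl i)) 0 (LinearMap.toMatrix bQ bQ (W.mapQ W e he)) by
    rw [← LinearMap.charpoly_toMatrix _ b, this, ← LinearMap.charpoly_toMatrix _ bW,
      ← LinearMap.charpoly_toMatrix _ bQ, Matrix.charpoly_fromBlocks_zero₂₁]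
  ext (i | j) (k | l)
  · simp only [b, sumQuot_inl, Matrix.fromBlocks_apply₁₁, LinearMap.toMatrix_apply]
    apply sumQuot_repr_inl_of_mem
  · simp [b, LinearMap.toMatrix_apply]
  · suffices W.mkQ (e (bW k)) = 0 by simp [LinearMap.toMatrix_apply, b, this]
    rw [← LinearMap.mem_ker, Submodule.ker_mkQ]
    exact he _ (bW k).2
  · simp only [LinearMap.toMatrix_apply, sumQuot_repr_inr, Matrix.fromBlocks_apply₂₂, b]
    rw [← sumQuot_inr bW bQ l, W.mapQ_apply]
    simp

theorem charpoly_eq_prod [FiniteDimensional F V] {ι : Type*} [Fintype ι] [DecidableEq ι] {W : ι → Submodule F V}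
    (h : DirectSum.IsInternal W) (e : End F V) (he : ∀ i, ∀ x ∈ W i, e x ∈ W i) :
    e.charpoly = ∏ i, (e.restrict (he i)).charpoly := by
  classical
  let b := fun i => finBasis F (W i)
  rw [← LinearMap.charpoly_toMatrix _ (h.collectedBasis b),
    LinearMap.toMatrix_directSum_collectedBasis_eq_blockDiagonal' h h b b he, charpoly_blockDiagonal']
  exact Finset.prod_congr rfl fun i _ => LinearMap.charpoly_toMatrix _ _

variable {G : Type*} [Group G]

/-- The action on an invariant subspace. -/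
def subHom (ρ : G →* End F V) (W : Submodule F V) (h : ∀ g, ∀ x ∈ W, ρ g x ∈ W) : G →* End F W where
  toFun g := (ρ g).restrict (h g)
  map_one' := by ext; simp
  map_mul' a b := by ext; simp

/-- The action on the quotient by an invariant subspace. -/
def quotHom (ρ : G →* End F V) (W : Submodule F V) (h : ∀ g, ∀ x ∈ W, ρ g x ∈ W) : G →* End F (V ⧸ W) where
  toFun g := W.mapQ W (ρ g) (h g)
  map_one' := by ext; simp
  map_mul' a b := by ext; simp

/-- The linear equivalence attached to a group element. -/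
def eqv (ρ : G →* End F V) (x : G) : V ≃ₗ[F] V :=
  .ofLinearMap (ρ x) (ρ x⁻¹) (by rw [← End.mul_eq_comp, ← map_mul]; simp [End.one_eq_id])
    (by rw [← End.mul_eq_comp, ← map_mul]; simp [End.one_eq_id])

@[simp] theorem eqv_apply (ρ : G →* End F V) (x : G) (v : V) : eqv ρ x v = ρ x v := rfl

theorem conj_apply (ρ : G →* End F V) (x g : G) (v : V) : ρ (x * g * x⁻¹) (ρ x v) = ρ x (ρ g v) := by
  rw [← End.mul_apply, ← End.mul_apply, ← map_mul, ← map_mul]; congr 2; group

theorem sim_conj (ρ : G →* End F V) (x g : G) : Sim (ρ g) (ρ (x * g * x⁻¹)) :=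
  ⟨eqv ρ x, fun v => (conj_apply ρ x g v).symm⟩

theorem sim_restrict {V' : Type*} [AddCommGroup V'] [Module F V'] {f : End F V} {f' : End F V'} (e : V →ₗ[F] V')
    (h : ∀ v, e (f v) = f' (e v)) {W : Submodule F V} {W' : Submodule F V'} (he : ∀ x ∈ W, e x = 0 → x = 0)
    (hW : W.map e = W') (h1 : ∀ x ∈ W, f x ∈ W) (h2 : ∀ x ∈ W', f' x ∈ W') : Sim (f.restrict h1) (f'.restrict h2) := by
  subst hW
  exact ⟨.ofBijective (e.submoduleMap W) ⟨(injective_iff_map_eq_zero _).2 fun x hx =>
    Subtype.ext (he _ x.2 (congrArg Subtype.val hx)), e.submoduleMap_surjective W⟩, fun v => Subtype.ext (h v)⟩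

end Lin

variable {K : Type*} [Field K] [Fintype K]

/-- Sum of `θ` over the roots of a polynomial. -/
noncomputable def Th (θ : K → ℂ) (P : K[X]) : ℂ := ∑ α, (rootMultiplicity α P : ℂ) * θ α

theorem Th_mul (θ : K → ℂ) {P Q : K[X]} (hP : P.Monic) (hQ : Q.Monic) : Th θ (P * Q) = Th θ P + Th θ Q := by
  simp [Th, rootMultiplicity_mul (hP.mul hQ).ne_zero, add_mul, Finset.sum_add_distrib]

theorem Th_one (θ : K → ℂ) : Th θ 1 = 0 := by simpa using Th_mul θ monic_one monic_one

theorem Th_prod (θ : K → ℂ) {ι : Type*} (s : Finset ι) {P : ι → K[X]} (hP : ∀ i, (P i).Monic) :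
    Th θ (∏ i ∈ s, P i) = ∑ i ∈ s, Th θ (P i) := by
  classical
  induction s using Finset.induction_on with
  | empty => simp [Th_one]
  | insert a s h ih =>
    rw [Finset.prod_insert h, Finset.sum_insert h, Th_mul θ (hP a) (monic_prod_of_monic _ _ fun i _ => hP i), ih]

theorem Th_X_sub_C (θ : K → ℂ) (c : K) : Th θ (X - C c) = θ c := by
  classical
  simp [Th, rootMultiplicity_X_sub_C]

theorem Th_smul {V : Type*} [AddCommGroup V] [Module K V] [FiniteDimensional K V] (θ : K →* ℂ) {c : K} (hc : c ≠ 0)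
    (f : End K V) : Th θ (c • f).charpoly = θ c * Th θ f.charpoly := by
  rw [Th, Th, Finset.mul_sum, ← Equiv.sum_comp (Equiv.mulLeft₀ c hc)]
  refine Finset.sum_congr rfl fun α _ => ?_
  have : (c • f).maxGenEigenspace (c * α) = f.maxGenEigenspace α := by
    ext x
    simp [End.mem_maxGenEigenspace, mul_smul, ← smul_sub, _root_.smul_pow, hc]
  rw [← LinearMap.finrank_maxGenEigenspace_eq, ← LinearMap.finrank_maxGenEigenspace_eq, Equiv.mulLeft₀_apply, this,
    map_mul]
  ring

theorem lift_nilpotent (θ : K →* ℂ) (hθ : ∀ c, θ c = 1 → c = 1) (d : ℕ) : ∀ (Q : Type u) [Group Q] [Finite Q]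
    [Group.IsNilpotent Q] (V : Type v) [AddCommGroup V] [Module K V] [FiniteDimensional K V] (ρ : Q →* End K V),
    finrank K V = d → (∀ g, (ρ g).charpoly.Splits) → IsGeneralizedCharacter Q fun g => Th θ (ρ g).charpoly := by
  classical
  induction d using Nat.strong_induction_on with
  | _ d ih =>
  intro Q _ _ _ V _ _ _ ρ hd hs
  have sub : ∀ (S : Subgroup Q) (W : Submodule K V) (h : ∀ g : S, ∀ x ∈ W, ρ g x ∈ W), W ≠ ⊤ →
      IsGeneralizedCharacter S fun g => Th θ ((ρ g).restrict (h g)).charpoly := fun S W h hW =>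
    ih _ (hd ▸ Submodule.finrank_lt hW) S W (subHom (ρ.comp S.subtype) W h) rfl fun g =>
      (hs g).of_dvd (ρ g).charpoly_monic.ne_zero ⟨_, charpoly_eq_mul W _ (h g)⟩
  by_cases c1 : ∃ W : Submodule K V, W ≠ ⊥ ∧ W ≠ ⊤ ∧ ∀ g, ∀ x ∈ W, ρ g x ∈ W
  · obtain ⟨W, h1, h2, h⟩ := c1
    have a := (sub ⊤ W (fun g => h g) h2).comp Subgroup.topEquiv.symm.toMonoidHom
    have b := ih _ (by
      have := W.finrank_quotient_add_finrank
      have := Submodule.finrank_eq_zero.not.2 h1
      omega) Q _ (quotHom ρ W h) rfl fun g =>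
      (hs g).of_dvd (ρ g).charpoly_monic.ne_zero (Dvd.intro_left _ (charpoly_eq_mul W _ (h g)).symm)
    convert a.add b using 2 with g
    rw [charpoly_eq_mul W _ (h g), Th_mul _ (LinearMap.charpoly_monic _) (LinearMap.charpoly_monic _)]
    rfl
  rcases subsingleton_or_nontrivial V with hV | hV
  · convert isGeneralizedCharacter_zero using 2 with g
    rw [(ρ g).charpoly_monic.natDegree_eq_zero.1 (by
      rw [LinearMap.charpoly_natDegree, finrank_zero_of_subsingleton]), Th_one]; rfl
  have sc : ∀ {a : Q} {c c' : K}, c • ρ a = c' • ρ a → c = c' := fun {a c c'} h => by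
    obtain ⟨v, hv⟩ := exists_ne (0 : V)
    exact smul_left_injective K ((eqv ρ a).map_ne_zero_iff.2 hv) (LinearMap.congr_fun h v)
  have mk : ∀ (a : Q) (f : Q → Q), (∀ g, ∃ c : K, ρ (f g) = c • ρ a) → f 1 = a → (∀ g h (c c' : K),
      ρ (f g) = c • ρ a → ρ (f h) = c' • ρ a → ρ (f (g * h)) = (c * c') • ρ a) →
      ∃ c : Q →* Kˣ, ∀ g, ρ (f g) = (c g : K) • ρ a := fun a f h h1 h2 => by
    choose c hc using h
    exact ⟨MonoidHom.toHomUnits ⟨⟨c, sc ((hc 1).symm.trans (by rw [h1, one_smul]))⟩, fun g h =>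
      sc ((hc _).symm.trans (h2 _ _ _ _ (hc g) (hc h)))⟩, hc⟩
  let Z : Subgroup Q :=
    { carrier := {g | ∃ c : K, ρ g = c • 1}
      one_mem' := ⟨1, by simp⟩
      mul_mem' := fun ⟨c, hc⟩ ⟨c', hc'⟩ => ⟨c * c', by simp [hc, hc', smul_smul, mul_comm]⟩
      inv_mem' := fun {g} ⟨c, hc⟩ => by
        have e : c • ρ g⁻¹ = 1 := by rw [← map_one ρ, ← mul_inv_cancel g, map_mul, hc]; simp
        have h0 : c ≠ 0 := fun h => by rw [h, zero_smul] at e; exact zero_ne_one e
        exact ⟨c⁻¹, by rw [← e, smul_smul, inv_mul_cancel₀ h0, one_smul]⟩ }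
  have hZ : Z.Normal := ⟨fun g ⟨c, hc⟩ x => ⟨c, by
    rw [map_mul, map_mul, hc, mul_smul_comm, smul_mul_assoc, mul_one, ← map_mul, mul_inv_cancel, map_one]⟩⟩
  by_cases c2 : Z = ⊤
  · obtain ⟨c, hc⟩ := mk 1 id (fun g => map_one ρ ▸ (c2.ge (Subgroup.mem_top g) :)) rfl fun g h c c' h1 h2 => by
      simp only [id] at h1 h2 ⊢; simp [h1, h2, smul_smul, mul_comm]
    have := ((isCharacter_unitsHom ((Units.map θ).comp c)).natCast_smul d)
    refine ⟨_, 0, this, isCharacter_zero, funext fun g => ?_⟩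
    have e : ρ g = _ := hc g
    rw [e, Th_smul _ (c g).ne_zero, map_one, LinearMap.charpoly_one, ← C_1, ← Finset.card_range (finrank K V),
      ← Finset.prod_const, Th_prod _ _ fun _ => monic_X_sub_C _]
    simp only [Th_X_sub_C]
    simp [hd, mul_comm]
  have : Nontrivial (Q ⧸ Z) := QuotientGroup.nontrivial_iff.2 c2
  obtain ⟨⟨a', ha'⟩, h1⟩ := (Subgroup.ne_bot_iff_exists_ne_one).1 (Group.IsNilpotent.center_ne_bot (Q ⧸ Z))
  obtain ⟨a, rfl⟩ := QuotientGroup.mk_surjective a'
  have h1 : a ∉ Z := fun h => h1 (Subtype.ext ((QuotientGroup.eq_one_iff a).2 h))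
  obtain ⟨c, hc⟩ := mk a (fun g => g⁻¹ * a * g) (fun g => by
    obtain ⟨c, hc⟩ : (g⁻¹ * a * g * a⁻¹) ∈ Z := (QuotientGroup.eq_one_iff _).1 (by
      rw [QuotientGroup.mk_mul, QuotientGroup.mk_mul, QuotientGroup.mk_mul, Subgroup.mem_center_iff.1 ha']
      simp)
    exact ⟨c, by rw [← inv_mul_cancel_right (g⁻¹ * a * g) a, map_mul _ _ a, hc]; simp⟩) (by simp)
    fun g h c c' h1 h2 => by
      rw [show (g * h)⁻¹ * a * (g * h) = h⁻¹ * (g⁻¹ * a * g) * h by group, map_mul, map_mul, h1, mul_smul, ← h2]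
      simp
  have hW : ∀ g ν, ∀ x ∈ (ρ a).eigenspace ν, ρ g x ∈ (ρ a).eigenspace (c g * ν) := fun g ν x hx => by
    have := conj_apply ρ g (g⁻¹ * a * g) x
    rw [End.mem_eigenspace_iff] at hx ⊢
    rw [show g * (g⁻¹ * a * g) * g⁻¹ = a by group, hc] at this
    simp [this, hx, mul_smul]
  have int : DirectSum.IsInternal (ρ a).eigenspace := by
    refine DirectSum.isInternal_submodule_of_iSupIndep_of_iSup_eq_top (ρ a).eigenspaces_iSupIndep
      (by_contra fun t => c1 ⟨_, fun e => ?_, t, fun g x hx => ?_⟩)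
    · obtain ⟨ν, hν⟩ := (hs a).exists_eval_eq_zero (degree_ne_of_natDegree_ne (n := 0) (by
        rw [LinearMap.charpoly_natDegree]; exact finrank_pos.ne'))
      exact (End.hasEigenvalue_iff_isRoot_charpoly _ ν).2 hν (iSup_eq_bot.1 e ν)
    · exact (iSup_le fun ν y hy => Submodule.mem_comap.2 (Submodule.mem_iSup_of_mem _ (hW g ν y hy)) :
        _ ≤ Submodule.comap (ρ g) (⨆ ν, (ρ a).eigenspace ν)) hx
  let _ : MulAction Q K := MulAction.compHom K c
  have sm : ∀ (g : Q) (ν : K), g • ν = c g * ν := fun _ _ => rfl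
  have hW' : ∀ (g : Q) (ν : K), g • ν = ν → ∀ x ∈ (ρ a).eigenspace ν, ρ g x ∈ (ρ a).eigenspace ν :=
    fun g ν h x hx => by simpa only [← sm, h] using hW g ν x hx
  let φ : K → Q → ℂ := fun ν g => if h : g • ν = ν then Th θ ((ρ g).restrict (hW' g ν h)).charpoly else 0
  convert genChar_sum φ (fun x ν g => ?_) (fun ν g h => dif_neg h) (fun ν => ?_) using 2 with g
  · by_cases h : c g = 1
    · have h : ∀ ν : K, g • ν = ν := fun ν => by simp [sm, h]
      rw [charpoly_eq_prod int _ fun ν => hW' g ν (h ν), Th_prod _ _ fun _ => LinearMap.charpoly_monic _]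
      exact Finset.sum_congr rfl fun ν _ => by simp only [φ, dif_pos (h ν)]
    · have e := Th_smul θ (c g).ne_zero (ρ g)
      have e2 : Sim (ρ g) ((c g : K) • ρ g) := ⟨eqv ρ a, fun v => by
        have := conj_apply ρ g (g⁻¹ * a * g) v
        rw [show g * (g⁻¹ * a * g) * g⁻¹ = a by group, hc] at this
        simpa using this⟩
      rw [← e2.charpoly] at e
      rw [eq_zero_of_mul_eq_self_left (fun t => h (Units.ext (hθ _ t))) e.symm]
      refine (Finset.sum_eq_zero fun ν _ => dite_eq_right_iff.2 fun t => ?_).symm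
      obtain rfl : ν = 0 := eq_zero_of_mul_eq_self_left (fun t => h (Units.ext t)) t
      have : (ρ a).eigenspace 0 = ⊥ := by
        rw [End.eigenspace_zero]; exact LinearMap.ker_eq_bot.2 (eqv ρ a).injective
      rw [(LinearMap.charpoly_monic _).natDegree_eq_zero.1 (by
        rw [LinearMap.charpoly_natDegree, this, finrank_bot]), Th_one]
  · have e : (x * g * x⁻¹) • x • ν = x • ν ↔ g • ν = ν := by simp [mul_smul]
    by_cases h : g • ν = ν
    · simp only [φ, dif_pos h, dif_pos (e.2 h)]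
      refine congrArg _ (sim_restrict (ρ x) (fun v => (conj_apply ρ x g v).symm)
        (fun v _ => (eqv ρ x).map_eq_zero_iff.1) (le_antisymm ?_ fun v hv => ⟨ρ x⁻¹ v, ?_, (eqv ρ x).apply_symm_apply v⟩)
        _ _).charpoly.symm
      · rintro _ ⟨v, hv, rfl⟩; exact hW x ν v hv
      · simpa [sm] using hW x⁻¹ _ v hv
    · simp only [φ, dif_neg h, dif_neg (e.not.2 h)]
  · convert sub (stabilizer Q ν) _ (fun g => hW' g ν g.2) fun t =>
      h1 ⟨ν, LinearMap.ext fun v => End.mem_eigenspace_iff.1 (t.ge Submodule.mem_top)⟩ using 2 with g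
    exact dif_pos g.2

/-- **Green's lifting theorem.** -/
theorem lift {F G V : Type*} [Field F] [Algebra F K] [Group G] [Finite G] [AddCommGroup V] [Module F V]
    [FiniteDimensional F V] (θ : K →* ℂ) (hθ : ∀ c, θ c = 1 → c = 1) (ρ : G →* End F V)
    (hs : ∀ g, ((ρ g).charpoly.map (algebraMap F K)).Splits) :
    IsGeneralizedCharacter G fun g => Th θ ((ρ g).charpoly.map (algebraMap F K)) := by
  refine brauer_characterization_nilpotent (fun g x => by rw [← (sim_conj ρ x g).charpoly]) fun E _ => ?_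
  simp only [← LinearMap.charpoly_baseChange] at hs ⊢
  exact lift_nilpotent θ hθ _ E _ ((End.baseChangeHom F K V).toMonoidHom.comp (ρ.comp E.subtype)) rfl fun g => hs g

end CL.Green
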