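import Cfsg.Agent.Base
import Cfsg.Agent.Char.KGV
import Cfsg.Agent.Char.Linear

/-!
# Knörr's abelian stabilizer criterion for the k(GV) problem
-/

namespace CL.Char

open Cfsg ComplexConjugate

section Kn

variable {A : Type*} [CommGroup A] [Fintype A]

/-- The support of `θ` in the dual group, saturated under `H`. -/
def knZ (H : Subgroup (A →* ℂˣ)) (θ : A → ℂ) : Set (A →* ℂˣ) :=
  {s | ∃ c ∈ H, classInner θ (fun x => ((s * c) x : ℂ)) ≠ 0}

/-- Lower bound for the weighted norm of generalized characters. -/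
def Kn (F : A → ℝ) (H : Subgroup (A →* ℂˣ)) : Prop :=
  ∀ θ, IsGeneralizedCharacter A θ → ((knZ H θ).ncard : ℝ) * Nat.card A ≤ ∑ x, F x * ‖θ x‖ ^ 2

theorem kn_bot : Kn (A := A) (fun _ => 1) ⊥ := by
  classical
  intro θ hθ
  obtain ⟨m, hm, -⟩ := hθ.exists_eq_sum_int
  have h1 := classInner_self_eq_sum_sq hθ.isClassFunction m hm
  rw [classInner_self_eq] at h1
  have h2 : (Nat.card A : ℝ)⁻¹ * ∑ g, ‖θ g‖ ^ 2 = ((∑ χ, m χ ^ 2 : ℤ) : ℝ) := by exact_mod_cast h1
  have hpos : (0 : ℝ) < Nat.card A := by exact_mod_cast Nat.card_pos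
  have h3 : ∑ g, ‖θ g‖ ^ 2 = ((∑ χ, m χ ^ 2 : ℤ) : ℝ) * Nat.card A := by
    rw [← h2]; field_simp
  simp only [one_mul]
  rw [h3]
  refine mul_le_mul_of_nonneg_right ?_ hpos.le
  have h4 : (knZ ⊥ θ).ncard ≤ (Finset.univ.filter fun χ => m χ ≠ 0).card := by
    rw [← Set.ncard_coe_finset]
    refine Set.ncard_le_ncard_of_injOn (irrEquivOfComm (G := A) mul_comm) ?_
      (Equiv.injective _).injOn
    rintro s ⟨c, hc, h⟩
    rw [Subgroup.mem_bot] at hc
    subst hc
    simp only [Finset.coe_filter, Finset.mem_univ, true_and, Set.mem_ofPred_eq]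
    intro h0
    have := hm (irrEquivOfComm (G := A) mul_comm s)
    rw [h0, Int.cast_zero] at this
    have e : s * 1 = s := mul_one s
    rw [e] at h
    exact h this
  have h5 : ((Finset.univ.filter fun χ => m χ ≠ 0).card : ℤ) ≤ ∑ χ, m χ ^ 2 := by
    rw [Finset.card_filter]
    push_cast
    refine Finset.sum_le_sum fun χ _ => ?_
    split_ifs with h
    · have : 0 < m χ ^ 2 := by positivity
      omega
    · positivity
  exact_mod_cast (Int.ofNat_le.mpr h4).trans h5

theorem Kn.mono {F F' : A → ℝ} {H : Subgroup (A →* ℂˣ)} (h : Kn F H) (hF : ∀ x, F x ≤ F' x) :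
    Kn F' H := fun θ hθ => (h θ hθ).trans (Finset.sum_le_sum fun x _ =>
      mul_le_mul_of_nonneg_right (hF x) (by positivity))

theorem kn_classInner_mul (b s : A →* ℂˣ) (θ : A → ℂ) :
    classInner (fun x => (b x : ℂ) * θ x) (fun x => (s x : ℂ)) =
      classInner θ (fun x => ((s * b⁻¹) x : ℂ)) := by
  rw [← classInner_mul_monoidHom b θ]
  congr 1
  funext x
  simp only [MonoidHom.mul_apply, MonoidHom.inv_apply, Units.val_mul]
  rw [mul_left_comm, Units.mul_inv, mul_one]

theorem kn_sub (b s : A →* ℂˣ) (θ : A → ℂ) :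
    classInner (θ - fun x => (b x : ℂ) * θ x) (fun x => (s x : ℂ)) =
      classInner θ (fun x => (s x : ℂ)) - classInner θ (fun x => ((s * b⁻¹) x : ℂ)) := by
  rw [classInner_sub_left, kn_classInner_mul]

theorem kn_isGen {θ : A → ℂ} (hθ : IsGeneralizedCharacter A θ) (b : A →* ℂˣ) :
    IsGeneralizedCharacter A (θ - fun x => (b x : ℂ) * θ x) :=
  hθ.sub ((isIrrCharacter_linear b).isGeneralizedCharacter.mul hθ)

theorem kn_norm_sub (b : A →* ℂˣ) (θ : A → ℂ) (x : A) :
    ‖(θ - fun x => (b x : ℂ) * θ x) x‖ ^ 2 = ‖1 - (b x : ℂ)‖ ^ 2 * ‖θ x‖ ^ 2 := by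
  rw [← mul_pow, ← norm_mul, Pi.sub_apply, sub_mul, one_mul]

theorem kn_two_mul_le (H : Subgroup (A →* ℂˣ)) (θ : A → ℂ) (b : A →* ℂˣ) :
    2 * ((fun s => s * b) '' knZ H θ \ knZ H θ).ncard ≤
      (knZ H (θ - fun x => (b x : ℂ) * θ x)).ncard := by
  set Z := knZ H θ
  set Zb := (fun s => s * b) '' Z
  have h1 : Zb.ncard = Z.ncard := Set.ncard_image_of_injective _ (mul_left_injective b)
  have h2 := Set.ncard_inter_add_ncard_sdiff_eq_ncard Z Zb
  have h3 := Set.ncard_inter_add_ncard_sdiff_eq_ncard Zb Z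
  rw [Set.inter_comm] at h3
  have h4 : (Z \ Zb ∪ Zb \ Z).ncard = (Z \ Zb).ncard + (Zb \ Z).ncard :=
    Set.ncard_union_eq disjoint_sdiff_sdiff
  have h5 : Z \ Zb ∪ Zb \ Z ⊆ knZ H (θ - fun x => (b x : ℂ) * θ x) := by
    rintro s (⟨⟨c, hc, h⟩, h'⟩ | ⟨⟨t, ⟨c, hc, h⟩, rfl⟩, h'⟩)
    · refine ⟨c, hc, ?_⟩
      have : classInner θ (fun x => ((s * c * b⁻¹) x : ℂ)) = 0 := by
        by_contra h0
        refine h' ⟨s * b⁻¹, ⟨c, hc, ?_⟩, inv_mul_cancel_right s b⟩
        have e : s * b⁻¹ * c = s * c * b⁻¹ := mul_right_comm s b⁻¹ c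
        rwa [e]
      rwa [kn_sub, this, sub_zero]
    · refine ⟨c, hc, ?_⟩
      have : classInner θ (fun x => ((t * b * c) x : ℂ)) = 0 := by
        by_contra h0
        exact h' ⟨c, hc, h0⟩
      have e : t * b * c * b⁻¹ = t * c :=
        (congrArg (· * b⁻¹) (mul_right_comm t b c)).trans (mul_inv_cancel_right (t * c) b)
      rw [kn_sub, this, zero_sub, neg_ne_zero, e]
      exact h
  have h6 := Set.ncard_le_ncard h5
  omega

theorem Kn.step {F : A → ℝ} {H : Subgroup (A →* ℂˣ)} (h : Kn F H) (D : Subgroup (A →* ℂˣ))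
    [Fintype D] :
    Kn (fun x => F x * (1 + 2⁻¹ * ∑ b : D, ‖1 - ((b : A →* ℂˣ) x : ℂ)‖ ^ 2)) (H ⊔ D) := by
  classical
  intro θ hθ
  set Z := knZ H θ
  have h1 : knZ (H ⊔ D) θ ⊆ Z ∪ ⋃ b : D, ((fun s => s * (b : A →* ℂˣ)) '' Z \ Z) := by
    rintro s ⟨c, hc, hs⟩
    obtain ⟨y, hy, z, hz, rfl⟩ := Subgroup.mem_sup.mp hc
    by_cases hsZ : s ∈ Z
    · exact Or.inl hsZ
    · refine Or.inr (Set.mem_iUnion.mpr ⟨⟨z⁻¹, D.inv_mem hz⟩, ⟨s * z, ⟨y, hy, ?_⟩,
        mul_inv_cancel_right s z⟩, hsZ⟩)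
      have e : s * z * y = s * (y * z) := (mul_right_comm s z y).trans (mul_assoc s y z)
      rwa [e]
  have h2 : (knZ (H ⊔ D) θ).ncard ≤
      Z.ncard + ∑ b : D, ((fun s => s * (b : A →* ℂˣ)) '' Z \ Z).ncard :=
    (Set.ncard_le_ncard h1).trans ((Set.ncard_union_le _ _).trans
      (Nat.add_le_add_left (Set.ncard_iUnion_le_of_fintype _) _))
  have h3 : ∀ b : D, (((fun s => s * (b : A →* ℂˣ)) '' Z \ Z).ncard : ℝ) * Nat.card A ≤
      2⁻¹ * ∑ x, F x * (‖1 - ((b : A →* ℂˣ) x : ℂ)‖ ^ 2 * ‖θ x‖ ^ 2) := by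
    intro b
    have h4 := h _ (kn_isGen hθ b)
    simp only [kn_norm_sub] at h4
    have h5 : (2 * (((fun s => s * (b : A →* ℂˣ)) '' Z \ Z).ncard : ℝ)) ≤
        (knZ H (θ - fun x => ((b : A →* ℂˣ) x : ℂ) * θ x)).ncard := by
      exact_mod_cast kn_two_mul_le H θ b
    have h6 : (0 : ℝ) ≤ Nat.card A := by positivity
    nlinarith
  have h4 := h θ hθ
  have h5 : ((knZ (H ⊔ D) θ).ncard : ℝ) ≤
      Z.ncard + ∑ b : D, (((fun s => s * (b : A →* ℂˣ)) '' Z \ Z).ncard : ℝ) := by
    exact_mod_cast h2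
  calc ((knZ (H ⊔ D) θ).ncard : ℝ) * Nat.card A
      ≤ (Z.ncard + ∑ b : D, (((fun s => s * (b : A →* ℂˣ)) '' Z \ Z).ncard : ℝ)) * Nat.card A :=
        mul_le_mul_of_nonneg_right h5 (by positivity)
    _ ≤ ∑ x, F x * ‖θ x‖ ^ 2 +
        ∑ b : D, 2⁻¹ * ∑ x, F x * (‖1 - ((b : A →* ℂˣ) x : ℂ)‖ ^ 2 * ‖θ x‖ ^ 2) := by
        rw [add_mul, Finset.sum_mul]
        exact add_le_add h4 (Finset.sum_le_sum fun b _ => h3 b)
    _ = _ := by
        rw [← Finset.mul_sum, Finset.sum_comm, Finset.mul_sum, ← Finset.sum_add_distrib]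
        refine Finset.sum_congr rfl fun x _ => ?_
        rw [← Finset.mul_sum, ← Finset.sum_mul]
        ring

/-- The annihilator of a subgroup in the dual group. -/
def knAnn (K : Subgroup A) : Subgroup (A →* ℂˣ) where
  carrier := {b | ∀ x ∈ K, b x = 1}
  one_mem' := fun _ _ => rfl
  mul_mem' := fun ha hb x hx => by rw [MonoidHom.mul_apply, ha x hx, hb x hx, mul_one]
  inv_mem' := fun ha x hx => by rw [MonoidHom.inv_apply, ha x hx, inv_one]

theorem card_dual_of_comm (B : Type*) [CommGroup B] [Finite B] :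
    Nat.card (B →* ℂˣ) = Nat.card B := by
  rw [card_monoidHom_eq_index, (commutator_eq_bot_iff_center_eq_top _).mpr CommGroup.center_eq_top,
    Subgroup.index_bot]

theorem card_knAnn (K : Subgroup A) : Nat.card (knAnn K) = K.index := by
  rw [Subgroup.index, ← card_dual_of_comm (A ⧸ K)]
  refine Nat.card_congr ⟨fun b => QuotientGroup.lift K b.1 b.2,
    fun c => ⟨c.comp (QuotientGroup.mk' K), fun x hx => by
      simp [(QuotientGroup.eq_one_iff x).mpr hx]⟩, fun b => ?_, fun c => ?_⟩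
  · ext x; rfl
  · ext x; rfl

theorem exists_knAnn_ne_one {K : Subgroup A} {x : A} (hx : x ∉ K) : ∃ b ∈ knAnn K, b x ≠ 1 := by
  obtain ⟨b, h1, h2⟩ := exists_monoidHom_of_not_mem (N := K)
    (by rw [(commutator_eq_bot_iff_center_eq_top _).mpr CommGroup.center_eq_top]; exact bot_le) hx
  exact ⟨b, fun y hy => h1 hy, h2⟩

theorem sum_knAnn_of_mem {K : Subgroup A} [Fintype (knAnn K)] {x : A} (hx : x ∈ K) :
    ∑ b : knAnn K, ‖1 - ((b : A →* ℂˣ) x : ℂ)‖ ^ 2 = 0 :=
  Finset.sum_eq_zero fun b _ => by simp [b.2 x hx]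

theorem sum_knAnn_of_not_mem {K : Subgroup A} [Fintype (knAnn K)] {x : A} (hx : x ∉ K) :
    ∑ b : knAnn K, ‖1 - ((b : A →* ℂˣ) x : ℂ)‖ ^ 2 = 2 * K.index := by
  obtain ⟨b0, hb0, h⟩ := exists_knAnn_ne_one hx
  let ev : knAnn K →* ℂˣ := (MonoidHom.eval x).comp (knAnn K).subtype
  have h1 : ∑ b : knAnn K, (((b : A →* ℂˣ) x : ℂ)) = 0 :=
    sum_monoidHom_eq_zero (lam := ev) fun h0 => h (DFunLike.congr_fun h0 ⟨b0, hb0⟩)
  have h2 : ∀ b : knAnn K, ‖1 - ((b : A →* ℂˣ) x : ℂ)‖ ^ 2 = 2 - 2 * ((b : A →* ℂˣ) x : ℂ).re := by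
    intro b
    have := norm_monoidHom_apply (b : A →* ℂˣ) x
    rw [Complex.sq_norm, Complex.normSq_sub, Complex.normSq_eq_norm_sq ((b : A →* ℂˣ) x : ℂ), this]
    simp; ring
  rw [Finset.sum_congr rfl fun b _ => h2 b, Finset.sum_sub_distrib, ← Finset.mul_sum,
    ← Complex.re_sum, h1, ← card_knAnn, Nat.card_eq_fintype_card]
  simp [mul_comm]

theorem kn_action_aux {V : Type*} [CommGroup V] [Finite V] (φ : A →* MulAut V) (n : ℕ) :
    ∀ W : Subgroup V, Nat.card W = n → (∀ x, ∀ w ∈ W, φ x w ∈ W) →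
      ∃ H : Subgroup (A →* ℂˣ), Kn (fun x => (Nat.card (W.map (kgvD (φ x))) : ℝ)) H ∧
        (∀ h ∈ H, ∀ x, (∀ w ∈ W, φ x w = w) → h x = 1) ∧
        ∀ x, (∀ h ∈ H, h x = 1) → (orderOf x).Coprime (Nat.card V) → ∀ w ∈ W, φ x w = w := by
  classical
  induction n using Nat.strong_induction_on with
  | _ n ih =>
  intro W hn hW
  by_cases hbot : W = ⊥
  · subst hbot
    refine ⟨⊥, kn_bot.mono fun x => by simp, ?_, ?_⟩
    · intro h hh x _
      rw [Subgroup.mem_bot.mp hh]; rfl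
    · intro x _ _ w hw
      rw [Subgroup.mem_bot.mp hw, map_one]
  obtain ⟨W', ⟨hlt, hW'⟩, hmax⟩ := Set.Finite.exists_maximal
    (s := {U : Subgroup V | U < W ∧ ∀ x, ∀ w ∈ U, φ x w ∈ U}) (Set.toFinite _)
    ⟨⊥, bot_lt_iff_ne_bot.mpr hbot, fun x w hw => by
      rw [Subgroup.mem_bot.mp hw, map_one]; exact Subgroup.one_mem _⟩
  have hcard : Nat.card W' < n := by
    rw [← hn]
    exact (Subgroup.card_le_of_le hlt.le).lt_of_ne fun h =>
      hlt.ne (Subgroup.eq_of_le_of_card_ge hlt.le h.ge)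
  obtain ⟨H, hK, hH1, hH2⟩ := ih _ hcard W' rfl hW'
  have hcomm : ∀ x y (w : V), φ x (φ y w) = φ y (φ x w) := by
    intro x y w
    rw [← MulAut.mul_apply, ← map_mul, mul_comm, map_mul, MulAut.mul_apply]
  let K : Subgroup A :=
    { carrier := {x | ∀ w ∈ W, kgvD (φ x) w ∈ W'}
      one_mem' := fun w _ => by simp [kgvD_apply]
      mul_mem' := fun {a b} ha hb w hw => by
        have : kgvD (φ (a * b)) w = kgvD (φ a) w * φ a (kgvD (φ b) w) := by
          simp [kgvD_apply]
        rw [this]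
        exact W'.mul_mem (ha w hw) (hW' _ _ (hb w hw))
      inv_mem' := fun {a} ha w hw => by
        have : kgvD (φ a⁻¹) w = (φ a⁻¹ (kgvD (φ a) w))⁻¹ := by
          simp [kgvD_apply]
        rw [this]
        exact W'.inv_mem (hW' _ _ (ha w hw)) }
  have hK' : ∀ x, x ∉ K → ∀ w ∈ W, kgvD (φ x) w ∈ W' → w ∈ W' := by
    intro x hx w hw h
    have hU : W ⊓ W'.comap (kgvD (φ x)) ≤ W' := by
      refine hmax ⟨lt_of_le_of_ne inf_le_left fun h0 => hx fun u hu => ?_, ?_⟩ ?_
      · rw [← h0] at hu; exact hu.2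
      · rintro y u ⟨hu1, hu2⟩
        refine ⟨hW y u hu1, ?_⟩
        have : kgvD (φ x) (φ y u) = φ y (kgvD (φ x) u) := by
          rw [kgvD_apply, kgvD_apply, map_div, hcomm]
        change kgvD (φ x) (φ y u) ∈ W'
        rw [this]
        exact hW' _ _ hu2
      · intro u hu
        exact ⟨hlt.le hu, W'.div_mem hu (hW' _ _ hu)⟩
    exact hU ⟨hw, h⟩
  have hidx : K.index + 1 ≤ W'.relIndex W := by
    obtain ⟨w0, hw0, hw0'⟩ := SetLike.exists_of_lt hlt
    have h1 : W'.relIndex W = Nat.card (W.map (QuotientGroup.mk' W')) := by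
      rw [← Subgroup.relIndex_ker, QuotientGroup.ker_mk']
    rw [h1, Subgroup.index, ← Finite.card_option]
    refine Nat.card_le_card_of_injective (fun o : Option (A ⧸ K) => match o with
      | none => (1 : W.map (QuotientGroup.mk' W'))
      | some q => ⟨(φ q.out w0 : V), φ q.out w0, hW _ _ hw0, rfl⟩) ?_
    have h2 : ∀ x : A, ((φ x w0 : V) : V ⧸ W') ≠ 1 := by
      intro x h
      rw [QuotientGroup.eq_one_iff] at h
      have := hW' x⁻¹ _ h
      simp only [map_inv, MulAut.inv_apply_self] at this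
      exact hw0' this
    rintro (_ | q) (_ | r) h
    · rfl
    · exact absurd (congrArg Subtype.val h).symm (h2 _)
    · exact absurd (congrArg Subtype.val h) (h2 _)
    · have h3 : ((φ q.out w0 : V) : V ⧸ W') = (φ r.out w0 : V) := congrArg Subtype.val h
      rw [QuotientGroup.eq] at h3
      congr 1
      rw [← QuotientGroup.out_eq' q, ← QuotientGroup.out_eq' r, QuotientGroup.eq]
      by_contra hx
      refine hw0' (hK' _ hx w0 hw0 ?_)
      have := W'.inv_mem (hW' q.out⁻¹ _ h3)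
      simpa [kgvD_apply, div_eq_mul_inv, mul_comm] using this
  haveI := Fintype.ofFinite (knAnn K)
  refine ⟨H ⊔ knAnn K, (hK.step (knAnn K)).mono fun x => ?_, ?_, ?_⟩
  · by_cases hx : x ∈ K
    · rw [sum_knAnn_of_mem hx, mul_zero, add_zero, mul_one]
      exact_mod_cast Subgroup.card_le_of_le (Subgroup.map_mono hlt.le)
    · rw [sum_knAnn_of_not_mem hx, ← Subgroup.relIndex_ker, ← Subgroup.relIndex_ker]
      have h1 : (kgvD (φ x)).ker ⊓ W = (kgvD (φ x)).ker ⊓ W' := by
        refine le_antisymm ?_ (inf_le_inf_left _ hlt.le)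
        rintro w ⟨h1, h2⟩
        refine ⟨h1, hK' x hx w h2 ?_⟩
        rw [show kgvD (φ x) w = 1 from h1]
        exact W'.one_mem
      rw [← Subgroup.inf_relIndex_right _ W, h1, ← Subgroup.relIndex_mul_relIndex _ W' W
        inf_le_right hlt.le, Subgroup.inf_relIndex_right]
      have h2 : (K.index : ℝ) + 1 ≤ W'.relIndex W := by exact_mod_cast hidx
      push_cast
      refine mul_le_mul_of_nonneg_left (by linarith) (by positivity)
  · intro h hh x hx
    obtain ⟨y, hy, z, hz, rfl⟩ := Subgroup.mem_sup.mp hh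
    rw [MonoidHom.mul_apply, hH1 y hy x fun w hw => hx w (hlt.le hw), one_mul]
    refine hz x fun w hw => ?_
    rw [(kgvD_eq_one _ _).mpr (hx w hw)]
    exact W'.one_mem
  · intro x hx hcop w hw
    have h1 : x ∈ K := by
      by_contra h
      obtain ⟨b, hb, hb1⟩ := exists_knAnn_ne_one h
      exact hb1 (hx b (Subgroup.mem_sup_right hb))
    have h2 := hH2 x (fun h hh => hx h (Subgroup.mem_sup_left hh)) hcop
    rw [← kgvD_eq_one]
    refine kgvD_disjoint (n := orderOf x) (by rw [← map_pow, pow_orderOf_eq_one, map_one]) hcop ?_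
    rw [kgvD_eq_one]
    exact h2 _ (h1 w hw)

theorem kn_two_mul_card_le {H : Subgroup (A →* ℂˣ)} {η : A → ℂ} (hη : IsClassFunction A η)
    (h0 : η ≠ 0) {C : Subgroup A} {v : A} (hA : ∀ x, ∃ c ∈ C, ∃ k : ℕ, x = v ^ k * c)
    (hC : ∀ c ∈ C, η c = 0) (hv : ∀ h ∈ H, h v = 1) : 2 * Nat.card H ≤ (knZ H η).ncard := by
  classical
  obtain ⟨χ, hχ, h1⟩ := hη.exists_irr_classInner_ne_zero h0
  obtain ⟨s, rfl⟩ := hχ.exists_monoidHom_of_comm mul_comm
  have h2 : ∃ t : A →* ℂˣ, classInner η (fun x => (t x : ℂ)) ≠ 0 ∧ t v ≠ s v := by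
    by_contra hcon
    push Not at hcon
    apply h0
    funext x
    obtain ⟨c, hc, k, rfl⟩ := hA x
    have : η (v ^ k * c) = (s v : ℂ) ^ k * η c := by
      rw [hη.apply_eq_sum_irr, hη.apply_eq_sum_irr c, Finset.mul_sum]
      refine Finset.sum_congr rfl fun ψ _ => ?_
      obtain ⟨t, ht⟩ := ψ.2.exists_monoidHom_of_comm mul_comm
      rw [ht]
      by_cases h : classInner η (fun x => (t x : ℂ)) = 0
      · simp [h]
      · simp only [map_mul, map_pow, Units.val_mul, Units.val_pow_eq_pow_val, hcon t h]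
        ring
    rw [this, hC c hc, mul_zero, Pi.zero_apply]
  obtain ⟨t, h3, h4⟩ := h2
  have h5 : ∀ u : A →* ℂˣ, ((fun h => u * h) '' (H : Set (A →* ℂˣ))).ncard = Nat.card H := by
    intro u
    rw [Set.ncard_image_of_injective _ (mul_right_injective u), ← Nat.card_coe_set_eq]
    rfl
  have h6 : ∀ u : A →* ℂˣ, classInner η (fun x => (u x : ℂ)) ≠ 0 →
      (fun h => u * h) '' (H : Set (A →* ℂˣ)) ⊆ knZ H η := by
    rintro u hu _ ⟨h, hh, rfl⟩
    refine ⟨h⁻¹, H.inv_mem hh, ?_⟩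
    have e : u * h * h⁻¹ = u := mul_inv_cancel_right u h
    simp only [e]
    exact hu
  have h7 := Set.ncard_le_ncard (Set.union_subset (h6 s h1) (h6 t h3))
  rw [Set.ncard_union_eq, h5, h5] at h7
  · omega
  · rw [Set.disjoint_left]
    rintro _ ⟨h, hh, rfl⟩ ⟨h', hh', e⟩
    have := DFunLike.congr_fun e v
    simp only [MonoidHom.mul_apply, hv h hh, hv h' hh', mul_one] at this
    exact h4 this

theorem kn_lower {F : A → ℝ} {H : Subgroup (A →* ℂˣ)} (h : Kn F H) {θ : A → ℂ}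
    (hθ : IsGeneralizedCharacter A θ) {C : Subgroup A} [DecidablePred (· ∈ C)] {v : A}
    (hA : ∀ x, ∃ c ∈ C, ∃ k : ℕ, x = v ^ k * c) (hv : ∀ h ∈ H, h v = 1) (h0 : θ v ≠ 0) :
    ((C.index : ℝ) - 1) * Nat.card H * Nat.card A ≤
      C.index * ∑ x ∈ Finset.univ.filter (· ∉ C), F x * ‖θ x‖ ^ 2 := by
  classical
  haveI := Fintype.ofFinite (knAnn C)
  have h1 : ∀ b : knAnn C, (if b = 1 then 0 else 2 * (Nat.card H : ℝ) * Nat.card A) ≤
      ∑ x, F x * (‖1 - ((b : A →* ℂˣ) x : ℂ)‖ ^ 2 * ‖θ x‖ ^ 2) := by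
    intro b
    split_ifs with hb
    · subst hb; simp
    · have h2 := h _ (kn_isGen hθ b)
      simp only [kn_norm_sub] at h2
      refine le_trans (mul_le_mul_of_nonneg_right ?_ (by positivity)) h2
      have hbv : (b : A →* ℂˣ) v ≠ 1 := by
        intro h3
        apply hb
        ext x
        obtain ⟨c, hc, k, rfl⟩ := hA x
        simp [h3, b.2 c hc]
      have := kn_two_mul_card_le (kn_isGen hθ b).isClassFunction (fun h3 => by
        have := congrFun h3 v
        rw [Pi.sub_apply, Pi.zero_apply, sub_eq_zero] at this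
        exact hbv (Units.val_eq_one.mp (mul_right_cancel₀ h0 (this.symm.trans (one_mul _).symm))))
        hA (fun c hc => by simp [b.2 c hc]) hv
      exact_mod_cast this
  have h2 := Finset.sum_le_sum fun b (_ : b ∈ Finset.univ) => h1 b
  rw [Finset.sum_comm, Finset.sum_ite, Finset.sum_const_zero, zero_add, Finset.sum_const,
    Finset.filter_ne', Finset.card_erase_of_mem (Finset.mem_univ _), Finset.card_univ,
    ← Nat.card_eq_fintype_card, card_knAnn, nsmul_eq_mul,
    Nat.cast_sub (Nat.one_le_iff_ne_zero.mpr C.index_ne_zero_of_finite)] at h2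
  have h3 : ∀ x, ∑ b : knAnn C, F x * (‖1 - ((b : A →* ℂˣ) x : ℂ)‖ ^ 2 * ‖θ x‖ ^ 2) =
      if x ∉ C then 2 * (C.index * (F x * ‖θ x‖ ^ 2)) else 0 := by
    intro x
    rw [← Finset.mul_sum, ← Finset.sum_mul]
    split_ifs with hx
    · rw [sum_knAnn_of_mem hx]; simp
    · rw [sum_knAnn_of_not_mem hx]; ring
  rw [Finset.sum_congr rfl fun x _ => h3 x, ← Finset.sum_filter, ← Finset.mul_sum,
    ← Finset.mul_sum] at h2
  push_cast at h2
  linarith

end Kn

theorem knoerr_aux {X : Type*} [Group X] [Finite X] (p : ℕ) [hp : Fact p.Prime] (V : Subgroup X)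
    [hV : V.Normal] (hVexp : ∀ v ∈ V, v ^ p = 1) (hidx : ¬ p ∣ V.index)
    (hself : Subgroup.centralizer (V : Set X) = V) (G : Subgroup X)
    (hGV : Subgroup.IsComplement' V G) (v : X) (hv : v ∈ V) (hv1 : v ≠ 1)
    (hab : ∀ a ∈ G ⊓ Subgroup.centralizer ({v} : Set X),
      ∀ b ∈ G ⊓ Subgroup.centralizer ({v} : Set X), a * b = b * a) :
    Nat.card (ConjClasses X) ≤ Nat.card V := by
  classical
  have hVab : ∀ a ∈ V, ∀ b ∈ V, a * b = b * a := fun a ha b hb =>
    (hself.ge hb : b ∈ Subgroup.centralizer (V : Set X)) a ha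
  have hVp : IsPGroup p V := fun a => ⟨1, Subtype.ext (by simpa using hVexp a a.2)⟩
  set C := G ⊓ Subgroup.centralizer ({v} : Set X) with hC
  letI : CommGroup V := { (inferInstance : Group V) with
    mul_comm := fun a b => Subtype.ext (hVab a a.2 b b.2) }
  letI : CommGroup C := { (inferInstance : Group C) with
    mul_comm := fun a b => Subtype.ext (hab a a.2 b b.2) }
  letI : CommGroup (Subgroup.zpowers v) := { (inferInstance : Group (Subgroup.zpowers v)) with
    mul_comm := fun a b => Subtype.ext (hVab a (Subgroup.zpowers_le.mpr hv a.2) b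
      (Subgroup.zpowers_le.mpr hv b.2)) }
  haveI := Fintype.ofFinite (C × Subgroup.zpowers v)
  have hcv : ∀ (c : C) (y : Subgroup.zpowers v), Commute (c : X) y := by
    rintro c ⟨_, k, rfl⟩
    exact Commute.zpow_right (Subgroup.mem_centralizer_singleton_iff.mp c.2.2) k
  let ι : C × Subgroup.zpowers v →* X :=
    MonoidHom.noncommCoprod C.subtype (Subgroup.zpowers v).subtype hcv
  have hι : ∀ x, ι x = (x.1 : X) * x.2 := fun _ => rfl
  let φ : C × Subgroup.zpowers v →* MulAut V := MulAut.conjNormal.comp ι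
  have hφ : ∀ x (w : V), φ x w = w ↔ ι x * w = w * ι x := by
    intro x w
    rw [Subtype.ext_iff, ← mul_inv_eq_iff_eq_mul]
    rfl
  have hov : orderOf v = p := orderOf_eq_prime (hVexp v hv) hv1
  have hcP : Nat.card (Subgroup.zpowers v) = p := by rw [Nat.card_zpowers, hov]
  have hG : Nat.card G = V.index := hGV.symm.index_eq_card.symm
  have hcop : ∀ c : C, (orderOf (c : X)).Coprime p := fun c =>
    (Nat.Coprime.symm ((Nat.Prime.coprime_iff_not_dvd hp.out).mpr fun h =>
      hidx (h.trans (hG ▸ G.orderOf_dvd_natCard c.2.1))))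
  obtain ⟨H, hK, hH1, hH2⟩ := kn_action_aux φ _ ⊤ rfl fun _ _ _ => trivial
  let v0 : C × Subgroup.zpowers v := (1, ⟨v, Subgroup.mem_zpowers v⟩)
  let C0 : Subgroup (C × Subgroup.zpowers v) := (MonoidHom.snd _ _).ker
  have hA : ∀ x, ∃ c ∈ C0, ∃ k : ℕ, x = v0 ^ k * c := by
    rintro ⟨c, y⟩
    obtain ⟨k, hk⟩ := (mem_powers_iff_mem_zpowers.mpr y.2 : (y : X) ∈ Submonoid.powers v)
    exact ⟨(c, 1), rfl, k, Prod.ext (by simp [v0]) (Subtype.ext (by simp [v0, ← hk]))⟩
  have hιv : ι v0 = v := by simp [hι, v0]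
  have hv0 : ∀ h ∈ H, h v0 = 1 := fun h hh => hH1 h hh v0 fun w _ => by
    rw [hφ, hιv]; exact hVab _ hv _ w.2
  have hCH : Nat.card C ≤ Nat.card H := by
    rw [← card_dual_of_comm H]
    let ev : C →* (H →* ℂˣ) :=
      { toFun := fun c => (MonoidHom.eval (c, 1)).comp H.subtype
        map_one' := by ext h; simp [show ((1, 1) : C × Subgroup.zpowers v) = 1 from rfl]
        map_mul' := fun a b => by
          ext h
          simp [← Units.val_mul, ← map_mul] }
    refine Nat.card_le_card_of_injective ev ((injective_iff_map_eq_one ev).mpr fun c hc => ?_)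
    obtain ⟨k, hk⟩ := hVp.exists_card_eq
    have := hH2 (c, 1) (fun h hh => DFunLike.congr_fun hc ⟨h, hh⟩) (by
      rw [hk, Prod.orderOf, orderOf_one, Nat.lcm_one_right, ← Subgroup.orderOf_coe]
      exact (hcop c).pow_right k)
    have h1 : (c : X) ∈ V := by
      rw [← hself]
      intro w hw
      have := (hφ _ _).mp (this ⟨w, hw⟩ trivial)
      simpa [hι] using this.symm
    exact Subtype.ext (Subgroup.disjoint_def.mp hGV.disjoint h1 c.2.1)
  have hidx0 : C0.index = p := by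
    rw [Subgroup.index_ker, MonoidHom.range_eq_top.mpr Prod.snd_surjective, Subgroup.card_top, hcP]
  have hcA : Nat.card (C × Subgroup.zpowers v) = Nat.card C * p := by rw [Nat.card_prod, hcP]
  have hup : ∀ x, x ∉ C0 → (Nat.card ((⊤ : Subgroup V).map (kgvD (φ x))) : ℝ) *
      ∑ χ : IrrCharacter X, ‖(χ : X → ℂ) (ι x)‖ ^ 2 ≤ Nat.card V * Nat.card C := by
    intro x hx
    rw [sum_irr_norm_sq]
    have h1 : Nat.card (Subgroup.centralizer ({ι x} : Set X)) ≤
        Nat.card (kgvD (φ x)).ker * Nat.card C := by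
      rw [← Nat.card_prod]
      have h2 : ∀ g ∈ Subgroup.centralizer ({ι x} : Set X), g * v = v * g := by
        intro g hg
        have h3 : Commute g (ι x) := Subgroup.mem_centralizer_singleton_iff.mp hg
        have h4 := h3.pow_right (orderOf (x.1 : X))
        rw [hι, (hcv _ _).mul_pow, pow_orderOf_eq_one, one_mul] at h4
        have h5 : x.2 ^ orderOf (x.1 : X) ≠ 1 := by
          intro h
          have h6 := Nat.dvd_gcd (orderOf_dvd_of_pow_eq_one h) (hcP ▸ orderOf_dvd_natCard x.2)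
          rw [hcop x.1, Nat.dvd_one, orderOf_eq_one_iff] at h6
          exact hx h6
        obtain ⟨k, hk⟩ := mem_zpowers_of_prime_card hcP h5 (g' := ⟨v, Subgroup.mem_zpowers v⟩)
        have h7 := h4.zpow_right k
        have h8 : ((x.2 : X) ^ orderOf (x.1 : X)) ^ k = v := by
          simpa using congrArg Subtype.val hk
        rw [h8] at h7
        exact h7
      have h3 : ∀ g : Subgroup.centralizer ({ι x} : Set X), ∃ y : (kgvD (φ x)).ker × C,
          (g : X) = ((y.1 : V) : X) * y.2 := by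
        rintro ⟨g, hg⟩
        obtain ⟨⟨a, b⟩, rfl⟩ := hGV.2 g
        have h4 : (b : X) ∈ C := by
          refine ⟨b.2, Subgroup.mem_centralizer_singleton_iff.mpr ?_⟩
          have := h2 _ hg
          simp only at this
          rwa [mul_assoc, ← mul_assoc v, hVab v hv a a.2, mul_assoc, mul_right_inj] at this
        refine ⟨(⟨a, ?_⟩, ⟨b, h4⟩), rfl⟩
        rw [MonoidHom.mem_ker, kgvD_eq_one, hφ]
        have h5 : (b : X) * ι x = ι x * b := by
          have : ι (⟨b, h4⟩, 1) = b := by simp [hι]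
          rw [← this, ← map_mul, mul_comm, map_mul]
        have := Subgroup.mem_centralizer_singleton_iff.mp hg
        simp only at this
        rw [mul_assoc, h5, ← mul_assoc, ← mul_assoc, mul_left_inj] at this
        exact this.symm
      choose f hf using h3
      exact Nat.card_le_card_of_injective f fun a b h => Subtype.ext (by rw [hf, hf, h])
    have h2 : Nat.card (kgvD (φ x)).ker * Nat.card ((⊤ : Subgroup V).map (kgvD (φ x))) =
        Nat.card V := by
      rw [← MonoidHom.range_eq_map, ← Subgroup.index_ker, Subgroup.card_mul_index]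
    have h3 : Nat.card ((⊤ : Subgroup V).map (kgvD (φ x))) *
        Nat.card (Subgroup.centralizer ({ι x} : Set X)) ≤ Nat.card V * Nat.card C := by
      rw [← h2, mul_comm (Nat.card (kgvD (φ x)).ker), mul_assoc]
      exact Nat.mul_le_mul_left _ h1
    exact_mod_cast h3
  have hlow := fun χ : IrrCharacter X => kn_lower hK (χ.2.isGeneralizedCharacter.comp ι) hA hv0
    (by rw [hιv]; exact kgv_apply_ne_zero V hVp hidx hVab χ.2 hv)
  have h1 := Finset.sum_le_sum fun χ (_ : χ ∈ Finset.univ) => hlow χ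
  rw [Finset.sum_const, ← Finset.mul_sum, Finset.sum_comm, Finset.card_univ,
    ← Nat.card_eq_fintype_card, card_irr_eq_card_conjClasses, hidx0, hcA, nsmul_eq_mul] at h1
  have h2 : ∑ x ∈ Finset.univ.filter (· ∉ C0), ∑ χ : IrrCharacter X,
      (Nat.card ((⊤ : Subgroup V).map (kgvD (φ x))) : ℝ) * ‖(χ : X → ℂ) (ι x)‖ ^ 2 ≤
      (Nat.card C * p - Nat.card C) * (Nat.card V * Nat.card C) := by
    have h3 : ((Finset.univ.filter (· ∉ C0)).card : ℝ) = Nat.card C * p - Nat.card C := by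
      have h4 := Finset.card_filter_add_card_filter_not (s := Finset.univ) (· ∈ C0)
      have h5 := C0.card_mul_index
      rw [hidx0, hcA] at h5
      have h6 := Nat.eq_of_mul_eq_mul_right hp.out.pos h5
      rw [Finset.card_univ, ← Nat.card_eq_fintype_card, hcA, ← Fintype.card_subtype,
        ← Nat.card_eq_fintype_card, h6] at h4
      rw [eq_sub_iff_add_eq, add_comm]
      exact_mod_cast h4
    rw [← h3, ← nsmul_eq_mul, ← Finset.sum_const]
    refine Finset.sum_le_sum fun x hx => ?_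
    rw [← Finset.mul_sum]
    exact hup x (Finset.mem_filter.mp hx).2
  have hp1 : (1 : ℝ) < p := by exact_mod_cast hp.out.one_lt
  have hc0 : (0 : ℝ) < Nat.card C := by exact_mod_cast Nat.card_pos
  have hCH' : (Nat.card C : ℝ) ≤ Nat.card H := by exact_mod_cast hCH
  have hk0 : (0 : ℝ) ≤ Nat.card (ConjClasses X) := by positivity
  push_cast at h1
  have h3 : (Nat.card (ConjClasses X) : ℝ) * ((p - 1) * Nat.card C * (Nat.card C * p)) ≤
      Nat.card V * ((p - 1) * Nat.card C * (Nat.card C * p)) := by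
    calc _ ≤ (Nat.card (ConjClasses X) : ℝ) * ((p - 1) * Nat.card H * (Nat.card C * p)) := by
          gcongr
      _ ≤ _ := h1
      _ ≤ p * ((Nat.card C * p - Nat.card C) * (Nat.card V * Nat.card C)) := by gcongr
      _ = _ := by ring
  have h4 := le_of_mul_le_mul_right h3 (by have : (0 : ℝ) < p - 1 := by linarith
                                           positivity)
  exact_mod_cast h4

/-- Knörr: if some vector has abelian stabilizer then `k(GV) ≤ |V|`. -/
theorem knoerr {X : Type*} [Group X] [Finite X] (p : ℕ) [hp : Fact p.Prime] (V : Subgroup X)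
    [hV : V.Normal] (hVexp : ∀ v ∈ V, v ^ p = 1) (hidx : ¬ p ∣ V.index)
    (hself : Subgroup.centralizer (V : Set X) = V) (G : Subgroup X)
    (hGV : Subgroup.IsComplement' V G) (v : X) (hv : v ∈ V)
    (hab : ∀ a ∈ G ⊓ Subgroup.centralizer ({v} : Set X),
      ∀ b ∈ G ⊓ Subgroup.centralizer ({v} : Set X), a * b = b * a) :
    Nat.card (ConjClasses X) ≤ Nat.card V := by
  by_cases hv1 : v = 1
  · subst hv1
    by_cases hbot : V = ⊥
    · subst hbot
      have : ∀ x : X, x = 1 := fun x => by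
        rw [← Subgroup.mem_bot, ← hself]
        intro y hy
        rw [Subgroup.mem_bot.mp hy, one_mul, mul_one]
      haveI : Subsingleton X := ⟨fun a b => by rw [this a, this b]⟩
      have h1 : Nat.card (ConjClasses X) ≤ Nat.card X :=
        Nat.card_le_card_of_surjective _ ConjClasses.mk_surjective
      simpa using h1
    · obtain ⟨⟨w, hw⟩, hw1⟩ := Subgroup.ne_bot_iff_exists_ne_one.mp hbot
      refine knoerr_aux p V hVexp hidx hself G hGV w hw (fun h => hw1 (Subtype.ext h))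
        fun a ha b hb => hab a ⟨ha.1, by simp [Subgroup.mem_centralizer_singleton_iff]⟩ b
          ⟨hb.1, by simp [Subgroup.mem_centralizer_singleton_iff]⟩
  · exact knoerr_aux p V hVexp hidx hself G hGV v hv hv1 hab

end CL.Char
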