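/-
Local analysis for groups with an abelian subgroup `P` all of whose non-identity elements have the
same centralizer (Brauer–Leonard): characters of the normalizer.
-/
import Cfsg.Agent.Char.BrauerTI
import Cfsg.Agent.Char.Clifford
import Cfsg.Agent.Char.Linear

set_option autoImplicit false
set_option linter.style.haveILetI false

open Module Cfsg
open scoped ComplexConjugate Pointwise

namespace CL.Char

variable {M : Type*} [Group M]

/-- If the elements outside `C` act fixed-point-freely on the normal subgroup `P` and `C`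
centralizes `P`, the index of `C` divides `|P| - 1`. -/
theorem index_dvd_card_sub_one_of_fpf [Finite M] (C P : Subgroup M) [hP : P.Normal]
    (hcomm : ∀ c ∈ C, ∀ u ∈ P, u * c = c * u)
    (hfpf : ∀ n, n ∉ C → ∀ u ∈ P, u * n = n * u → u = 1) : C.index ∣ Nat.card P - 1 := by
  classical
  let X := {u : M // u ∈ P ∧ u ≠ 1}
  letI : MulAction M X :=
    { smul := fun g u => ⟨g * u * g⁻¹, hP.conj_mem _ u.2.1 g, fun h => u.2.2 (by
        have : (u : M) = g⁻¹ * (g * u * g⁻¹) * g := by group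
        rw [this, h]; group)⟩
      one_smul := fun u => Subtype.ext (by change 1 * (u : M) * 1⁻¹ = u; group)
      mul_smul := fun g h u => Subtype.ext (by
        change g * h * (u : M) * (g * h)⁻¹ = g * (h * u * h⁻¹) * g⁻¹; group) }
  have h1 : C.index ∣ Nat.card X := by
    refine dvd_card_of_index_stabilizer_eq (A := M) _ fun u => ?_
    congr 1
    ext g
    rw [MulAction.mem_stabilizer_iff, Subtype.ext_iff]
    change g * (u : M) * g⁻¹ = u ↔ _
    constructor
    · intro h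
      by_contra hg
      refine u.2.2 (hfpf g hg u u.2.1 ?_)
      conv_lhs => rw [← h]
      group
    · intro hg
      rw [← hcomm g hg u u.2.1]
      group
  have h2 : Nat.card X = Nat.card P - 1 := by
    have e : X ≃ {u : P // u ≠ 1} :=
      { toFun := fun u => ⟨⟨u.1, u.2.1⟩, fun h => u.2.2 (congrArg Subtype.val h)⟩
        invFun := fun u => ⟨u.1.1, u.1.2, fun h => u.2 (Subtype.ext h)⟩
        left_inv := fun _ => rfl
        right_inv := fun _ => rfl }
    haveI := Fintype.ofFinite P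
    rw [Nat.card_congr e, Nat.card_eq_fintype_card, Nat.card_eq_fintype_card,
      Fintype.card_subtype_compl, Fintype.card_subtype_eq]
  exact h2 ▸ h1

/-- The norm of a sum of functions with pairwise distinct linear characters on a subgroup. -/
theorem sum_norm_sq_sum_monoidHom {P : Type*} [Group P] [Fintype P] {ι : Type*} (s : Finset ι)
    (lam : ι → P →* ℂˣ) (hlam : ∀ i ∈ s, ∀ j ∈ s, lam i = lam j → i = j) (c : ι → ℂ) :
    ∑ u : P, ‖∑ i ∈ s, (lam i u : ℂ) * c i‖ ^ 2 = Nat.card P * ∑ i ∈ s, ‖c i‖ ^ 2 := by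
  classical
  have h1 := classInner_self_eq (fun u : P => ∑ i ∈ s, (lam i u : ℂ) * c i)
  have h2 : (fun u : P => ∑ i ∈ s, (lam i u : ℂ) * c i) =
      ∑ i ∈ s, c i • fun u : P => (lam i u : ℂ) := by
    ext u
    simp [mul_comm]
  have h3 : classInner (fun u : P => ∑ i ∈ s, (lam i u : ℂ) * c i)
      (fun u : P => ∑ i ∈ s, (lam i u : ℂ) * c i) = ((∑ i ∈ s, ‖c i‖ ^ 2 : ℝ) : ℂ) := by
    rw [h2, classInner_sum_left, Complex.ofReal_sum]
    refine Finset.sum_congr rfl fun i hi => ?_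
    rw [classInner_sum_right, Finset.sum_eq_single i]
    · rw [classInner_smul_left, classInner_smul_right, classInner_monoidHom, if_pos rfl, mul_one,
        Complex.mul_conj, Complex.normSq_eq_norm_sq]
    · intro j hj hne
      rw [classInner_smul_left, classInner_smul_right, classInner_monoidHom,
        if_neg (fun h => hne (hlam i hi j hj h).symm), mul_zero, mul_zero]
    · intro h
      exact absurd hi h
  rw [h3, Complex.ofReal_inj] at h1
  have hpos : (0 : ℝ) < Nat.card P := by exact_mod_cast Nat.card_pos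
  rw [h1]
  field_simp

/-- Irreducible characters of `M` without `P` in the kernel. -/
theorem leonard_local [Fintype M] (C P : Subgroup M) [hC : C.Normal] [hP : P.Normal] [Fintype P]
    (hPC : P ≤ C) (hcomm : ∀ c ∈ C, ∀ u ∈ P, u * c = c * u)
    (hfpf : ∀ n, n ∉ C → ∀ u ∈ P, u * n = n * u → u = 1) {η : M → ℂ} (hη : IsIrrCharacter M η)
    (hker : ¬ P ≤ charKer η) :
    ∃ f : ℕ, charDegree η = f * C.index ∧
      (∀ c ∈ C, Nat.card P * ‖η c‖ ^ 2 ≤ C.index * ∑ u : P, ‖η (u * c)‖ ^ 2) ∧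
      (f = 1 → ∀ c ∈ C, ∑ u : P, ‖η (u * c)‖ ^ 2 = Nat.card P * C.index) := by
  classical
  haveI := Fintype.ofFinite C
  obtain ⟨ζ, hζ, hne⟩ := exists_irr_constituent_restrict C hη
  -- central characters
  have hlam : ∀ φ : C → ℂ, IsIrrCharacter C φ → ∃ lam : P →* ℂˣ,
      ∀ (u : P) (c : C), φ (⟨u, hPC u.2⟩ * c) = lam u * φ c := by
    intro φ hφ
    have hle : P.subgroupOf C ≤ charCenter φ := by
      refine le_trans ?_ hφ.center_le_charCenter
      intro u hu
      rw [Subgroup.mem_center_iff]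
      intro c
      exact Subtype.ext (hcomm c c.2 u hu).symm
    obtain ⟨lam, -, h⟩ := hφ.exists_monoidHom_of_le_charCenter hle
    exact ⟨lam.comp (Subgroup.subgroupOfEquivOfLe hPC).symm.toMonoidHom,
      fun u c => h ((Subgroup.subgroupOfEquivOfLe hPC).symm u) c⟩
  choose! lam hlam using hlam
  have hcl := clifford hη hζ hne
  -- conjugating `ζ` by an element outside `C` moves the central character
  have hmove : ∀ g : M, lam (conjChar C g ζ) = lam ζ → g ∈ C := by
    intro g hg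
    by_contra hgC
    have h1 : ∀ u : P, lam ζ ⟨g * u * g⁻¹, hP.conj_mem _ u.2 g⟩ = lam ζ u := by
      intro u
      have h2 := hlam _ (isIrrCharacter_conjChar hζ g) u 1
      have h3 := hlam _ hζ ⟨g * u * g⁻¹, hP.conj_mem _ u.2 g⟩ 1
      rw [hg, conjChar_apply_one, mul_one, conjChar_apply] at h2
      rw [mul_one] at h3
      apply Units.ext
      exact mul_right_cancel₀ hζ.one_ne_zero (h3.symm.trans h2)
    have h2 : ∀ u : P, lam ζ u = 1 := by
      intro u
      obtain ⟨k, hk, e⟩ := exists_conj_eq_mul_of_fpf P g (hfpf g hgC) u u.2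
      have h3 : u = ⟨k, hk⟩ * (⟨g * k * g⁻¹, hP.conj_mem _ hk g⟩ : P)⁻¹ := by
        apply Subtype.ext
        change (u : M) = k * (g * k * g⁻¹)⁻¹
        have : (u : M) = k * g * k⁻¹ * g⁻¹ := by rw [e]; group
        rw [this]
        group
      rw [h3, map_mul, map_inv, h1 ⟨k, hk⟩, mul_inv_cancel]
    apply hker
    intro u hu
    rw [hη.mem_charKer]
    have h4 := congrFun hcl ⟨u, hPC hu⟩
    have h5 := congrFun hcl 1
    simp only [Pi.smul_apply, Finset.sum_apply, smul_eq_mul, OneMemClass.coe_one] at h4 h5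
    rw [h4, h5]
    congr 1
    refine Finset.sum_congr rfl fun φ hφ => ?_
    obtain ⟨n, rfl⟩ := mem_conjOrbit.mp hφ
    have h6 := hlam _ hζ ⟨n * u * n⁻¹, hP.conj_mem _ hu n⟩ 1
    rw [h2, mul_one] at h6
    rw [conjChar_apply_one, conjChar_apply, h6]
    simp
  have hin : inertia C ζ = C := by
    refine le_antisymm (fun g hg => hmove g ?_) (le_inertia hζ.isClassFunction)
    rw [mem_inertia_iff.mp hg]
  have hirr := (isIrrCharacter_indFun_normal_iff hζ).mpr hin
  have he : classInner (fun c : C => η c) ζ = 1 := by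
    rw [← frobenius_reciprocity' ζ hη.isClassFunction] at hne ⊢
    rw [hη.eq_of_classInner_ne_zero hirr hne]
    exact hirr.classInner_self
  rw [he, one_smul] at hcl
  have hcard : (conjOrbit C ζ).card = C.index := by rw [card_conjOrbit, hin]
  have hinj : ∀ φ ∈ conjOrbit C ζ, ∀ ψ ∈ conjOrbit C ζ, lam φ = lam ψ → φ = ψ := by
    intro φ hφ ψ hψ h
    obtain ⟨a, rfl⟩ := mem_conjOrbit.mp hφ
    obtain ⟨b, rfl⟩ := mem_conjOrbit.mp hψ
    rw [conjChar_eq_conjChar_iff, hin]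
    apply hmove
    ext u
    have h1 := hlam _ (isIrrCharacter_conjChar hζ (a * b⁻¹)) u 1
    have h2 := hlam _ (isIrrCharacter_conjChar hζ a) ⟨b⁻¹ * u * b⁻¹⁻¹, hP.conj_mem _ u.2 b⁻¹⟩ 1
    have h3 := hlam _ (isIrrCharacter_conjChar hζ b) ⟨b⁻¹ * u * b⁻¹⁻¹, hP.conj_mem _ u.2 b⁻¹⟩ 1
    have h4 := hlam _ hζ u 1
    rw [h] at h2
    simp only [conjChar_apply_one, mul_one] at h1 h2 h3 h4
    apply mul_right_cancel₀ hζ.one_ne_zero
    rw [← h1, ← h4]
    have h5 : conjChar C (a * b⁻¹) ζ ⟨u, hPC u.2⟩ =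
        conjChar C a ζ ⟨b⁻¹ * u * b⁻¹⁻¹, hPC (hP.conj_mem _ u.2 b⁻¹)⟩ := by
      rw [conjChar_apply, conjChar_apply]
      congr 2
      group
    have h6 : ζ ⟨u, hPC u.2⟩ = conjChar C b ζ ⟨b⁻¹ * u * b⁻¹⁻¹, hPC (hP.conj_mem _ u.2 b⁻¹)⟩ := by
      rw [conjChar_apply]
      congr 2
      group
    rw [h5, h6, h2, h3]
  have hsum : ∀ c : C, ∑ u : P, ‖η (u * c)‖ ^ 2 =
      Nat.card P * ∑ φ ∈ conjOrbit C ζ, ‖φ c‖ ^ 2 := by
    intro c
    rw [← sum_norm_sq_sum_monoidHom _ lam hinj]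
    refine Finset.sum_congr rfl fun u _ => ?_
    have h1 := congrFun hcl (⟨u, hPC u.2⟩ * c)
    rw [Finset.sum_apply] at h1
    congr 2
    refine h1.trans (Finset.sum_congr rfl fun φ hφ => ?_)
    exact hlam φ (isIrrCharacter_of_mem_conjOrbit hζ hφ) u c
  refine ⟨charDegree ζ, ?_, fun c hc => ?_, fun hf c hc => ?_⟩
  · have h1 := clifford_degree hη hζ (by rw [he]; exact one_ne_zero)
    rw [he, hin, ← hη.cast_charDegree, ← hζ.cast_charDegree, one_mul, mul_comm] at h1
    exact_mod_cast h1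
  · rw [hsum ⟨c, hc⟩, mul_left_comm]
    refine mul_le_mul_of_nonneg_left ?_ (Nat.cast_nonneg _)
    have h1 := congrFun hcl ⟨c, hc⟩
    rw [Finset.sum_apply] at h1
    change η c = _ at h1
    rw [h1, ← hcard]
    refine le_trans ?_ (sq_sum_le_card_mul_sum_sq (s := conjOrbit C ζ)
      (f := fun φ => ‖φ ⟨c, hc⟩‖))
    exact pow_le_pow_left₀ (norm_nonneg _) (norm_sum_le _ _) 2
  · rw [hsum ⟨c, hc⟩, ← hcard]
    congr 1
    rw [Finset.card_eq_sum_ones, Nat.cast_sum]
    refine Finset.sum_congr rfl fun φ hφ => ?_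
    have h1 := isIrrCharacter_of_mem_conjOrbit hζ hφ
    have h2 : φ 1 = 1 := by
      rw [apply_one_of_mem_conjOrbit hφ, ← hζ.cast_charDegree, hf, Nat.cast_one]
    obtain ⟨mu, rfl⟩ := h1.isCharacter.exists_monoidHom_of_one h2
    rw [norm_monoidHom_apply]
    simp

/-- A norm inequality for a linear map sending irreducible characters to characters. -/
theorem classInner_self_le_of_linear {G : Type*} [Group G] [Fintype G] [Fintype M]
    (L : (G → ℂ) →ₗ[ℂ] (M → ℂ)) {θ : G → ℂ} (hθ : IsCharacter G θ)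
    (hL : ∀ ψ, IsIrrCharacter G ψ → classInner θ ψ ≠ 0 → IsCharacter M (L ψ) ∧ L ψ ≠ 0) :
    (classInner θ θ).re ≤ (classInner (L θ) (L θ)).re := by
  classical
  obtain ⟨m, hm, e⟩ := hθ.exists_eq_sum_nat
  have h1 : classInner θ θ = ∑ χ : IrrCharacter G, ((m χ : ℂ) * m χ) := by
    rw [hθ.isClassFunction.classInner_eq_sum]
    refine Finset.sum_congr rfl fun χ _ => ?_
    rw [hm, map_natCast]
  have h2 : L θ = ∑ χ : IrrCharacter G, (m χ : ℂ) • L χ := by
    conv_lhs => rw [e]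
    rw [map_sum]
    simp only [map_smul]
  have hnn : ∀ χ ψ : IrrCharacter G,
      0 ≤ (classInner ((m χ : ℂ) • L χ) ((m ψ : ℂ) • L ψ)).re := by
    intro χ ψ
    by_cases h1 : m χ = 0
    · simp [h1, classInner_zero_left]
    by_cases h2 : m ψ = 0
    · simp [h2, classInner_zero_right]
    obtain ⟨k, hk⟩ := ((hL χ χ.2 (by rw [hm]; exact_mod_cast h1)).1.natCast_smul
      (m χ)).exists_nat_classInner ((hL ψ ψ.2 (by rw [hm]; exact_mod_cast h2)).1.natCast_smul (m ψ))
    rw [hk]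
    simp
  rw [h1, h2, classInner_sum_left, Complex.re_sum, Complex.re_sum]
  refine Finset.sum_le_sum fun χ _ => ?_
  rw [classInner_sum_right, Complex.re_sum]
  refine le_trans ?_ (Finset.single_le_sum (fun ψ _ => hnn χ ψ) (Finset.mem_univ χ))
  by_cases h1 : m χ = 0
  · simp [h1, classInner_zero_left]
  obtain ⟨h3, h4⟩ := hL χ χ.2 (by rw [hm]; exact_mod_cast h1)
  obtain ⟨k, hk⟩ := h3.exists_nat_classInner h3
  have hk0 : k ≠ 0 := by
    rintro rfl
    exact h4 (classInner_self_eq_zero.mp (by simpa using hk))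
  rw [classInner_smul_left, classInner_smul_right, hk, map_natCast]
  have : (m χ * m χ : ℕ) ≤ m χ * (m χ * k) :=
    Nat.mul_le_mul_left _ (Nat.le_mul_of_pos_right _ (Nat.pos_of_ne_zero hk0))
  norm_cast

/-- The numerical contradiction in the Brauer–Leonard theorem. -/
theorem leonard_numeric {V : Type*} [Fintype V] [Nonempty V] (a θ : V → ℝ) (q t f : ℕ)
    (ht : 0 < t) (hx : 2 ≤ f * t) (hq : (f * t) ^ 2 + 1 < q) (hdvd : t ∣ q - 1)
    (hθ0 : ∀ v, 0 ≤ θ v) (hθa : ∀ v, θ v ≤ t * a v) (hsa : ∑ v, a v = t * Fintype.card V)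
    (hsθ : (Fintype.card V : ℝ) ≤ ∑ v, θ v) (hf : f = 1 → ∀ v, a v = t)
    (h : q * ∑ v, (t * a v - 1) ^ 2 - ∑ v, (t * θ v - 1) ^ 2 <
      q * t * Fintype.card V * ((t : ℝ) - 1) ^ 2) : False := by
  have hW : (0 : ℝ) < Fintype.card V := by exact_mod_cast Fintype.card_pos
  set W : ℝ := (Fintype.card V : ℝ) with hWdef
  have ht1 : (1 : ℝ) ≤ t := by exact_mod_cast ht
  by_cases hf1 : f = 1
  · -- the case of degree one
    subst hf1
    rw [one_mul] at hx hq
    have ht2 : (2 : ℝ) ≤ t := by exact_mod_cast hx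
    have hq2 : t ^ 2 + t + 1 ≤ q := by
      obtain ⟨k, hk⟩ := hdvd
      have h1 : t * t < t * k := by rw [← hk, ← sq]; omega
      have h2 : t + 1 ≤ k := Nat.lt_of_mul_lt_mul_left h1
      have h3 : t * (t + 1) ≤ q - 1 := hk ▸ Nat.mul_le_mul_left t h2
      have : t * (t + 1) = t ^ 2 + t := by ring
      omega
    have hq3 : (t : ℝ) ^ 2 + t + 1 ≤ q := by exact_mod_cast hq2
    have h1 : ∑ v, ((t : ℝ) * a v - 1) ^ 2 = W * ((t : ℝ) ^ 2 - 1) ^ 2 := by
      simp only [hf rfl, Finset.sum_const, Finset.card_univ, nsmul_eq_mul]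
      ring
    have h2 : ∑ v, ((t : ℝ) * θ v - 1) ^ 2 ≤ W * ((t : ℝ) ^ 3 - 1) ^ 2 := by
      rw [hWdef, ← Finset.card_univ, ← nsmul_eq_mul]
      refine Finset.sum_le_card_nsmul _ _ _ fun v _ => ?_
      have h3 := hθa v
      rw [hf rfl] at h3
      have h4 := hθ0 v
      have h5 : (8 : ℝ) ≤ (t : ℝ) ^ 3 := by
        have := pow_le_pow_left₀ (by norm_num) ht2 3
        linarith
      have h6 : (t : ℝ) * θ v ≤ (t : ℝ) ^ 3 := by nlinarith
      have h7 : 0 ≤ (t : ℝ) * θ v := by positivity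
      apply sq_le_sq'
      · linarith
      · linarith
    rw [h1] at h
    have h3 : W * (((t : ℝ) - 1) ^ 2 * ((t : ℝ) ^ 2 + t + 1)) * (q - ((t : ℝ) ^ 2 + t + 1)) < 0 := by
      nlinarith
    have h4 : 0 ≤ W * (((t : ℝ) - 1) ^ 2 * ((t : ℝ) ^ 2 + t + 1)) * (q - ((t : ℝ) ^ 2 + t + 1)) :=
      mul_nonneg (by positivity) (by linarith)
    linarith
  · have hf0 : f ≠ 0 := by
      rintro rfl
      omega
    have hq2 : 4 * t ^ 2 + 2 ≤ q := by
      have : (2 * t) ^ 2 ≤ (f * t) ^ 2 := Nat.pow_le_pow_left (Nat.mul_le_mul_right _ (by omega)) 2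
      have h2 : (2 * t) ^ 2 = 4 * t ^ 2 := by ring
      omega
    have hq3 : 4 * (t : ℝ) ^ 2 + 2 ≤ q := by exact_mod_cast hq2
    set S := ∑ v, a v ^ 2 with hS
    have h1 : (t : ℝ) ^ 2 * W ≤ S := by
      have h2 : 0 ≤ ∑ v, (a v - t) ^ 2 := Finset.sum_nonneg fun _ _ => sq_nonneg _
      have h3 : ∑ v, (a v - t) ^ 2 = S - 2 * t * ∑ v, a v + W * (t : ℝ) ^ 2 := by
        rw [hS, Finset.mul_sum, ← Finset.sum_sub_distrib, hWdef, ← Finset.card_univ,
          ← nsmul_eq_mul, ← Finset.sum_const, ← Finset.sum_add_distrib]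
        exact Finset.sum_congr rfl fun v _ => by ring
      rw [h3, hsa] at h2
      nlinarith
    have h2 : ∑ v, ((t : ℝ) * a v - 1) ^ 2 = (t : ℝ) ^ 2 * S - 2 * t * ∑ v, a v + W := by
      rw [hS, Finset.mul_sum, Finset.mul_sum, ← Finset.sum_sub_distrib, hWdef, ← Finset.card_univ,
        ← mul_one (Finset.univ.card : ℝ), ← nsmul_eq_mul, ← Finset.sum_const,
        ← Finset.sum_add_distrib]
      exact Finset.sum_congr rfl fun v _ => by ring
    have h3 : ∑ v, ((t : ℝ) * θ v - 1) ^ 2 ≤ (t : ℝ) ^ 4 * S - 2 * t * ∑ v, θ v + W := by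
      rw [hS, Finset.mul_sum, Finset.mul_sum, ← Finset.sum_sub_distrib, hWdef, ← Finset.card_univ,
        ← mul_one (Finset.univ.card : ℝ), ← nsmul_eq_mul, ← Finset.sum_const,
        ← Finset.sum_add_distrib]
      refine Finset.sum_le_sum fun v _ => ?_
      have h4 : θ v ^ 2 ≤ (t * a v) ^ 2 := pow_le_pow_left₀ (hθ0 v) (hθa v) 2
      have h5 : (t : ℝ) ^ 2 * θ v ^ 2 ≤ (t : ℝ) ^ 2 * (t * a v) ^ 2 :=
        mul_le_mul_of_nonneg_left h4 (by positivity)
      nlinarith
    rw [h2, hsa] at h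
    have h4 : (t : ℝ) ^ 2 * ((q : ℝ) - (t : ℝ) ^ 2) * ((t : ℝ) ^ 2 * W) ≤
        (t : ℝ) ^ 2 * ((q : ℝ) - (t : ℝ) ^ 2) * S :=
      mul_le_mul_of_nonneg_left h1 (mul_nonneg (by positivity) (by nlinarith))
    have h5 : 2 * (t : ℝ) * W ≤ 2 * t * ∑ v, θ v := mul_le_mul_of_nonneg_left hsθ (by positivity)
    have h6 : W * (q * (((t : ℝ) - 1) * ((t : ℝ) ^ 3 - 1)) - ((t : ℝ) ^ 6 - 2 * t + 1)) < 0 := by
      nlinarith
    have h7 : (q : ℝ) * (((t : ℝ) - 1) * ((t : ℝ) ^ 3 - 1)) < (t : ℝ) ^ 6 - 2 * t + 1 := by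
      by_contra h8
      have := mul_nonneg hW.le (sub_nonneg.mpr (not_lt.mp h8))
      linarith
    rcases (show t = 1 ∨ 2 ≤ t by omega) with rfl | ht2
    · norm_num at h7
    · have ht3 : (2 : ℝ) ≤ t := by exact_mod_cast ht2
      have h8 : (8 : ℝ) ≤ (t : ℝ) ^ 3 := by
        have := pow_le_pow_left₀ (by norm_num) ht3 3
        linarith
      have h9 : (t : ℝ) / 2 * ((t : ℝ) ^ 3 / 2) ≤ ((t : ℝ) - 1) * ((t : ℝ) ^ 3 - 1) :=
        mul_le_mul (by linarith) (by linarith) (by positivity) (by linarith)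
      have h10 : 4 * (t : ℝ) ^ 2 * ((t : ℝ) / 2 * ((t : ℝ) ^ 3 / 2)) ≤
          q * (((t : ℝ) - 1) * ((t : ℝ) ^ 3 - 1)) :=
        mul_le_mul (by linarith) h9 (by positivity) (by positivity)
      nlinarith

end CL.Char
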