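/-
The Brauer–Leonard theorem: groups with a Sylow subgroup `P` all of whose non-identity elements
have the same centralizer, and a character of degree less than `sqrt (|P| - 1)`.
-/
import Cfsg.Agent.Char.Leonard1
import Cfsg.Agent.Char.Faithful
import Cfsg.Agent.Grp.Coprime

set_option autoImplicit false
set_option linter.style.haveILetI false

open Module Cfsg
open scoped ComplexConjugate Pointwise

namespace CL.Char

variable {G : Type*} [Group G]

/-- The local configuration `P × V = C ≤ N` with `C \ V` a TI-set. -/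
structure LeonardData (P V C N : Subgroup G) : Prop where
  PC : P ≤ C
  VC : V ≤ C
  CN : C ≤ N
  NP : N ≤ Subgroup.normalizer (P : Set G)
  NC : N ≤ Subgroup.normalizer (C : Set G)
  comm : ∀ c ∈ C, ∀ u ∈ P, u * c = c * u
  fpf : ∀ n ∈ N, n ∉ C → ∀ u ∈ P, u * n = n * u → u = 1
  disj : P ⊓ V = ⊥
  prod : ∀ c ∈ C, ∃ u ∈ P, ∃ v ∈ V, u * v = c
  ti : ∀ g : G, ∀ c ∈ C, c ∉ V → g * c * g⁻¹ ∈ C → g * c * g⁻¹ ∉ V → g ∈ N
  ne_bot : P ≠ ⊥

namespace LeonardData

variable {P V C N : Subgroup G} (h : LeonardData P V C N)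
include h

theorem PN : P ≤ N := h.PC.trans h.CN

theorem bijective : Function.Bijective
    (fun x : V × P => (⟨x.2 * x.1, C.mul_mem (h.PC x.2.2) (h.VC x.1.2)⟩ : C)) := by
  constructor
  · rintro ⟨v, u⟩ ⟨v', u'⟩ e
    have e1 : (u : G) * v = u' * v' := congrArg Subtype.val e
    have e2 : (u' : G)⁻¹ * u = v' * (v : G)⁻¹ := by
      rw [inv_mul_eq_iff_eq_mul, ← mul_assoc, ← e1, mul_inv_cancel_right]
    have e3 : (u' : G)⁻¹ * u ∈ P ⊓ V :=
      ⟨P.mul_mem (P.inv_mem u'.2) u.2, e2 ▸ V.mul_mem v'.2 (V.inv_mem v.2)⟩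
    rw [h.disj, Subgroup.mem_bot] at e3
    rw [e3, eq_comm, mul_inv_eq_one] at e2
    rw [inv_mul_eq_one] at e3
    exact Prod.ext (Subtype.ext e2.symm) (Subtype.ext e3.symm)
  · rintro ⟨c, hc⟩
    obtain ⟨u, hu, v, hv, rfl⟩ := h.prod c hc
    exact ⟨(⟨v, hv⟩, ⟨u, hu⟩), rfl⟩

theorem sum_C [Fintype P] [Fintype V] [Fintype C] {A : Type*} [AddCommMonoid A] (F : G → A) :
    ∑ c : C, F c = ∑ v : V, ∑ u : P, F (u * v) := by
  rw [← Fintype.sum_prod_type']
  exact (Fintype.sum_bijective _ h.bijective _ _ fun _ => rfl).symm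

theorem card_C : Nat.card C = Nat.card V * Nat.card P := by
  rw [← Nat.card_prod]
  exact (Nat.card_congr (Equiv.ofBijective _ h.bijective)).symm

theorem card_N : Nat.card N = (C.subgroupOf N).index * Nat.card V * Nat.card P := by
  rw [mul_assoc, ← h.card_C, ← Grp.card_subgroupOf_of_le h.CN, Subgroup.index_mul_card]

theorem sub_cosetAvg_eq_zero [Fintype P] {φ : G → ℂ} (hφ : IsClassFunction G φ) {x : G}
    (hx : x ∈ N) (hxC : x ∉ C) : φ x - cosetAvg P φ x = 0 := by
  have : ∀ u : P, φ (u * x) = φ x := by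
    intro u
    obtain ⟨k, -, hk⟩ := exists_conj_eq_mul_of_fpf' P x
      (fun n hn' => (Subgroup.mem_normalizer_iff.mp (h.NP hx) n).mp hn') (h.fpf x hx hxC) u u.2
    rw [← hk, hφ]
  rw [cosetAvg_apply]
  simp only [this, Finset.sum_const, Finset.card_univ, nsmul_eq_mul, Fintype.card_eq_nat_card]
  have : (Nat.card P : ℂ) ≠ 0 := natCard_ne_zero
  field_simp
  ring

theorem sum_N_eq_sum_C [Fintype G] [Fintype C] [Fintype N] (F : G → ℝ)
    (hF : ∀ x ∈ N, x ∉ C → F x = 0) : ∑ x : N, F x = ∑ c : C, F c := by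
  classical
  rw [← sum_eq_sum_subgroup (Finset.univ.filter (· ∈ C)) N F (fun x hx => h.CN (by simpa using hx))
    (fun x hx hx' => hF x hx (by simpa using hx')),
    sum_eq_sum_subgroup (Finset.univ.filter (· ∈ C)) C F (fun x hx => by simpa using hx)
    (fun x hx hx' => absurd (by simpa using hx) hx')]

omit h in
theorem sum_norm_sq_coset [Fintype P] (φ : G → ℂ) (v : G) :
    ∑ u : P, ‖φ (u * v)‖ ^ 2 = ∑ u : P, ‖φ (u * v) - cosetAvg P φ (u * v)‖ ^ 2 +
      Nat.card P * ‖cosetAvg P φ v‖ ^ 2 := by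
  have h1 : ∀ u : P, cosetAvg P φ (u * v) = cosetAvg P φ v := fun u => le_charKer_cosetAvg φ u.2 v
  have hP : (Nat.card P : ℂ) ≠ 0 := natCard_ne_zero
  have h2 : ∑ u : P, (φ (u * v) - cosetAvg P φ v) = 0 := by
    rw [Finset.sum_sub_distrib, Finset.sum_const, Finset.card_univ, nsmul_eq_mul,
      Fintype.card_eq_nat_card, cosetAvg_apply]
    field_simp
    ring
  simp only [h1]
  have h3 : ∑ u : P, ‖φ (u * v)‖ ^ 2 = ∑ u : P, (‖φ (u * v) - cosetAvg P φ v‖ ^ 2 +
      ‖cosetAvg P φ v‖ ^ 2 + 2 * ((φ (u * v) - cosetAvg P φ v) * conj (cosetAvg P φ v)).re) := by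
    refine Finset.sum_congr rfl fun x _ => ?_
    rw [Complex.sq_norm, Complex.sq_norm, Complex.sq_norm, ← Complex.normSq_add, sub_add_cancel]
  rw [h3, Finset.sum_add_distrib, Finset.sum_add_distrib, ← Finset.mul_sum, ← Complex.re_sum,
    ← Finset.sum_mul, h2, Finset.sum_const, Finset.card_univ, nsmul_eq_mul,
    Fintype.card_eq_nat_card]
  simp

/-- The basic inequality. -/
theorem main_ineq [Fintype G] [Fintype P] [Fintype V] [Fintype N] {φ : G → ℂ}
    (hφ : IsClassFunction G φ) (h1 : φ 1 ≠ 0) :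
    ∑ x : N, ‖φ x - cosetAvg P φ x‖ ^ 2 + Nat.card P * ∑ v : V, ‖cosetAvg P φ v‖ ^ 2 -
      ∑ v : V, ‖φ v‖ ^ 2 < Nat.card N * (classInner φ φ).re := by
  classical
  haveI := Fintype.ofFinite C
  have h2 := card_mul_sum_le_of_TI N ((Finset.univ.filter (· ∈ C)).filter (· ∉ V))
    (Finset.univ.erase 1)
    (fun g t ht hg => by
      simp only [Finset.mem_filter, Finset.mem_univ, true_and] at ht hg
      exact h.ti g t ht.1 ht.2 hg.1 hg.2)
    (fun g t ht => by
      simp only [Finset.mem_filter, Finset.mem_univ, true_and] at ht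
      refine Finset.mem_erase.mpr ⟨fun e => ht.2 ?_, Finset.mem_univ _⟩
      have : t = g⁻¹ * (g * t * g⁻¹) * g := by group
      rw [this, e]
      simp)
    (fun g => ‖φ g‖ ^ 2) (fun _ => by positivity) (fun g x => by rw [hφ])
  have h3 := Finset.sum_filter_add_sum_filter_not (Finset.univ.filter (· ∈ C)) (· ∈ V)
    (fun g => ‖φ g‖ ^ 2)
  rw [sum_eq_sum_subgroup (Finset.univ.filter (· ∈ C)) C _ (fun x hx => by simpa using hx)
    (fun x hx hx' => absurd (by simpa using hx) hx'),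
    sum_eq_sum_subgroup _ V _ (fun x hx => (Finset.mem_filter.mp hx).2)
    (fun x hx hx' => absurd (by simpa using ⟨h.VC hx, hx⟩) hx'), h.sum_C (fun g => ‖φ g‖ ^ 2)] at h3
  simp only [sum_norm_sq_coset (P := P) φ] at h3
  rw [Finset.sum_add_distrib, ← Finset.mul_sum,
    ← h.sum_C (fun g => ‖φ g - cosetAvg P φ g‖ ^ 2),
    ← h.sum_N_eq_sum_C (fun g => ‖φ g - cosetAvg P φ g‖ ^ 2)
      (fun x hx hx' => by rw [h.sub_cosetAvg_eq_zero hφ hx hx']; simp)] at h3
  have h4 := Finset.add_sum_erase Finset.univ (fun g => ‖φ g‖ ^ 2) (Finset.mem_univ (1 : G))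
  have hGpos : (0 : ℝ) < Nat.card G := by exact_mod_cast Nat.card_pos
  have hNpos : (0 : ℝ) < Nat.card N := by exact_mod_cast Nat.card_pos
  have h5 : 0 < ‖φ 1‖ ^ 2 := by positivity
  rw [classInner_self_eq, Complex.ofReal_re, ← h4, ← h3, add_sub_cancel_left]
  refine lt_of_mul_lt_mul_left (h2.trans_lt ?_) hGpos.le
  rw [mul_left_comm, mul_inv_cancel_left₀ hGpos.ne']
  exact mul_lt_mul_of_pos_left (by linarith) hNpos

/-- The part of the restriction to `N` that does not have `P` in the kernel. -/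
noncomputable def _root_.CL.Char.leonardB (P N : Subgroup G) [Fintype P] :
    (G → ℂ) →ₗ[ℂ] (N → ℂ) where
  toFun φ := fun x => φ x - cosetAvg P φ x
  map_add' φ ψ := by
    ext x
    simp only [cosetAvg_add, Pi.add_apply]
    ring
  map_smul' c φ := by
    ext x
    simp only [cosetAvg_apply, Pi.smul_apply, smul_eq_mul, RingHom.id_apply, ← Finset.mul_sum]
    ring

theorem isCharacter_cosetAvg_res [Finite G] [Fintype P] {χ : G → ℂ} (hχ : IsCharacter G χ) :
    IsCharacter N (fun x : N => cosetAvg P χ x) := by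
  haveI := Fintype.ofFinite (P.subgroupOf N)
  haveI := Grp.normal_subgroupOf_of_le_normalizer' h.NP
  have : cosetAvg (P.subgroupOf N) (fun y : N => χ y) = fun x : N => cosetAvg P χ x :=
    funext fun x => cosetAvg_subgroupOf h.PN χ x
  exact this ▸ isCharacter_cosetAvg (hχ.restrict N)

theorem isCharacter_leonardB [Finite G] [Fintype P] {χ : G → ℂ} (hχ : IsCharacter G χ) :
    IsCharacter N (leonardB P N χ) := by
  haveI := Fintype.ofFinite (P.subgroupOf N)
  haveI := Grp.normal_subgroupOf_of_le_normalizer' h.NP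
  have : leonardB P N χ = (fun y : N => χ y) - cosetAvg (P.subgroupOf N) (fun y : N => χ y) :=
    funext fun x => by rw [Pi.sub_apply, cosetAvg_subgroupOf h.PN χ x]; rfl
  rw [this]
  refine (hχ.restrict N).induction
    (P := fun α => IsCharacter N (α - cosetAvg (P.subgroupOf N) α)) ?_ ?_
  · rw [cosetAvg_zero, sub_zero]
    exact isCharacter_zero
  · intro α β hα _ ih
    rw [cosetAvg_add, add_sub_add_comm]
    refine IsCharacter.add ?_ ih
    by_cases hk : P.subgroupOf N ≤ charKer α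
    · rw [cosetAvg_of_le_charKer hk, sub_self]
      exact isCharacter_zero
    · rw [cosetAvg_irr_of_not_le hα hk, sub_zero]
      exact hα.isCharacter

theorem leonardB_ne_zero [Finite G] [Fintype P] {χ : G → ℂ} (hχ : IsCharacter G χ)
    (hker : ¬ P ≤ charKer χ) : leonardB P N χ ≠ 0 := by
  intro e
  apply hker
  intro u hu
  have h1 : χ u - cosetAvg P χ u = 0 := congrFun e ⟨u, h.PN hu⟩
  have h2 : χ 1 - cosetAvg P χ 1 = 0 := congrFun e 1
  rw [hχ.mem_charKer, sub_eq_zero.mp h1, sub_eq_zero.mp h2]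
  exact apply_eq_one_of_mem_charKer (le_charKer_cosetAvg χ hu)

/-- A character of small degree restricts irreducibly to `N`. -/
theorem res_irr [Fintype G] [Fintype P] {χ : G → ℂ} (hχ : IsIrrCharacter G χ)
    (hker : ¬ P ≤ charKer χ) (hdeg : charDegree χ ^ 2 ≤ Nat.card P) :
    IsIrrCharacter N (fun x : N => χ x) ∧ ∀ x ∈ N, cosetAvg P χ x = 0 := by
  classical
  haveI := Fintype.ofFinite V
  haveI := Fintype.ofFinite N
  have h1 := h.main_ineq hχ.isClassFunction hχ.one_ne_zero
  rw [hχ.classInner_self, Complex.one_re, mul_one] at h1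
  have h2 : (Nat.card N : ℝ) ≤ ∑ x : N, ‖χ x - cosetAvg P χ x‖ ^ 2 :=
    card_le_sum_norm_sq_of_ne_zero (h.isCharacter_leonardB hχ.isCharacter).isGeneralizedCharacter
      (h.leonardB_ne_zero hχ.isCharacter hker)
  have h3 : ∑ v : V, ‖χ v‖ ^ 2 ≤ Nat.card V * Nat.card P := by
    rw [Nat.card_eq_fintype_card (α := V), ← Finset.card_univ, ← nsmul_eq_mul]
    refine Finset.sum_le_card_nsmul _ _ _ fun v _ => ?_
    refine (pow_le_pow_left₀ (norm_nonneg _) (hχ.isCharacter.norm_le v) 2).trans ?_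
    exact_mod_cast hdeg
  have hA := h.isCharacter_cosetAvg_res hχ.isCharacter
  have hPpos : (0 : ℝ) < Nat.card P := by exact_mod_cast Nat.card_pos
  have h4 : (fun x : N => cosetAvg P χ x) = 0 := by
    refine hA.eq_zero_of_one_eq_zero ?_
    by_contra h0
    have h5 := card_le_sum_norm_sq_of_ne_zero
      (hA.comp (Subgroup.inclusion (h.VC.trans h.CN))).isGeneralizedCharacter
      (fun e => h0 (by simpa using congrFun e 1))
    change _ ≤ ∑ v : V, ‖cosetAvg P χ v‖ ^ 2 at h5
    nlinarith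
  have h5 : ∀ x ∈ N, cosetAvg P χ x = 0 := fun x hx => congrFun h4 ⟨x, hx⟩
  refine ⟨(hχ.isCharacter.restrict N).isIrrCharacter_of_norm_one ?_, h5⟩
  simp only [fun x : N => h5 x x.2, fun x : V => h5 x (h.CN (h.VC x.2)), sub_zero] at h1 h2
  obtain ⟨k, hk⟩ := (hχ.isCharacter.restrict N).exists_nat_classInner (hχ.isCharacter.restrict N)
  have h6 := hk
  rw [classInner_self_eq] at h6
  have h7 : (Nat.card N : ℝ)⁻¹ * ∑ x : N, ‖χ x‖ ^ 2 = k := by exact_mod_cast h6
  have hNpos : (0 : ℝ) < Nat.card N := by exact_mod_cast Nat.card_pos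
  rw [inv_mul_eq_iff_eq_mul₀ hNpos.ne'] at h7
  have h8 : (Nat.card V : ℝ) * Nat.card P ≤ Nat.card N := by
    rw [← Nat.cast_mul, ← h.card_C]
    exact_mod_cast Subgroup.card_le_of_le h.CN
  simp only [norm_zero, ne_eq, OfNat.ofNat_ne_zero, not_false_eq_true, zero_pow,
    Finset.sum_const_zero, mul_zero, add_zero] at h1
  have h9 : (k : ℝ) < 2 := by nlinarith
  have h10 : (1 : ℝ) ≤ k := by nlinarith
  have h11 : k < 2 := by exact_mod_cast h9
  have h12 : 1 ≤ k := by exact_mod_cast h10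
  rw [hk, show k = 1 by omega, Nat.cast_one]

/-- The character-theoretic core of the Brauer–Leonard theorem. -/
theorem degree_one [Fintype G] (hM : ∀ K : Subgroup G, K.Normal → P ≤ K → K = ⊤) {χ : G → ℂ}
    (hχ : IsIrrCharacter G χ) (h1 : χ ≠ fun _ => 1) (hdeg : charDegree χ ^ 2 + 1 < Nat.card P) :
    charDegree χ = 1 ∧ N ≤ C := by
  classical
  haveI := Fintype.ofFinite P
  haveI := Fintype.ofFinite V
  haveI := Fintype.ofFinite C
  haveI := Fintype.ofFinite N
  haveI := Fintype.ofFinite (P.subgroupOf N)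
  haveI := Grp.normal_subgroupOf_of_le_normalizer' h.NP
  haveI := Grp.normal_subgroupOf_of_le_normalizer' h.NC
  have hker : ∀ ψ, IsIrrCharacter G ψ → (ψ ≠ fun _ => 1) → ¬ P ≤ charKer ψ := fun ψ hψ h1 hle =>
    h1 (hψ.charKer_eq_top_iff.mp (hM _ hψ.charKer_normal hle))
  obtain ⟨hη, hA⟩ := h.res_irr hχ (hker χ hχ h1) (by omega)
  have hcomm : ∀ c ∈ C.subgroupOf N, ∀ u ∈ P.subgroupOf N, u * c = c * u :=
    fun c hc u hu => Subtype.ext (h.comm c hc u hu)
  have hfpf : ∀ n, n ∉ C.subgroupOf N → ∀ u ∈ P.subgroupOf N, u * n = n * u → u = 1 :=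
    fun n hn u hu e => Subtype.ext (h.fpf n n.2 hn u hu (congrArg Subtype.val e))
  obtain ⟨f, hf1, hf2, hf3⟩ := leonard_local (C.subgroupOf N) (P.subgroupOf N)
    (fun x hx => h.PC hx) hcomm hfpf hη (fun hle => hker χ hχ h1 fun u hu => by
      have := hη.mem_charKer.mp (hle (show (⟨u, h.PN hu⟩ : N) ∈ P.subgroupOf N from hu))
      exact hχ.mem_charKer.mpr this)
  have hdvd := index_dvd_card_sub_one_of_fpf _ _ hcomm hfpf
  have hN := h.card_N
  set t := (C.subgroupOf N).index with ht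
  have hx : charDegree χ = f * t := hf1
  have ht0 : 0 < t := Nat.pos_of_ne_zero Subgroup.index_ne_zero_of_finite
  rw [Grp.card_subgroupOf_of_le h.PN] at hf2 hf3 hdvd
  have hconv : ∀ c : N, ∑ u : P.subgroupOf N, ‖χ ((u : N) * c : N)‖ ^ 2 =
      ∑ u : P, ‖χ (u * c)‖ ^ 2 := fun c =>
    Fintype.sum_equiv (Subgroup.subgroupOfEquivOfLe h.PN).toEquiv _ _ fun _ => rfl
  simp only [hconv] at hf2 hf3
  suffices hlt : ¬ 2 ≤ f * t by
    have h2 := hχ.charDegree_pos
    have h3 : f * t = 1 := by omega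
    refine ⟨hx.trans h3, fun x hx => ?_⟩
    have h4 : C.subgroupOf N = ⊤ := Subgroup.index_eq_one.mp (Nat.eq_one_of_mul_eq_one_left h3)
    have : (⟨x, hx⟩ : N) ∈ C.subgroupOf N := h4 ▸ Subgroup.mem_top _
    exact this
  intro h2
  have hPpos : (0 : ℝ) < Nat.card P := by exact_mod_cast Nat.card_pos
  have hNpos : (0 : ℝ) < Nat.card N := by exact_mod_cast Nat.card_pos
  let θ : G → ℂ := χ * fun g => conj (χ g)
  have hθ : IsCharacter G θ := hχ.isCharacter.mul hχ.isCharacter.conj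
  have hθv : ∀ g, θ g = ((‖χ g‖ ^ 2 : ℝ) : ℂ) := fun g => by
    change χ g * conj (χ g) = _
    rw [Complex.mul_conj, Complex.normSq_eq_norm_sq]
  have hθ1 : classInner θ (fun _ => 1) = 1 := by
    refine Eq.trans ?_ hχ.classInner_self
    simp [classInner, θ]
  let θ₀ : G → ℂ := θ - fun _ => 1
  have hθ₀ : IsCharacter G θ₀ :=
    hθ.sub_of_classInner_ne_zero isIrrCharacter_one (by rw [hθ1]; exact one_ne_zero)
  have hθ₀1 : classInner θ₀ (fun _ => 1) = 0 := by
    rw [classInner_sub_left, hθ1, isIrrCharacter_one.classInner_self, sub_self]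
  have hB := classInner_self_le_of_linear (leonardB P N) hθ₀ (fun ψ hψ hne =>
    ⟨h.isCharacter_leonardB hψ.isCharacter, h.leonardB_ne_zero hψ.isCharacter
      (hker ψ hψ (fun e => hne (e ▸ hθ₀1)))⟩)
  let φ : G → ℂ := (t : ℂ) • θ₀ + ((t : ℂ) - 1) • fun _ => (1 : ℂ)
  have hφv : ∀ g, φ g = ((t * ‖χ g‖ ^ 2 - 1 : ℝ) : ℂ) := fun g => by
    change (t : ℂ) * (θ g - 1) + ((t : ℂ) - 1) * 1 = _
    rw [hθv]
    push_cast
    ring
  have hφ : IsClassFunction G φ :=
    (hθ₀.isClassFunction.smul _).add ((isClassFunction_const 1).smul _)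
  have hφ1 : φ 1 ≠ 0 := by
    rw [hφv, Complex.ofReal_ne_zero, hχ.isCharacter.norm_one, hx]
    have h3 : (2 : ℝ) ≤ (f * t : ℕ) := by exact_mod_cast h2
    have h4 : (1 : ℝ) ≤ t := by exact_mod_cast ht0
    nlinarith
  have hmain := h.main_ineq hφ hφ1
  have hnorm : (classInner φ φ).re = (t : ℝ) ^ 2 * (classInner θ₀ θ₀).re + ((t : ℝ) - 1) ^ 2 := by
    have h3 : classInner (fun _ => 1) θ₀ = 0 := by rw [← conj_classInner, hθ₀1, map_zero]
    have h4 : classInner φ φ = ((t : ℝ) ^ 2 : ℝ) * classInner θ₀ θ₀ + ((((t : ℝ) - 1) ^ 2 : ℝ) : ℂ) := by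
      simp only [φ, classInner_add_left, classInner_add_right, classInner_smul_left,
        classInner_smul_right, hθ₀1, h3, isIrrCharacter_one.classInner_self, map_natCast, map_sub,
        map_one]
      push_cast
      ring
    rw [h4, Complex.add_re, Complex.re_ofReal_mul, Complex.ofReal_re]
  have hBφ : ∑ x : N, ‖φ x - cosetAvg P φ x‖ ^ 2 =
      (t : ℝ) ^ 2 * (Nat.card N * (classInner (leonardB P N θ₀) (leonardB P N θ₀)).re) := by
    have h3 : leonardB P N (fun _ => 1) = 0 := by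
      ext x
      change (1 : ℂ) - cosetAvg P (fun _ => 1) x = 0
      rw [cosetAvg_of_le_charKer (fun _ _ _ => rfl), sub_self]
    have h4 : leonardB P N φ = (t : ℂ) • leonardB P N θ₀ := by
      simp only [φ, map_add, map_smul, h3, smul_zero, add_zero]
    rw [classInner_self_eq, Complex.ofReal_re, mul_inv_cancel_left₀ hNpos.ne', Finset.mul_sum]
    refine Finset.sum_congr rfl fun x _ => ?_
    have h5 : φ x - cosetAvg P φ x = t * leonardB P N θ₀ x := congrFun h4 x
    rw [h5, norm_mul, mul_pow, Complex.norm_natCast]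
  let a : V → ℝ := fun v => (Nat.card P : ℝ)⁻¹ * ∑ u : P, ‖χ (u * v)‖ ^ 2
  have hav : ∀ v : V, cosetAvg P φ v = ((t * a v - 1 : ℝ) : ℂ) := fun v => by
    rw [cosetAvg_apply]
    simp only [hφv, a]
    rw [← Complex.ofReal_sum, Finset.sum_sub_distrib, ← Finset.mul_sum, Finset.sum_const,
      Finset.card_univ, Fintype.card_eq_nat_card, nsmul_eq_mul, mul_one]
    have : (Nat.card P : ℂ) ≠ 0 := natCard_ne_zero
    push_cast
    field_simp
  simp only [hav, hφv, Complex.norm_real, Real.norm_eq_abs, sq_abs] at hmain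
  simp only [hφv] at hBφ
  rw [hBφ, hnorm] at hmain
  refine leonard_numeric a (fun v => ‖χ v‖ ^ 2) (Nat.card P) t f ht0 h2 (hx ▸ hdeg) hdvd
    (fun _ => by positivity) (fun v => ?_) ?_ ?_ (fun e v => ?_) ?_
  · have := hf2 ⟨v, h.CN (h.VC v.2)⟩ (h.VC v.2)
    simp only [a]
    rw [mul_left_comm, le_inv_mul_iff₀ hPpos]
    exact this
  · simp only [a]
    rw [← Finset.mul_sum, ← h.sum_C (fun g => ‖χ g‖ ^ 2), ← h.sum_N_eq_sum_C (fun g => ‖χ g‖ ^ 2)
      (fun x hx hx' => by
        have := h.sub_cosetAvg_eq_zero hχ.isClassFunction hx hx'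
        rw [hA x hx, sub_zero] at this
        simp [this]), hη.sum_norm_sq, hN, Fintype.card_eq_nat_card]
    push_cast
    field_simp
  · rw [Fintype.card_eq_nat_card]
    exact card_le_sum_norm_sq_of_ne_zero (hχ.isCharacter.restrict V).isGeneralizedCharacter
      (fun e => hχ.one_ne_zero (congrFun e 1))
  · simp only [a]
    rw [hf3 e ⟨v, h.CN (h.VC v.2)⟩ (h.VC v.2)]
    field_simp
  · have h3 := mul_le_mul_of_nonneg_left hB (show (0 : ℝ) ≤ (t : ℝ) ^ 2 * Nat.card N by positivity)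
    have h4 : (Nat.card N : ℝ) = Nat.card P * t * Fintype.card V := by
      rw [hN, Fintype.card_eq_nat_card]
      push_cast
      ring
    rw [← h4]
    nlinarith

end LeonardData

theorem exists_leonardData [Finite G] {p : ℕ} [hp : Fact p.Prime] (hpG : p ∣ Nat.card G)
    (P : Sylow p G) (hstar : ∀ x ∈ (P : Subgroup G), x ≠ 1 →
      Subgroup.centralizer ({x} : Set G) = Subgroup.centralizer ((P : Subgroup G) : Set G)) :
    ∃ V : Subgroup G, LeonardData (P : Subgroup G) V
      (Subgroup.centralizer ((P : Subgroup G) : Set G))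
      (Subgroup.normalizer ((P : Subgroup G) : Set G)) := by
  set C := Subgroup.centralizer ((P : Subgroup G) : Set G) with hC
  set N := Subgroup.normalizer ((P : Subgroup G) : Set G) with hN
  have hPC : (P : Subgroup G) ≤ C := by
    intro x hx
    by_cases h1 : x = 1
    · rw [h1]
      exact C.one_mem
    · rw [← hstar x hx h1, Subgroup.mem_centralizer_singleton_iff]
  have hCN : C ≤ N := Subgroup.centralizer_le_normalizer _
  have hcop : (Nat.card (P : Subgroup G)).Coprime ((P : Subgroup G).relIndex C) :=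
    P.card_coprime_index.coprime_dvd_right (Subgroup.relIndex_dvd_index_of_le hPC)
  obtain ⟨V, hVC, hsup, hinf, hV⟩ := Grp.exists_complement_in hPC hCN hcop
  have hcomm : ∀ c ∈ C, ∀ u ∈ (P : Subgroup G), u * c = c * u := fun c hc u hu => hc u hu
  have hprod : ∀ c ∈ C, ∃ u ∈ (P : Subgroup G), ∃ v ∈ V, u * v = c := by
    intro c hc
    rw [← hsup, ← SetLike.mem_coe, Subgroup.coe_mul_of_right_le_normalizer_left _ _
      (hVC.trans hCN)] at hc
    exact hc
  have hpow : ∀ c ∈ C, c ∉ V → c ^ Nat.card V ∈ (P : Subgroup G) ∧ c ^ Nat.card V ≠ 1 := by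
    intro c hc hcV
    obtain ⟨u, hu, v, hv, rfl⟩ := hprod c hc
    have h1 : (u * v) ^ Nat.card V = u ^ Nat.card V := by
      have h2 : v ^ Nat.card V = 1 := congrArg Subtype.val (pow_card_eq_one' (x := (⟨v, hv⟩ : V)))
      rw [Commute.mul_pow (hcomm v (hVC hv) u hu), h2, mul_one]
    rw [h1]
    refine ⟨(P : Subgroup G).pow_mem hu _, fun e => hcV ?_⟩
    have h3 : orderOf u ∣ Nat.gcd (Nat.card (P : Subgroup G)) (Nat.card V) :=
      Nat.dvd_gcd ((P : Subgroup G).orderOf_dvd_natCard hu) (orderOf_dvd_of_pow_eq_one e)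
    rw [hV, hcop.gcd_eq_one, Nat.dvd_one, orderOf_eq_one_iff] at h3
    rw [h3, one_mul]
    exact hv
  have hTI : ∀ g : G, ∀ x ∈ (P : Subgroup G), x ≠ 1 → g * x * g⁻¹ ∈ (P : Subgroup G) → g ∈ N := by
    intro g x hx h1 hgx
    have h2 : g * x * g⁻¹ ≠ 1 := fun e => h1 (by
      have : x = g⁻¹ * (g * x * g⁻¹) * g := by group
      rw [this, e]
      group)
    have h3 : ∀ u ∈ (P : Subgroup G), g * u * g⁻¹ ∈ (P : Subgroup G) := by
      intro u hu
      have h4 : ((g • P : Sylow p G) : Subgroup G) ≤ N := by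
        rintro _ ⟨w, hw, rfl⟩
        apply hCN
        rw [← hstar _ hgx h2, Subgroup.mem_centralizer_singleton_iff]
        change g * w * g⁻¹ * (g * x * g⁻¹) = g * x * g⁻¹ * (g * w * g⁻¹)
        have := hcomm w (hPC hw) x hx
        calc g * w * g⁻¹ * (g * x * g⁻¹) = g * (w * x) * g⁻¹ := by group
          _ = _ := by rw [← this]; group
      have h5 := P.3 (IsPGroup.to_sup_of_normal_left' P.2 (g • P).2 h4) le_sup_left
      rw [← h5]
      exact Subgroup.mem_sup_right ⟨u, hu, rfl⟩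
    exact Subgroup.mem_normalizer_fintype h3
  refine ⟨V, hPC, hVC, hCN, le_rfl, Grp.le_normalizer_centralizer' le_rfl, hcomm,
    fun n _ hn u hu e => ?_, hinf, hprod, fun g c hc hcV hg hgV => ?_, P.ne_bot_of_dvd_card hpG⟩
  · by_contra h1
    apply hn
    rw [← hstar u hu h1, Subgroup.mem_centralizer_singleton_iff]
    exact e.symm
  · refine hTI g _ (hpow c hc hcV).1 (hpow c hc hcV).2 ?_
    rw [← conj_pow]
    exact (hpow _ hg hgV).1

/-- **Brauer–Leonard**, irreducible characters. -/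
theorem brauer_leonard_irr [Finite G] {p : ℕ} [hp : Fact p.Prime] (hpG : p ∣ Nat.card G)
    (P : Sylow p G) (hstar : ∀ x ∈ (P : Subgroup G), x ≠ 1 →
      Subgroup.centralizer ({x} : Set G) = Subgroup.centralizer ((P : Subgroup G) : Set G))
    (hM : ∀ K : Subgroup G, K.Normal → (P : Subgroup G) ≤ K → K = ⊤) {χ : G → ℂ}
    (hχ : IsIrrCharacter G χ) (h1 : χ ≠ fun _ => 1)
    (hdeg : charDegree χ ^ 2 + 1 < Nat.card (P : Subgroup G)) :
    charDegree χ = 1 ∧ ∃ K : Subgroup G, K.Normal ∧ K.index = Nat.card (P : Subgroup G) := by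
  haveI := Fintype.ofFinite G
  obtain ⟨V, h⟩ := exists_leonardData hpG P hstar
  obtain ⟨h2, h3⟩ := h.degree_one hM hχ h1 hdeg
  exact ⟨h2, _, inferInstance, (MonoidHom.ker_transferSylow_isComplement' P h3).symm.index_eq_card⟩

/-- **Brauer–Leonard**: a faithful character of small degree forces the Sylow subgroup to be
normal. -/
theorem brauer_leonard {p : ℕ} [hp : Fact p.Prime] : ∀ (m : ℕ) {G : Type*} [Group G] [Finite G]
    (_ : Nat.card G = m) (_ : p ∣ Nat.card G) (P : Sylow p G) (_ : ∀ x ∈ (P : Subgroup G), x ≠ 1 →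
      Subgroup.centralizer ({x} : Set G) = Subgroup.centralizer ((P : Subgroup G) : Set G))
    {χ : G → ℂ} (_ : IsCharacter G χ) (_ : charKer χ = ⊥)
    (_ : charDegree χ ^ 2 + 1 < Nat.card (P : Subgroup G)), (P : Subgroup G).Normal := by
  intro m
  induction m using Nat.strong_induction_on with
  | _ m ih =>
  intro G _ _ hm hpG P hstar χ hχ hker hdeg
  classical
  haveI := Fintype.ofFinite G
  by_cases hM : ∀ K : Subgroup G, K.Normal → (P : Subgroup G) ≤ K → K = ⊤
  · have hc : ∀ a b : G, a * b = b * a := by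
      by_contra hc
      obtain ⟨ψ, hψ, hne, h1⟩ := hχ.exists_nonlinear_constituent hker hc
      have h2 := hχ.charDegree_le_of_classInner_ne_zero hψ hne
      have h3 := (brauer_leonard_irr hpG P hstar hM hψ (fun e => h1 (by rw [e]))
        (lt_of_le_of_lt (Nat.add_le_add_right (Nat.pow_le_pow_left h2 2) 1) hdeg)).1
      exact h1 (hψ.isCharacter.charDegree_eq_one_iff.mp h3)
    exact ⟨fun n hn g => by rwa [hc g n, mul_inv_cancel_right]⟩
  · push Not at hM
    obtain ⟨K, hK, hPK, hne⟩ := hM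
    have hlt : Nat.card K < m := by
      rw [← hm]
      exact lt_of_le_of_ne (Subgroup.card_le_card_group K)
        (fun e => hne (Subgroup.eq_top_of_card_eq K e))
    have hcard : Nat.card ((P.subtype hPK : Sylow p K) : Subgroup K) = Nat.card (P : Subgroup G) :=
      Grp.card_subgroupOf_of_le hPK
    have hP : ((P.subtype hPK : Sylow p K) : Subgroup K).Normal := by
      refine ih _ hlt rfl ?_ (P.subtype hPK) ?_ (hχ.restrict K) ?_ (by rw [hcard]; exact hdeg)
      · exact (P.dvd_card_of_dvd_card hpG).trans (Subgroup.card_dvd_of_le hPK)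
      · intro x hx h1
        have h2 := hstar x hx (fun e => h1 (Subtype.ext e))
        ext y
        rw [Subgroup.mem_centralizer_singleton_iff, Subtype.ext_iff]
        refine Subgroup.mem_centralizer_singleton_iff.symm.trans ?_
        rw [h2]
        exact ⟨fun hy u hu => Subtype.ext (hy u hu),
          fun hy u hu => congrArg Subtype.val (hy ⟨u, hPK hu⟩ hu)⟩
      · have := hχ.charKer_comp K.subtype
        rw [hker] at this
        exact this.trans (by rw [MonoidHom.comap_bot, Subgroup.ker_subtype])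
    haveI := Sylow.characteristic_of_normal _ hP
    have h2 : (((P.subtype hPK : Sylow p K) : Subgroup K).map K.subtype).Normal := inferInstance
    rwa [Sylow.coe_subtype, Subgroup.map_subgroupOf_eq_of_le hPK] at h2

end CL.Char
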