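/-
Groups whose irreducible characters are multiplicative on pairs of elements of coprime prime power orders.
-/
import Cfsg.Agent.Char.Gallagher
import Cfsg.Agent.Char.ClassAlg
import Cfsg.Agent.Char.FixedPointFree
import Cfsg.Agent.Grp.FrobCompl
import Cfsg.Agent.Grp.Coprime2
import Cfsg.Agent.Grp.MinNormal
import Cfsg.Agent.Grp.Hall2

set_option autoImplicit false
set_option linter.unusedSectionVars false

open scoped ComplexConjugate Pointwise commutatorElement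
open Cfsg CL.Grp Subgroup

namespace CL.Char.MultCop

variable {G : Type*} [Group G] [Finite G]

theorem isConj_mul_of_vanish {g d : G} (h : ∀ χ : IrrCharacter G, (χ : G → ℂ) 1 ≠ 1 → (χ : G → ℂ) g = 0)
    (hd : d ∈ commutator G) : IsConj g (d * g) := by
  by_contra hn
  have h1 := sum_irr_mul_conj_of_not_isConj hn
  rw [Finset.sum_congr rfl fun (χ : IrrCharacter G) _ => (show (χ : G → ℂ) g * conj ((χ : G → ℂ) (d * g)) =
    (χ : G → ℂ) g * conj ((χ : G → ℂ) g) by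
      by_cases h2 : (χ : G → ℂ) 1 = 1
      · rw [apply_mul_of_mem_charKer (χ.2.one_eq_one_iff.1 h2 hd)]
      · rw [h χ h2, zero_mul, zero_mul]), sum_irr_mul_conj_self] at h1
  exact Nat.cast_ne_zero.2 Nat.card_pos.ne' h1

theorem vanish_of_fpf {D : Subgroup G} [D.Normal] (hD : commutator G ≤ D) {g : G}
    (hg : ∀ n ∈ D, n * g = g * n → n = 1) {χ : G → ℂ} (hχ : IsIrrCharacter G χ) (h1 : χ 1 ≠ 1) :
    χ g = 0 := by
  have := Fintype.ofFinite D
  have h2 := congrFun (cosetAvg_irr_of_not_le hχ fun h : D ≤ charKer χ =>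
    h1 (hχ.one_eq_one_iff.2 (hD.trans h))) g
  rw [cosetAvg_apply, Finset.sum_congr rfl fun (n : D) _ => (show χ (n * g) = χ g by
    obtain ⟨k, -, hk⟩ := exists_conj_eq_mul_of_fpf D g hg n n.2
    rw [← hk, hχ.isClassFunction]), Finset.sum_const, Finset.card_univ, nsmul_eq_mul,
    ← Nat.card_eq_fintype_card, inv_mul_cancel_left₀ (Nat.cast_ne_zero.2 Nat.card_pos.ne')] at h2
  exact h2

variable (G) in
/-- The multiplicativity hypothesis. -/
def Hyp : Prop := ∀ (x y : G) (χ : IrrCharacter G), x ≠ 1 → y ≠ 1 →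
  (∃ p q a b : ℕ, p.Prime ∧ q.Prime ∧ p ≠ q ∧ orderOf x = p ^ a ∧ orderOf y = q ^ b) →
    (χ : G → ℂ) (x * y) = (χ : G → ℂ) x * (χ : G → ℂ) y

theorem Hyp.isConj (h : Hyp G) {x y : G} {p q : ℕ} (hp : p.Prime) (hq : q.Prime) (hpq : p ≠ q)
    (hx : orderOf x = p) (hy : orderOf y = q) {d : G} (hd : d ∈ commutator G) :
    IsConj (x * y) (d * (x * y)) := by
  classical
  have := Fintype.ofFinite G
  have hy1 : y ≠ 1 := fun e => hq.one_lt.ne (by rw [← hy, e, orderOf_one])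
  have key : ∀ x', IsConj x x' → ∀ χ : IrrCharacter G, (χ : G → ℂ) (x' * y) = (χ : G → ℂ) x * (χ : G → ℂ) y := by
    intro x' hc χ
    have ho : orderOf x' = p := by
      obtain ⟨c, rfl⟩ := isConj_iff.1 hc
      rw [← hx]; exact (MulAut.conj c).orderOf_eq x
    rw [h x' y χ (fun e => hp.one_lt.ne (by rw [← ho, e, orderOf_one])) hy1
      ⟨p, q, 1, 1, hp, hq, hpq, by rw [ho, pow_one], by rw [hy, pow_one]⟩]
    obtain ⟨c, rfl⟩ := isConj_iff.1 hc
    rw [χ.2.isClassFunction]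
  refine isConj_mul_of_vanish (fun χ h1 => ?_) hd
  have h2 := classAlg_sum_class_mul_right χ.2 x y
  rw [Finset.sum_congr rfl fun x' hx' => key x' (Finset.mem_filter.1 hx').2 χ, Finset.sum_const,
    nsmul_eq_mul, ← Fintype.card_subtype, ← Nat.card_eq_fintype_card, eq_div_iff χ.2.one_ne_zero] at h2
  have h3 : (Nat.card {x' // IsConj x x'} : ℂ) ≠ 0 := by
    have : Nonempty {x' // IsConj x x'} := ⟨⟨x, IsConj.refl x⟩⟩
    exact Nat.cast_ne_zero.2 Nat.card_pos.ne'
  rw [key x (IsConj.refl x)]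
  have h4 : (Nat.card {x' // IsConj x x'} : ℂ) * ((χ : G → ℂ) x * (χ : G → ℂ) y) * ((χ : G → ℂ) 1 - 1) = 0 := by
    linear_combination h2
  exact (mul_eq_zero.1 ((mul_eq_zero.1 h4).resolve_right (sub_ne_zero.2 h1))).resolve_left h3

theorem exists_mem_orderOf {H : Subgroup G} {p : ℕ} (hp : p.Prime) (h : p ∣ Nat.card H) :
    ∃ x ∈ H, orderOf x = p := by
  have := Fact.mk hp
  obtain ⟨x, hx⟩ := exists_prime_orderOf_dvd_card' p h
  exact ⟨x, x.2, by rw [orderOf_coe, hx]⟩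

theorem Hyp.isPGroup (h : Hyp G) {p : ℕ} (hp : p.Prime) (hd : p ∣ Nat.card (commutator G)) :
    IsPGroup p (commutator G) := by
  have := Fact.mk hp
  refine IsPGroup.of_card (Nat.eq_prime_pow_of_unique_prime_dvd Nat.card_pos.ne' fun {q} hq hqd => ?_)
  by_contra hpq
  obtain ⟨x, hx, hxo⟩ := exists_mem_orderOf hp hd
  obtain ⟨y, hy, hyo⟩ := exists_mem_orderOf hq hqd
  have h1 := h.isConj hp hq (Ne.symm hpq) hxo hyo (inv_mem (mul_mem hx hy))
  rw [inv_mul_cancel, isConj_one_left, mul_eq_one_iff_eq_inv] at h1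
  exact hpq (by rw [← hyo, ← hxo, h1, orderOf_inv])

theorem Hyp.fpf (h : Hyp G) {p : ℕ} (hp : p.Prime) (hd : p ∣ Nat.card (commutator G)) {a : G} (ha : a ≠ 1)
    (hap : (orderOf a).Coprime p) {d : G} (hdG : d ∈ commutator G) (hc : a * d = d * a) : d = 1 := by
  obtain ⟨q, hq, hqa⟩ := Nat.exists_prime_and_dvd (mt orderOf_eq_one_iff.1 ha)
  have hpq : p ≠ q := by
    rintro rfl
    exact (Nat.Prime.coprime_iff_not_dvd hp).1 hap.symm hqa
  obtain ⟨y, hy, hyo⟩ := exists_mem_orderOf (H := zpowers a) hq (by rwa [Nat.card_zpowers])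
  obtain ⟨x, hx, hxo⟩ := exists_mem_orderOf hp hd
  have hc' : Commute d y := by
    obtain ⟨k, rfl⟩ := hy
    exact (show Commute d a from hc.symm).zpow_right k
  have h1 := h.isConj hp hq hpq hxo hyo (inv_mem hx)
  have h2 := h.isConj hp hq hpq hxo hyo (mul_mem hdG (inv_mem hx))
  rw [inv_mul_cancel_left] at h1
  rw [mul_assoc, inv_mul_cancel_left] at h2
  obtain ⟨c, hc⟩ := isConj_iff.1 (h1.symm.trans h2)
  have h3 : (d * y) ^ q = 1 := by
    rw [← hc, conj_pow, ← hyo, pow_orderOf_eq_one, mul_one, mul_inv_cancel]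
  rw [hc'.mul_pow, ← hyo, pow_orderOf_eq_one, mul_one, hyo] at h3
  obtain ⟨k, hk⟩ := h.isPGroup hp hd ⟨d, hdG⟩
  have h4 : d ^ p ^ k = 1 := congrArg Subtype.val hk
  exact orderOf_eq_one_iff.1 (Nat.eq_one_of_dvd_coprimes (((Nat.coprime_primes hp hq).2 hpq).pow_left k)
    (orderOf_dvd_of_pow_eq_one h4) (orderOf_dvd_of_pow_eq_one h3))

/-- The structure in the third case. -/
def Struct (p : ℕ) (P A : Subgroup G) : Prop :=
  P.Normal ∧ IsCyclic A ∧ A ≠ ⊥ ∧ (Nat.card A).Coprime p ∧ A ⊔ P = ⊤ ∧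
    IsMulCommutative ↥(P ⊓ centralizer (A : Set G)) ∧ (⁅A, P⁆).Normal ∧
    (P ⊓ centralizer (A : Set G)) ⊔ ⁅A, P⁆ = P ∧ (P ⊓ centralizer (A : Set G)) ⊓ ⁅A, P⁆ = ⊥ ∧
    ∀ a ∈ A, a ≠ 1 → ∀ d ∈ ⁅A, P⁆, a * d = d * a → d = 1

theorem comm_of_inf {H : Subgroup G} (h : H ⊓ commutator G = ⊥) : IsMulCommutative H :=
  ⟨⟨fun a b => Subtype.ext (commutatorElement_eq_one_iff_mul_comm.1 (mem_bot.1 (h ▸
    (⟨(⁅a, b⁆ : H).2, commutator_mem_commutator (mem_top _) (mem_top _)⟩ :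
      ⁅(a : G), (b : G)⁆ ∈ H ⊓ commutator G))))⟩⟩

theorem Hyp.struct (h : Hyp G) (h1 : ¬ ∃ p : ℕ, p.Prime ∧ IsPGroup p G) (h2 : ¬ IsMulCommutative G) :
    ∃ (p : ℕ) (_ : Fact p.Prime) (P : Sylow p G) (A : Subgroup G), Struct p (P : Subgroup G) A := by
  have hne : commutator G ≠ ⊥ := fun e => h2 ⟨⟨fun a b => commutatorElement_eq_one_iff_mul_comm.1
    (mem_bot.1 (e ▸ commutator_mem_commutator (mem_top a) (mem_top b)))⟩⟩
  obtain ⟨p, hp, hd⟩ := Nat.exists_prime_and_dvd (mt card_eq_one.1 hne)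
  have := Fact.mk hp
  have hG := h.isPGroup hp hd
  obtain ⟨P⟩ : Nonempty (Sylow p G) := inferInstance
  have hGP : commutator G ≤ P := (isSylowIn_top P).le_of_normalized hG le_top le_normalizer_of_normal
  have hn : (P : Subgroup G).Normal := ⟨fun x hx g => by
    have := mul_mem (hGP (commutator_mem_commutator (mem_top g) (mem_top x))) hx
    simpa [commutatorElement_def] using this⟩
  obtain ⟨A, hA⟩ := exists_right_complement'_of_coprime P.card_coprime_index
  have hc : (Nat.card A).Coprime p := by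
    rw [← hA.symm.index_eq_card]
    exact ((Nat.Prime.coprime_iff_not_dvd hp).2 P.not_dvd_index).symm
  have hA0 : A ≠ ⊥ := by
    rintro rfl
    have h3 := hA.sup_eq_top
    rw [sup_bot_eq] at h3
    exact h1 ⟨p, hp, (h3 ▸ P.2 :).of_equiv topEquiv⟩
  have hfpf : ∀ a ∈ A, a ≠ 1 → ∀ d ∈ commutator G, a * d = d * a → d = 1 := fun a ha ha1 d hd' hc' =>
    h.fpf hp hd ha1 (hc.coprime_dvd_left (orderOf_dvd_natCard _ ha)) hd' hc'
  have hC : commutator G ⊓ centralizer (A : Set G) = ⊥ := by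
    obtain ⟨⟨a, ha⟩, ha1⟩ := ne_bot_iff_exists_ne_one.1 hA0
    exact (eq_bot_iff_forall _).2 fun d hd' => hfpf a ha (fun e => ha1 (Subtype.ext e)) d hd'.1
      (mem_centralizer_iff.1 hd'.2 a ha)
  have hAc : IsMulCommutative A := comm_of_inf (disjoint_iff.1 (hA.disjoint.symm.mono_right hGP))
  have hcyc : IsCyclic A := (pqCyclic_of_fpf hne le_normalizer_of_normal fun a ha ha1 =>
    (eq_bot_iff_forall _).2 fun d hd' => hfpf a ha ha1 d hd'.1
      (mem_centralizer_singleton_iff.1 hd'.2).symm).isCyclic_of_comm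
  have hcP : (Nat.card A).Coprime (Nat.card (P : Subgroup G)) := by
    rw [← hA.symm.index_eq_card]; exact P.card_coprime_index.symm
  have hD : ⁅A, (P : Subgroup G)⁆ = commutator G := by
    refine le_antisymm (commutator_mono le_top le_top) ?_
    have h3 := commutator_sup_centralizer_eq (A := A) (K := commutator G) le_normalizer_of_normal
      (hcP.coprime_dvd_right (card_dvd_of_le hGP)) (Or.inl inferInstance)
    rw [hC, sup_bot_eq] at h3
    rw [← h3, commutator_comm A]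
    exact commutator_mono hGP le_rfl
  have hI : ((P : Subgroup G) ⊓ centralizer (A : Set G)) ⊓ commutator G = ⊥ :=
    eq_bot_iff.2 (hC ▸ fun x hx => ⟨hx.2, hx.1.2⟩)
  refine ⟨p, this, P, A, hn, hcyc, hA0, hc, by rw [sup_comm]; exact hA.sup_eq_top, comm_of_inf hI,
    hD ▸ inferInstance, ?_, hD ▸ hI, hD ▸ hfpf⟩
  rw [sup_comm, commutator_comm]
  exact commutator_sup_centralizer_eq le_normalizer_of_normal hcP (Or.inl inferInstance)

theorem Struct.hyp {p : ℕ} [hp : Fact p.Prime] (P : Sylow p G) {A : Subgroup G}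
    (h : Struct p (P : Subgroup G) A) : Hyp G := by
  obtain ⟨hn, hcyc, -, hc, hs, hCc, hDn, hCD, -, hf⟩ := h
  have hdec : ∀ g : G, ∃ a ∈ A, ∃ c ∈ (P : Subgroup G) ⊓ centralizer (A : Set G),
      (g : G ⧸ ⁅A, (P : Subgroup G)⁆) = a * c := fun g => by
    obtain ⟨a, ha, u, hu, rfl⟩ := (mem_sup_of_le_normalizer (H := A) (K := P) le_normalizer_of_normal).1
      (hs ▸ mem_top g)
    obtain ⟨c, hc, d, hd, rfl⟩ := (mem_sup_of_le_normalizer le_normalizer_of_normal).1 (hCD.ge hu)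
    refine ⟨a, ha, c, hc, ?_⟩
    rw [QuotientGroup.mk_mul, QuotientGroup.mk_mul, (QuotientGroup.eq_one_iff d).2 hd, mul_one]
  have hD : commutator G ≤ ⁅A, (P : Subgroup G)⁆ := commutator_le.2 fun x _ y _ => by
    rw [← QuotientGroup.eq_one_iff, ← QuotientGroup.mk'_apply, map_commutatorElement,
      commutatorElement_eq_one_iff_mul_comm, QuotientGroup.mk'_apply, QuotientGroup.mk'_apply]
    obtain ⟨a, ha, c, hc, e⟩ := hdec x
    obtain ⟨b, hb, d, hd, e'⟩ := hdec y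
    have h1 : Commute a b := congrArg Subtype.val (hcyc.isMulCommutative.1.1 ⟨a, ha⟩ ⟨b, hb⟩)
    have h2 : Commute c d := congrArg Subtype.val (hCc.1.1 ⟨c, hc⟩ ⟨d, hd⟩)
    have h3 : Commute a d := mem_centralizer_iff.1 hd.2 a ha
    have h4 : Commute b c := mem_centralizer_iff.1 hc.2 b hb
    have h5 : Commute (a * c) (b * d) := (h1.mul_right h3).mul_left (h4.symm.mul_right h2)
    rw [e, e', ← QuotientGroup.mk_mul, ← QuotientGroup.mk_mul, ← QuotientGroup.mk_mul,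
      ← QuotientGroup.mk_mul, h5.eq]
  have hidx : A.index ∣ Nat.card (P : Subgroup G) := by
    rw [← relIndex_top_right, ← hs, relIndex_sup_normal_left]
    exact relIndex_dvd_card _ _
  have hmem : ∀ g : G, (∃ k, orderOf g = p ^ k) → g ∈ (P : Subgroup G) := fun g ⟨k, hk⟩ =>
    (isSylowIn_top P).le_of_normalized (S := P) (U := zpowers g ⊔ P) (IsPGroup.to_sup_of_normal_right
      (IsPGroup.of_card (by rw [Nat.card_zpowers, hk])) P.2) le_top (by
        have := P.3 (IsPGroup.to_sup_of_normal_right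
          (IsPGroup.of_card (by rw [Nat.card_zpowers, hk])) P.2) (le_sup_right : _ ≤ zpowers g ⊔ P)
        rw [this]; exact le_normalizer_of_normal) (mem_sup_left (mem_zpowers g))
  have hv : ∀ g : G, g ∉ (P : Subgroup G) → ∀ χ : IrrCharacter G, (χ : G → ℂ) 1 ≠ 1 → (χ : G → ℂ) g = 0 := by
    intro g hg χ h1
    refine vanish_of_fpf hD (fun n hn hc' => ?_) χ.2 h1
    obtain ⟨q, hq, hqd, hqp⟩ : ∃ q : ℕ, q.Prime ∧ q ∣ orderOf g ∧ q ≠ p := by
      by_contra hc
      push Not at hc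
      exact hg (hmem g ⟨_, Nat.eq_prime_pow_of_unique_prime_dvd (orderOf_pos g).ne' fun {q} hq hd => hc q hq hd⟩)
    have := Fact.mk hq
    obtain ⟨y, hy, hyo⟩ := exists_mem_orderOf (H := zpowers g) hq (by rwa [Nat.card_zpowers])
    obtain ⟨S, hS⟩ := exists_isSylowIn q A
    have hS' : IsSylowIn q S ⊤ := ⟨le_top, hS.isPGroup, by
      rw [relIndex_top_right, ← relIndex_mul_index hS.le]
      refine fun h => (hq.dvd_mul.1 h).elim hS.not_dvd fun h => hqp ?_
      obtain ⟨k, hk⟩ := IsPGroup.iff_card.1 P.2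
      exact (Nat.prime_dvd_prime_iff_eq hq hp.out).1 (hq.dvd_of_dvd_pow (hk ▸ h.trans hidx))⟩
    obtain ⟨c, -, hc⟩ := hS'.exists_conj_le (U := zpowers y)
      (IsPGroup.of_card (by rw [Nat.card_zpowers, hyo, pow_one])) le_top
    have h2 : Commute y n := by
      obtain ⟨k, rfl⟩ := hy
      exact (show Commute g n from hc'.symm).zpow_left k
    have h3 := hf _ (hS.le (hc (conj_mem_conj_smul c (mem_zpowers y)))) (fun e => hq.one_lt.ne (by
      rw [← hyo, conj_eq_one_iff.1 e, orderOf_one])) _ (hDn.conj_mem n hn c) (by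
        have := congrArg (fun z => c * z * c⁻¹) h2.eq
        simpa [mul_assoc] using this)
    exact conj_eq_one_iff.1 h3
  have hP : ∀ {g : G} {r a : ℕ}, g ≠ 1 → r.Prime → orderOf g = r ^ a → g ∈ (P : Subgroup G) → r = p := by
    intro g r a h1 hr ho hg
    obtain ⟨k, hk⟩ := IsPGroup.iff_card.1 P.2
    have ha : a ≠ 0 := by
      rintro rfl
      exact h1 (orderOf_eq_one_iff.1 (by rw [ho, pow_zero]))
    exact (Nat.prime_dvd_prime_iff_eq hr hp.out).1 (hr.dvd_of_dvd_pow (hk ▸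
      (dvd_pow_self r ha).trans (ho ▸ orderOf_dvd_natCard _ hg)))
  rintro x y χ hx hy ⟨r, s, a, b, hr, hs', hrs, hxo, hyo⟩
  by_cases h1 : (χ : G → ℂ) 1 = 1
  · exact χ.2.isCharacter.map_mul_of_one_eq_one h1 x y
  have h2 : x * y ∉ (P : Subgroup G) := fun hm => by
    have h3 : (x : G ⧸ (P : Subgroup G)) = (y : G ⧸ (P : Subgroup G))⁻¹ := by
      rw [← mul_eq_one_iff_eq_inv, ← QuotientGroup.mk_mul, QuotientGroup.eq_one_iff]; exact hm
    have h4 : orderOf (x : G ⧸ (P : Subgroup G)) = 1 := Nat.eq_one_of_dvd_coprimes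
      (Nat.Coprime.pow a b ((Nat.coprime_primes hr hs').2 hrs))
      (hxo ▸ orderOf_map_dvd (QuotientGroup.mk' _) x)
      (by rw [h3, orderOf_inv, ← hyo]; exact orderOf_map_dvd (QuotientGroup.mk' _) y)
    have h5 : x ∈ (P : Subgroup G) := (QuotientGroup.eq_one_iff x).1 (orderOf_eq_one_iff.1 h4)
    exact hrs ((hP hx hr hxo h5).trans (hP hy hs' hyo ((mul_mem_cancel_left h5).1 hm)).symm)
  rw [hv _ h2 χ h1]
  by_cases h3 : x ∈ (P : Subgroup G)
  · rw [hv y (fun h4 => h2 (mul_mem h3 h4)) χ h1, mul_zero]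
  · rw [hv x h3 χ h1, zero_mul]

theorem hyp_of_isPGroup {p : ℕ} (hp : p.Prime) (h : IsPGroup p G) : Hyp G := by
  have := Fact.mk hp
  have key : ∀ {g : G} {r a : ℕ}, g ≠ 1 → r.Prime → orderOf g = r ^ a → r = p := by
    intro g r a h1 hr ho
    obtain ⟨k, hk⟩ := IsPGroup.iff_orderOf.1 h g
    have ha : a ≠ 0 := by
      rintro rfl
      exact h1 (orderOf_eq_one_iff.1 (by rw [ho, pow_zero]))
    exact (Nat.prime_dvd_prime_iff_eq hr hp).1 (hr.dvd_of_dvd_pow (hk ▸ ho ▸ dvd_pow_self r ha))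
  rintro x y χ hx hy ⟨r, s, a, b, hr, hs, hrs, hxo, hyo⟩
  exact absurd ((key hx hr hxo).trans (key hy hs hyo).symm) hrs

theorem hyp_of_comm (h : IsMulCommutative G) : Hyp G := fun x y χ _ _ _ =>
  χ.2.isCharacter.map_mul_of_one_eq_one (χ.2.one_eq_one_of_comm h.1.1) x y

end CL.Char.MultCop
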