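import Cfsg.Agent.Char.FixAvg
import Cfsg.Agent.Char.GoingDown2
import Cfsg.Agent.Char.Faithful
import Cfsg.Agent.Loc.HHAbelian

/-! The `p`-part of the degree of a primitive character of a solvable group divides a class size. -/

set_option autoImplicit false
open Cfsg Subgroup Module

namespace CL.Char.FixAvg

variable {G : Type*} [Group G]

theorem relIndex_mul_of_le {K L : Subgroup G} (h : L ≤ K) (C : Subgroup G) :
    L.relIndex (C ⊓ K) * C.relIndex K = C.relIndex L * L.relIndex K := by
  rw [← inf_relIndex_right C K, ← inf_relIndex_right C L, ← inf_relIndex_right L (C ⊓ K),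
    relIndex_mul_relIndex _ _ _ inf_le_right inf_le_right,
    relIndex_mul_relIndex _ _ _ inf_le_right h, inf_left_comm, inf_eq_left.2 h]

theorem sum_cent_le [Fintype G] [Group.IsSolvable G] {Q : Type*} [Group Q] (π : G →* Q)
    (hπ : Function.Surjective π) {V : Subgroup Q} (hV : Grp.IsMinNormal V)
    (hp : ¬ (Nat.card V).Prime) (p : ℕ) [Fact p.Prime] :
    ∑ g, 2 * (Nat.card (centralizer {π g} ⊓ V : Subgroup Q)).factorization p ≤
      Nat.card G * (Nat.card V).factorization p := by
  haveI : Finite Q := Finite.of_surjective π hπ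
  haveI : Group.IsSolvable Q := solvable_of_surjective hπ
  haveI := hV.normal
  by_cases hd : p ∣ Nat.card V
  swap
  · rw [Finset.sum_eq_zero fun g _ => by
      rw [Nat.factorization_eq_zero_of_not_dvd fun h => hd (h.trans (card_dvd_of_le inf_le_right)),
        mul_zero]]
    exact Nat.zero_le _
  have hc := hV.isMulCommutative_of_isSolvable inferInstance
  have hE : IsElementaryAbelian p V := Loc.ea_iff.2 ⟨fun a ha b hb =>
    congrArg Subtype.val (hc.is_comm.comm (⟨a, ha⟩ : V) ⟨b, hb⟩), hV.pow_eq_one_of_dvd hc Fact.out hd⟩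
  have h := sum_fd_le ((Loc.conjEnd hE).comp π) (fun U hU => by
    have hn : (Loc.EAMod.grp U).Normal := ⟨by
      rintro _ ⟨u, hu, rfl⟩ q
      obtain ⟨g, rfl⟩ := hπ q
      exact ⟨_, hU g hu, rfl⟩⟩
    rcases hV.min _ hn (Loc.EAMod.grp_le hE U) with h | h
    · left; rw [← Loc.EAMod.sub_grp hE U, h, Loc.EAMod.sub_bot]
    · right; rw [← Loc.EAMod.sub_grp hE U, h, Loc.EAMod.sub_self]) (by
    by_contra h
    push Not at h
    refine hp (hV.card_prime_of_le_center fun v hv => mem_center_iff.2 fun q => ?_)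
    obtain ⟨g, rfl⟩ := hπ q
    exact (((Loc.conjEnd_eq_one_iff hE _).1 (h g)) v hv).symm)
  rw [Loc.EAMod.card_eq_pow_finrank hE, Nat.factorization_pow_self Fact.out]
  refine le_of_eq_of_le (Finset.sum_congr rfl fun g _ => ?_) h
  rw [Loc.EAMod.card_eq_pow_finrank_sub hE inf_le_right, Nat.factorization_pow_self Fact.out, fd]
  refine congrArg (fun U : Submodule (ZMod p) (Loc.EAMod hE) => 2 * finrank (ZMod p) U) ?_
  ext v
  rw [mem_ker, Loc.EAMod.mem_sub, ← Loc.EAMod.val_inj, mem_inf, mem_centralizer_singleton_iff]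
  change _ ↔ π g * v.val * (π g)⁻¹ = v.val
  rw [mul_inv_eq_iff_eq_mul]
  exact ⟨fun h => h.1.symm, fun h => ⟨h.symm, Loc.EAMod.val_mem hE v⟩⟩

theorem chief_sum [Fintype G] [Group.IsSolvable G] {K L : Subgroup G} [K.Normal] [L.Normal]
    (hLK : L < K) (hchief : ∀ M : Subgroup G, M.Normal → L ≤ M → M ≤ K → M = L ∨ M = K) {e : ℕ}
    (he : e ^ 2 = L.relIndex K) (p : ℕ) [hp : Fact p.Prime] :
    Nat.card G * e.factorization p + ∑ g : G, ((centralizer {g}).relIndex L).factorization p ≤
      ∑ g : G, ((centralizer {g}).relIndex K).factorization p := by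
  let π := QuotientGroup.mk' L
  have hπ : Function.Surjective π := QuotientGroup.mk'_surjective L
  have hV : Grp.IsMinNormal (K.map π) := ⟨Normal.map inferInstance π hπ, fun h => by
    rw [Subgroup.map_eq_bot_iff, QuotientGroup.ker_mk'] at h
    exact hLK.not_ge h, fun M hM hle => by
    rcases hchief (M.comap π) inferInstance (QuotientGroup.le_comap_mk' L M) (by
      rwa [← comap_le_comap_of_surjective hπ, QuotientGroup.comap_map_mk', sup_eq_right.2 hLK.le]
        at hle) with h | h
    · left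
      rw [← map_comap_eq_self_of_surjective hπ M, h, Subgroup.map_eq_bot_iff, QuotientGroup.ker_mk']
    · right; rw [← map_comap_eq_self_of_surjective hπ M, h]⟩
  have hc : Nat.card (K.map π) = e ^ 2 := by rw [he, Grp.card_map_mk']
  have h1 := sum_cent_le π hπ hV (by rw [hc]; exact Nat.Prime.not_prime_pow le_rfl) p
  rw [hc, Nat.factorization_pow, Finsupp.smul_apply, smul_eq_mul, ← Finset.mul_sum] at h1
  have h2 : ∀ g : G, ((centralizer {g}).relIndex L).factorization p + 2 * e.factorization p ≤
      ((centralizer {g}).relIndex K).factorization p +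
        (Nat.card (centralizer {π g} ⊓ K.map π : Subgroup _)).factorization p := fun g => by
    have h3 := congrArg (fun n : ℕ => n.factorization p) (relIndex_mul_of_le hLK.le (centralizer {g}))
    have h0 : ∀ A B : Subgroup G, A.relIndex B ≠ 0 := fun A B => index_ne_zero_of_finite
    simp only [Nat.factorization_mul (h0 _ _) (h0 _ _), Finsupp.add_apply] at h3
    rw [← he, Nat.factorization_pow, Finsupp.smul_apply, smul_eq_mul, ← Grp.card_map_mk'] at h3
    have h4 : (centralizer {g} ⊓ K).map π ≤ centralizer {π g} ⊓ K.map π := by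
      rintro _ ⟨x, hx, rfl⟩
      refine ⟨mem_centralizer_singleton_iff.2 ?_, x, hx.2, rfl⟩
      rw [← map_mul, mem_centralizer_singleton_iff.1 hx.1, map_mul]
    have h5 := (Nat.factorization_le_iff_dvd Nat.card_pos.ne' Nat.card_pos.ne').2
      (card_dvd_of_le h4) p
    change (Nat.card ((centralizer {g} ⊓ K).map π)).factorization p + _ = _ at h3
    omega
  have h3 := Finset.sum_le_sum fun g (_ : g ∈ Finset.univ) => h2 g
  rw [Finset.sum_add_distrib, Finset.sum_add_distrib, Finset.sum_const, Finset.card_univ,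
    ← Nat.card_eq_fintype_card, smul_eq_mul] at h3
  rw [mul_left_comm] at h1 h3
  omega

theorem hom_sum [Fintype G] [Group.IsSolvable G] {χ : G → ℂ} (hχ : IsIrrCharacter G χ)
    (hhom : ∀ M : Subgroup G, M.Normal →
      ∃ (θ : M → ℂ) (e : ℕ), IsIrrCharacter M θ ∧ (fun m : M => χ m) = (e : ℂ) • θ)
    (p : ℕ) [hp : Fact p.Prime] (K : Subgroup G) : K.Normal → ∀ (θ : K → ℂ) (e : ℕ),
      IsIrrCharacter K θ → (fun m : K => χ m) = (e : ℂ) • θ →
      Nat.card G * (charDegree θ).factorization p ≤
        ∑ g : G, ((centralizer {g}).relIndex K).factorization p := by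
  induction K using WellFoundedLT.induction with
  | _ K ih =>
  intro hK θ e hθ he
  rcases (bot_le : ⊥ ≤ K).lt_or_eq with h | rfl
  swap
  · have h := hθ.charDegree_dvd_card
    rw [card_bot, Nat.dvd_one] at h
    simp [h]
  obtain ⟨L, hL, -, hLK, hch⟩ := exists_chief_below h
  have := Fintype.ofFinite K
  have := Fintype.ofFinite L
  obtain ⟨φ, f, hφ, hf⟩ := hhom L hL
  have he0 : (e : ℂ) ≠ 0 := fun h0 => hχ.one_ne_zero (by simpa [h0] using congrFun he 1)
  have hf0 : (f : ℂ) ≠ 0 := fun h0 => hχ.one_ne_zero (by simpa [h0] using congrFun hf 1)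
  have h1 : (fun n : L => θ ⟨n, hLK.le n.2⟩) = ((f : ℂ) / e) • φ := funext fun n => by
    have h2 : χ n = e * θ ⟨n, hLK.le n.2⟩ := congrFun he ⟨n, hLK.le n.2⟩
    have h3 : χ n = f * φ n := congrFun hf n
    rw [Pi.smul_apply, smul_eq_mul, div_mul_eq_mul_div, ← h3, h2, mul_div_cancel_left₀ _ he0]
  have h2 := ih L hLK hL φ f hφ hf
  rcases going_down hLK.le hch (commutator_le_of_chief hLK.le hch) hθ
    (invariant_of_res_eq_smul hχ.isClassFunction he0 he) hφ (by
      rw [h1, classInner_smul_left, hφ.classInner_self, mul_one]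
      exact div_ne_zero hf0 he0) with h | ⟨d, h, hd⟩ | ⟨h, -⟩
  · have h3 : charDegree θ = charDegree φ := by rw [← h]; rfl
    rw [h3]
    refine h2.trans (Finset.sum_le_sum fun g _ => ?_)
    refine (Nat.factorization_le_iff_dvd index_ne_zero_of_finite index_ne_zero_of_finite).2 ?_ p
    obtain ⟨t, ht⟩ := card_dvd_of_le (map_mono (f := QuotientGroup.mk' L)
      (inf_le_right : centralizer {g} ⊓ K ≤ K))
    rw [Grp.card_map_mk', Grp.card_map_mk'] at ht
    have h4 := relIndex_mul_of_le hLK.le (centralizer {g})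
    rw [ht, mul_left_comm] at h4
    exact ⟨t, Nat.eq_of_mul_eq_mul_left (Nat.pos_of_ne_zero index_ne_zero_of_finite) h4⟩
  · have h3 : charDegree θ = d * charDegree φ := charDegree_eq_of_eq (by
      rw [Nat.cast_mul, hφ.cast_charDegree]; exact congrFun h 1)
    have h4 := hθ.charDegree_pos
    rw [h3] at h4 ⊢
    rw [Nat.factorization_mul (Nat.pos_of_mul_pos_right h4).ne' hφ.charDegree_pos.ne',
      Finsupp.add_apply, mul_add]
    exact (Nat.add_le_add_left h2 _).trans (chief_sum hLK hch hd p)
  · rw [inertia_eq_top_iff.2 (invariant_of_res_eq_smul hχ.isClassFunction hf0 hf), inf_top_eq] at h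
    exact absurd h.symm hLK.ne

/-- A primitive irreducible character of a solvable group: the `p`-part of the degree divides a class size. -/
theorem exists_le_of_primitive [Fintype G] [Group.IsSolvable G] {χ : G → ℂ} (hχ : IsIrrCharacter G χ)
    (hprim : ¬ ∃ H : Subgroup G, H ≠ ⊤ ∧ ∃ θ : H → ℂ, IsCharacter H θ ∧ indFun H θ = χ)
    (p : ℕ) [Fact p.Prime] :
    ∃ g : G, (charDegree χ).factorization p ≤ (centralizer ({g} : Set G)).index.factorization p := by
  have h := hom_sum hχ (fun M hM => by
    rcases homogeneous_or_induced M hχ with ⟨θ, e, h4, -, h5⟩ | ⟨T, η, -, h5, h6, h7⟩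
    · exact ⟨θ, e, h4, h5⟩
    · exact absurd ⟨T, h5, η, h6.isCharacter, h7⟩ hprim) p ⊤ inferInstance _ 1
    (hχ.comp_mulEquiv topEquiv) (by rw [Nat.cast_one, one_smul]; rfl)
  by_contra hc
  push Not at hc
  have h1 := Finset.sum_lt_sum_of_nonempty Finset.univ_nonempty fun g _ => hc g
  rw [Finset.sum_const, Finset.card_univ, ← Nat.card_eq_fintype_card, smul_eq_mul] at h1
  simp only [relIndex_top_right] at h
  exact h1.not_ge h

end CL.Char.FixAvg
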