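import Cfsg.Agent.Char.PrimClass
import Cfsg.Agent.Grp.Primitive

/-! A coset version of the class size bound for primitive characters. -/

set_option autoImplicit false
open Cfsg Subgroup Module

namespace CL.Char.FixAvg

variable {G : Type*} [Group G]

theorem map_le_cent [Finite G] {Q : Type*} [Group Q] (π : G →* Q) (hπ : Function.Surjective π)
    {V : Subgroup Q} (hV : Grp.IsMinNormal V) {p : ℕ} [Fact p.Prime] (hd : p ∣ Nat.card V)
    {F P : Subgroup G} [F.Normal] [(F ⊔ P).Normal] (hF : Group.IsNilpotent F) (hP : IsPGroup p P) :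
    (F ⊔ P).map π ≤ centralizer (V : Set Q) := by
  haveI : Finite Q := Finite.of_surjective π hπ
  haveI := hV.normal
  haveI : (F.map π).Normal := Normal.map inferInstance π hπ
  haveI : ((F ⊔ P).map π).Normal := Normal.map inferInstance π hπ
  have h1 := hV.le_centralizer_of_isNilpotent (K := F.map π)
    (Group.nilpotent_of_surjective _ (π.subgroupMap_surjective F))
  have h2 := Grp.inf_centralizer_ne_bot_of_isPGroup (hP.map π) le_normalizer_of_normal hd
  rw [le_centralizer_iff, ← hV.eq_of_le (K := V ⊓ centralizer ((F ⊔ P).map π : Set Q))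
    (fun h => h2 (eq_bot_iff.2 (h ▸ le_inf inf_le_left ?_))) inf_le_left]
  · exact inf_le_right
  · rw [le_centralizer_iff, Subgroup.map_sup]
    exact sup_le (h1.trans (centralizer_le inf_le_left)) (le_centralizer_iff.1 inf_le_right)

theorem chief_sum' [Fintype G] [Group.IsSolvable G] {K L : Subgroup G} [K.Normal] [L.Normal]
    (hLK : L < K) (hchief : ∀ M : Subgroup G, M.Normal → L ≤ M → M ≤ K → M = L ∨ M = K) {e : ℕ}
    (he : e ^ 2 = L.relIndex K) {p : ℕ} [hp : Fact p.Prime] {F P : Subgroup G} [F.Normal]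
    [(F ⊔ P).Normal] (hF : Group.IsNilpotent F) (hP : IsPGroup p P) {s : G → G}
    (hs : ∀ g, g⁻¹ * s g ∈ F ⊔ P) :
    Nat.card G * e.factorization p + ∑ g : G, ((centralizer {s g}).relIndex L).factorization p ≤
      ∑ g : G, ((centralizer {s g}).relIndex K).factorization p := by
  let π := QuotientGroup.mk' L
  have hπ : Function.Surjective π := QuotientGroup.mk'_surjective L
  have hV : Grp.IsMinNormal (K.map π) := ⟨Normal.map inferInstance π hπ, fun h => by
    rw [Subgroup.map_eq_bot_iff, QuotientGroup.ker_mk'] at h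
    exact hLK.not_ge h, fun M hM hle => by
    rcases hchief (M.comap π) inferInstance (QuotientGroup.le_comap_mk' L M) (by
      rwa [← comap_le_comap_of_surjective hπ, QuotientGroup.comap_map_mk', sup_eq_right.2 hLK.le]
        at hle) with h | h
    · left
      rw [← map_comap_eq_self_of_surjective hπ M, h, Subgroup.map_eq_bot_iff, QuotientGroup.ker_mk']
    · right; rw [← map_comap_eq_self_of_surjective hπ M, h]⟩
  have hc : Nat.card (K.map π) = e ^ 2 := by rw [he, Grp.card_map_mk']
  have h1 := sum_cent_le π hπ hV (by rw [hc]; exact Nat.Prime.not_prime_pow le_rfl) p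
  rw [hc, Nat.factorization_pow, Finsupp.smul_apply, smul_eq_mul, ← Finset.mul_sum] at h1
  have h2 : ∀ g : G, ((centralizer {s g}).relIndex L).factorization p + 2 * e.factorization p ≤
      ((centralizer {s g}).relIndex K).factorization p +
        (Nat.card (centralizer {π g} ⊓ K.map π : Subgroup _)).factorization p := fun g => by
    have h3 := congrArg (fun n : ℕ => n.factorization p) (relIndex_mul_of_le hLK.le (centralizer {s g}))
    have h0 : ∀ A B : Subgroup G, A.relIndex B ≠ 0 := fun A B => index_ne_zero_of_finite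
    simp only [Nat.factorization_mul (h0 _ _) (h0 _ _), Finsupp.add_apply] at h3
    rw [← he, Nat.factorization_pow, Finsupp.smul_apply, smul_eq_mul, ← Grp.card_map_mk'] at h3
    have h5 : (Nat.card ((centralizer {s g} ⊓ K).map π)).factorization p ≤
        (Nat.card (centralizer {π g} ⊓ K.map π : Subgroup _)).factorization p := by
      by_cases hd : p ∣ Nat.card (K.map π)
      swap
      · rw [Nat.factorization_eq_zero_of_not_dvd fun h =>
          hd (h.trans (card_dvd_of_le (map_mono inf_le_right)))]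
        exact Nat.zero_le _
      refine (Nat.factorization_le_iff_dvd Nat.card_pos.ne' Nat.card_pos.ne').2
        (card_dvd_of_le ?_) p
      rintro _ ⟨x, hx, rfl⟩
      refine ⟨mem_centralizer_singleton_iff.2 ?_, x, hx.2, rfl⟩
      have h6 := map_le_cent π hπ hV hd hF hP ⟨_, hs g, rfl⟩ (π x) ⟨x, hx.2, rfl⟩
      have h7 : Commute (π x) (π (s g)) := by
        change _ * _ = _ * _
        rw [← map_mul, mem_centralizer_singleton_iff.1 hx.1, map_mul]
      have h8 := h7.mul_right (Commute.inv_right h6)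
      rw [← map_inv, ← map_mul, mul_inv_rev, inv_inv, mul_inv_cancel_left] at h8
      exact h8
    change (Nat.card ((centralizer {s g} ⊓ K).map π)).factorization p + _ = _ at h3
    omega
  have h3 := Finset.sum_le_sum fun g (_ : g ∈ Finset.univ) => h2 g
  rw [Finset.sum_add_distrib, Finset.sum_add_distrib, Finset.sum_const, Finset.card_univ,
    ← Nat.card_eq_fintype_card, smul_eq_mul] at h3
  rw [mul_left_comm] at h1 h3
  omega

theorem hom_sum' [Fintype G] [Group.IsSolvable G] {χ : G → ℂ} (hχ : IsIrrCharacter G χ)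
    (hhom : ∀ M : Subgroup G, M.Normal →
      ∃ (θ : M → ℂ) (e : ℕ), IsIrrCharacter M θ ∧ (fun m : M => χ m) = (e : ℂ) • θ)
    {p : ℕ} [hp : Fact p.Prime] {F P : Subgroup G} [F.Normal]
    [(F ⊔ P).Normal] (hF : Group.IsNilpotent F) (hP : IsPGroup p P) {s : G → G}
    (hs : ∀ g, g⁻¹ * s g ∈ F ⊔ P) (K : Subgroup G) : K.Normal → ∀ (θ : K → ℂ) (e : ℕ),
      IsIrrCharacter K θ → (fun m : K => χ m) = (e : ℂ) • θ →
      Nat.card G * (charDegree θ).factorization p ≤
        ∑ g : G, ((centralizer {s g}).relIndex K).factorization p := by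
  induction K using WellFoundedLT.induction with
  | _ K ih =>
  intro hK θ e hθ he
  rcases (bot_le : ⊥ ≤ K).lt_or_eq with h | rfl
  swap
  · have h := hθ.charDegree_dvd_card
    rw [card_bot, Nat.dvd_one] at h
    simp [h]
  obtain ⟨L, hL, -, hLK, hch⟩ := exists_chief_below h
  have := Fintype.ofFinite K
  have := Fintype.ofFinite L
  obtain ⟨φ, f, hφ, hf⟩ := hhom L hL
  have he0 : (e : ℂ) ≠ 0 := fun h0 => hχ.one_ne_zero (by simpa [h0] using congrFun he 1)
  have hf0 : (f : ℂ) ≠ 0 := fun h0 => hχ.one_ne_zero (by simpa [h0] using congrFun hf 1)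
  have h1 : (fun n : L => θ ⟨n, hLK.le n.2⟩) = ((f : ℂ) / e) • φ := funext fun n => by
    have h2 : χ n = e * θ ⟨n, hLK.le n.2⟩ := congrFun he ⟨n, hLK.le n.2⟩
    have h3 : χ n = f * φ n := congrFun hf n
    rw [Pi.smul_apply, smul_eq_mul, div_mul_eq_mul_div, ← h3, h2, mul_div_cancel_left₀ _ he0]
  have h2 := ih L hLK hL φ f hφ hf
  rcases going_down hLK.le hch (commutator_le_of_chief hLK.le hch) hθ
    (invariant_of_res_eq_smul hχ.isClassFunction he0 he) hφ (by
      rw [h1, classInner_smul_left, hφ.classInner_self, mul_one]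
      exact div_ne_zero hf0 he0) with h | ⟨d, h, hd⟩ | ⟨h, -⟩
  · have h3 : charDegree θ = charDegree φ := by rw [← h]; rfl
    rw [h3]
    refine h2.trans (Finset.sum_le_sum fun g _ => ?_)
    refine (Nat.factorization_le_iff_dvd index_ne_zero_of_finite index_ne_zero_of_finite).2 ?_ p
    obtain ⟨t, ht⟩ := card_dvd_of_le (map_mono (f := QuotientGroup.mk' L)
      (inf_le_right : centralizer {s g} ⊓ K ≤ K))
    rw [Grp.card_map_mk', Grp.card_map_mk'] at ht
    have h4 := relIndex_mul_of_le hLK.le (centralizer {s g})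
    rw [ht, mul_left_comm] at h4
    exact ⟨t, Nat.eq_of_mul_eq_mul_left (Nat.pos_of_ne_zero index_ne_zero_of_finite) h4⟩
  · have h3 : charDegree θ = d * charDegree φ := charDegree_eq_of_eq (by
      rw [Nat.cast_mul, hφ.cast_charDegree]; exact congrFun h 1)
    have h4 := hθ.charDegree_pos
    rw [h3] at h4 ⊢
    rw [Nat.factorization_mul (Nat.pos_of_mul_pos_right h4).ne' hφ.charDegree_pos.ne',
      Finsupp.add_apply, mul_add]
    exact (Nat.add_le_add_left h2 _).trans (chief_sum' hLK hch hd hF hP hs)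
  · rw [inertia_eq_top_iff.2 (invariant_of_res_eq_smul hχ.isClassFunction hf0 hf), inf_top_eq] at h
    exact absurd h.symm hLK.ne

/-- A whole coset of `F P` consists of elements whose class size has large `p`-part. -/
theorem exists_coset_of_primitive [Fintype G] [Group.IsSolvable G] {χ : G → ℂ}
    (hχ : IsIrrCharacter G χ)
    (hprim : ¬ ∃ H : Subgroup G, H ≠ ⊤ ∧ ∃ θ : H → ℂ, IsCharacter H θ ∧ indFun H θ = χ)
    {p : ℕ} [Fact p.Prime] {F P : Subgroup G} [F.Normal] [(F ⊔ P).Normal]
    (hF : Group.IsNilpotent F) (hP : IsPGroup p P) : ∃ x : G, ∀ g : G, x⁻¹ * g ∈ F ⊔ P →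
      (charDegree χ).factorization p ≤ (centralizer ({g} : Set G)).index.factorization p := by
  by_contra hc
  push Not at hc
  choose s hs hc using hc
  have h := hom_sum' hχ (fun M hM => by
    rcases homogeneous_or_induced M hχ with ⟨θ, e, h4, -, h5⟩ | ⟨T, η, -, h5, h6, h7⟩
    · exact ⟨θ, e, h4, h5⟩
    · exact absurd ⟨T, h5, η, h6.isCharacter, h7⟩ hprim) hF hP hs ⊤ inferInstance _ 1
    (hχ.comp_mulEquiv topEquiv) (by rw [Nat.cast_one, one_smul]; rfl)
  have h1 := Finset.sum_lt_sum_of_nonempty Finset.univ_nonempty fun g _ => hc g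
  rw [Finset.sum_const, Finset.card_univ, ← Nat.card_eq_fintype_card, smul_eq_mul] at h1
  simp only [relIndex_top_right] at h
  exact h1.not_ge h

end CL.Char.FixAvg
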