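/-
The Feit-Sibley coherence theorem for a TI-subgroup with Frobenius normaliser (no parity assumption).
-/
import Cfsg.Agent.Char.FeitCoh
import Cfsg.Agent.Odd.PF6c
import Cfsg.Agent.Odd.RelHall
import Cfsg.Agent.Fgs.ClassBasic

set_option autoImplicit false

open Cfsg CL.Odd CL.Grp
open scoped Classical

namespace CL.Char

section Grp

variable {L : Type*} [Group L] [Finite L] {K : Subgroup L} [hK : K.Normal]

theorem frob_coprime_index (hC : ∀ h ∈ K, h ≠ 1 → Subgroup.centralizer ({h} : Set L) ≤ K) :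
    K.index.Coprime (Nat.card K) := by
  obtain ⟨m, hm⟩ := index_dvd_card_pred le_rfl hC
  have h0 : 0 < Nat.card K := Nat.card_pos
  rw [show Nat.card K = 1 + K.index * m by omega]
  simp

/-- A Frobenius complement of even order forces an abelian kernel. -/
theorem frob_comm_of_even (hC : ∀ h ∈ K, h ≠ 1 → Subgroup.centralizer ({h} : Set L) ≤ K)
    (he : 2 ∣ K.index) : IsMulCommutative K := by
  obtain ⟨t, ht⟩ := exists_prime_orderOf_dvd_card' 2 (he.trans K.index_dvd_card)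
  have htK : t ∉ K := fun h => by
    have := Nat.dvd_gcd he (ht ▸ K.orderOf_dvd_natCard h)
    rw [frob_coprime_index hC] at this
    omega
  have h2 : t * t = 1 := by rw [← pow_two, ← ht, pow_orderOf_eq_one]
  have hf : MonoidHom.FixedPointFree (MulAut.conjNormal (H := K) t) := fun k e => by
    by_contra h1
    refine htK (hC k k.2 (fun e' => h1 (Subtype.ext e')) (mem_c1_iff_conj.2 ?_))
    simpa using congrArg Subtype.val e
  refine ⟨⟨fun a b => hf.commute_all_of_involutive (fun k => Subtype.ext ?_) a b⟩⟩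
  simp only [MulAut.conjNormal_apply]
  calc t * (t * k * t⁻¹) * t⁻¹ = (t * t) * k * (t * t)⁻¹ := by group
    _ = k := by rw [h2]; simp

theorem frob_odd_of_not_comm (hC : ∀ h ∈ K, h ≠ 1 → Subgroup.centralizer ({h} : Set L) ≤ K)
    (hn : ¬ IsMulCommutative K) (ho : Odd (Nat.card K)) : Odd (Nat.card L) := by
  rw [← K.card_mul_index]
  exact ho.mul (Nat.not_even_iff_odd.1 fun h => hn (frob_comm_of_even hC h.two_dvd))

/-- If `|K| = e + 1` then `K` is elementary abelian. -/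
theorem frob_elem_of_card (hC : ∀ h ∈ K, h ≠ 1 → Subgroup.centralizer ({h} : Set L) ≤ K)
    (he : Nat.card K = K.index + 1) {p : ℕ} (hp : p.Prime) (hd : p ∣ Nat.card K) :
    IsElementaryAbelian p K := by
  have key : ∀ x ∈ K, x ≠ 1 → K ≤ Subgroup.centralizer ({x} : Set L) ∧ ∀ y ∈ K, y ≠ 1 → IsConj x y := by
    intro x hx h1
    have hs : {y | IsConj x y} ⊆ (K : Set L) \ {1} := by
      intro y hy
      obtain ⟨c, rfl⟩ := isConj_iff.1 hy
      exact ⟨hK.conj_mem x hx c, fun e => h1 (conj_eq_one_iff'.1 e)⟩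
    have hc : ((K : Set L) \ {1}).ncard = K.index := by
      rw [Set.ncard_sdiff_singleton_of_mem K.one_mem, ← Nat.card_coe_set_eq]
      exact (congrArg (· - 1) he).trans (Nat.add_sub_cancel _ _)
    have h2 := Set.ncard_le_ncard hs
    have h3 := Subgroup.index_antitone (hC x hx h1)
    rw [hc, CL.Fgs.ncard_isConj] at h2
    refine ⟨?_, fun y hy y1 => ?_⟩
    · have h4 := Subgroup.relIndex_mul_index (hC x hx h1)
      rw [le_antisymm h2 h3] at h4
      exact Subgroup.relIndex_eq_one.1 ((mul_eq_right₀ Subgroup.index_ne_zero_of_finite).1 h4)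
    · have := Set.eq_of_subset_of_ncard_le hs (by rw [hc, CL.Fgs.ncard_isConj]; exact h3)
      exact (this.symm ▸ ⟨hy, y1⟩ : y ∈ {y | IsConj x y})
  haveI := Fact.mk hp
  obtain ⟨x, hx⟩ := exists_prime_orderOf_dvd_card' (G := K) p hd
  have x1 : (x : L) ≠ 1 := fun e => hp.ne_one (by rw [← hx, orderOf_eq_one_iff]; exact Subtype.ext e)
  refine ⟨abelian_iff_comm.2 fun a ha b hb => ?_, fun a ha => ?_⟩
  · by_cases h1 : b = 1
    · simp [h1]
    · exact mem_c1.1 ((key b hb h1).1 ha)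
  · by_cases h1 : a = 1
    · simp [h1]
    · obtain ⟨c, rfl⟩ := isConj_iff.1 ((key x x.2 x1).2 a ha h1)
      rw [conj_pow, ← Subgroup.coe_pow, ← hx, pow_orderOf_eq_one]
      simp

end Grp

section One

variable {L : Type*} [Group L] [Fintype L] {K : Subgroup L} [hK : K.Normal]

/-- If `|K| = e + 1` there is exactly one irreducible character that is non-trivial on `K`. -/
theorem frob_card_irr_eq_one (hsol : Group.IsSolvable K) (hK1 : K ≠ ⊥)
    (hC : ∀ h ∈ K, h ≠ 1 → Subgroup.centralizer ({h} : Set L) ≤ K) (he : Nat.card K = K.index + 1) :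
    Nat.card {χ : L → ℂ // IsIrrCharacter L χ ∧ ∃ h ∈ K, χ h ≠ χ 1} = 1 := by
  change Nat.card ({χ : L → ℂ | IsIrrCharacter L χ ∧ ∃ h ∈ K, χ h ≠ χ 1} : Set (L → ℂ)) = 1
  rw [← frob_seqIndD_eq hC, Nat.card_coe_set_eq]
  have hT := (seqIndD_finite K K ⊥).coe_toFinset
  set T := (seqIndD_finite K K ⊥).toFinset
  have e := sum_seqIndD_square le_rfl bot_le hT
  have hpos : (0 : ℝ) < K.index := Nat.cast_pos.2 (Nat.pos_of_ne_zero Subgroup.index_ne_zero_of_finite)
  have lb : ∀ φ ∈ T, (K.index : ℝ) ^ 2 ≤ (φ 1).re ^ 2 / nrm φ := fun φ hφ => by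
    have hφ' : φ ∈ seqIndD K K ⊥ := hT ▸ hφ
    obtain ⟨d, hd, e⟩ := seqIndT_deg (seqIndD_subset_seqIndT _ _ _ hφ')
    rw [nrm_irr (frob_seqIndD_irr hC φ hφ'), div_one, e, ← Nat.cast_mul, Complex.natCast_re, Nat.cast_mul]
    have : (1 : ℝ) ≤ d := by exact_mod_cast hd
    exact pow_le_pow_left₀ hpos.le (le_mul_of_one_le_right hpos.le this) 2
  have h1 := Finset.card_nsmul_le_sum _ _ _ lb
  rw [e, Subgroup.relIndex_bot_left, he, nsmul_eq_mul] at h1
  have h2 : (T.card : ℝ) ≤ 1 := by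
    push_cast at h1
    nlinarith [sq_pos_of_pos hpos]
  obtain ⟨φ, hφ, -⟩ := exists_linear_seqIndD_of_lt (K := K) hsol (bot_lt_iff_ne_bot.2 hK1)
  have h3 := Finset.card_pos.2 ⟨φ, show φ ∈ T from by rw [← Finset.mem_coe, hT]; exact hφ⟩
  have h4 : T.card ≤ 1 := by exact_mod_cast h2
  rw [← hT, Set.ncard_coe_finset]
  omega

end One

section Main

variable {G : Type*} [Group G] [Fintype G] {K : Subgroup G} [Fintype N[K]]

omit [Fintype G] [Fintype N[K]] in
theorem tifn_cent (hC : ∀ k ∈ K, k ≠ 1 → Subgroup.centralizer ({k} : Set G) ≤ K) :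
    ∀ h ∈ K.subgroupOf N[K], h ≠ 1 → Subgroup.centralizer ({h} : Set N[K]) ≤ K.subgroupOf N[K] :=
  fun h hh h1 g hg => tifn_centralizer hC _ g h hh h1 (mem_c1.1 hg)

omit [Fintype G] [Fintype N[K]] in
theorem tifn_TI (hTI : IsTISubset (K : Set G)) : ∀ g : G, g ∉ N[K] →
    ∀ x ∈ (K.subgroupOf N[K]).map N[K].subtype, g * x * g⁻¹ ∈ (K.subgroupOf N[K]).map N[K].subtype → x = 1 := by
  rw [Subgroup.map_subgroupOf_eq_of_le (le_norm_self K)]
  exact hTI

/-- Sibley's theorem for a non-abelian kernel of odd order. -/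
theorem sibley_cohWith (hnil : Group.IsNilpotent K) (hTI : IsTISubset (K : Set G)) (hlt : K < N[K])
    (hC : ∀ k ∈ K, k ≠ 1 → Subgroup.centralizer ({k} : Set G) ≤ K) (hn : ¬ IsMulCommutative K)
    (ho : Odd (Nat.card K)) : Odd (Nat.card N[K]) ∧
      ∃ ν, CohWith (seqIndD (K.subgroupOf N[K]) (K.subgroupOf N[K]) ⊥) {1}ᶜ (indFun N[K]) ν := by
  have e := Subgroup.subgroupOfEquivOfLe (le_norm_self K)
  have hodd : Odd (Nat.card N[K]) := frob_odd_of_not_comm (tifn_cent hC)
    (fun h => hn ⟨⟨fun a b => e.symm.injective (by rw [map_mul, map_mul, h.1.1])⟩⟩)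
    (by rwa [Nat.card_congr e.toEquiv])
  have hK1 : K ≠ ⊥ := by rintro rfl; exact hn abelian_bot
  obtain ⟨W, hW⟩ : FrobKer N[K] K :=
    FrobKer.iff.2 ⟨hK1, hlt, NormalIn.norm_self K, fun x hx h1 => inf_le_right.trans (hC x hx h1)⟩
  obtain ⟨-, -, h⟩ := sibley_coh_frob hodd (Group.nilpotent_of_mulEquiv e.symm) (tifn_TI hTI) hW.top
  exact ⟨hodd, h⟩

/-- The Feit-Sibley theorem. -/
theorem feit_sibley (hK1 : K ≠ ⊥) (hnil : Group.IsNilpotent K) (hTI : IsTISubset (K : Set G)) (hlt : K < N[K])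
    (hC : ∀ k ∈ K, k ≠ 1 → Subgroup.centralizer ({k} : Set G) ≤ K)
    (he : Nat.card K ≠ (K.subgroupOf N[K]).index + 1) :
    (Nat.card K = 2 ^ (Nat.card G).factorization 2 ∧
      (⁅K, K⁆.subgroupOf K).index < 4 * (K.subgroupOf N[K]).index ^ 2) ∨
    IsCoherent {χ : N[K] → ℂ | IsIrrCharacter N[K] χ ∧ ∃ k ∈ K.subgroupOf N[K], χ k ≠ χ 1} {1}ᶜ
      (indFun N[K]) := by
  have e := Subgroup.subgroupOfEquivOfLe (le_norm_self K)
  have ec := Nat.card_congr e.toEquiv
  have hC' := tifn_cent hC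
  have hnil' : Group.IsNilpotent (K.subgroupOf N[K]) := Group.nilpotent_of_mulEquiv e.symm
  have hK1' : K.subgroupOf N[K] ≠ ⊥ := fun h => hK1 (by rw [← Subgroup.card_eq_one, ← ec, h, Subgroup.card_bot])
  rcases feit_coherence (τ := indFun N[K]) hnil' hK1' hC' (ec ▸ he)
    (frob_seqIndD_eq hC' ▸ indFun_isometryOn_of_TI (tifn_TI hTI) (seqIndD_subset_seqIndT _ _ _))
    (fun α h => by rw [indFun_one, (mem_zspanOn_one.1 h).2, mul_zero]) with h | ⟨p, hp, ⟨m, hm⟩, hn, hle⟩
  · exact Or.inr h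
  have hn' : ¬ IsMulCommutative K := fun h => hn ⟨⟨fun a b => e.injective (by rw [map_mul, map_mul, h.1.1])⟩⟩
  rw [ec] at hm
  rcases hp.eq_two_or_odd' with rfl | hodd
  · left
    have hP : IsPGroup 2 K := IsPGroup.of_card hm
    have hcop := frob_coprime_index hC'
    have h2 : 2 ∣ Nat.card K := dvd_card_of_isPGroup_ne_bot hP hK1
    have ho : ¬ 2 ∣ (K.subgroupOf N[K]).index := fun h => by
      have := Nat.dvd_gcd h (ec ▸ h2)
      rw [hcop] at this
      omega
    have hS : IsSylowIn 2 K ⊤ :=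
      sylow_of_sylow_normalizer le_top (by rw [top_inf_eq]; exact ⟨le_norm_self K, hP, ho⟩)
    refine ⟨hS.card_eq_pow.trans (by rw [Subgroup.card_top]), ?_⟩
    have e1 : (⁅K, K⁆.subgroupOf K).index =
        (⁅K.subgroupOf N[K], K.subgroupOf N[K]⁆.subgroupOf (K.subgroupOf N[K])).index := by
      rw [der_subgroupOf, der_subgroupOf, ← Subgroup.index_map_of_bijective e.bijective (f := e.toMonoidHom),
        _root_.commutator, _root_.commutator, Subgroup.map_commutator, ← MonoidHom.range_eq_map,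
        MonoidHom.range_eq_top.2 e.surjective]
    rw [← e1] at hle
    obtain ⟨a, -, ha⟩ := (Nat.dvd_prime_pow Nat.prime_two).1 (hm ▸ (⁅K, K⁆.subgroupOf K).index_dvd_card)
    have h1 : (K.subgroupOf N[K]).index ≠ 1 := fun h => hlt.not_ge (Subgroup.relIndex_eq_one.1 h)
    set n := (K.subgroupOf N[K]).index
    rw [ha] at hle ⊢
    rcases hle.lt_or_eq with h | h
    · refine (Nat.lt_succ_iff.1 h).lt_of_ne fun h' => h1 ?_
      obtain ⟨b, -, hb⟩ := (Nat.dvd_prime_pow Nat.prime_two).1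
        (show n ∣ 2 ^ a from h' ▸ Dvd.dvd.mul_left (dvd_pow_self n two_ne_zero) 4)
      rcases b with _ | b
      · simpa using hb
      · exact absurd (hb ▸ dvd_pow_self 2 b.succ_ne_zero) ho
    · have h0 : n ≠ 0 := Subgroup.index_ne_zero_of_finite
      rcases a with _ | a
      · have := pow_pos (Nat.pos_of_ne_zero h0) 2
        omega
      · rw [pow_succ] at h
        omega
  · right
    rw [← frob_seqIndD_eq hC', isCoherent_iff]
    exact ⟨frob_exists_ne_zero inferInstance hK1' (frob_seqIndD_irr hC') (ec ▸ he),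
      (sibley_cohWith hnil hTI hlt hC hn' (hm ▸ hodd.pow)).2⟩

end Main

end CL.Char
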