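/-
The sum of the squares of the `p'`-degrees of a finite group compared with a Sylow normalizer.
-/
import Cfsg.Agent.S4931
import Cfsg.Agent.Char.Deg4a
import Cfsg.Agent.Char.DegPDiv
import Cfsg.Agent.Char.Congruence

set_option autoImplicit false

open Cfsg CL.Char Subgroup

namespace CL.SqSum

theorem orb {p : ℕ} [Fact p.Prime] {A X : Type*} [Group A] [Finite A] [MulAction A X] [Fintype X]
    (hA : IsPGroup p A) (f : X → ℂ) (hf : ∀ x, IsIntegral ℤ (f x)) (hi : ∀ (g : A) x, f (g • x) = f x) (x0 : X)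
    (h0 : ∀ x, x ∈ MulAction.fixedPoints A X ↔ x = x0) : CongMod p (∑ x, f x) (f x0) := by
  classical
  have := Fintype.ofFinite (MulAction.orbitRel.Quotient A X)
  rw [show f x0 = ∑ x, if x = x0 then f x else 0 by simp,
    ← Finset.sum_fiberwise Finset.univ (fun x => (Quotient.mk _ x : MulAction.orbitRel.Quotient A X)),
    ← Finset.sum_fiberwise Finset.univ (fun x => (Quotient.mk _ x : MulAction.orbitRel.Quotient A X))
      fun x => if x = x0 then f x else 0]
  refine CongMod.sum _ fun ω _ => ?_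
  obtain ⟨a, rfl⟩ := Quotient.exists_rep ω
  have h1 : ∀ x, (Quotient.mk _ x : MulAction.orbitRel.Quotient A X) = Quotient.mk _ a ↔ x ∈ MulAction.orbit A a :=
    fun x => Quotient.eq
  simp only [h1]
  by_cases ha : a = x0
  · rw [Finset.sum_congr rfl fun x hx => if_pos ?_]
    · exact CongMod.refl _ _
    · obtain ⟨g, rfl⟩ := (Finset.mem_filter.1 hx).2
      exact ((h0 a).2 ha g).trans ha
  · obtain ⟨n, hn⟩ := hA.card_orbit a
    obtain ⟨k, rfl⟩ : ∃ k, n = k + 1 := Nat.exists_eq_succ_of_ne_zero fun h => ha ((h0 a).1 (by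
      have := Fintype.ofFinite (MulAction.orbit A a)
      rw [MulAction.mem_fixedPoints_iff_card_orbit_eq_one, ← Nat.card_eq_fintype_card, hn, h, pow_zero]))
    rw [Finset.sum_eq_zero (s := Finset.univ.filter _) (f := fun x => if x = x0 then f x else 0) fun x hx => if_neg ?_,
      Finset.sum_congr rfl (g := fun _ => f a) fun x hx => ?_, Finset.sum_const, nsmul_eq_mul,
      ← Fintype.card_subtype, ← Nat.card_eq_fintype_card]
    · refine ⟨p ^ k * f a, ((isIntegral_natCast p).pow k).mul (hf a), ?_⟩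
      rw [show Nat.card {x // x ∈ MulAction.orbit A a} = p ^ (k + 1) from hn]
      push_cast
      ring
    · obtain ⟨g, rfl⟩ := (Finset.mem_filter.1 hx).2
      exact hi g a
    · obtain ⟨g, rfl⟩ := (Finset.mem_filter.1 hx).2
      intro h
      exact ha ((inv_smul_smul g a).symm.trans ((congrArg (g⁻¹ • ·) h).trans ((h0 x0).2 rfl g⁻¹)))

/-- the irreducible characters of `p'`-degree -/
noncomputable def pd (p : ℕ) (G : Type*) [Group G] [Finite G] : Finset (IrrCharacter G) :=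
  Finset.univ.filter fun χ : IrrCharacter G => ¬ p ∣ charDegree (χ : G → ℂ)

variable {G : Type*} [Group G] [Finite G] {p : ℕ} [Fact p.Prime]

/-- A `p`-subgroup without fixed points on a normal subgroup puts it into the kernel of the characters of
`p'`-degree. -/
theorem le_ker {P K : Subgroup G} [hK : K.Normal] (hP : IsPGroup p P)
    (h : ∀ k ∈ K, (∀ g ∈ P, g * k * g⁻¹ = k) → k = 1) {χ : G → ℂ} (hχ : IsIrrCharacter G χ)
    (hd : ¬ p ∣ charDegree χ) : K ≤ charKer χ := by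
  have := Fintype.ofFinite K
  let _ : MulAction P K := MulAction.compHom K ((MulAut.conjNormal (H := K)).comp P.subtype)
  have hs : ∀ (g : P) (k : K), ((g • k : K) : G) = g * k * (g : G)⁻¹ := fun _ _ => rfl
  have h1 := orb hP (fun k : K => χ k) (fun k => isChar_isIntegral hχ.isCharacter k)
    (fun g k => by rw [hs, hχ.isClassFunction]) 1 fun k => ⟨fun e => Subtype.ext (h k k.2 fun g hg =>
      congrArg Subtype.val (e ⟨g, hg⟩)), fun e g => Subtype.ext (by rw [hs, e]; simp)⟩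
  refine fun k hk => hχ.mem_charKer.2 (apply_eq_one_of_classInner_res_one_ne_zero (N := K) hχ (fun e => hd ?_) hk)
  rw [classInner_one_right, mul_eq_zero, inv_eq_zero] at e
  rw [e.resolve_left (natCard_group_ne_zero K), OneMemClass.coe_one, ← hχ.cast_charDegree] at h1
  have h2 : ((0 : ℤ) : ℤ) ≡ (charDegree χ : ℤ) [ZMOD p] := CongMod.intModEq (by simpa using h1)
  exact Int.natCast_dvd_natCast.1 (by simpa using h2.dvd)

/-- With a normal Sylow subgroup `Q` the squares of the `p'`-degrees add up to the index of `Q'`. -/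
theorem sum_normal (Q : Subgroup G) [Q.Normal] (hQ : IsPGroup p Q) (hi : ¬ p ∣ Q.index) :
    ∑ χ ∈ pd p G, charDegree (χ : G → ℂ) ^ 2 = ⁅Q, Q⁆.index := by
  classical
  have := Fintype.ofFinite Q
  have h1 := sum_irr_comp (QuotientGroup.mk' ⁅Q, Q⁆) (QuotientGroup.mk'_surjective _) fun χ => charDegree χ ^ 2
  rw [index, ← sum_charDegree_sq]
  refine Eq.trans (Finset.sum_congr (Finset.filter_congr fun χ _ => ?_) fun _ _ => rfl) h1.symm
  rw [QuotientGroup.ker_mk']
  refine ⟨fun h => ?_, fun h k => hi (k.trans (Cfsg.Agent.S4931.aux1 Q χ.2 h))⟩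
  obtain ⟨μ, h2, h3, h4⟩ := exists_linear_constituent hQ (χ.2.isCharacter.restrict Q) h
  exact D4.comm_le_of_one h2 χ.2 h4 h3

/-- Comparison with a subgroup of `p'`-index. -/
theorem sum_le (N : Subgroup G) (hi : ¬ p ∣ N.index) :
    ∑ ψ ∈ pd p N, charDegree (ψ : N → ℂ) ^ 2 ≤ ∑ χ ∈ pd p G, charDegree (χ : G → ℂ) ^ 2 ∧
    (∑ ψ ∈ pd p N, charDegree (ψ : N → ℂ) ^ 2 = ∑ χ ∈ pd p G, charDegree (χ : G → ℂ) ^ 2 →
      ∀ ψ : IrrCharacter N, ¬ p ∣ charDegree (ψ : N → ℂ) →
        ∃ χ : IrrCharacter G, ∀ x : N, (χ : G → ℂ) x = (ψ : N → ℂ) x) := by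
  classical
  have := Fintype.ofFinite G
  have := Fintype.ofFinite N
  have h1 : ∀ ψ : IrrCharacter N, ∃ χ : IrrCharacter G, ¬ p ∣ charDegree (ψ : N → ℂ) →
      ¬ p ∣ charDegree (χ : G → ℂ) ∧ classInner (fun n : N => (χ : G → ℂ) n) ψ ≠ 0 := fun ψ => by
    by_cases h : p ∣ charDegree (ψ : N → ℂ)
    · exact ⟨⟨_, isIrrCharacter_one⟩, fun k => absurd h k⟩
    obtain ⟨χ, h2, h3, h4⟩ := D4.exists_constituent_not_dvd (m := p) (isCharacter_indFun ψ.2.isCharacter) (by
      rw [charDegree_eq_of_eq (n := N.index * charDegree (ψ : N → ℂ)) (by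
        rw [indFun_one, ← ψ.2.cast_charDegree, Nat.cast_mul])]
      exact fun k => ((Fact.out : p.Prime).dvd_mul.1 k).elim hi h)
    exact ⟨⟨χ, h2⟩, fun _ => ⟨h4, by rwa [← classInner_indFun_eq_res ψ.2.isCharacter h2.isCharacter]⟩⟩
  choose c hc using h1
  set S := pd p N
  set T := pd p G
  have hm : ∀ ψ ∈ S, ¬ p ∣ charDegree (ψ : N → ℂ) := fun ψ h => (Finset.mem_filter.1 h).2
  have h2 : ∀ ψ ∈ S, charDegree (ψ : N → ℂ) ^ 2 ≤ charDegree (c ψ : G → ℂ) * charDegree (ψ : N → ℂ) :=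
    fun ψ h => by
      rw [sq]
      exact Nat.mul_le_mul_right _
        (((c ψ).2.isCharacter.restrict N).charDegree_le_of_classInner_ne_zero ψ.2 (hc ψ (hm ψ h)).2)
  have h3 : ∑ ψ ∈ S, charDegree (c ψ : G → ℂ) * charDegree (ψ : N → ℂ) ≤
      ∑ χ ∈ T, charDegree (χ : G → ℂ) ^ 2 := by
    rw [← Finset.sum_fiberwise_of_maps_to (g := c) (t := T)
      fun ψ h => Finset.mem_filter.2 ⟨Finset.mem_univ _, (hc ψ (hm ψ h)).1⟩]
    refine Finset.sum_le_sum fun χ _ => ?_
    rw [Finset.sum_congr rfl (g := fun ψ : IrrCharacter N => charDegree (χ : G → ℂ) * charDegree (ψ : N → ℂ))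
      fun ψ h => congrArg (fun η : IrrCharacter G => charDegree (η : G → ℂ) * _) (Finset.mem_filter.1 h).2,
      ← Finset.mul_sum, sq]
    refine Nat.mul_le_mul_left _ ?_
    obtain ⟨m, h4, -⟩ := (χ.2.isCharacter.restrict N).exists_eq_sum_nat
    refine le_trans ?_ ((χ.2.isCharacter.restrict N).charDegree_eq_sum m h4).ge
    refine (Finset.sum_le_sum fun ψ h => ?_).trans (Finset.sum_le_sum_of_subset (Finset.subset_univ _))
    obtain ⟨h5, rfl⟩ := Finset.mem_filter.1 h
    refine Nat.le_mul_of_pos_left _ (Nat.pos_of_ne_zero fun e => (hc ψ (hm ψ h5)).2 ?_)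
    rw [h4, e, Nat.cast_zero]
  refine ⟨(Finset.sum_le_sum h2).trans h3, fun e ψ hψ => ⟨c ψ, fun x => ?_⟩⟩
  have h4 := (Finset.sum_eq_sum_iff_of_le h2).1 (le_antisymm (Finset.sum_le_sum h2) (h3.trans e.ge)) ψ
    (Finset.mem_filter.2 ⟨Finset.mem_univ _, hψ⟩)
  rw [sq] at h4
  refine congrFun (((c ψ).2.isCharacter.restrict N).eq_of_classInner_ne_zero_of_one_eq ψ.2 (hc ψ hψ).2 ?_) x
  rw [← ψ.2.cast_charDegree, Nat.eq_of_mul_eq_mul_right ψ.2.charDegree_pos h4, (c ψ).2.cast_charDegree]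
  rfl

theorem main (P : Sylow p G) :
    Nat.card (normalizer ((P : Subgroup G) : Set G)) ≤ Nat.card (_root_.commutator P) *
      (∑ᶠ χ : {χ : IrrCharacter G // ¬ p ∣ charDegree (χ : G → ℂ)}, charDegree (χ.1 : G → ℂ) ^ 2) ∧
    (Nat.card (normalizer ((P : Subgroup G) : Set G)) = Nat.card (_root_.commutator P) *
      (∑ᶠ χ : {χ : IrrCharacter G // ¬ p ∣ charDegree (χ : G → ℂ)}, charDegree (χ.1 : G → ℂ) ^ 2) ↔
      ∃ K : Subgroup G, K.Normal ∧ K ⊓ normalizer ((P : Subgroup G) : Set G) = ⊥ ∧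
        K ⊔ normalizer ((P : Subgroup G) : Set G) = ⊤) := by
  classical
  have hext := Cfsg.Agent.S4931.result p P
  set N := normalizer ((P : Subgroup G) : Set G) with hN
  have hPN : (P : Subgroup G) ≤ N := le_normalizer
  set Q := (P : Subgroup G).subgroupOf N with hQ
  have hQn : Q.Normal := normal_in_normalizer
  have h1 := sum_normal Q (P.subtype hPN).isPGroup' (P.subtype hPN).not_dvd_index
  obtain ⟨h2, h3⟩ := sum_le N fun h => P.not_dvd_index (h.trans (index_dvd_of_le hPN))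
  have h4 : Nat.card (_root_.commutator P) = Nat.card (⁅Q, Q⁆ : Subgroup N) := by
    rw [← card_map_of_injective (P : Subgroup G).subtype_injective, map_subtype_commutator,
      ← card_map_of_injective (K := ⁅Q, Q⁆) N.subtype_injective, map_commutator, hQ, map_subgroupOf_eq_of_le hPN]
  rw [finsum_eq_sum_of_fintype, ← Finset.sum_subtype (pd p G) (by simp [pd])
    fun χ => charDegree (χ : G → ℂ) ^ 2, h4, ← ⁅Q, Q⁆.card_mul_index, ← h1]
  refine ⟨Nat.mul_le_mul_left _ h2, fun e => ?_, fun ⟨K, hK, e1, e2⟩ => ?_⟩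
  · obtain ⟨K, e1, e2, e3⟩ := hext.1 (h3 (Nat.eq_of_mul_eq_mul_left Nat.card_pos e))
    exact ⟨K, e1, e3, e2⟩
  · let e : G ⧸ K ≃* N := (CL.Grp.isComplement'_of_normal e1 e2).symm.QuotientMulEquiv
    have h5 := sum_irr_comp (e.toMonoidHom.comp (QuotientGroup.mk' K))
      (e.surjective.comp (QuotientGroup.mk'_surjective K)) fun χ => if ¬ p ∣ charDegree χ then charDegree χ ^ 2 else 0
    have h6 : ∀ ψ : N → ℂ, charDegree (fun g => ψ ((e.toMonoidHom.comp (QuotientGroup.mk' K)) g)) = charDegree ψ :=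
      fun ψ => by rw [charDegree, charDegree, map_one]
    simp only [h6] at h5
    rw [pd, pd, Finset.sum_filter, h5, Finset.sum_filter, Finset.sum_filter]
    congr 1
    refine Finset.sum_congr rfl fun χ _ => ?_
    by_cases h7 : p ∣ charDegree (χ : G → ℂ)
    · simp [h7]
    · refine if_pos fun k hk => le_ker P.isPGroup' (fun k hk h => ?_) χ.2 h7 ((QuotientGroup.eq_one_iff k).1 (by simpa using hk))
      refine mem_bot.1 (e1.le ⟨hk, centralizer_le_normalizer _ fun g hg => ?_⟩)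
      exact mul_inv_eq_iff_eq_mul.1 (h g hg)

end CL.SqSum
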