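/-
Characters of small degree of a group with a T.I. Sylow `p`-subgroup (Feit): invariants of an overgroup
of `N(P)` are invariants of `G`.
-/
import Cfsg.Agent.Char.Kernel
import Cfsg.Agent.Char.Span
import Cfsg.Agent.Blk.BrauerNil
import Mathlib.RingTheory.Valuation.LocalSubring

set_option autoImplicit false

open Cfsg Module
open scoped Pointwise ComplexConjugate

namespace CL.Char

theorem exists_valuationSubring_prime {p : ℕ} (hp : p.Prime) :
    ∃ O : ValuationSubring ℂ, O.valuation (p : ℂ) < 1 := by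
  have h : Ideal.span {((p : ℕ) : (⊥ : Subring ℂ))} ≠ ⊤ := by
    rw [Ne, Ideal.span_singleton_eq_top, isUnit_iff_exists_inv]
    rintro ⟨⟨b, hb⟩, h⟩
    obtain ⟨n, rfl⟩ := Subring.mem_bot.mp hb
    have h0 : (p : ℂ) * n = 1 := by simpa using congrArg Subtype.val h
    have h1 : ((p : ℤ) * n : ℤ) = 1 := by exact_mod_cast h0
    exact hp.one_lt.ne' (by exact_mod_cast Int.eq_one_of_mul_eq_one_right (Int.natCast_nonneg p) h1)
  obtain ⟨O, -, h2⟩ := Ideal.image_subset_nonunits_valuationSubring _ h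
  exact ⟨O, O.mem_nonunits_iff.mp (h2 ⟨_, Ideal.subset_span rfl, by simp⟩)⟩

variable {G : Type*} [Group G]

/-- an invariant non-archimedean norm -/
structure InvNorm {V : Type*} [AddCommGroup V] [Module ℂ V] (O : ValuationSubring ℂ)
    (ρ : Representation ℂ G V) (ν : V → O.ValueGroup) : Prop where
  eq_zero : ∀ v, ν v = 0 → v = 0
  zero : ν 0 = 0
  add : ∀ u v, ν (u + v) ≤ max (ν u) (ν v)
  smul : ∀ c v, ν (c • v) ≤ O.valuation c * ν v
  inv : ∀ g v, ν (ρ g v) = ν v

theorem exists_invNorm [Finite G] (O : ValuationSubring ℂ) {n : ℕ} (ρ : Representation ℂ G (Fin n → ℂ)) :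
    ∃ ν, InvNorm O ρ ν := by
  classical
  letI := Fintype.ofFinite G
  have hle : ∀ g v, (Finset.univ.sup fun x : G × Fin n => O.valuation (ρ x.1 (ρ g v) x.2)) ≤
      Finset.univ.sup fun x : G × Fin n => O.valuation (ρ x.1 v x.2) := fun g v =>
    Finset.sup_le fun x _ => by
      rw [← Module.End.mul_apply, ← map_mul]
      exact Finset.le_sup (f := fun x : G × Fin n => O.valuation (ρ x.1 v x.2))
        (Finset.mem_univ (x.1 * g, x.2))
  refine ⟨fun v => Finset.univ.sup fun x : G × Fin n => O.valuation (ρ x.1 v x.2), fun v hv => ?_, ?_,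
    fun u v => ?_, fun c v => ?_, fun g v => le_antisymm (hle g v) ?_⟩
  · funext i
    have := Finset.le_sup (f := fun x : G × Fin n => O.valuation (ρ x.1 v x.2)) (Finset.mem_univ (1, i))
    rw [hv] at this
    simpa using this
  · exact le_antisymm (Finset.sup_le fun x _ => by simp) zero_le
  · refine Finset.sup_le fun x _ => ?_
    rw [map_add, Pi.add_apply]
    exact (Valuation.map_add _ _ _).trans (max_le_max
      (Finset.le_sup (f := fun x : G × Fin n => O.valuation (ρ x.1 u x.2)) (Finset.mem_univ x))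
      (Finset.le_sup (f := fun x : G × Fin n => O.valuation (ρ x.1 v x.2)) (Finset.mem_univ x)))
  · refine Finset.sup_le fun x _ => ?_
    rw [map_smul, Pi.smul_apply, smul_eq_mul, map_mul]
    exact mul_le_mul_right
      (Finset.le_sup (f := fun x : G × Fin n => O.valuation (ρ x.1 v x.2)) (Finset.mem_univ x)) _
  · have := hle g⁻¹ (ρ g v)
    rwa [← Module.End.mul_apply (ρ g⁻¹), ← map_mul, inv_mul_cancel, map_one, Module.End.one_apply] at this

section Norm

variable {V : Type*} [AddCommGroup V] [Module ℂ V] {O : ValuationSubring ℂ} {ρ : Representation ℂ G V}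
  {ν : V → O.ValueGroup}

theorem InvNorm.sum_lt (h : InvNorm O ρ ν) {ι : Type*} (s : Finset ι) (f : ι → V) {r : O.ValueGroup}
    (hr : r ≠ 0) (hf : ∀ i ∈ s, ν (f i) < r) : ν (∑ i ∈ s, f i) < r := by
  classical
  induction s using Finset.induction_on with
  | empty => rw [Finset.sum_empty, h.zero]; exact zero_lt_iff.mpr hr
  | insert a s ha ih =>
    rw [Finset.sum_insert ha]
    exact (h.add _ _).trans_lt (max_lt (hf a (Finset.mem_insert_self _ _))
      (ih fun i hi => hf i (Finset.mem_insert_of_mem hi)))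

/-- if the translates of `v` under a `p`-group are linearly dependent, their sum is small -/
theorem InvNorm.sum_lt_of_not_linearIndependent [Fintype G] {p : ℕ} [Fact p.Prime] (hG : IsPGroup p G)
    (hO : O.valuation (p : ℂ) < 1) (h : InvNorm O ρ ν) {v : V} (hv : v ≠ 0)
    (hd : ¬ LinearIndependent ℂ fun g : G => ρ g v) : ν (∑ g : G, ρ g v) < ν v := by
  classical
  have hν : ν v ≠ 0 := fun e => hv (h.eq_zero v e)
  rw [Fintype.not_linearIndependent_iff] at hd
  obtain ⟨c, hc, g₁, hg₁⟩ := hd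
  obtain ⟨g₀, -, hmax⟩ := Finset.exists_max_image Finset.univ (fun g => O.valuation (c g)) ⟨g₁, Finset.mem_univ _⟩
  have h0 : c g₀ ≠ 0 := fun e => by
    have := hmax g₁ (Finset.mem_univ _)
    rw [e, map_zero, le_zero_iff, Valuation.zero_iff] at this
    exact hg₁ this
  have hmem : ∀ g, c g / c g₀ ∈ O := fun g => by
    rw [← O.valuation_le_one_iff, map_div₀]
    exact div_le_one_of_le₀ (hmax g (Finset.mem_univ _)) zero_le
  let k := IsLocalRing.ResidueField O
  letI : DistribMulAction G (G → k) :=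
    { smul := fun u f g => f (u⁻¹ * g)
      one_smul := fun f => funext fun g => congrArg f (by rw [inv_one, one_mul])
      mul_smul := fun a b f => funext fun g => congrArg f (by rw [mul_inv_rev, mul_assoc])
      smul_zero := fun _ => rfl
      smul_add := fun _ _ _ => rfl }
  have hsm : ∀ (u : G) (f : G → k) (g : G), (u • f) g = f (u⁻¹ * g) := fun _ _ _ => rfl
  have hp0 : (p : k) = 0 := by
    rw [← map_natCast (IsLocalRing.residue O), IsLocalRing.residue_eq_zero_iff,
      ValuationSubring.valuation_lt_one_iff]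
    simpa using hO
  obtain ⟨w, hw0, hw, hfix⟩ := CL.Blk.exists_fixed_ne_zero (V := G → k) hG
    (v := fun g => IsLocalRing.residue O ⟨_, hmem g⟩)
    (fun e => by
      have := congrFun e g₀
      simp only [div_self h0, Pi.zero_apply] at this
      exact one_ne_zero ((map_one (IsLocalRing.residue O)).symm.trans this))
    (funext fun g => by simp [hp0])
  have hrel : ∃ d : G → O, (fun g => IsLocalRing.residue O (d g)) = w ∧ ∑ g, (d g : ℂ) • ρ g v = 0 := by
    refine AddSubgroup.closure_induction ?_ ⟨0, by ext; simp, by simp⟩ ?_ ?_ hw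
    · rintro _ ⟨u, rfl⟩
      refine ⟨fun g => ⟨_, hmem (u⁻¹ * g)⟩, rfl, ?_⟩
      rw [← Equiv.sum_comp (Equiv.mulLeft u)]
      have := congrArg (fun x => (c g₀)⁻¹ • ρ u x) hc
      simp only [map_sum, map_smul, Finset.smul_sum, smul_smul, map_zero, smul_zero] at this
      rw [← this]
      refine Finset.sum_congr rfl fun g _ => ?_
      simp [div_eq_inv_mul]
    · rintro _ _ _ _ ⟨d, rfl, hd⟩ ⟨d', rfl, hd'⟩
      exact ⟨d + d', by ext; simp, by simp [add_smul, Finset.sum_add_distrib, hd, hd']⟩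
    · rintro _ _ ⟨d, rfl, hd⟩
      exact ⟨-d, by ext; simp, by simp [hd]⟩
  obtain ⟨d, rfl, hd⟩ := hrel
  have hconst : ∀ g, IsLocalRing.residue O (d g) = IsLocalRing.residue O (d 1) := fun g => by
    have := congrFun (hfix g) g
    rw [hsm, inv_mul_cancel] at this
    exact this.symm
  have h1 : O.valuation (d 1 : ℂ) = 1 := by
    rw [← O.valuation_eq_one_iff, ← IsLocalRing.residue_ne_zero_iff_isUnit]
    exact fun e => hw0 (funext fun g => (hconst g).trans e)
  have h2 : (d 1 : ℂ) ≠ 0 := fun e => by rw [e, map_zero] at h1; exact zero_ne_one h1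
  have h3 : ∑ g : G, ρ g v = ∑ g : G, ((d 1 : ℂ)⁻¹ * ((d 1 - d g : O) : ℂ)) • ρ g v := by
    simp only [← smul_smul, ← Finset.smul_sum, AddSubgroupClass.coe_sub, sub_smul, Finset.sum_sub_distrib, hd,
      sub_zero, inv_smul_smul₀ h2]
  rw [h3]
  refine h.sum_lt _ _ hν fun g _ => (h.smul _ _).trans_lt ?_
  rw [h.inv, map_mul, map_inv₀, h1, inv_one, one_mul]
  refine mul_lt_of_lt_one_left (zero_lt_iff.mpr hν) ?_
  rw [← ValuationSubring.valuation_lt_one_iff, ← IsLocalRing.residue_eq_zero_iff, map_sub, hconst g, sub_self]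

theorem InvNorm.sum_free_lt (h : InvNorm O ρ ν) {P X : Type*} [Group P] [Fintype P] [MulAction P X]
    (F : X → V) {r : O.ValueGroup} (hr : r ≠ 0) (s : Finset X) (hs : ∀ x ∈ s, ∀ u : P, u • x ∈ s)
    (hfree : ∀ x ∈ s, ∀ u : P, u • x = x → u = 1) (hF : ∀ x ∈ s, ν (∑ u : P, F (u • x)) < r) :
    ν (∑ x ∈ s, F x) < r := by
  classical
  induction s using Finset.strongInduction with
  | H s ih =>
    rcases s.eq_empty_or_nonempty with rfl | ⟨x, hx⟩
    · rw [Finset.sum_empty, h.zero]; exact zero_lt_iff.mpr hr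
    have hsub : Finset.univ.image (fun u : P => u • x) ⊆ s := fun y hy => by
      obtain ⟨u, -, rfl⟩ := Finset.mem_image.mp hy
      exact hs x hx u
    rw [← Finset.sum_sdiff hsub, Finset.sum_image fun a _ b _ e =>
      (inv_mul_eq_one.mp (hfree x hx (b⁻¹ * a) (by rw [mul_smul, e, inv_smul_smul]))).symm]
    refine (h.add _ _).trans_lt (max_lt (ih _ (Finset.sdiff_ssubset hsub ⟨x, Finset.mem_image.mpr
      ⟨1, Finset.mem_univ _, one_smul _ _⟩⟩) (fun y hy u => ?_) (fun y hy => hfree y (Finset.mem_sdiff.mp hy).1)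
      fun y hy => hF y (Finset.mem_sdiff.mp hy).1) (hF x hx))
    rw [Finset.mem_sdiff] at hy ⊢
    refine ⟨hs y hy.1 u, fun e => hy.2 ?_⟩
    obtain ⟨a, -, ha⟩ := Finset.mem_image.mp e
    exact Finset.mem_image.mpr ⟨u⁻¹ * a, Finset.mem_univ _, by rw [mul_smul, ha, inv_smul_smul]⟩

end Norm

/-- if no vector generates a free `P`-module and `P` acts freely on the non-trivial cosets of `H`, the
invariants of `H` are invariants of `G` -/
theorem finrank_invariants_le [Finite G] {n : ℕ} (ρ : Representation ℂ G (Fin n → ℂ)) {p : ℕ} [Fact p.Prime]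
    {P H : Subgroup G} (hP : IsPGroup p P) (hPH : P ≤ H)
    (hfree : ∀ z ∈ P, ∀ g : G, g⁻¹ * z * g ∈ H → z = 1 ∨ g ∈ H)
    (hd : ∀ v, ¬ LinearIndependent ℂ fun z : P => ρ z v) :
    finrank ℂ (Representation.invariants (ρ.comp H.subtype)) ≤ finrank ℂ ρ.invariants := by
  classical
  letI := Fintype.ofFinite G
  letI := Fintype.ofFinite (G ⧸ H)
  obtain ⟨O, hO⟩ := exists_valuationSubring_prime (Fact.out : p.Prime)
  obtain ⟨ν, hν⟩ := exists_invNorm O ρ
  have hνP : InvNorm O (ρ.comp P.subtype) ν := ⟨hν.eq_zero, hν.zero, hν.add, hν.smul, fun g => hν.inv g⟩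
  have hout : ∀ w : Representation.invariants (ρ.comp H.subtype), ∀ (g : G) (q : G ⧸ H),
      ρ (g • q).out w = ρ g (ρ q.out w) := fun w g q => by
    have h1 : (g * q.out)⁻¹ * (g • q).out ∈ H := by
      rw [← QuotientGroup.eq, QuotientGroup.out_eq', ← smul_eq_mul, ← MulAction.Quotient.smul_mk,
        QuotientGroup.out_eq']
    have h2 : ρ ((g * q.out)⁻¹ * (g • q).out) w = w := w.2 ⟨_, h1⟩
    rw [← Module.End.mul_apply, ← map_mul]
    conv_rhs => rw [← h2, ← Module.End.mul_apply, ← map_mul, mul_inv_cancel_left]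
  let T : Representation.invariants (ρ.comp H.subtype) →ₗ[ℂ] ρ.invariants :=
    LinearMap.codRestrict _ ((∑ q : G ⧸ H, ρ q.out) ∘ₗ Submodule.subtype _) fun w g => by
      simp only [LinearMap.comp_apply, LinearMap.sum_apply, Submodule.subtype_apply, map_sum, ← hout]
      exact Equiv.sum_comp (MulAction.toPerm g) fun q : G ⧸ H => ρ q.out w
  refine LinearMap.finrank_le_finrank_of_injective (f := T) ((injective_iff_map_eq_zero T).mpr fun w hw => ?_)
  by_contra h0
  have hw0 : (w : Fin n → ℂ) ≠ 0 := fun e => h0 (Subtype.ext e)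
  have hr : ν w ≠ 0 := fun e => hw0 (hν.eq_zero _ e)
  have h1 : ∑ q : G ⧸ H, ρ q.out w = 0 := by
    have : ((∑ q : G ⧸ H, ρ q.out) ∘ₗ Submodule.subtype _) w = 0 := congrArg Subtype.val hw
    simpa [LinearMap.sum_apply] using this
  have h2 : ρ ((1 : G) : G ⧸ H).out w = w := by
    have : ((1 : G) : G ⧸ H).out ∈ H := by
      simpa using QuotientGroup.eq.mp (QuotientGroup.out_eq' ((1 : G) : G ⧸ H)).symm
    exact w.2 ⟨_, this⟩
  rw [← Finset.add_sum_erase _ _ (Finset.mem_univ ((1 : G) : G ⧸ H)), h2, add_eq_zero_iff_eq_neg] at h1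
  have h3 := hν.sum_free_lt (P := P) (fun q : G ⧸ H => ρ q.out w) hr (Finset.univ.erase ((1 : G) : G ⧸ H))
    (fun q hq u => by
      refine Finset.mem_erase.mpr ⟨fun e => (Finset.mem_erase.mp hq).1 ?_, Finset.mem_univ _⟩
      rw [← inv_smul_smul u q, e]
      exact QuotientGroup.eq.mpr (by simpa using hPH u.2))
    (fun q hq u e => by
      induction q using QuotientGroup.induction_on with
      | H g =>
        have e' : g⁻¹ * (u * g) ∈ H := QuotientGroup.eq.mp e.symm
        rcases hfree u u.2 g (mul_assoc _ _ g ▸ e') with h4 | h4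
        · exact Subtype.ext h4
        · exact absurd (QuotientGroup.eq.mpr (by simpa using h4)) (Finset.mem_erase.mp hq).1)
    (fun q _ => by
      rw [show ∑ u : P, ρ (u • q).out w = ∑ u : P, ρ u (ρ q.out w) from
        Finset.sum_congr rfl fun u _ => hout w u q, ← hν.inv q.out w]
      refine hνP.sum_lt_of_not_linearIndependent hP hO (fun e => hr ?_) (hd _)
      rw [← hν.inv q.out w, e, hν.zero])
  have h4 := hν.smul (-1) (∑ q ∈ Finset.univ.erase ((1 : G) : G ⧸ H), ρ q.out w)
  rw [neg_one_smul, ← h1, Valuation.map_neg, map_one, one_mul] at h4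
  exact absurd h3 h4.not_gt

theorem character_eq_zero_of_linearIndependent {P : Type*} [Group P] [Fintype P] {n : ℕ}
    (ρ : Representation ℂ P (Fin n → ℂ)) (hn : n ≤ Nat.card P) {v : Fin n → ℂ}
    (h : LinearIndependent ℂ fun z : P => ρ z v) : n = Nat.card P ∧ ∀ z : P, z ≠ 1 → ρ.character z = 0 := by
  classical
  have h1 := h.fintype_card_le_finrank
  rw [finrank_fin_fun, ← Nat.card_eq_fintype_card] at h1
  refine ⟨le_antisymm hn h1, fun z hz => ?_⟩
  let b := basisOfLinearIndependentOfCardEqFinrank h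
    (by rw [finrank_fin_fun, ← Nat.card_eq_fintype_card]; exact le_antisymm h1 hn)
  have hb : ∀ g, b g = ρ g v := fun g => congrFun (coe_basisOfLinearIndependentOfCardEqFinrank _ _) g
  rw [Representation.character, LinearMap.trace_eq_matrix_trace ℂ b, Matrix.trace]
  refine Finset.sum_eq_zero fun g _ => ?_
  rw [Matrix.diag, LinearMap.toMatrix_apply, hb, ← Module.End.mul_apply, ← map_mul, ← hb, b.repr_self,
    Finsupp.single_eq_of_ne]
  exact fun e => hz (mul_eq_right.mp e.symm)

theorem mem_of_TI [Finite G] {p : ℕ} [Fact p.Prime] (P : Sylow p G)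
    (hTI : ∀ g : G, g ∉ Subgroup.normalizer ((P : Subgroup G) : Set G) →
      (P : Subgroup G) ⊓ (MulAut.conj g • (P : Subgroup G)) = ⊥) {H : Subgroup G}
    (hH : Subgroup.normalizer ((P : Subgroup G) : Set G) ≤ H) {z : G} (hz : z ∈ (P : Subgroup G)) (g : G)
    (hg : g⁻¹ * z * g ∈ H) : z = 1 ∨ g ∈ H := by
  have hPH : (P : Subgroup G) ≤ H := Subgroup.le_normalizer.trans hH
  have h1 : IsPGroup p (Subgroup.zpowers (⟨_, hg⟩ : H)) := by
    obtain ⟨k, hk⟩ := P.isPGroup' ⟨z, hz⟩
    have h2 : (⟨_, hg⟩ : H) ^ p ^ k = 1 := by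
      have h3 : z ^ p ^ k = 1 := congrArg Subtype.val hk
      refine Subtype.ext ?_
      have := conj_pow (i := p ^ k) (a := g⁻¹) (b := z)
      simpa [h3] using this
    obtain ⟨m, -, hm⟩ := (Nat.dvd_prime_pow Fact.out).mp (orderOf_dvd_of_pow_eq_one h2)
    exact IsPGroup.of_card (by rw [Nat.card_zpowers, hm])
  obtain ⟨Q, hQ⟩ := h1.exists_le_sylow
  obtain ⟨h, hh⟩ := MulAction.exists_smul_eq H (P.subtype hPH) Q
  have h2 : (⟨_, hg⟩ : H) ∈ h • P.subtype hPH := hh ▸ hQ (Subgroup.mem_zpowers _)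
  have h3 : (h : G)⁻¹ * (g⁻¹ * z * g) * h ∈ (P : Subgroup G) := by
    have := (Subgroup.mem_pointwise_smul_iff_inv_smul_mem.mp h2)
    simpa [Subgroup.mem_subgroupOf] using this
  by_cases h4 : g * h ∈ Subgroup.normalizer ((P : Subgroup G) : Set G)
  · exact Or.inr ((H.mul_mem_cancel_right h.2).mp (hH h4))
  · refine Or.inl (Subgroup.mem_bot.mp ((hTI _ h4).le (Subgroup.mem_inf.mpr ⟨hz, ?_⟩)))
    rw [Subgroup.mem_pointwise_smul_iff_inv_smul_mem]
    simpa [mul_assoc] using h3

theorem classInner_res_eq_of_free [Fintype G] {p : ℕ} [Fact p.Prime] {P H : Subgroup G} [Fintype H]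
    (hP : IsPGroup p P) (hPH : P ≤ H) (hfree : ∀ z ∈ P, ∀ g : G, g⁻¹ * z * g ∈ H → z = 1 ∨ g ∈ H)
    (hne : P ≠ ⊥) {χ : G → ℂ} (hχ : IsCharacter G χ) (hdeg : charDegree χ ^ 2 ≤ Nat.card P) :
    classInner χ χ = classInner (fun h : H => χ h) (fun h : H => χ h) := by
  classical
  obtain ⟨n, ρ, hρ⟩ := hχ.mul hχ.conj
  have hn : n = charDegree χ ^ 2 := by
    have := congrFun hρ 1
    rw [Representation.char_one, finrank_fin_fun, Pi.mul_apply, ← hχ.cast_charDegree, map_natCast] at this
    exact_mod_cast this.trans (sq _).symm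
  by_cases hd : ∀ v, ¬ LinearIndependent ℂ fun z : P => ρ z v
  · have h1 := finrank_invariants_le ρ hP hPH hfree hd
    have h2 : finrank ℂ ρ.invariants ≤ finrank ℂ (Representation.invariants (ρ.comp H.subtype)) :=
      Submodule.finrank_mono fun v hv g => hv g
    letI : Invertible (Nat.card G : ℂ) := invertibleOfNonzero natCard_ne_zero
    letI : Invertible (Nat.card H : ℂ) := invertibleOfNonzero natCard_ne_zero
    have h3 := Representation.card_inv_mul_sum_char_eq_finrank ρ
    have h4 := Representation.card_inv_mul_sum_char_eq_finrank (ρ.comp H.subtype)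
    rw [le_antisymm h1 h2, ← h3] at h4
    rw [hρ] at h4
    rw [classInner_def, classInner_def]
    refine h4.symm.trans (congrArg _ (Finset.sum_congr rfl fun g _ => congrFun hρ g))
  · push Not at hd
    obtain ⟨v, hv⟩ := hd
    obtain ⟨h1, h2⟩ := character_eq_zero_of_linearIndependent (ρ.comp P.subtype) (hn ▸ hdeg) hv
    have h3 : ∀ z : P, z ≠ 1 → χ z = 0 := fun z hz => by
      have : χ z * conj (χ z) = 0 := (congrFun hρ z).symm.trans (h2 z hz)
      simpa using this
    obtain ⟨m, hm⟩ := (hχ.restrict P).exists_nat_classInner isCharacter_one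
    rw [classInner_one_right, Finset.sum_eq_single 1 (fun z _ hz => h3 z hz) (by simp),
      inv_mul_eq_iff_eq_mul₀ natCard_ne_zero, OneMemClass.coe_one, ← hχ.cast_charDegree] at hm
    have h4 : charDegree χ = Nat.card P * m := by exact_mod_cast hm
    rw [hn, h4, mul_pow, sq, mul_assoc, Nat.mul_eq_left Nat.card_pos.ne'] at h1
    exact absurd (Subgroup.card_eq_one.mp (Nat.eq_one_of_mul_eq_one_right h1)) hne

/-- Feit: characters of small degree restrict isometrically to overgroups of `N(P)` -/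
theorem classInner_res_eq_of_TI [Fintype G] {p : ℕ} [Fact p.Prime] (P : Sylow p G)
    (hTI : ∀ g : G, g ∉ Subgroup.normalizer ((P : Subgroup G) : Set G) →
      (P : Subgroup G) ⊓ (MulAut.conj g • (P : Subgroup G)) = ⊥) {χ : G → ℂ} (hχ : IsCharacter G χ)
    (hdeg : charDegree χ ^ 2 ≤ Nat.card (P : Subgroup G)) (H : Subgroup G) [Fintype H]
    (hH : Subgroup.normalizer ((P : Subgroup G) : Set G) ≤ H) :
    classInner χ χ = classInner (fun h : H => χ h) (fun h : H => χ h) := by
  by_cases h5 : (P : Subgroup G) = ⊥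
  · have h6 : H = ⊤ := by
      rw [h5] at hH
      exact top_le_iff.mp ((Subgroup.normalizer_eq_top ⊥).ge.trans hH)
    subst h6
    exact (classInner_comp_mulEquiv Subgroup.topEquiv χ χ).symm
  · exact classInner_res_eq_of_free P.isPGroup' (Subgroup.le_normalizer.trans hH)
      (fun z hz g hg => mem_of_TI P hTI hH hz g hg) h5 hχ hdeg

end CL.Char
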