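/-
Gagola: every finite solvable group embeds in `H/Z(H)` for a group `H` of central type.
-/
import Cfsg.Agent.Char.WrChar
import Cfsg.Agent.Char.Prod
import Cfsg.Agent.Char.Faithful

set_option autoImplicit false
set_option linter.unusedSectionVars false

open scoped ComplexConjugate Pointwise commutatorElement
open Cfsg CL.Grp Subgroup RegularWreathProduct

namespace CL.Char.Wr

universe u

/-- `χ` is fully ramified over `ker Φ`, with central character of order dividing `m`. -/
structure CT (m : ℕ) {H X : Type*} [Group H] [Group X] (χ : H → ℂ) (Φ : H →* X) : Prop where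
  irr : IsIrrCharacter H χ
  surj : Function.Surjective Φ
  le : Φ.ker ≤ charCenter χ
  deg : charDegree χ ^ 2 = Nat.card X
  pow : ∀ z ∈ Φ.ker, χ z ^ m = χ 1 ^ m
  prime : ∀ p : ℕ, p.Prime → p ∣ Nat.card H → p ∣ m

section Step

variable {m : ℕ} {H X Q : Type*} [Group H] [Group X] [Group Q] [Finite H] [Fintype Q] {χ : H → ℂ}
  {Φ : H →* X}

/-- The factors of the twisted power of `χ`. -/
noncomputable def twist (χ : H → ℂ) (x : Q) : H × (Q →* ℂˣ) → ℂ := fun y => χ y.1 * (y.2 x : ℂ)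

theorem twist_irr (h : IsIrrCharacter H χ) (x : Q) : IsIrrCharacter _ (twist χ x) :=
  h.prod (isIrrCharacter_linear (MonoidHom.eval x))

/-- The twisted power of `χ` on the base group. -/
noncomputable def twistBase (χ : H → ℂ) : base (H × (Q →* ℂˣ)) Q → ℂ := fun b => piChar (twist χ) b.1.left

theorem twistBase_irr (h : IsIrrCharacter H χ) : IsIrrCharacter _ (twistBase (Q := Q) χ) :=
  (isIrr_piChar (twist_irr h)).comp_mulEquiv (baseEquiv _ Q).symm

theorem twistBase_conj (h : IsIrrCharacter H χ) (w : (H × (Q →* ℂˣ)) ≀ᵣ Q) (b : base (H × (Q →* ℂˣ)) Q) :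
    twistBase χ ⟨w * (b : (H × (Q →* ℂˣ)) ≀ᵣ Q) * w⁻¹, Normal.conj_mem inferInstance _ b.2 w⟩ =
      twistBase χ b * (prodHom (MonoidHom.snd _ _) b.1 w.right : ℂˣ) := by
  refine (piChar_conj (fun x => (twist_irr h x).isClassFunction) w b).trans ?_
  simp [twistBase, piChar, twist, prodHom, Finset.prod_mul_distrib, mul_comm, mul_assoc]

/-- The quotient map for the twisted wreath product. -/
noncomputable def stepHom (Φ : H →* X) : (H × (Q →* ℂˣ)) ≀ᵣ Q →* (X ≀ᵣ Q) × (Q →* ℂˣ) :=
  (wrMap (Φ.comp (MonoidHom.fst _ _))).prod (prodHom (MonoidHom.snd _ _))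

theorem CT.step [Fintype ((H × (Q →* ℂˣ)) ≀ᵣ Q)] (h : CT m χ Φ) (hQ : (Nat.card Q).Prime)
    (hm : Nat.card Q ∣ m) : CT (X := (X ≀ᵣ Q) × (Q →* ℂˣ)) m (indFun _ (twistBase (Q := Q) χ)) (stepHom Φ) := by
  classical
  have := Fact.mk hQ
  have hc := (isCyclic_of_prime_card (α := Q) rfl).isMulCommutative
  have hcom : commutator Q = ⊥ := eq_bot_iff.2 (commutator_le.2 fun a _ b _ =>
    mem_bot.2 (commutatorElement_eq_one_iff_mul_comm.2 (hc.1.1 a b)))
  have hA : Nat.card (Q →* ℂˣ) = Nat.card Q := by rw [card_monoidHom_eq_index, hcom, index_bot]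
  have := Fintype.ofFinite (base (H × (Q →* ℂˣ)) Q)
  have hθ := twistBase_irr (Q := Q) h.irr
  have hirr : IsIrrCharacter _ (indFun _ (twistBase (Q := Q) χ)) := by
    refine isIrrCharacter_indFun_of_inertia_le hθ fun w hw => ?_
    by_contra hn
    obtain ⟨c, -, hc⟩ := exists_monoidHom_of_not_mem (N := (⊥ : Subgroup Q)) hcom.le
      (fun h0 => hn (mem_bot.1 h0 : w.right = 1))
    have h1 := mem_inertia.1 hw (baseEquiv _ Q (Pi.mulSingle 1 (1, c)))
    rw [twistBase_conj h.irr] at h1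
    have h2 : twistBase χ (baseEquiv _ Q (Pi.mulSingle 1 (1, c))) ≠ 0 :=
      Finset.prod_ne_zero_iff.2 fun x _ => mul_ne_zero (by
        have : ((baseEquiv (H × (Q →* ℂˣ)) Q (Pi.mulSingle 1 (1, c))).1.left x).1 = 1 := by
          by_cases hx : x = 1 <;> simp [baseEquiv, hx]
        rw [this]; exact h.irr.one_ne_zero) (Units.ne_zero _)
    have h3 : prodHom (MonoidHom.snd _ _) (baseEquiv (H × (Q →* ℂˣ)) Q (Pi.mulSingle 1 (1, c))).1 = c := by
      refine (Finset.prod_eq_single 1 (fun x _ hx => ?_) (by simp)).trans ?_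
      · simp [baseEquiv, hx]
      · simp [baseEquiv]
    rw [h3, mul_eq_left₀ h2] at h1
    exact hc (Units.val_eq_one.1 h1)
  have hval : ∀ z ∈ (stepHom (Q := Q) Φ).ker, (∀ x, (z.left x).1 ∈ Φ.ker) ∧
        indFun _ (twistBase (Q := Q) χ) z = Nat.card Q * ∏ x, χ (z.left x).1 * ((z.left x).2 x : ℂ) := by
    intro z hz
    obtain ⟨h1, h2⟩ := Prod.ext_iff.1 (MonoidHom.mem_ker.1 hz)
    have h3 : z ∈ base _ Q := (congrArg right h1 :)
    refine ⟨fun x => congrFun (congrArg left h1) x, (indFun_apply_normal _ ⟨z, h3⟩).trans ?_⟩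
    have h4 : prodHom (MonoidHom.snd _ _) z = 1 := h2
    rw [Finset.sum_congr rfl fun x _ => twistBase_conj h.irr x ⟨z, h3⟩]
    simp only [h4, MonoidHom.one_apply, Units.val_one, mul_one, Finset.sum_const,
      Finset.card_univ, nsmul_eq_mul]
    rw [← Nat.card_eq_fintype_card, ← (base _ Q).card_mul_index, index_base, Nat.cast_mul, mul_assoc,
      inv_mul_cancel_left₀ natCard_ne_zero]
    rfl
  have h1 := (hval 1 (one_mem _)).2
  simp only [one_left, Pi.one_apply, Prod.fst_one, Prod.snd_one, MonoidHom.one_apply, Units.val_one,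
    mul_one] at h1
  refine ⟨hirr, ?_, fun z hz => ?_, ?_, fun z hz => ?_, fun p hp hd => ?_⟩
  · rintro ⟨v, a⟩
    obtain ⟨w, rfl⟩ := wrMap_surjective h.surj v
    refine ⟨⟨fun x => (w.left x, (Pi.mulSingle 1 a : Q → Q →* ℂˣ) x), w.right⟩, Prod.ext rfl ?_⟩
    exact Finset.prod_pi_mulSingle' 1 a Finset.univ |>.trans (by simp)
  · rw [hirr.isCharacter.mem_charCenter, (hval z hz).2, h1, norm_mul, norm_mul, norm_prod, norm_prod]
    congr 1
    refine Finset.prod_congr rfl fun x _ => ?_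
    rw [norm_mul, norm_monoidHom_apply, mul_one, norm_apply_of_mem_charCenter (h.le ((hval z hz).1 x))]
  · rw [charDegree_eq_of_eq (n := Nat.card Q * charDegree χ ^ Nat.card Q) (by
      rw [h1, Finset.prod_const, Finset.card_univ, ← Nat.card_eq_fintype_card, ← h.irr.cast_charDegree]
      push_cast; rfl), Nat.card_prod, RegularWreathProduct.card, hA, ← h.deg]
    ring
  · rw [(hval z hz).2, h1, mul_pow, mul_pow, ← Finset.prod_pow, ← Finset.prod_pow]
    congr 1
    refine Finset.prod_congr rfl fun x _ => ?_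
    obtain ⟨k, rfl⟩ := hm
    rw [mul_pow, h.pow _ ((hval z hz).1 x), ← Units.val_pow_eq_pow_val, ← map_pow, pow_mul x,
      pow_card_eq_one', one_pow, map_one, Units.val_one, mul_one]
  · rw [RegularWreathProduct.card, Nat.card_prod, hA] at hd
    rcases hp.dvd_mul.1 hd with h2 | h2
    · exact (hp.dvd_mul.1 (hp.dvd_of_dvd_pow h2)).elim (h.prime p hp) fun h3 => h3.trans hm
    · exact h2.trans hm

end Step

theorem exists_ct (m : ℕ) (G : Type u) [Group G] [Finite G] : Group.IsSolvable G →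
    (∀ p : ℕ, p.Prime → p ∣ Nat.card G → p ∣ m) →
    ∃ (H X : Type u) (_ : Group H) (_ : Group X) (_ : Finite H) (χ : H → ℂ) (Φ : H →* X), CT m χ Φ ∧
      ∃ f : G →* X, Function.Injective f := by
  refine induction_on_card (P := fun G _ _ => Group.IsSolvable G →
    (∀ p : ℕ, p.Prime → p ∣ Nat.card G → p ∣ m) →
    ∃ (H X : Type u) (_ : Group H) (_ : Group X) (_ : Finite H) (χ : H → ℂ) (Φ : H →* X), CT m χ Φ ∧
      ∃ f : G →* X, Function.Injective f) (fun G _ _ ih h hm => ?_) G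
  rcases subsingleton_or_nontrivial G with hG | hG
  · exact ⟨G, G, inferInstance, inferInstance, inferInstance, fun _ => 1, MonoidHom.id G,
      ⟨isIrrCharacter_one, Function.surjective_id, fun z _ => Subsingleton.elim 1 z ▸ one_mem _, by
        rw [charDegree_eq_of_eq (n := 1) (by simp), Nat.card_of_subsingleton (1 : G), one_pow],
        fun _ _ => rfl, hm⟩, MonoidHom.id G, Function.injective_id⟩
  obtain ⟨N, hN, hp⟩ := exists_normal_index_prime G
  obtain ⟨H, X, _, _, _, χ, Φ, h1, f, hf⟩ := ih N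
    (card_subgroup_lt fun e => hp.one_lt.ne' (by rw [e, index_top])) inferInstance
    fun p hp hd => hm p hp (hd.trans (card_subgroup_dvd_card N))
  have := Fintype.ofFinite (G ⧸ N)
  have := Fintype.ofFinite ((H × ((G ⧸ N) →* ℂˣ)) ≀ᵣ (G ⧸ N))
  exact ⟨_, (X ≀ᵣ (G ⧸ N)) × ((G ⧸ N) →* ℂˣ), inferInstance, inferInstance, inferInstance, _, _,
    h1.step (Q := G ⧸ N) hp (hm _ hp (index_dvd_card N)),
    (MonoidHom.inl (X ≀ᵣ (G ⧸ N)) ((G ⧸ N) →* ℂˣ)).comp ((wrMap f).comp (kk N)),
    fun a b e => (wrMap_injective hf).comp (kk_injective N) (Prod.ext_iff.1 e).1⟩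

/-- In a group of central type every prime divisor of the order divides the order of the centre. -/
theorem dvd_card_of_sq_eq_index {H : Type*} [Group H] [Finite H] {χ : H → ℂ} (hχ : IsIrrCharacter H χ)
    (h : charDegree χ ^ 2 = (center H).index) {p : ℕ} (hp : p.Prime) (hd : p ∣ Nat.card H) :
    p ∣ Nat.card (center H) := by
  classical
  by_contra hn
  have := Fact.mk hp
  obtain ⟨P⟩ : Nonempty (Sylow p H) := inferInstance
  have := Fintype.ofFinite (P : Subgroup H)
  have hv := (hχ.charDegree_sq_le_index hχ.center_le_charCenter).2.1 h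
  obtain ⟨n, hn'⟩ := (hχ.isCharacter.restrict (P : Subgroup H)).exists_nat_classInner isCharacter_one
  rw [classInner_one_right, Finset.sum_eq_single 1 (fun x _ hx => hv _ fun hc => hx (by
    obtain ⟨k, hk⟩ := IsPGroup.iff_orderOf.1 P.2 x
    have h1 := orderOf_dvd_natCard _ hc
    rw [orderOf_coe, hk] at h1
    rw [← orderOf_eq_one_iff, hk]
    exact Nat.eq_one_of_dvd_coprimes (((Nat.Prime.coprime_iff_not_dvd hp).2 hn).pow_left k) dvd_rfl h1))
    (by simp), inv_mul_eq_iff_eq_mul₀ natCard_ne_zero, OneMemClass.coe_one, ← hχ.cast_charDegree] at hn'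
  have h1 : charDegree χ = Nat.card (P : Subgroup H) * n := by exact_mod_cast hn'
  have h2 : Nat.card (P : Subgroup H) * Nat.card (P : Subgroup H) ∣
      Nat.card (P : Subgroup H) * (P : Subgroup H).index := by
    rw [card_mul_index]
    refine Dvd.dvd.trans ?_ (index_dvd_card (center H))
    rw [← h, h1]
    exact ⟨n ^ 2, by ring⟩
  exact P.not_dvd_index ((P.dvd_card_of_dvd_card hd).trans (Nat.dvd_of_mul_dvd_mul_left Nat.card_pos h2))

theorem exists_central_type (G : Type u) [Group G] [Finite G] (hsolv : Group.IsSolvable G) :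
    ∃ (H : Type u) (_ : Group H) (_ : Finite H) (χ : IrrCharacter H),
      (∀ h : H, (χ : H → ℂ) h = (χ : H → ℂ) 1 → h = 1) ∧ charDegree (χ : H → ℂ) ^ 2 = (center H).index ∧
      (∃ f : G →* H ⧸ center H, Function.Injective f) ∧ (∀ p : ℕ, p.Prime →
        (p ∣ Nat.card H ↔ p ∣ Nat.card G) ∧ (p ∣ Nat.card (center H) ↔ p ∣ Nat.card G)) ∧
      Squarefree (Nat.card (center H)) := by
  obtain ⟨H, X, _, _, _, χ, Φ, h, f, hf⟩ := exists_ct (∏ p ∈ (Nat.card G).primeFactors, p) G hsolv
    fun p hp hd => Finset.dvd_prod_of_mem _ (Nat.mem_primeFactors.2 ⟨hp, hd, Nat.card_pos.ne'⟩)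
  have := h.irr.charKer_normal
  obtain ⟨ψ, hψ, e⟩ := h.irr.exists_quotient _ le_rfl
  have hv : ∀ g : H, ψ g = χ g := fun g => (congrFun e g).symm
  have hfaith : ∀ x, ψ x = ψ 1 → x = 1 := fun x hx => by
    obtain ⟨g, rfl⟩ := QuotientGroup.mk_surjective x
    exact (QuotientGroup.eq_one_iff g).2 (h.irr.mem_charKer.2 ((hv g).symm.trans (hx.trans (hv 1))))
  have hker : charKer ψ = ⊥ := (eq_bot_iff_forall _).2 fun x hx => hfaith x (hψ.mem_charKer.1 hx)
  have hidx : Φ.ker.index = Nat.card X := by rw [index_ker, MonoidHom.range_eq_top.2 h.surj, card_top]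
  have hZ : Φ.ker = charCenter χ := by
    refine eq_of_le_of_card_ge h.le ?_
    have h1 := (h.irr.charDegree_sq_le_index le_rfl).1
    rw [h.deg, ← hidx] at h1
    have h2 := (Φ.ker.card_mul_index).trans (charCenter χ).card_mul_index.symm
    by_contra h3
    exact (Nat.mul_lt_mul_of_lt_of_le (not_le.1 h3) h1 (Nat.pos_of_ne_zero index_ne_zero_of_finite)).ne h2
  have hc : ∀ g : H, (g : H ⧸ charKer χ) ∈ center (H ⧸ charKer χ) ↔ g ∈ Φ.ker := fun g => by
    rw [← hψ.charCenter_eq_center hker, hψ.isCharacter.mem_charCenter, hZ, h.irr.isCharacter.mem_charCenter,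
      hv, ← hv 1, QuotientGroup.mk_one]
  let Ψ : H →* (H ⧸ charKer χ) ⧸ center (H ⧸ charKer χ) := (QuotientGroup.mk' _).comp (QuotientGroup.mk' _)
  have hΨ : Function.Surjective Ψ := (QuotientGroup.mk'_surjective _).comp (QuotientGroup.mk'_surjective _)
  have hk : Φ.ker = Ψ.ker := by
    ext g; rw [← hc, ← QuotientGroup.eq_one_iff]; rfl
  let E : X ≃* (H ⧸ charKer χ) ⧸ center (H ⧸ charKer χ) :=
    (QuotientGroup.quotientKerEquivOfSurjective Φ h.surj).symm.trans
      ((QuotientGroup.quotientMulEquivOfEq hk).trans (QuotientGroup.quotientKerEquivOfSurjective Ψ hΨ))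
  have hdeg : charDegree ψ ^ 2 = (center (H ⧸ charKer χ)).index := by
    rw [charDegree_eq_of_eq ((hv 1).trans h.irr.cast_charDegree.symm), h.deg]
    exact Nat.card_congr E.toEquiv
  have h1 : ∀ p : ℕ, p.Prime → (p ∣ Nat.card (H ⧸ charKer χ) ↔ p ∣ Nat.card G) := fun p hp => by
    refine ⟨fun hd => ?_, fun hd => (hd.trans (card_dvd_of_injective (E.toMonoidHom.comp f)
      (E.injective.comp hf))).trans (index_dvd_card _)⟩
    obtain ⟨q, hq, hpq⟩ := (Prime.dvd_finsetProd_iff hp.prime _).1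
      (h.prime p hp (hd.trans (index_dvd_card _)))
    exact hpq.trans (Nat.dvd_of_mem_primeFactors hq)
  refine ⟨H ⧸ charKer χ, inferInstance, inferInstance, ⟨ψ, hψ⟩, hfaith, hdeg,
    ⟨E.toMonoidHom.comp f, E.injective.comp hf⟩, fun p hp => ⟨h1 p hp,
      fun hd => (h1 p hp).1 (hd.trans (card_subgroup_dvd_card _)),
      fun hd => dvd_card_of_sq_eq_index hψ hdeg hp ((h1 p hp).2 hd)⟩, ?_⟩
  have := hψ.isCyclic_center hker
  refine Squarefree.squarefree_of_dvd ?_ (Finset.squarefree_prod_of_pairwise_isCoprime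
    (s := (Nat.card G).primeFactors) (f := fun p => p) (fun _ hp _ hq hpq => Nat.coprime_iff_isRelPrime.1
      ((Nat.coprime_primes (Nat.prime_of_mem_primeFactors hp) (Nat.prime_of_mem_primeFactors hq)).2 hpq))
    fun _ hp => (Nat.prime_of_mem_primeFactors hp).prime.squarefree)
  rw [← IsCyclic.exponent_eq_card]
  refine Monoid.exponent_dvd_of_forall_pow_eq_one fun ⟨z, hz⟩ => Subtype.ext ?_
  obtain ⟨g, rfl⟩ := QuotientGroup.mk_surjective z
  have hg := (hc g).1 hz
  have h2 : centerHom h.irr.one_ne_zero ⟨g, h.le hg⟩ ^ (∏ p ∈ (Nat.card G).primeFactors, p) = 1 := by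
    ext
    rw [Units.val_pow_eq_pow_val, coe_centerHom, div_pow, h.pow g hg,
      div_self (pow_ne_zero _ h.irr.one_ne_zero), Units.val_one]
  rw [← map_pow, ← MonoidHom.mem_ker, ker_centerHom, mem_subgroupOf] at h2
  exact (QuotientGroup.eq_one_iff _).2 h2

end CL.Char.Wr
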